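import Cfsg.Agent.S3908
import Cfsg.Agent.FGS2.Basic
import Cfsg.Agent.Core.Fitting
import Cfsg.Agent.Transfer.Basic

/-! Lifting abelian subgroups from `G ⧸ M` when abelian subgroups of equal order are conjugate. -/

set_option autoImplicit false
set_option linter.style.haveILetI false

namespace Cfsg.Agent.FGS2

variable {G : Type*} [Group G] [Finite G]

/-- A subgroup minimal among those mapping onto `A`. -/
theorem exists_minimal_supplement (M : Subgroup G) [M.Normal] (A : Subgroup (G ⧸ M)) :
    ∃ L : Subgroup G, L.map (QuotientGroup.mk' M) = A ∧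
      ∀ U : Subgroup G, U ≤ L → U.map (QuotientGroup.mk' M) = A → U = L := by
  obtain ⟨L, hL, hmin⟩ := (Set.toFinite {L : Subgroup G | L.map (QuotientGroup.mk' M) = A}).exists_minimal
    ⟨A.comap (QuotientGroup.mk' M), Subgroup.map_comap_eq_self_of_surjective (QuotientGroup.mk'_surjective M) A⟩
  exact ⟨L, hL, fun U hUL hU => le_antisymm hUL (hmin hU hUL)⟩

theorem minimal_supplement_inf_le_frattini (M : Subgroup G) [M.Normal] {L : Subgroup G}
    (hmin : ∀ U : Subgroup G, U ≤ L → U.map (QuotientGroup.mk' M) = L.map (QuotientGroup.mk' M) → U = L) :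
    M.subgroupOf L ≤ frattini L := by
  refine le_iInf₂ fun U hU => ?_
  by_contra hnot
  have hsup : U ⊔ M.subgroupOf L = ⊤ := hU.2 _ (lt_of_le_of_ne le_sup_left fun e => hnot (e ▸ le_sup_right))
  have h := congrArg (Subgroup.map ((QuotientGroup.mk' M).comp L.subtype)) hsup
  have hbot : (M.subgroupOf L).map ((QuotientGroup.mk' M).comp L.subtype) = ⊥ := by
    rw [eq_bot_iff]
    rintro _ ⟨x, hx, rfl⟩
    exact (QuotientGroup.eq_one_iff _).mpr hx
  rw [Subgroup.map_sup, hbot, sup_bot_eq, ← Subgroup.map_map, ← Subgroup.map_map,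
    ← MonoidHom.range_eq_map, Subgroup.range_subtype] at h
  refine hU.1 (Subgroup.map_injective L.subtype_injective ?_)
  rw [hmin _ (Subgroup.map_subtype_le _) h, ← MonoidHom.range_eq_map, Subgroup.range_subtype]

/-- The minimal supplement of an abelian subgroup is nilpotent. -/
theorem minimal_supplement_isNilpotent (M : Subgroup G) [M.Normal] {L : Subgroup G}
    (hab : IsMulCommutative (L.map (QuotientGroup.mk' M)))
    (hmin : ∀ U : Subgroup G, U ≤ L → U.map (QuotientGroup.mk' M) = L.map (QuotientGroup.mk' M) → U = L) :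
    Group.IsNilpotent L := by
  rw [← Core.isNilpotent_top_iff]
  refine Core.isNilpotent_of_quotient_le_frattini (A := (⊤ : Subgroup L)) (B := M.subgroupOf L)
    (minimal_supplement_inf_le_frattini M hmin) ?_
  haveI : IsMulCommutative (L ⧸ M.subgroupOf L) := ⟨⟨fun a b => by
    obtain ⟨a, rfl⟩ := QuotientGroup.mk'_surjective (M.subgroupOf L) a
    obtain ⟨b, rfl⟩ := QuotientGroup.mk'_surjective (M.subgroupOf L) b
    rw [← map_mul, ← map_mul, QuotientGroup.mk'_apply, QuotientGroup.mk'_apply, QuotientGroup.eq,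
      Subgroup.mem_subgroupOf]
    push_cast
    have h := congrArg Subtype.val (hab.1.1 ⟨_, ⟨a, a.2, rfl⟩⟩ ⟨_, ⟨b, b.2, rfl⟩⟩)
    simp only [Subgroup.coe_mul, QuotientGroup.mk'_apply, ← QuotientGroup.mk_mul] at h
    exact QuotientGroup.eq.mp h⟩⟩
  letI : CommGroup (L ⧸ M.subgroupOf L) :=
    { (inferInstance : Group (L ⧸ M.subgroupOf L)) with mul_comm := fun a b => mul_comm' a b }
  infer_instance

/-- The exponent of `p` in the order of the lift. -/
noncomputable def liftVal (M : Subgroup G) (n p : ℕ) : ℕ :=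
  if p ∣ n then padicValNat p n + padicValNat p (Nat.card M) else 0

variable (hB : ∀ A B : Subgroup G, IsMulCommutative ↥A → IsMulCommutative ↥B → Nat.card ↥A = Nat.card ↥B → ∃ g : G, B = A.map (MulAut.conj g).toMonoidHom)
include hB

/-- If `p` divides `|M|` and `[G : M]`, a Sylow `p`-subgroup has a unique subgroup of order `p`. -/
theorem uniqueOrderP_of_dvd (M : Subgroup G) [M.Normal] {p : ℕ} [hp : Fact p.Prime]
    (hM : p ∣ Nat.card M) (hidx : p ∣ M.index) (P : Sylow p G) :
    OddLocal.UniqueOrderP p P.toSubgroup := by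
  refine (Cfsg.Agent.S3908.exponent_or_unique hB P.toSubgroup P.2).resolve_left fun hexp => ?_
  obtain ⟨m, hm⟩ := exists_prime_orderOf_dvd_card' (G := M) p hM
  refine P.not_dvd_index' Subgroup.index_ne_zero_of_finite (hidx.trans (Subgroup.index_dvd_of_le fun x hx => ?_))
  by_cases hx1 : x = 1
  · exact hx1 ▸ M.one_mem
  obtain ⟨g, hg⟩ := hB (Subgroup.zpowers (m : G)) (Subgroup.zpowers x) inferInstance inferInstance
    (by rw [Nat.card_zpowers, Nat.card_zpowers, Subgroup.orderOf_coe, hm, orderOf_eq_prime (hexp x hx) hx1])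
  exact map_conj_le_of_normal M g (Subgroup.zpowers_le.2 m.2) (hg ▸ Subgroup.mem_zpowers x)

omit hB in
/-- Orders of abelian lifts, when the relevant Sylow subgroups are cyclic. -/
theorem exists_abelian_lift_of_cyclic (M : Subgroup G) [M.Normal] (A : Subgroup (G ⧸ M))
    (hA : IsMulCommutative A)
    (hcyc : ∀ (p : ℕ) [Fact p.Prime], p ∣ Nat.card M → p ∣ Nat.card A → ∀ Q : Sylow p G, IsCyclic Q.toSubgroup) :
    ∃ L : Subgroup G, L.map (QuotientGroup.mk' M) = A ∧ IsMulCommutative L ∧
      ∀ p : ℕ, p.Prime → padicValNat p (Nat.card L) = liftVal M (Nat.card A) p := by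
  classical
  obtain ⟨L, hL, hmin⟩ := exists_minimal_supplement M A
  subst hL
  have hnil := minimal_supplement_isNilpotent M hA hmin
  set π := QuotientGroup.mk' M
  set n := Nat.card (L.map π) with hn
  have hker : Nat.card L = n * Nat.card (M.subgroupOf L) := by
    rw [hn, ← Subgroup.index_mul_card (M.subgroupOf L)]
    congr 1
    rw [show M.subgroupOf L = (π.comp L.subtype).ker by
      rw [← MonoidHom.comap_ker, QuotientGroup.ker_mk']; rfl, Subgroup.index_ker, MonoidHom.range_eq_map,
      ← Subgroup.map_map, ← MonoidHom.range_eq_map, Subgroup.range_subtype]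
  have hnil' : ∀ {q : ℕ} [Fact q.Prime] (Q : Sylow q L), Q.toSubgroup.Normal := fun {q} hq Q =>
    Core.isNilpotent_iff_forall_sylow_normal.mp hnil q hq Q
  -- primes of `L` divide `n`
  have hdvd : ∀ p : ℕ, p.Prime → p ∣ Nat.card L → p ∣ n := by
    intro p hp hpL
    by_contra hpn
    haveI := Fact.mk hp
    obtain ⟨P⟩ : Nonempty (Sylow p L) := inferInstance
    haveI := hnil' P
    have hcop : (Nat.card P.toSubgroup).Coprime P.toSubgroup.index := by
      obtain ⟨k, hk⟩ := IsPGroup.iff_card.mp P.2
      rw [hk]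
      exact Nat.Coprime.pow_left k ((hp.coprime_iff_not_dvd).mpr P.not_dvd_index)
    obtain ⟨U, hU⟩ := Subgroup.exists_right_complement'_of_coprime hcop
    have hPM : P.toSubgroup.map (π.comp L.subtype) = ⊥ := by
      rw [← Subgroup.card_eq_one]
      by_contra hne
      obtain ⟨r, hr, hrd⟩ := Nat.exists_prime_and_dvd hne
      obtain ⟨k, hk⟩ := IsPGroup.iff_card.mp (P.2.map (π.comp L.subtype))
      have : r = p := (Nat.prime_dvd_prime_iff_eq hr hp).mp (hr.dvd_of_dvd_pow (hk ▸ hrd))
      subst this
      refine hpn (hrd.trans (Subgroup.card_dvd_of_le ?_))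
      rintro _ ⟨x, -, rfl⟩
      exact ⟨x, x.2, rfl⟩
    have h := congrArg (Subgroup.map (π.comp L.subtype)) hU.sup_eq_top
    rw [Subgroup.map_sup, hPM, bot_sup_eq] at h
    simp only [← Subgroup.map_map] at h
    rw [← MonoidHom.range_eq_map, Subgroup.range_subtype] at h
    have hUtop : U = ⊤ := by
      refine Subgroup.map_injective L.subtype_injective ?_
      rw [hmin _ (Subgroup.map_subtype_le _) h, ← MonoidHom.range_eq_map, Subgroup.range_subtype]
    subst hUtop
    have : P.toSubgroup = ⊥ := Subgroup.isComplement'_top_right.mp hU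
    exact P.ne_bot_of_dvd_card hpL this
  refine ⟨L, rfl, ?_, fun p hp => ?_⟩
  · -- abelian: all Sylow subgroups are abelian
    have hcomm : ∀ (p : ℕ) [Fact p.Prime] (P : Sylow p L), ∀ a ∈ P.toSubgroup, ∀ b ∈ P.toSubgroup,
        a * b = b * a := by
      intro p hpf P a ha b hb
      by_cases hpM : p ∣ Nat.card M
      · by_cases hpn : p ∣ n
        · obtain ⟨Q, hQ⟩ := (P.2.map L.subtype).exists_le_sylow
          haveI := hcyc p hpM hpn Q
          letI := IsCyclic.commGroup (α := Q.toSubgroup)
          exact Subtype.ext (congrArg (fun z : Q.toSubgroup => (z : G))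
            (mul_comm (⟨_, hQ ⟨a, ha, rfl⟩⟩ : Q.toSubgroup) ⟨_, hQ ⟨b, hb, rfl⟩⟩))
        · have : ¬ p ∣ Nat.card L := fun h => hpn (hdvd p hpf.out h)
          have hP : P.toSubgroup = ⊥ := by
            obtain ⟨k, hk⟩ := IsPGroup.iff_card.mp P.2
            rcases Nat.eq_zero_or_pos k with rfl | hk0
            · exact Subgroup.card_eq_one.mp (by rw [hk, pow_zero])
            · exact absurd ((hk ▸ dvd_pow_self p hk0.ne').trans (Subgroup.card_subgroup_dvd_card _)) this
          rw [hP, Subgroup.mem_bot] at ha hb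
          rw [ha, hb]
      · -- the Sylow subgroup meets `M` trivially
        have h1 : ∀ c ∈ P.toSubgroup, (c : G) ∈ M → c = 1 := by
          intro c hc hcM
          obtain ⟨i, hi⟩ := IsPGroup.iff_orderOf.mp P.2 ⟨c, hc⟩
          rw [Subgroup.orderOf_mk] at hi
          have hco : orderOf (c : G) ∣ Nat.card M := by
            rw [← Subgroup.orderOf_mk (c : G) hcM]; exact orderOf_dvd_natCard _
          rw [Subgroup.orderOf_coe, hi] at hco
          rcases Nat.eq_zero_or_pos i with rfl | hi0
          · exact orderOf_eq_one_iff.mp (by rw [hi, pow_zero])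
          · exact absurd ((dvd_pow_self p hi0.ne').trans hco) hpM
        have h2 : ((a * b * (b * a)⁻¹ : L) : G) ∈ M := by
          rw [← QuotientGroup.eq_one_iff]
          have h := congrArg Subtype.val (hA.1.1 ⟨_, ⟨a, a.2, rfl⟩⟩ ⟨_, ⟨b, b.2, rfl⟩⟩)
          simp only [Subgroup.coe_mul] at h
          push_cast
          simp only [QuotientGroup.mk_mul, QuotientGroup.mk_inv]
          rw [show ((a : G) : G ⧸ M) * (b : G) = (b : G) * (a : G) from h, mul_inv_cancel]
        exact mul_inv_eq_one.mp (h1 _ (P.toSubgroup.mul_mem (P.toSubgroup.mul_mem ha hb)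
          (P.toSubgroup.inv_mem (P.toSubgroup.mul_mem hb ha))) h2)
    obtain ⟨e⟩ : Nonempty ((∀ p : (Nat.card L).primeFactors, ∀ P : Sylow p L, P.toSubgroup) ≃* L) :=
      ⟨Sylow.directProductOfNormal fun {q hq} Q => hnil' Q⟩
    refine ⟨⟨fun a b => ?_⟩⟩
    obtain ⟨a, rfl⟩ := e.surjective a
    obtain ⟨b, rfl⟩ := e.surjective b
    rw [← map_mul, ← map_mul]
    congr 1
    funext q P
    haveI : Fact (q : ℕ).Prime := ⟨Nat.prime_of_mem_primeFactors q.2⟩
    exact Subtype.ext (hcomm _ P _ (a q P).2 _ (b q P).2)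
  · haveI := Fact.mk hp
    unfold liftVal
    by_cases hpn : p ∣ n
    swap
    · rw [if_neg hpn, padicValNat.eq_zero_of_not_dvd fun h => hpn (hdvd p hp h)]
    rw [if_pos hpn, hker, padicValNat.mul Nat.card_pos.ne' Nat.card_pos.ne']
    congr 1
    have hle : padicValNat p (Nat.card (M.subgroupOf L)) ≤ padicValNat p (Nat.card M) := by
      refine (padicValNat_dvd_iff_le Nat.card_pos.ne').mp (pow_padicValNat_dvd.trans ?_)
      rw [← Subgroup.card_map_of_injective L.subtype_injective, Subgroup.subgroupOf_map_subtype]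
      exact Subgroup.card_dvd_of_le inf_le_left
    refine le_antisymm hle ?_
    by_cases hpM : p ∣ Nat.card M
    swap
    · rw [padicValNat.eq_zero_of_not_dvd hpM]; exact Nat.zero_le _
    -- a cyclic Sylow subgroup containing that of `L` meets `M` in the full `p`-part of `M`
    obtain ⟨P⟩ : Nonempty (Sylow p L) := inferInstance
    obtain ⟨Q, hQ⟩ := (P.2.map L.subtype).exists_le_sylow
    haveI := hcyc p hpM hpn Q
    have hPcard : Nat.card (P.toSubgroup.map L.subtype) = p ^ padicValNat p (Nat.card L) := by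
      rw [Subgroup.card_map_of_injective L.subtype_injective, P.card_eq_multiplicity, Nat.factorization_def _ hp]
    -- the subgroup of `Q` inside `M`
    obtain ⟨T, hT⟩ : ∃ T : Subgroup Q.toSubgroup, Nat.card T = p ^ padicValNat p (Nat.card M) := by
      have : p ^ padicValNat p (Nat.card M) ∣ Nat.card Q.toSubgroup := by
        rw [Q.card_eq_multiplicity, Nat.factorization_def _ hp]
        exact pow_dvd_pow p ((padicValNat_dvd_iff_le Nat.card_pos.ne').mp
          (pow_padicValNat_dvd.trans (Subgroup.card_subgroup_dvd_card M)))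
      exact Sylow.exists_subgroup_card_pow_prime p this
    have hMQ : (M.subgroupOf Q.toSubgroup) = T := by
      refine subgroup_eq_of_card_eq ?_
      rw [hT, ← Subgroup.card_map_of_injective Q.toSubgroup.subtype_injective, Subgroup.subgroupOf_map_subtype]
      obtain ⟨j, hj⟩ := IsPGroup.iff_card.mp (Q.2.to_le (inf_le_right : M ⊓ Q.toSubgroup ≤ _))
      rw [hj]
      congr 1
      have hidx' : ¬ p ∣ (M ⊓ Q.toSubgroup).relIndex M := by
        rw [Subgroup.inf_relIndex_left]
        exact Transfer.not_dvd_relIndex_of_normal Q M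
      have h3 := Subgroup.relIndex_mul_relIndex ⊥ (M ⊓ Q.toSubgroup) M bot_le inf_le_left
      rw [Subgroup.relIndex_bot_left, Subgroup.relIndex_bot_left, hj] at h3
      rw [← h3, padicValNat.mul (pow_ne_zero _ hp.ne_zero) (fun e => hidx' (by rw [e]; exact dvd_zero p)),
        padicValNat.prime_pow, padicValNat.eq_zero_of_not_dvd hidx', add_zero]
    have hlt : padicValNat p (Nat.card M) ≤ padicValNat p (Nat.card L) := by
      by_contra hlt
      push Not at hlt
      obtain ⟨U, hU⟩ := Sylow.exists_subgroup_card_pow_prime p (G := T) (n := padicValNat p (Nat.card L))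
        (hT ▸ pow_dvd_pow p hlt.le)
      have hPT : (P.toSubgroup.map L.subtype).subgroupOf Q.toSubgroup = U.map T.subtype := by
        refine subgroup_eq_of_card_eq ?_
        rw [Subgroup.card_map_of_injective T.subtype_injective, hU, ← hPcard]
        exact Nat.card_congr (Subgroup.subgroupOfEquivOfLe hQ).toEquiv
      have hPM : P.toSubgroup ≤ M.subgroupOf L := fun x hx => by
        have h4 : (⟨(x : G), hQ ⟨x, hx, rfl⟩⟩ : Q.toSubgroup) ∈ U.map T.subtype :=
          hPT ▸ (show (x : G) ∈ P.toSubgroup.map L.subtype from ⟨x, hx, rfl⟩)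
        have h5 := Subgroup.map_subtype_le U h4
        rw [← hMQ] at h5
        exact h5
      refine P.not_dvd_index ?_
      have h6 : n = (M.subgroupOf L).index :=
        Nat.eq_of_mul_eq_mul_right Nat.card_pos (hker.symm.trans (Subgroup.index_mul_card _).symm)
      exact (h6 ▸ hpn).trans (Subgroup.index_dvd_of_le hPM)
    obtain ⟨U, hU⟩ := Sylow.exists_subgroup_card_pow_prime p (G := P.toSubgroup) (n := padicValNat p (Nat.card M))
      (by rw [← Subgroup.card_map_of_injective L.subtype_injective, hPcard]; exact pow_dvd_pow p hlt)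
    set U' := (U.map P.toSubgroup.subtype).map L.subtype with hU'
    have hU'Q : U' ≤ Q.toSubgroup := (Subgroup.map_mono (Subgroup.map_subtype_le U)).trans hQ
    have hUM : U'.subgroupOf Q.toSubgroup = T := by
      refine subgroup_eq_of_card_eq ?_
      rw [hT, Nat.card_congr (Subgroup.subgroupOfEquivOfLe hU'Q).toEquiv, hU',
        Subgroup.card_map_of_injective L.subtype_injective,
        Subgroup.card_map_of_injective P.toSubgroup.subtype_injective, hU]
    have hUle : U.map P.toSubgroup.subtype ≤ M.subgroupOf L := fun x hx => by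
      have h4 : (⟨(x : G), hU'Q ⟨x, hx, rfl⟩⟩ : Q.toSubgroup) ∈ U'.subgroupOf Q.toSubgroup := ⟨x, hx, rfl⟩
      rw [hUM, ← hMQ] at h4
      exact h4
    refine (padicValNat_dvd_iff_le Nat.card_pos.ne').mp ?_
    rw [← hU, ← Subgroup.card_map_of_injective (K := U) P.toSubgroup.subtype_injective]
    exact Subgroup.card_dvd_of_le hUle

/-- Orders of abelian lifts, modulo a normal subgroup of odd order. -/
theorem exists_abelian_lift (M : Subgroup G) [M.Normal] (hM : Odd (Nat.card M)) (A : Subgroup (G ⧸ M))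
    (hA : IsMulCommutative A) :
    ∃ L : Subgroup G, L.map (QuotientGroup.mk' M) = A ∧ IsMulCommutative L ∧
      ∀ p : ℕ, p.Prime → padicValNat p (Nat.card L) = liftVal M (Nat.card A) p :=
  exists_abelian_lift_of_cyclic M A hA fun p hp hpM hpA Q => by
    have hp2 : p ≠ 2 := by
      rintro rfl
      exact (Nat.not_even_iff_odd.mpr hM) (even_iff_two_dvd.mpr hpM)
    refine OddLocal.isCyclic_of_uniqueOrderP _ Q.2 (uniqueOrderP_of_dvd hB M hpM ?_ Q) (Or.inl hp2) le_rfl
    rw [Subgroup.index_eq_card]
    exact hpA.trans (Subgroup.card_subgroup_dvd_card _)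

end Cfsg.Agent.FGS2
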