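import Cfsg.Agent.FGS2.AbelianLift
import Cfsg.Agent.S3909
import Cfsg.Agent.S3911
import Cfsg.Agent.Core.MinimalNormal
import Mathlib.GroupTheory.SpecificGroups.Quaternion

/-! Groups in which abelian subgroups of equal order are conjugate: quotients in the solvable case. -/

set_option autoImplicit false
set_option linter.style.haveILetI false

namespace Cfsg.Agent.FGS2

universe u

/-- The property `abelian subgroups of equal order are conjugate`. -/
def AbConj (G : Type u) [Group G] : Prop :=
  ∀ A B : Subgroup G, IsMulCommutative ↥A → IsMulCommutative ↥B → Nat.card ↥A = Nat.card ↥B →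
    ∃ g : G, B = A.map (MulAut.conj g).toMonoidHom

theorem AbConj.congr {G H : Type u} [Group G] [Group H] (h : AbConj G) (e : G ≃* H) : AbConj H := by
  intro A B hA hB hc
  haveI := hA
  haveI := hB
  obtain ⟨g, hg⟩ := h (A.map e.symm.toMonoidHom) (B.map e.symm.toMonoidHom) inferInstance inferInstance
    (by rw [Subgroup.card_map_of_injective e.symm.injective, Subgroup.card_map_of_injective e.symm.injective, hc])
  refine ⟨e g, ?_⟩
  have h2 := congrArg (Subgroup.map e.toMonoidHom) hg
  rw [Subgroup.map_map, Subgroup.map_map, Subgroup.map_map] at h2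
  have hid : e.toMonoidHom.comp e.symm.toMonoidHom = MonoidHom.id H := MonoidHom.ext fun x => e.apply_symm_apply x
  have hcomp : e.toMonoidHom.comp ((MulAut.conj g).toMonoidHom.comp e.symm.toMonoidHom) =
      (MulAut.conj (e g)).toMonoidHom := MonoidHom.ext fun x => by simp
  rw [hid, Subgroup.map_id, MonoidHom.comp_assoc, hcomp] at h2
  exact h2

variable {G : Type u} [Group G] [Finite G]

/-- A generalized quaternion group of order at least 8 is generated by its elements of order 4. -/
theorem quaternion_le_of_order_four {k : ℕ} (F : Subgroup (QuaternionGroup (2 ^ k)))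
    (h : ∀ q : QuaternionGroup (2 ^ k), orderOf q = 4 → q ∈ F) : F = ⊤ := by
  haveI : NeZero (2 ^ k) := ⟨by positivity⟩
  have hxa : ∀ i, QuaternionGroup.xa i ∈ F := fun i => h _ (QuaternionGroup.orderOf_xa i)
  rw [eq_top_iff]
  rintro (i | i) -
  · have h2 := F.mul_mem (hxa 0) (hxa (i - ((2 ^ k : ℕ) : ZMod (2 * 2 ^ k))))
    rw [QuaternionGroup.xa_mul_xa] at h2
    convert h2 using 2
    ring
  · exact hxa i

/-- In a solvable such group a non-cyclic Sylow 2-subgroup with one involution has order 8. -/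
theorem card_sylow_eq_eight [Group.IsSolvable G] (hB : AbConj G) (P : Sylow 2 G)
    (hu : OddLocal.UniqueOrderP 2 P.toSubgroup) (hnc : ¬ IsCyclic P.toSubgroup) :
    Nat.card P.toSubgroup = 8 := by
  classical
  obtain ⟨-, k, ⟨e₀⟩⟩ := (OddLocal.isCyclic_or_quaternion P.2 hu).resolve_left hnc
  haveI : NeZero (2 ^ k) := ⟨by positivity⟩
  have hcard : Nat.card P.toSubgroup = 4 * 2 ^ k := by
    rw [Nat.card_congr e₀.toEquiv, Nat.card_eq_fintype_card, QuaternionGroup.card]
  rcases lt_trichotomy k 1 with hk | hk | hk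
  · exfalso
    obtain rfl : k = 0 := by omega
    apply hnc
    refine isCyclic_of_orderOf_eq_card (e₀.symm (QuaternionGroup.xa 0)) ?_
    rw [MulEquiv.orderOf_eq, QuaternionGroup.orderOf_xa, hcard]
    norm_num
  · rw [hcard, hk]; norm_num
  exfalso
  -- pass to the quotient by the odd core
  set R := Cfsg.pPrimeCore 2 G
  have hRodd : Odd (Nat.card R) := by
    rw [← Nat.not_even_iff_odd, even_iff_two_dvd]
    exact Core.not_dvd_card_pPrimeCore 2 G
  have hBq : AbConj (G ⧸ R) := Cfsg.Agent.S3911.result hB R hRodd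
  set π := QuotientGroup.mk' R
  let Pb : Sylow 2 (G ⧸ R) := P.mapSurjective (QuotientGroup.mk'_surjective R)
  have hPb : Pb.toSubgroup = P.toSubgroup.map π := Sylow.coe_mapSurjective _ P
  have hinjP : Function.Injective (π.comp P.toSubgroup.subtype) := by
    refine (injective_iff_map_eq_one _).mpr fun x hx => ?_
    have hxR : (x : G) ∈ R := (QuotientGroup.eq_one_iff _).mp hx
    obtain ⟨i, hi⟩ := IsPGroup.iff_orderOf.mp P.2 x
    have hd : orderOf (x : G) ∣ Nat.card R := by
      rw [← Subgroup.orderOf_mk (x : G) hxR]; exact orderOf_dvd_natCard _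
    rw [Subgroup.orderOf_coe, hi] at hd
    rcases Nat.eq_zero_or_pos i with rfl | hi0
    · exact orderOf_eq_one_iff.mp (by rw [hi, pow_zero])
    · exact absurd (Nat.odd_iff.mp hRodd) (by
        have := (dvd_pow_self 2 hi0.ne').trans hd
        omega)
  let ι : QuaternionGroup (2 ^ k) →* G ⧸ R := (π.comp P.toSubgroup.subtype).comp e₀.symm.toMonoidHom
  have hι : Function.Injective ι := hinjP.comp e₀.symm.injective
  have hrange : ι.range = Pb.toSubgroup := by
    rw [hPb, MonoidHom.range_comp, MonoidHom.range_eq_top.mpr e₀.symm.surjective, ← Subgroup.map_map,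
      ← MonoidHom.range_eq_map, Subgroup.range_subtype]
  haveI : Group.IsSolvable (G ⧸ R) := Group.isSolvable_of_surjective (QuotientGroup.mk'_surjective R)
  set F := Cfsg.pCore 2 (G ⧸ R) with hF
  have hFP : F ≤ Pb.toSubgroup := Core.pCore_le_sylow Pb
  have hCF := Core.centralizer_pCore_le_of_isSolvable (p := 2) (Core.pPrimeCore_quotient_pPrimeCore 2 G)
  -- `F` contains an element of order 4
  obtain ⟨f, hf, hf4⟩ : ∃ f ∈ F, orderOf f = 4 := by
    by_contra hno
    have hsq : ∀ f ∈ F, f ^ 2 = 1 := by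
      intro f hf
      obtain ⟨i, hi⟩ := IsPGroup.iff_orderOf.mp (Core.isPGroup_pCore 2 (G ⧸ R)) ⟨f, hf⟩
      rw [Subgroup.orderOf_mk] at hi
      rcases le_or_gt i 1 with h | h
      · exact orderOf_dvd_iff_pow_eq_one.mp (hi ▸ (pow_dvd_pow 2 h).trans (by norm_num))
      · exfalso
        refine hno ⟨f ^ 2 ^ (i - 2), F.pow_mem hf _, ?_⟩
        obtain ⟨j, rfl⟩ : ∃ j, i = j + 2 := ⟨i - 2, by omega⟩
        rw [orderOf_pow' f (by positivity), hi, Nat.add_sub_cancel,
          Nat.gcd_eq_right (pow_dvd_pow 2 (by omega)), pow_add, Nat.mul_div_cancel_left _ (by positivity)]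
        norm_num
    have hcent : F ≤ Subgroup.center (G ⧸ R) := by
      intro f hf
      rw [Subgroup.mem_center_iff]
      intro g
      by_cases hf1 : f = 1
      · simp [hf1]
      have hconj : g * f * g⁻¹ ∈ F := (inferInstance : F.Normal).conj_mem f hf g
      have hc2 : (g * f * g⁻¹) ^ 2 = 1 := hsq _ hconj
      obtain ⟨a, ha⟩ := hrange.symm ▸ hFP hf
      obtain ⟨b, hb⟩ := hrange.symm ▸ hFP hconj
      have ha2 : a ^ 2 = 1 := hι (by rw [map_pow, ha, hsq f hf, map_one])
      have hb2 : b ^ 2 = 1 := hι (by rw [map_pow, hb, hc2, map_one])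
      have hb1 : b ≠ 1 := fun e => hf1 (conj_eq_one_iff.mp (by rw [← hb, e, map_one]))
      have ha1 : a ≠ 1 := fun e => hf1 (by rw [← ha, e, map_one])
      have hu' := hu (e₀.symm a) (e₀.symm b) (by rw [← map_pow, ha2, map_one])
        (by rw [← map_pow, hb2, map_one]) (fun e => ha1 (e₀.symm.injective (e.trans (map_one _).symm)))
      obtain ⟨s, hs⟩ := Subgroup.mem_zpowers_iff.mp hu'
      rw [← map_zpow] at hs
      have hab : a ^ s = b := e₀.symm.injective hs
      rcases Int.even_or_odd s with ⟨t, rfl⟩ | ⟨t, rfl⟩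
      · exfalso
        apply hb1
        rw [← hab, ← two_mul, zpow_mul, zpow_ofNat, ha2, one_zpow]
      · rw [zpow_add, zpow_mul, zpow_ofNat, ha2, one_zpow, zpow_one, one_mul] at hab
        rw [← hab, ha] at hb
        exact mul_inv_eq_iff_eq_mul.mp hb.symm
    have htop : Subgroup.centralizer (F : Set (G ⧸ R)) = ⊤ := by
      rw [eq_top_iff]
      intro g _
      exact Subgroup.mem_centralizer_iff.mpr fun f hf => (Subgroup.mem_center_iff.mp (hcent hf) g).symm
    have hPF : ι (QuaternionGroup.xa 0) ∈ F := hCF (htop ▸ Subgroup.mem_top _)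
    have h4 : orderOf (ι (QuaternionGroup.xa 0)) = 4 := by
      rw [orderOf_injective ι hι, QuaternionGroup.orderOf_xa]
    exact hno ⟨_, hPF, h4⟩
  -- so the Sylow subgroup is normal
  have hall : ∀ y : G ⧸ R, orderOf y = 4 → y ∈ F := fun y hy =>
    (Cfsg.Agent.S3909.result hBq F).1 y ⟨f, hf, by rw [hf4, hy]⟩
  have hFeq : F = Pb.toSubgroup := by
    refine le_antisymm hFP ?_
    rw [← hrange]
    rintro _ ⟨q, rfl⟩
    have := quaternion_le_of_order_four (F.comap ι) fun q hq =>
      hall _ (by rw [orderOf_injective ι hι, hq])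
    exact (this ▸ Subgroup.mem_top q : q ∈ F.comap ι)
  -- the elements of order at least 8 generate a normal cyclic subgroup
  set T := Subgroup.closure {y : G ⧸ R | y ∈ F ∧ 8 ≤ orderOf y} with hT
  haveI hTn : T.Normal := by
    refine ⟨fun y hy g => ?_⟩
    have hmap : T.map (MulAut.conj g).toMonoidHom ≤ T := by
      rw [hT, MonoidHom.map_closure]
      refine Subgroup.closure_mono ?_
      rintro _ ⟨z, ⟨hz, hz8⟩, rfl⟩
      exact ⟨(inferInstance : F.Normal).conj_mem z hz g,
        hz8.trans_eq ((MulAut.conj g).orderOf_eq z).symm⟩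
    exact hmap ⟨y, hy, rfl⟩
  have hTle : T ≤ (Subgroup.zpowers (QuaternionGroup.a 1 : QuaternionGroup (2 ^ k))).map ι := by
    rw [hT, Subgroup.closure_le]
    rintro y ⟨hy, hy8⟩
    obtain ⟨q, rfl⟩ : y ∈ ι.range := by rw [hrange, ← hFeq]; exact hy
    rw [orderOf_injective ι hι] at hy8
    cases q with
    | a i =>
      refine ⟨_, ?_, rfl⟩
      rw [← ZMod.natCast_zmod_val i, ← QuaternionGroup.a_one_pow]
      exact Subgroup.pow_mem _ (Subgroup.mem_zpowers _) _
    | xa i => rw [QuaternionGroup.orderOf_xa] at hy8; omega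
  have h8 : ι (QuaternionGroup.a 1) ∈ T := by
    refine Subgroup.subset_closure ⟨hFeq ▸ hrange ▸ ⟨_, rfl⟩, ?_⟩
    rw [orderOf_injective ι hι, QuaternionGroup.orderOf_a_one]
    calc 8 = 2 * 2 ^ 2 := by norm_num
      _ ≤ 2 * 2 ^ k := by
        have := Nat.pow_le_pow_right (show 0 < 2 by norm_num) (show 2 ≤ k by omega)
        omega
  obtain ⟨j, rfl⟩ : ∃ j, k = j + 1 := ⟨k - 1, by omega⟩
  have h4 : orderOf (ι ((QuaternionGroup.a 1) ^ 2 ^ j)) = 4 := by
    rw [orderOf_injective ι hι, orderOf_pow' _ (by positivity), QuaternionGroup.orderOf_a_one,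
      Nat.gcd_eq_right (dvd_mul_of_dvd_right (pow_dvd_pow 2 (by omega)) _), pow_succ,
      show 2 * (2 ^ j * 2) = 4 * 2 ^ j by ring, Nat.mul_div_cancel _ (by positivity)]
  have hxa : ι (QuaternionGroup.xa 0) ∈ T := (Cfsg.Agent.S3909.result hBq T).1 _
    ⟨ι ((QuaternionGroup.a 1) ^ 2 ^ j), by rw [map_pow]; exact T.pow_mem h8 _, by
      rw [h4, orderOf_injective ι hι, QuaternionGroup.orderOf_xa]⟩
  obtain ⟨q, hq, hqe⟩ := hTle hxa
  obtain ⟨l, hl⟩ := (isOfFinOrder_of_finite _).mem_powers_iff_mem_zpowers.mpr hq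
  have := hι hqe
  rw [← hl] at this
  simp only [QuaternionGroup.a_one_pow] at this
  cases this

/-- Decomposition of the preimage of an abelian subgroup modulo a normal subgroup of order 2. -/
theorem preimage_decomp (N : Subgroup G) [N.Normal] (hN : Nat.card N = 2) (A : Subgroup (G ⧸ N))
    (hA : IsMulCommutative A) :
    ∃ (U : Subgroup G) (S : Sylow 2 (A.comap (QuotientGroup.mk' N))),
      IsMulCommutative U ∧ Nat.card (A.comap (QuotientGroup.mk' N)) = Nat.card S.toSubgroup * Nat.card U ∧
      ¬ 2 ∣ Nat.card U ∧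
      U ⊔ S.toSubgroup.map (A.comap (QuotientGroup.mk' N)).subtype = A.comap (QuotientGroup.mk' N) ∧
      S.toSubgroup.map (A.comap (QuotientGroup.mk' N)).subtype ≤ Subgroup.centralizer (U : Set G) := by
  classical
  set H := A.comap (QuotientGroup.mk' N) with hH
  obtain ⟨S⟩ : Nonempty (Sylow 2 H) := inferInstance
  have hcomm : ∀ a b : H, ((a * b * (b * a)⁻¹ : H) : G) ∈ N := fun a b => by
    rw [← QuotientGroup.eq_one_iff]
    have h := congrArg Subtype.val (hA.1.1 ⟨_, a.2⟩ ⟨_, b.2⟩)
    simp only [Subgroup.coe_mul] at h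
    push_cast
    simp only [QuotientGroup.mk_mul, QuotientGroup.mk_inv]
    rw [show ((a : G) : G ⧸ N) * (b : G) = (b : G) * (a : G) from h, mul_inv_cancel]
  have hNH : N ≤ H := fun x hx => by
    rw [hH, Subgroup.mem_comap, QuotientGroup.mk'_apply, (QuotientGroup.eq_one_iff x).mpr hx]
    exact A.one_mem
  have hN2 : IsPGroup 2 (N.subgroupOf H) := IsPGroup.of_card (p := 2) (n := 1)
    ((Nat.card_congr (Subgroup.subgroupOfEquivOfLe hNH).toEquiv).trans (by rw [hN, pow_one]))
  have hNS : N.subgroupOf H ≤ S.toSubgroup := hN2.le_sylow_of_normal S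
  haveI hSn : S.toSubgroup.Normal := ⟨fun s hs g => by
    have h1 : (g * s * (s * g)⁻¹ : H) ∈ S.toSubgroup := hNS (hcomm g s)
    have h2 := S.toSubgroup.mul_mem h1 hs
    rwa [show g * s * (s * g)⁻¹ * s = g * s * g⁻¹ by group] at h2⟩
  have hcop : (Nat.card S.toSubgroup).Coprime S.toSubgroup.index := by
    obtain ⟨k, hk⟩ := IsPGroup.iff_card.mp S.2
    rw [hk]
    exact Nat.Coprime.pow_left k ((Nat.prime_two.coprime_iff_not_dvd).mpr S.not_dvd_index)
  obtain ⟨U, hU⟩ := Subgroup.exists_right_complement'_of_coprime hcop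
  have hUcard : Nat.card U = S.toSubgroup.index := (hU.symm.index_eq_card).symm
  have hUodd : ¬ 2 ∣ Nat.card U := hUcard ▸ S.not_dvd_index
  -- commutators with `U` are trivial
  have key : ∀ u ∈ U, ∀ s : H, s ∈ S.toSubgroup ∨ s ∈ U → u * s = s * u := by
    intro u hu s hs
    set c := u * s * (s * u)⁻¹ with hc
    have hcN : (c : G) ∈ N := hcomm u s
    have hc2 : c ^ 2 = 1 := by
      refine Subtype.ext ?_
      have := congrArg Subtype.val (pow_card_eq_one' (x := (⟨(c : G), hcN⟩ : N)))
      rw [hN] at this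
      simpa using this
    suffices hc1 : c = 1 from mul_inv_eq_one.mp hc1
    rcases hs with hs | hs
    · have hcc : Commute c u := by
        show c * u = u * c
        have h1 : ((c * u * (u * c)⁻¹ : H) : G) = 1 := by
          have hcen : ∀ g : G, g * (c : G) * g⁻¹ = c := by
            intro g
            by_cases hce : (c : G) = 1
            · simp [hce]
            have hmem := (inferInstance : N.Normal).conj_mem _ hcN g
            obtain ⟨w, hw⟩ := Nat.card_eq_two_iff' (1 : N) |>.mp hN
            have e1 : (⟨_, hcN⟩ : N) = w := hw.2 _ (fun e => hce (congrArg Subtype.val e))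
            have e2 : (⟨_, hmem⟩ : N) = w := hw.2 _ (fun e => hce (conj_eq_one_iff.mp (congrArg Subtype.val e)))
            exact congrArg Subtype.val (e2.trans e1.symm)
          push_cast
          rw [show (u : G) * (c : G) = (c : G) * u from mul_inv_eq_iff_eq_mul.mp (hcen u), mul_inv_cancel]
        exact mul_inv_eq_one.mp (Subtype.ext h1)
      have hpow : ∀ n : ℕ, u ^ n * s * (u ^ n)⁻¹ = c ^ n * s := by
        intro n
        induction n with
        | zero => simp
        | succ n ih =>
          have : u * s * u⁻¹ = c * s := by rw [hc]; group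
          rw [pow_succ' u, show u * u ^ n * s * (u * u ^ n)⁻¹ = u * (u ^ n * s * (u ^ n)⁻¹) * u⁻¹ by group, ih,
            show u * (c ^ n * s) * u⁻¹ = (u * c ^ n) * s * u⁻¹ by group, (hcc.symm.pow_right n).eq,
            show c ^ n * u * s * u⁻¹ = c ^ n * (u * s * u⁻¹) by group, this, ← mul_assoc, ← pow_succ]
      have h3 := hpow (Nat.card U)
      have hu1 : u ^ Nat.card U = 1 := by
        have := congrArg Subtype.val (pow_card_eq_one' (x := (⟨u, hu⟩ : U)))
        rwa [SubmonoidClass.coe_pow] at this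
      rw [hu1, one_mul, inv_one, mul_one] at h3
      have h4 : c ^ Nat.card U = 1 := right_eq_mul.mp h3
      exact orderOf_eq_one_iff.mp (Nat.eq_one_of_dvd_coprimes
        ((Nat.prime_two.coprime_iff_not_dvd).mpr hUodd) (orderOf_dvd_of_pow_eq_one hc2)
        (orderOf_dvd_of_pow_eq_one h4))
    · have hcU : c ∈ U := U.mul_mem (U.mul_mem hu hs) (U.inv_mem (U.mul_mem hs hu))
      have h4 : c ^ Nat.card U = 1 := by
        have := congrArg Subtype.val (pow_card_eq_one' (x := (⟨c, hcU⟩ : U)))
        rwa [SubmonoidClass.coe_pow] at this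
      exact orderOf_eq_one_iff.mp (Nat.eq_one_of_dvd_coprimes
        ((Nat.prime_two.coprime_iff_not_dvd).mpr hUodd) (orderOf_dvd_of_pow_eq_one hc2)
        (orderOf_dvd_of_pow_eq_one h4))
  refine ⟨U.map H.subtype, S, ⟨⟨?_⟩⟩, ?_, ?_, ?_, ?_⟩
  · rintro ⟨_, a, ha, rfl⟩ ⟨_, b, hb, rfl⟩
    exact Subtype.ext (congrArg (Subtype.val : H → G) (key a ha b (Or.inr hb)))
  · rw [Subgroup.card_map_of_injective H.subtype_injective, hUcard]
    exact (Subgroup.card_mul_index _).symm
  · rwa [Subgroup.card_map_of_injective H.subtype_injective]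
  · rw [← Subgroup.map_sup, sup_comm, hU.sup_eq_top, ← MonoidHom.range_eq_map, Subgroup.range_subtype]
  · rintro _ ⟨s, hs, rfl⟩
    rw [Subgroup.mem_centralizer_iff]
    rintro _ ⟨u, hu, rfl⟩
    exact congrArg (Subtype.val : H → G) (key u hu s (Or.inl hs))

/-- The quotient by a minimal normal subgroup. -/
theorem abConj_quotient_elementary [Group.IsSolvable G] (hB : AbConj G) (N : Subgroup G) [N.Normal]
    {p : ℕ} [hp : Fact p.Prime] (hel : Cfsg.IsElementaryAbelian p N) : AbConj (G ⧸ N) := by
  classical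
  intro A B hA hBc hcard
  have lifts : (∀ (q : ℕ) [Fact q.Prime], q ∣ Nat.card N → q ∣ Nat.card A → ∀ Q : Sylow q G, IsCyclic Q.toSubgroup) →
      ∃ g : G ⧸ N, B = A.map (MulAut.conj g).toMonoidHom := by
    intro hcyc
    obtain ⟨LA, hLA, hLAc, hvA⟩ := exists_abelian_lift_of_cyclic N A hA hcyc
    obtain ⟨LB, hLB, hLBc, hvB⟩ := exists_abelian_lift_of_cyclic N B hBc (hcard ▸ hcyc)
    have hc : Nat.card LA = Nat.card LB := by
      refine Nat.eq_of_factorization_eq Nat.card_pos.ne' Nat.card_pos.ne' fun r => ?_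
      by_cases hr : r.Prime
      · rw [Nat.factorization_def _ hr, Nat.factorization_def _ hr, hvA r hr, hvB r hr, hcard]
      · rw [Nat.factorization_eq_zero_of_not_prime _ hr, Nat.factorization_eq_zero_of_not_prime _ hr]
    obtain ⟨g, hg⟩ := hB LA LB hLAc hLBc hc
    refine ⟨QuotientGroup.mk' N g, ?_⟩
    rw [← hLA, ← hLB, hg, Subgroup.map_map, Subgroup.map_map]
    congr 1
  have hNp : IsPGroup p N := fun x => ⟨1, Subtype.ext (by rw [pow_one]; exact hel.2 x x.2)⟩
  obtain ⟨t, ht⟩ := IsPGroup.iff_card.mp hNp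
  have honly : ∀ q : ℕ, q.Prime → q ∣ Nat.card N → q = p := fun q hq h =>
    (Nat.prime_dvd_prime_iff_eq hq hp.out).mp (hq.dvd_of_dvd_pow (ht ▸ h))
  have hpA : ∀ {q : ℕ}, q ∣ Nat.card A → q ∣ N.index := fun h => by
    rw [Subgroup.index_eq_card]; exact h.trans (Subgroup.card_subgroup_dvd_card _)
  rcases le_or_gt 2 t with ht2 | ht2
  · refine lifts fun q hq hqN hqA Q => ?_
    obtain rfl := honly q hq.out hqN
    exfalso
    obtain ⟨P⟩ : Nonempty (Sylow q G) := inferInstance
    have hP := (Cfsg.Agent.S3909.result hB N).2 q t ht2 ht hel P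
    exact P.not_dvd_index (hP ▸ hpA hqA)
  by_cases hcase : ∀ Q : Sylow p G, p ∣ Nat.card A → p ∣ Nat.card N → IsCyclic Q.toSubgroup
  · exact lifts fun q hq hqN hqA Q => by
      obtain rfl := honly q hq.out hqN
      exact hcase Q hqA hqN
  push Not at hcase
  obtain ⟨Q, hpdA, hpdN, hnc⟩ := hcase
  obtain rfl : p = 2 := by
    by_contra hp2
    exact hnc (OddLocal.isCyclic_of_uniqueOrderP _ Q.2 (uniqueOrderP_of_dvd hB N hpdN (hpA hpdA) Q)
      (Or.inl hp2) le_rfl)
  have hN2 : Nat.card N = 2 := by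
    interval_cases t
    · rw [pow_zero] at ht; rw [ht] at hpdN; norm_num at hpdN
    · rw [ht, pow_one]
  have hcard8 : ∀ R : Sylow 2 G, Nat.card R.toSubgroup = 8 := fun R => by
    rw [Sylow.card_eq_multiplicity, ← Q.card_eq_multiplicity]
    exact card_sylow_eq_eight hB Q (uniqueOrderP_of_dvd hB N hpdN (hpA hpdA) Q) hnc
  set π := QuotientGroup.mk' N with hπ
  set HA := A.comap π with hHA
  set HB := B.comap π with hHB
  have hcH : ∀ C : Subgroup (G ⧸ N), Nat.card (C.comap π) = 2 * Nat.card C := fun C => by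
    have h1 := Subgroup.card_mul_index (N.subgroupOf (C.comap π))
    have hle : N ≤ C.comap π := fun x hx => by
      rw [Subgroup.mem_comap, hπ, QuotientGroup.mk'_apply, (QuotientGroup.eq_one_iff x).mpr hx]
      exact C.one_mem
    rw [Nat.card_congr (Subgroup.subgroupOfEquivOfLe hle).toEquiv, hN2] at h1
    rw [← h1]
    congr 1
    rw [show N.subgroupOf (C.comap π) = (π.comp (C.comap π).subtype).ker by
      rw [← MonoidHom.comap_ker, hπ, QuotientGroup.ker_mk']; rfl, Subgroup.index_ker, MonoidHom.range_comp,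
      Subgroup.range_subtype, Subgroup.map_comap_eq_self_of_surjective (QuotientGroup.mk'_surjective N)]
  obtain ⟨UA, SA, hUAc, hcA, hoA, hsupA, hcenA⟩ := preimage_decomp N hN2 A hA
  obtain ⟨UB, SB, hUBc, hcB, hoB, hsupB, hcenB⟩ := preimage_decomp N hN2 B hBc
  have hHcard : Nat.card HA = Nat.card HB := by rw [hHA, hHB, hcH, hcH, hcard]
  have hS : Nat.card SA.toSubgroup = Nat.card SB.toSubgroup := by
    rw [SA.card_eq_multiplicity, SB.card_eq_multiplicity, hHcard]
  have hU : Nat.card UA = Nat.card UB := by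
    have := hcA.symm.trans (hHcard.trans hcB)
    rw [hS] at this
    exact Nat.eq_of_mul_eq_mul_left Nat.card_pos this
  suffices h : ∃ g : G, HB = HA.map (MulAut.conj g).toMonoidHom by
    obtain ⟨g, hg⟩ := h
    refine ⟨π g, ?_⟩
    rw [← Subgroup.map_comap_eq_self_of_surjective (QuotientGroup.mk'_surjective N) B, ← hπ, ← hHB, hg,
      ← Subgroup.map_comap_eq_self_of_surjective (QuotientGroup.mk'_surjective N) A, ← hπ, ← hHA,
      Subgroup.map_map, Subgroup.map_map]
    congr 1
  obtain ⟨g, hg⟩ := hB UA UB hUAc hUBc hU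
  set SA' := (SA.toSubgroup.map HA.subtype).map (MulAut.conj g).toMonoidHom
  set SB' := SB.toSubgroup.map HB.subtype
  have hAc : SA' ≤ Subgroup.centralizer (UB : Set G) := by
    rintro _ ⟨s, hs, rfl⟩
    rw [Subgroup.mem_centralizer_iff]
    intro u hu
    obtain ⟨v, hv, rfl⟩ := hg ▸ (hu : u ∈ UB)
    simp only [MulEquiv.coe_toMonoidHom]
    rw [← map_mul, ← map_mul, (Subgroup.mem_centralizer_iff.mp (hcenA hs) v hv)]
  by_cases h8 : Nat.card SA.toSubgroup = 8
  · -- both are Sylow subgroups of `G` centralizing `UB`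
    set C := Subgroup.centralizer (UB : Set G)
    have hval : ∀ S : Subgroup G, IsPGroup 2 S → Nat.card S = 8 → ∀ (hle : S ≤ C),
        ∃ T : Sylow 2 C, T.toSubgroup = S.subgroupOf C := by
      intro S hS2 hS8 hle
      obtain ⟨R, hR⟩ := hS2.exists_le_sylow
      have hSR : S = R.toSubgroup := Subgroup.eq_of_le_of_card_ge hR (by rw [hcard8, hS8])
      subst hSR
      exact ⟨R.subtype hle, Sylow.coe_subtype _ _⟩
    obtain ⟨TA, hTA⟩ := hval SA' ((SA.2.map _).map _) (by
      rw [Subgroup.card_map_of_injective (MulAut.conj g).injective,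
        Subgroup.card_map_of_injective HA.subtype_injective, h8]) hAc
    obtain ⟨TB, hTB⟩ := hval SB' (SB.2.map _) (by
      rw [Subgroup.card_map_of_injective HB.subtype_injective, ← hS, h8]) hcenB
    obtain ⟨c, hc⟩ := MulAction.exists_smul_eq C TA TB
    refine ⟨(c : G) * g, ?_⟩
    have hc' : SB' = SA'.map (MulAut.conj (c : G)).toMonoidHom := by
      have h1 := congrArg (fun T : Sylow 2 C => T.toSubgroup.map C.subtype) hc
      simp only [Sylow.coe_subgroup_smul] at h1
      rw [hTA, hTB, Subgroup.map_subgroupOf_eq_of_le hcenB] at h1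
      rw [← h1, Subgroup.pointwise_smul_def]
      conv_rhs => rw [← Subgroup.map_subgroupOf_eq_of_le hAc]
      erw [Subgroup.map_map, Subgroup.map_map]
      congr 1
    have hUfix : UB.map (MulAut.conj (c : G)).toMonoidHom = UB := by
      refine Subgroup.eq_of_le_of_card_ge ?_ (Subgroup.card_map_of_injective (MulAut.conj (c : G)).injective).ge
      rintro _ ⟨u, hu, rfl⟩
      show (MulAut.conj (c : G)) u ∈ UB
      rw [MulAut.conj_apply, ← Subgroup.mem_centralizer_iff.mp c.2 u hu, mul_inv_cancel_right]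
      exact hu
    have hmul : (MulAut.conj ((c : G) * g)).toMonoidHom =
        (MulAut.conj (c : G)).toMonoidHom.comp (MulAut.conj g).toMonoidHom := by
      refine MonoidHom.ext fun x => ?_
      simp [mul_assoc]
    calc HB = UB ⊔ SB' := hsupB.symm
      _ = UB.map (MulAut.conj (c : G)).toMonoidHom ⊔ SA'.map (MulAut.conj (c : G)).toMonoidHom := by rw [hUfix, hc']
      _ = (UA ⊔ SA.toSubgroup.map HA.subtype).map (MulAut.conj ((c : G) * g)).toMonoidHom := by
        rw [hmul, ← Subgroup.map_map, ← Subgroup.map_sup, Subgroup.map_sup _ _ (MulAut.conj g).toMonoidHom, ← hg]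
      _ = _ := by rw [hsupA]
  · -- the preimages are abelian
    have habel : ∀ (H U : Subgroup G) (S : Sylow 2 H), IsMulCommutative U →
        U ⊔ S.toSubgroup.map H.subtype = H → S.toSubgroup.map H.subtype ≤ Subgroup.centralizer (U : Set G) →
        Nat.card S.toSubgroup ≠ 8 → IsMulCommutative H := by
      intro H U S hUc hsup hcen hne
      obtain ⟨R, hR⟩ := (S.2.map H.subtype).exists_le_sylow
      have hd : Nat.card S.toSubgroup ∣ 2 ^ 3 := by
        rw [← Subgroup.card_map_of_injective H.subtype_injective]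
        exact (Subgroup.card_dvd_of_le hR).trans (by rw [hcard8]; norm_num)
      obtain ⟨i, hi3, hi⟩ := (Nat.dvd_prime_pow Nat.prime_two).mp hd
      haveI hScomm : IsMulCommutative (S.toSubgroup.map H.subtype) := by
        have hcardS : Nat.card (S.toSubgroup.map H.subtype) = 2 ^ i := by
          rw [Subgroup.card_map_of_injective H.subtype_injective, hi]
        have hi2 : i ≤ 2 := by
          by_contra h
          obtain rfl : i = 3 := by omega
          exact hne (by rw [hi]; norm_num)
        interval_cases i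
        · rw [pow_zero, Subgroup.card_eq_one] at hcardS
          rw [hcardS]; infer_instance
        · haveI := isCyclic_of_prime_card (α := S.toSubgroup.map H.subtype) (p := 2) (by rw [hcardS, pow_one])
          exact ⟨⟨(IsCyclic.commGroup (α := S.toSubgroup.map H.subtype)).mul_comm⟩⟩
        · exact IsPGroup.isMulCommutative_of_card_eq_prime_sq (p := 2) hcardS
      rw [← hsup, ← Subgroup.closure_eq U, ← Subgroup.closure_eq (S.toSubgroup.map H.subtype),
        ← Subgroup.closure_union]
      refine Subgroup.isMulCommutative_closure ?_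
      rintro x (hx | hx) y (hy | hy)
      · exact congrArg Subtype.val (hUc.1.1 ⟨x, hx⟩ ⟨y, hy⟩)
      · exact Subgroup.mem_centralizer_iff.mp (hcen hy) x hx
      · exact (Subgroup.mem_centralizer_iff.mp (hcen hx) y hy).symm
      · exact congrArg Subtype.val (hScomm.1.1 ⟨x, hx⟩ ⟨y, hy⟩)
    exact hB HA HB (habel HA UA SA hUAc hsupA hcenA h8) (habel HB UB SB hUBc hsupB hcenB (hS ▸ h8)) hHcard

/-- Quotients of solvable groups inherit the property. -/
theorem abConj_quotient : ∀ (n : ℕ) {G : Type u} [Group G] [Finite G], Group.IsSolvable G → AbConj G →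
    ∀ (M : Subgroup G) [M.Normal], Nat.card M ≤ n → AbConj (G ⧸ M) := by
  intro n
  induction n with
  | zero => intro G _ _ _ _ M _ h; exact absurd h (by simp [Nat.card_pos.ne'])
  | succ n ih =>
    intro G _ _ hsol hB M hM hcardM
    by_cases hM1 : M = ⊥
    · subst hM1
      exact hB.congr QuotientGroup.quotientBot.symm
    haveI := hsol
    obtain ⟨N, hN, hNM⟩ := Core.exists_isMinNormal_le hM hM1
    obtain ⟨hNc, p, hp, hNe, -⟩ := hN.elementaryAbelian_of_isSolvable
    haveI := Fact.mk hp
    haveI := hN.1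
    have hq : AbConj (G ⧸ N) := abConj_quotient_elementary hB N ⟨hNc, hNe⟩
    haveI : Group.IsSolvable (G ⧸ N) := Group.isSolvable_of_surjective (QuotientGroup.mk'_surjective N)
    have hlt : Nat.card (M.map (QuotientGroup.mk' N)) ≤ n := by
      have h1 := Subgroup.card_mul_index (N.subgroupOf M)
      rw [Nat.card_congr (Subgroup.subgroupOfEquivOfLe hNM).toEquiv] at h1
      have h2 : Nat.card (M.map (QuotientGroup.mk' N)) = (N.subgroupOf M).index := by
        rw [show N.subgroupOf M = ((QuotientGroup.mk' N).comp M.subtype).ker by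
          rw [← MonoidHom.comap_ker, QuotientGroup.ker_mk']; rfl, Subgroup.index_ker, MonoidHom.range_comp,
          Subgroup.range_subtype]
      have h3 : 2 ≤ Nat.card N := (Subgroup.one_lt_card_iff_ne_bot N).mpr hN.2.1
      have h4 : 0 < (N.subgroupOf M).index := Nat.pos_of_ne_zero Subgroup.index_ne_zero_of_finite
      rw [h2]
      nlinarith
    exact (ih (G := G ⧸ N) inferInstance hq (M.map (QuotientGroup.mk' N)) hlt).congr
      (QuotientGroup.quotientQuotientEquivQuotient N M hNM)

end Cfsg.Agent.FGS2
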