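import Mathlib.GroupTheory.SpecificGroups.Alternating
import Mathlib.Tactic

/-! # Facts about involutions of `A₆` -/

namespace Cfsg.Agent.FGS2.A6Facts

abbrev A := alternatingGroup (Fin 6)

theorem a6_centralizer : ∀ z : A, z * z = 1 → z ≠ 1 →
    (Finset.univ.filter fun g : A => g * z = z * g).card = 8 := by
  decide +kernel

theorem a6_five : ∀ z : A, z * z = 1 → z ≠ 1 →
    15 ≤ (Finset.univ.filter fun w : A => w * w = 1 ∧ (z * w) ^ 5 = 1).card ∧
    (Finset.univ.filter fun w : A => w * w = 1 ∧ (z * w) ^ 5 = 1).card ≤ 31 := by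
  decide +kernel

theorem a6_inv : (Finset.univ.filter fun g : A => g * g = 1).card = 46 := by decide +kernel

end Cfsg.Agent.FGS2.A6Facts
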