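import Cfsg.Agent.FGS2.AbelianPermBound
import Mathlib.GroupTheory.Sylow

/-!
# The abelian subgroups of largest order of an alternating group are conjugate

Such a subgroup is the set of all permutations acting semiregularly as an element of `A₃` or of
`V₄` on each of its orbits, so it is determined by its partition into orbits, whose part sizes
depend only on the degree.
-/

set_option autoImplicit false
set_option linter.style.haveILetI false

namespace Cfsg.Agent.FGS2.AbelianAltUnique

open Equiv MulAction AbelianPermBound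
open scoped Pointwise

theorem bestOdd_step : ∀ n, 3 ≤ n → bestOdd (n - 1) < bestOdd n ∧ best (n - 2) < bestOdd n ∧
    (6 ≤ n → 5 * bestOdd (n - 5) < bestOdd n) := by
  intro n
  induction n using Nat.strong_induction_on with
  | _ n ih =>
    intro h3
    by_cases hn : 14 ≤ n
    · obtain ⟨c, rfl⟩ : ∃ c, n = c + 14 := ⟨n - 14, by omega⟩
      obtain ⟨i1, i2, i3⟩ := ih (c + 11) (by omega) (by omega)
      have i4 := i3 (by omega)
      have e1 : bestOdd (c + 14) = 3 * bestOdd (c + 11) := by
        rw [show c + 14 = (c + 5) + 9 by omega, bestOdd, show c + 5 + 6 = c + 11 by omega]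
      have e2 : bestOdd (c + 14 - 1) = 3 * bestOdd (c + 11 - 1) := by
        rw [show c + 14 - 1 = (c + 4) + 9 by omega, bestOdd, show c + 4 + 6 = c + 11 - 1 by omega]
      have e3 : best (c + 14 - 2) = 3 * best (c + 11 - 2) := by
        rw [show c + 14 - 2 = (c + 7) + 5 by omega, best, show c + 7 + 2 = c + 11 - 2 by omega]
      have e4 : bestOdd (c + 14 - 5) = 3 * bestOdd (c + 11 - 5) := by
        rw [show c + 14 - 5 = c + 9 by omega, bestOdd, show c + 6 = c + 11 - 5 by omega]
      omega
    · interval_cases n <;> decide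

theorem bestOdd_pos : ∀ a, 1 ≤ bestOdd a := by
  intro a
  rcases eq_or_ne a 2 with rfl | h
  · decide
  rcases a with _ | a
  · decide
  · exact le_trans (by omega) (le_bestOdd _ h)

theorem lt_bestOdd : ∀ a, 6 ≤ a → a < bestOdd a := by
  intro a
  induction a using Nat.strong_induction_on with
  | _ a ih =>
    intro ha
    by_cases h : 9 ≤ a
    · obtain ⟨c, rfl⟩ : ∃ c, a = c + 9 := ⟨a - 9, by omega⟩
      have := ih (c + 6) (by omega) (by omega)
      rw [bestOdd]; omega
    · interval_cases a <;> decide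

/-- A part of a best partition has size three or four. -/
theorem part_size {a b n : ℕ} (hn : 3 ≤ n) (hn5 : n ≠ 5) (hab : a + b = n) (ha : 1 ≤ a) (ha2 : a ≠ 2)
    (h : bestOdd n ≤ a * bestOdd b) : a = 3 ∨ a = 4 := by
  obtain ⟨i1, -, i3⟩ := bestOdd_step n hn
  by_contra hc
  push Not at hc
  rcases (show a = 1 ∨ a = 5 ∨ 6 ≤ a by omega) with rfl | rfl | h6
  · rw [one_mul, show b = n - 1 by omega] at h
    omega
  · rw [show b = n - 5 by omega] at h
    have := i3 (by omega)
    omega
  · have h1 := bestOdd_add a b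
    rw [hab] at h1
    have := Nat.mul_lt_mul_of_pos_right (lt_bestOdd a h6) (bestOdd_pos b)
    omega

variable {n : ℕ}

/-- The facts about an abelian group of even permutations of largest order. -/
structure Shape (A : Subgroup (Perm (Fin n))) : Prop where
  comm : IsMulCommutative A
  size : ∀ x : Fin n, Nat.card (orbit A x) = 3 ∨ Nat.card (orbit A x) = 4
  few : Nat.card {ω : orbitRel.Quotient A (Fin n) // Nat.card (orbit A ω.out) = 4} ≤ 2
  full : ∀ f : orbitRel.Quotient A (Fin n) → Fin n, (∀ ω, f ω ∈ orbit A ω.out) →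
    ∃ a : A, ∀ ω, a • ω.out = f ω
  even : A ≤ alternatingGroup (Fin n)

/-- Acting on each orbit semiregularly and evenly. -/
def Cond (A : Subgroup (Perm (Fin n))) (g : Perm (Fin n)) : Prop :=
  ∀ x : Fin n, g x ∈ orbit A x ∧ (g x = x → ∀ y ∈ orbit A x, g y = y) ∧
    (Nat.card (orbit A x) = 4 → g (g x) = x)

theorem shape_of_card (hn : 3 ≤ n) (hn5 : n ≠ 5) (A : Subgroup (Perm (Fin n))) (hA : IsMulCommutative A)
    (heven : A ≤ alternatingGroup (Fin n)) (hcard : bestOdd n ≤ Nat.card A) : Shape A := by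
  classical
  haveI := Fintype.ofFinite (orbitRel.Quotient A (Fin n))
  set l : orbitRel.Quotient A (Fin n) → ℕ := fun ω => Nat.card (orbit A ω.out) with hl
  have hsum : ∑ ω, l ω = n := by
    rw [hl, ← Nat.card_sigma, ← Nat.card_congr (selfEquivSigmaOrbits A (Fin n)), Nat.card_eq_fintype_card,
      Fintype.card_fin]
  have hinj : ∀ a b : A, (∀ ω ∈ (Finset.univ : Finset (orbitRel.Quotient A (Fin n))), a • ω.out = b • ω.out) →
      a = b := fun a b h =>
    ext_of_forall A hA a b fun x => eq_on_orbit A hA a b _ (h _ (Finset.mem_univ _)) x rfl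
  obtain ⟨-, i2, -⟩ := bestOdd_step n hn
  have hne2 : ∀ ω, l ω ≠ 2 := by
    intro ω hω
    -- omit the orbit of length two
    have h1 : ∑ ω' ∈ Finset.univ.erase ω, l ω' = n - 2 := by
      have := Finset.add_sum_erase Finset.univ l (Finset.mem_univ ω)
      rw [hω, hsum] at this
      omega
    have h3 : Nat.card A ≤ ∏ ω' ∈ Finset.univ.erase ω, l ω' := by
      refine card_le_prod A hA _ fun a b h => ?_
      set c := b⁻¹ * a with hc
      have hfix : ∀ x : Fin n, Quotient.mk (orbitRel A (Fin n)) x ≠ ω → c • x = x := fun x hx => by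
        rw [hc, mul_smul, eq_on_orbit A hA a b _ (h _ (Finset.mem_erase.mpr ⟨hx, Finset.mem_univ _⟩)) x rfl,
          inv_smul_smul]
      have hsupp : ((c : Perm (Fin n)).support : Set (Fin n)) ⊆ orbit A ω.out := by
        intro x hx
        rw [Finset.mem_coe, Perm.mem_support] at hx
        by_contra hxo
        refine hx (hfix x fun he => hxo ?_)
        rw [← orbitRel_apply]
        exact Quotient.exact (he.trans ω.out_eq.symm)
      have hc2 : (c : Perm (Fin n)).support.card ≤ 2 := by
        have h4 := Nat.card_mono (Set.toFinite _) hsupp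
        rw [show Nat.card (orbit A ω.out) = 2 from hω, Nat.card_coe_set_eq, Set.ncard_coe_finset] at h4
        exact h4
      by_contra hab
      have hc1 : (c : Perm (Fin n)) ≠ 1 := by
        intro e
        exact hab (mul_right_injective b⁻¹ (show b⁻¹ * a = b⁻¹ * b by rw [inv_mul_cancel]; exact Subtype.ext e))
      have h4 : (c : Perm (Fin n)).IsSwap := Perm.card_support_eq_two.mp
        (le_antisymm hc2 (Perm.two_le_card_support_of_ne_one hc1))
      have h5 := Perm.mem_alternatingGroup.mp (heven c.2)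
      rw [h4.sign_eq] at h5
      exact absurd h5 (by decide)
    have h4 := h3.trans (prod_le (Finset.univ.erase ω) l)
    rw [h1] at h4
    omega
  have hle := card_le_prod A hA Finset.univ hinj
  have hprod : ∏ ω, l ω ≤ bestOdd n := le_of_le_of_eq (prod_le_odd Finset.univ l fun ω _ => hne2 ω) (by rw [hsum])
  have hsize : ∀ ω, l ω = 3 ∨ l ω = 4 := by
    intro ω
    have h1 := Finset.add_sum_erase Finset.univ l (Finset.mem_univ ω)
    have h3 := Finset.mul_prod_erase Finset.univ l (Finset.mem_univ ω)
    have hpos : 1 ≤ l ω := (Nat.card_pos_iff.mpr ⟨⟨⟨_, mem_orbit_self ω.out⟩⟩, inferInstance⟩)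
    refine part_size hn hn5 (h1.trans hsum) hpos (hne2 ω) ((hcard.trans hle).trans ?_)
    show ∏ ω', l ω' ≤ _
    rw [← h3]
    exact Nat.mul_le_mul_left _ (prod_le_odd _ _ fun ω' _ => hne2 ω')
  refine ⟨hA, fun x => ?_, ?_, ?_, heven⟩
  · have h1 := hsize (Quotient.mk (orbitRel A (Fin n)) x)
    have e : orbit A x = orbit A (Quotient.mk (orbitRel A (Fin n)) x).out :=
      orbit_eq_iff.mpr (Quotient.exact (Quotient.out_eq (Quotient.mk (orbitRel A (Fin n)) x)).symm)
    rw [e]
    exact h1
  · by_contra hc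
    push Not at hc
    set T := Finset.univ.filter fun ω => l ω = 4 with hT
    have hT3 : 3 ≤ T.card := by
      have : Nat.card {ω // l ω = 4} = T.card := by
        rw [Nat.card_eq_fintype_card, Fintype.card_subtype, hT]
      have hc' : 2 < Nat.card {ω // l ω = 4} := hc
      omega
    obtain ⟨T', hT'T, hT'⟩ := Finset.exists_subset_card_eq hT3
    have hp1 := Finset.prod_sdiff (f := l) (Finset.subset_univ T')
    have hs1 := Finset.sum_sdiff (f := l) (Finset.subset_univ T')
    have hp4 : ∏ ω ∈ T', l ω = 64 := by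
      rw [Finset.prod_congr rfl (fun ω hω => (Finset.mem_filter.mp (hT'T hω)).2), Finset.prod_const, hT']
      rfl
    have hs4 : ∑ ω ∈ T', l ω = 12 := by
      rw [Finset.sum_congr rfl (fun ω hω => (Finset.mem_filter.mp (hT'T hω)).2), Finset.sum_const, hT']
      rfl
    have h5 := prod_le_odd (Finset.univ \ T') l fun ω _ => hne2 ω
    rw [hp4] at hp1
    rw [hs4, hsum] at hs1
    have h6 := bestOdd_add (∑ ω ∈ Finset.univ \ T', l ω) 12
    rw [hs1, show bestOdd 12 = 81 from by decide] at h6
    have h7 := bestOdd_pos (∑ ω ∈ Finset.univ \ T', l ω)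
    have h8 : Nat.card A ≤ ∏ ω, l ω := hle
    omega
  · intro f hf
    let Φ : A → (∀ ω : orbitRel.Quotient A (Fin n), orbit A ω.out) := fun a ω => ⟨a • ω.out, mem_orbit _ a⟩
    have hΦ : Function.Injective Φ := fun a b h => hinj a b fun ω _ => congrArg Subtype.val (congrFun h ω)
    have hc : Nat.card A = Nat.card (∀ ω : orbitRel.Quotient A (Fin n), orbit A ω.out) := by
      refine le_antisymm (Nat.card_le_card_of_injective Φ hΦ) ?_
      rw [Nat.card_pi]
      exact hprod.trans hcard
    obtain ⟨a, ha⟩ := ((Nat.bijective_iff_injective_and_card Φ).mpr ⟨hΦ, hc⟩).2 fun ω => ⟨f ω, hf ω⟩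
    exact ⟨a, fun ω => congrArg Subtype.val (congrFun ha ω)⟩

theorem shift_three {α : Type*} {u : α → α} (hu : Function.Injective u) {a b c : α} (hab : a ≠ b)
    (hac : a ≠ c) (hbc : b ≠ c) (hb : u b = a ∨ u b = b ∨ u b = c) (hc : u c = a ∨ u c = b ∨ u c = c)
    (hfb : u b = b → u a = a) (hfc : u c = c → u a = a) (h : u a = b) : u b = c ∧ u c = a := by
  have h1 : u b ≠ b := fun e => hab (h ▸ (hfb e)).symm
  have h2 : u c ≠ c := fun e => hab (h ▸ (hfc e)).symm
  have h3 : u c ≠ b := fun e => hac (hu (h.trans e.symm))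
  have h4 : u c = a := by tauto
  refine ⟨?_, h4⟩
  have h5 : u b ≠ a := fun e => hbc (hu (e.trans h4.symm))
  tauto

theorem shift_four {α : Type*} {u : α → α} (hu : Function.Injective u) {a b c d : α} (hab : a ≠ b)
    (hac : a ≠ c) (had : a ≠ d) (hbc : b ≠ c) (hbd : b ≠ d) (hcd : c ≠ d)
    (hc : u c = a ∨ u c = b ∨ u c = c ∨ u c = d) (ha2 : u (u a) = a) (hc2 : u (u c) = c)
    (hfc : u c = c → u a = a) (h : u a = b) : u b = a ∧ u c = d ∧ u d = c := by
  rw [h] at ha2
  have h1 : u c ≠ c := fun e => hab (h ▸ (hfc e)).symm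
  have h2 : u c ≠ b := fun e => hac (hu (h.trans e.symm))
  have h3 : u c ≠ a := fun e => hbc (hu (ha2.trans e.symm))
  have h4 : u c = d := by tauto
  exact ⟨ha2, h4, by rwa [h4] at hc2⟩

/-- Two permutations satisfying the condition and agreeing at a point agree on its orbit. -/
theorem cond_ext {A : Subgroup (Perm (Fin n))} (hA : Shape A) {u v : Perm (Fin n)} (hu : Cond A u)
    (hv : Cond A v) {r : Fin n} (hr : u r = v r) (x : Fin n) (hx : x ∈ orbit A r) : u x = v x := by
  classical
  by_cases hfix : u r = r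
  · rw [(hu r).2.1 hfix x hx, (hv r).2.1 (hr ▸ hfix) x hx]
  have hS : ∀ y ∈ orbit A r, ∀ w : Perm (Fin n), Cond A w → w y ∈ orbit A r ∧ (w y = y → w r = r) ∧
      (Nat.card (orbit A r) = 4 → w (w y) = y) := by
    intro y hy w hw
    have e : orbit A y = orbit A r := orbit_eq_iff.mpr hy
    obtain ⟨h1, h2, h3⟩ := hw y
    rw [e] at h1 h2 h3
    exact ⟨h1, fun h => h2 h r (mem_orbit_self r), h3⟩
  have hr' : u r ∈ orbit A r := (hu r).1
  set s := u r with hs
  rcases hA.size r with h3 | h4
  · obtain ⟨t, htS, htr, hts⟩ : ∃ t ∈ orbit A r, t ≠ r ∧ t ≠ s := by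
      by_contra hc
      push Not at hc
      have hsub : orbit A r ⊆ {r, s} := fun t ht => by
        by_cases h : t = r
        · exact Or.inl h
        · exact Or.inr (hc t ht h)
      have h5 := Set.ncard_le_ncard hsub (Set.toFinite _)
      have h6 := Set.ncard_insert_le r ({s} : Set (Fin n))
      rw [Set.ncard_singleton] at h6
      rw [Nat.card_coe_set_eq] at h3
      omega
    have hmem : ∀ y ∈ orbit A r, y = r ∨ y = s ∨ y = t := by
      intro y hy
      by_contra hc
      push Not at hc
      have hsub : ({r, s, t, y} : Set (Fin n)) ⊆ orbit A r := by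
        rintro z (rfl | rfl | rfl | rfl)
        exacts [mem_orbit_self _, hr', htS, hy]
      have h5 := Set.ncard_le_ncard hsub (Set.toFinite _)
      rw [Set.ncard_insert_of_notMem (by simp [Ne.symm hfix, htr.symm, hc.1.symm]),
        Set.ncard_insert_of_notMem (by simp [hts.symm, hc.2.1.symm]), Set.ncard_pair hc.2.2.symm] at h5
      rw [Nat.card_coe_set_eq] at h3
      omega
    have key : ∀ w : Perm (Fin n), Cond A w → w r = s → w s = t ∧ w t = r := fun w hw hwr =>
      shift_three w.injective (Ne.symm hfix) htr.symm hts.symm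
        (hmem _ (hS s hr' w hw).1) (hmem _ (hS t htS w hw).1) (hS s hr' w hw).2.1 (hS t htS w hw).2.1 hwr
    obtain ⟨a1, a2⟩ := key u hu rfl
    obtain ⟨b1, b2⟩ := key v hv hr.symm
    rcases hmem x hx with rfl | rfl | rfl
    · exact hr
    · rw [a1, b1]
    · rw [a2, b2]
  · obtain ⟨t, htS, htr, hts⟩ : ∃ t ∈ orbit A r, t ≠ r ∧ t ≠ s := by
      by_contra hc
      push Not at hc
      have hsub : orbit A r ⊆ {r, s} := fun t ht => by
        by_cases h : t = r
        · exact Or.inl h
        · exact Or.inr (hc t ht h)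
      have h5 := Set.ncard_le_ncard hsub (Set.toFinite _)
      have h6 := Set.ncard_insert_le r ({s} : Set (Fin n))
      rw [Set.ncard_singleton] at h6
      rw [Nat.card_coe_set_eq] at h4
      omega
    obtain ⟨w₀, hwS, hwr, hws, hwt⟩ : ∃ w ∈ orbit A r, w ≠ r ∧ w ≠ s ∧ w ≠ t := by
      by_contra hc
      push Not at hc
      have hsub : orbit A r ⊆ {r, s, t} := fun z hz => by
        by_cases h : z = r
        · exact Or.inl h
        · by_cases h' : z = s
          · exact Or.inr (Or.inl h')
          · exact Or.inr (Or.inr (hc z hz h h'))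
      have h5 := Set.ncard_le_ncard hsub (Set.toFinite _)
      have h6 := Set.ncard_insert_le r ({s, t} : Set (Fin n))
      rw [Set.ncard_pair hts.symm] at h6
      rw [Nat.card_coe_set_eq] at h4
      omega
    have hmem : ∀ y ∈ orbit A r, y = r ∨ y = s ∨ y = t ∨ y = w₀ := by
      intro y hy
      by_contra hc
      push Not at hc
      have hsub : ({r, s, t, w₀, y} : Set (Fin n)) ⊆ orbit A r := by
        rintro z (rfl | rfl | rfl | rfl | rfl)
        exacts [mem_orbit_self _, hr', htS, hwS, hy]
      have h5 := Set.ncard_le_ncard hsub (Set.toFinite _)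
      rw [Set.ncard_insert_of_notMem (by simp [Ne.symm hfix, htr.symm, hwr.symm, hc.1.symm]),
        Set.ncard_insert_of_notMem (by simp [hts.symm, hws.symm, hc.2.1.symm]),
        Set.ncard_insert_of_notMem (by simp [hwt.symm, hc.2.2.1.symm]), Set.ncard_pair hc.2.2.2.symm] at h5
      rw [Nat.card_coe_set_eq] at h4
      omega
    have key : ∀ w : Perm (Fin n), Cond A w → w r = s → w s = r ∧ w t = w₀ ∧ w w₀ = t := fun w hw hwrs =>
      shift_four w.injective (Ne.symm hfix) htr.symm hwr.symm hts.symm hws.symm hwt.symm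
        (hmem _ (hS t htS w hw).1) ((hS r (mem_orbit_self r) w hw).2.2 h4) ((hS t htS w hw).2.2 h4)
        (hS t htS w hw).2.1 hwrs
    obtain ⟨a1, a2, a3⟩ := key u hu rfl
    obtain ⟨b1, b2, b3⟩ := key v hv hr.symm
    rcases hmem x hx with rfl | rfl | rfl | rfl
    · exact hr
    · rw [a1, b1]
    · rw [a2, b2]
    · rw [a3, b3]

theorem orbit_out (A : Subgroup (Perm (Fin n))) (x : Fin n) :
    orbit A (Quotient.mk (orbitRel A (Fin n)) x).out = orbit A x :=
  (orbit_eq_iff.mpr (Quotient.exact (Quotient.out_eq (Quotient.mk (orbitRel A (Fin n)) x)).symm)).symm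

theorem cond_of_mem {A : Subgroup (Perm (Fin n))} (hA : Shape A) (g : A) : Cond A (g : Perm (Fin n)) := by
  classical
  intro x
  refine ⟨mem_orbit x g, fun h y hy => ?_, fun h4 => ?_⟩
  · obtain ⟨c, rfl⟩ := hy
    show g • c • x = c • x
    rw [comm_apply A hA.comm g c, show g • x = x from h]
  set ω := Quotient.mk (orbitRel A (Fin n)) x with hω
  -- an element of `A` acting like `g` on the orbit and trivially outside
  obtain ⟨a, ha⟩ := hA.full (fun ω' => if ω' = ω then g • ω'.out else ω'.out) fun ω' => by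
    show (if ω' = ω then g • ω'.out else ω'.out) ∈ _
    split_ifs
    exacts [mem_orbit _ g, mem_orbit_self _]
  have hag : ∀ y ∈ orbit A x, a • y = g • y := fun y hy => by
    have hy' : Quotient.mk (orbitRel A (Fin n)) y = ω := Quotient.sound (orbitRel_apply.mpr hy)
    exact eq_on_orbit A hA.comm a g ω (by rw [ha, if_pos rfl]) y hy'
  have haout : ∀ y, y ∉ orbit A x → a • y = y := fun y hy => by
    have hy' : Quotient.mk (orbitRel A (Fin n)) y ≠ ω :=
      fun e => hy (orbitRel_apply.mp (Quotient.exact e))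
    have := eq_on_orbit A hA.comm a 1 _ (by rw [ha, if_neg hy', one_smul]) y rfl
    rwa [one_smul] at this
  have hxo : x ∈ orbit A x := mem_orbit_self x
  have hreg : ∀ y ∈ orbit A x, a • y = y → a • x = x := fun y hy h => by
    obtain ⟨c, rfl⟩ := hy
    have h' : a • c • x = c • x := h
    rw [comm_apply A hA.comm a c] at h'
    exact MulAction.injective c h'
  show g • g • x = x
  have hgx : g • x ∈ orbit A x := mem_orbit x g
  rw [← hag _ hgx, ← hag x hxo]
  by_contra hne
  set y := a • x with hy
  set z := a • y with hz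
  set w := a • z with hw
  have hyo : y ∈ orbit A x := mem_orbit x a
  have hzo : z ∈ orbit A x := by rw [hz, hy, smul_smul]; exact mem_orbit x _
  have hwo : w ∈ orbit A x := by rw [hw, hz, hy, smul_smul, smul_smul]; exact mem_orbit x _
  have hxy : x ≠ y := fun e => hne (show a • a • x = x by rw [← hy, ← e, ← hy, ← e])
  have hyz : y ≠ z := fun e => hxy (MulAction.injective a (show a • x = a • y by rw [← hy, ← hz]; exact e))
  have hzw : z ≠ w := fun e => hyz (MulAction.injective a (show a • y = a • z by rw [← hz, ← hw]; exact e))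
  have hyw : y ≠ w := fun e => hne (show z = x from
    (MulAction.injective a (show a • x = a • z by rw [← hy, ← hw]; exact e)).symm)
  have hzx : z ≠ x := hne
  -- the orbit is `{x, y, z, w}`
  obtain ⟨v, hvo, hvx, hvy, hvz⟩ : ∃ v ∈ orbit A x, v ≠ x ∧ v ≠ y ∧ v ≠ z := by
    by_contra hc
    push Not at hc
    have hsub : orbit A x ⊆ {x, y, z} := fun v hv => by
      by_cases h : v = x
      · exact Or.inl h
      · by_cases h' : v = y
        · exact Or.inr (Or.inl h')
        · exact Or.inr (Or.inr (hc v hv h h'))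
    have h5 := Set.ncard_le_ncard hsub (Set.toFinite _)
    rw [Set.ncard_insert_of_notMem (by simp [hxy, hzx.symm]), Set.ncard_pair hyz] at h5
    rw [Nat.card_coe_set_eq] at h4
    omega
  have hmem : ∀ u ∈ orbit A x, u = x ∨ u = y ∨ u = z ∨ u = v := by
    intro u hu
    by_contra hc
    push Not at hc
    have hsub : ({x, y, z, v, u} : Set (Fin n)) ⊆ orbit A x := by
      rintro q (rfl | rfl | rfl | rfl | rfl)
      exacts [hxo, hyo, hzo, hvo, hu]
    have h5 := Set.ncard_le_ncard hsub (Set.toFinite _)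
    rw [Set.ncard_insert_of_notMem (by simp [hxy, hzx.symm, hvx.symm, hc.1.symm]),
      Set.ncard_insert_of_notMem (by simp [hyz, hvy.symm, hc.2.1.symm]),
      Set.ncard_insert_of_notMem (by simp [hvz.symm, hc.2.2.1.symm]), Set.ncard_pair hc.2.2.2.symm] at h5
    rw [Nat.card_coe_set_eq] at h4
    omega
  have hav : a • v ∈ orbit A x := by
    obtain ⟨c, rfl⟩ := hvo
    show a • c • x ∈ _
    rw [smul_smul]; exact mem_orbit x _
  have hwv : w = v := by
    rcases hmem w hwo with e | e | e | e
    · exfalso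
      rcases hmem _ hav with e' | e' | e' | e'
      · exact hvz (MulAction.injective a (show a • v = a • z by rw [← hw, e]; exact e'))
      · exact hvx (MulAction.injective a (show a • v = a • x by rw [← hy]; exact e'))
      · exact hvy (MulAction.injective a (show a • v = a • y by rw [← hz]; exact e'))
      · exact hxy (show x = y by rw [hy]; exact (hreg v hvo e').symm)
    · exact absurd e hyw.symm
    · exact absurd e hzw.symm
    · exact e
  have hvx' : a • v = x := by
    rcases hmem _ hav with e' | e' | e' | e'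
    · exact e'
    · exact absurd (MulAction.injective a (show a • v = a • x by rw [← hy]; exact e')) hvx
    · exact absurd (MulAction.injective a (show a • v = a • y by rw [← hz]; exact e')) hvy
    · exact absurd (show x = y by rw [hy]; exact (hreg v hvo e').symm) hxy
  have haperm : (a : Perm (Fin n)) = Equiv.swap x y * (Equiv.swap y z * Equiv.swap z v) := by
    refine Equiv.ext fun u => ?_
    show a • u = Equiv.swap x y (Equiv.swap y z (Equiv.swap z v u))
    by_cases hu : u ∈ orbit A x
    · rcases hmem u hu with rfl | rfl | rfl | rfl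
      · rw [swap_apply_of_ne_of_ne hzx.symm hvx.symm, swap_apply_of_ne_of_ne hxy hzx.symm, swap_apply_left,
          ← hy]
      · rw [swap_apply_of_ne_of_ne hyz hvy.symm, swap_apply_left, swap_apply_of_ne_of_ne hzx hyz.symm, ← hz]
      · rw [swap_apply_left, swap_apply_of_ne_of_ne hvy hvz, swap_apply_of_ne_of_ne hvx hvy, ← hw, hwv]
      · rw [swap_apply_right, swap_apply_right, swap_apply_right, hvx']
    · rw [haout u hu, swap_apply_of_ne_of_ne (fun e : u = z => hu (e ▸ hzo)) (fun e : u = v => hu (e ▸ hvo)),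
        swap_apply_of_ne_of_ne (fun e : u = y => hu (e ▸ hyo)) (fun e : u = z => hu (e ▸ hzo)),
        swap_apply_of_ne_of_ne (fun e : u = x => hu (e ▸ hxo)) (fun e : u = y => hu (e ▸ hyo))]
  have h5 := Perm.mem_alternatingGroup.mp (hA.even a.2)
  rw [haperm, map_mul, map_mul, Perm.sign_swap hxy, Perm.sign_swap hyz, Perm.sign_swap hvz.symm] at h5
  exact absurd h5 (by decide)

theorem mem_of_cond {A : Subgroup (Perm (Fin n))} (hA : Shape A) (g : Perm (Fin n)) (hg : Cond A g) :
    g ∈ A := by
  obtain ⟨a, ha⟩ := hA.full (fun ω => g ω.out) fun ω => (hg ω.out).1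
  have : g = a := by
    refine Equiv.ext fun x => ?_
    refine cond_ext hA hg (cond_of_mem hA a) (r := (Quotient.mk (orbitRel A (Fin n)) x).out) (ha _).symm x ?_
    rw [orbit_out]; exact mem_orbit_self x
  exact this ▸ a.2

theorem counts {A : Subgroup (Perm (Fin n))} (hA : Shape A) :
    3 * Nat.card {ω : orbitRel.Quotient A (Fin n) // Nat.card (orbit A ω.out) = 3} +
      4 * Nat.card {ω : orbitRel.Quotient A (Fin n) // Nat.card (orbit A ω.out) = 4} = n := by
  classical
  haveI := Fintype.ofFinite (orbitRel.Quotient A (Fin n))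
  have hsum : ∑ ω : orbitRel.Quotient A (Fin n), Nat.card (orbit A ω.out) = n := by
    rw [← Nat.card_sigma, ← Nat.card_congr (selfEquivSigmaOrbits A (Fin n)), Nat.card_eq_fintype_card,
      Fintype.card_fin]
  have h1 : ∀ ω : orbitRel.Quotient A (Fin n), Nat.card (orbit A ω.out) =
      (if Nat.card (orbit A ω.out) = 3 then 3 else 0) + (if Nat.card (orbit A ω.out) = 4 then 4 else 0) :=
    fun ω => by rcases hA.size ω.out with h | h <;> rw [h] <;> rfl
  rw [Finset.sum_congr rfl (fun ω _ => h1 ω), Finset.sum_add_distrib, ← Finset.sum_filter, ← Finset.sum_filter,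
    Finset.sum_const, Finset.sum_const, smul_eq_mul, smul_eq_mul] at hsum
  rw [Nat.card_eq_fintype_card, Nat.card_eq_fintype_card, Fintype.card_subtype, Fintype.card_subtype]
  omega

theorem exists_conj (A B : Subgroup (Perm (Fin n))) (hA : Shape A) (hB : Shape B) (hcard : Nat.card A = Nat.card B)
    (hn : 0 < n) :
    ∃ σ ∈ alternatingGroup (Fin n), B = A.map (MulAut.conj σ).toMonoidHom := by
  classical
  have c1 := counts hA
  have c2 := counts hB
  have d1 := hA.few
  have d2 := hB.few
  let fA : orbitRel.Quotient A (Fin n) → ℕ := fun ω => Nat.card (orbit A ω.out)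
  let fB : orbitRel.Quotient B (Fin n) → ℕ := fun ω => Nat.card (orbit B ω.out)
  have hfib : ∀ c : ℕ, Nat.card {ω // fA ω = c} = Nat.card {ω // fB ω = c} := by
    intro c
    show Nat.card {ω : orbitRel.Quotient A (Fin n) // Nat.card (orbit A ω.out) = c} =
      Nat.card {ω : orbitRel.Quotient B (Fin n) // Nat.card (orbit B ω.out) = c}
    by_cases h3 : c = 3
    · subst h3; omega
    by_cases h4 : c = 4
    · subst h4; omega
    haveI : IsEmpty {ω : orbitRel.Quotient A (Fin n) // Nat.card (orbit A ω.out) = c} :=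
      ⟨fun ω => by rcases hA.size ω.1.out with h | h <;> [exact h3 (ω.2.symm.trans h); exact h4 (ω.2.symm.trans h)]⟩
    haveI : IsEmpty {ω : orbitRel.Quotient B (Fin n) // Nat.card (orbit B ω.out) = c} :=
      ⟨fun ω => by rcases hB.size ω.1.out with h | h <;> [exact h3 (ω.2.symm.trans h); exact h4 (ω.2.symm.trans h)]⟩
    rw [Nat.card_of_isEmpty, Nat.card_of_isEmpty]
  let e : orbitRel.Quotient A (Fin n) ≃ orbitRel.Quotient B (Fin n) :=
    Equiv.ofFiberEquiv (fun c => (Finite.card_eq.mp (hfib c)).some)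
  have he : ∀ ω, fB (e ω) = fA ω := fun ω => Equiv.ofFiberEquiv_map _ ω
  have hfibA : ∀ ω, Nat.card {x : Fin n // Quotient.mk (orbitRel A (Fin n)) x = ω} = fA ω := fun ω =>
    Nat.card_congr (Equiv.subtypeEquivRight fun x => ⟨fun h => by
      rw [← h, orbit_out]; exact mem_orbit_self x, fun h => by
      refine Eq.trans (Quotient.sound (orbitRel_apply.mpr h)) ω.out_eq⟩)
  have hfibB : ∀ ω, Nat.card {x : Fin n // Quotient.mk (orbitRel B (Fin n)) x = ω} = fB ω := fun ω =>
    Nat.card_congr (Equiv.subtypeEquivRight fun x => ⟨fun h => by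
      rw [← h, orbit_out]; exact mem_orbit_self x, fun h => by
      refine Eq.trans (Quotient.sound (orbitRel_apply.mpr h)) ω.out_eq⟩)
  have hfib2 : ∀ ω', Nat.card {x : Fin n // e (Quotient.mk (orbitRel A (Fin n)) x) = ω'} =
      Nat.card {x : Fin n // Quotient.mk (orbitRel B (Fin n)) x = ω'} := fun ω' => by
    rw [hfibB, ← e.apply_symm_apply ω', he, ← hfibA]
    exact Nat.card_congr (Equiv.subtypeEquivRight fun x => by rw [e.injective.eq_iff])
  let σ₀ : Perm (Fin n) := Equiv.ofFiberEquiv (fun ω' => (Finite.card_eq.mp (hfib2 ω')).some)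
  have hσ₀ : ∀ x, Quotient.mk (orbitRel B (Fin n)) (σ₀ x) = e (Quotient.mk (orbitRel A (Fin n)) x) := fun x =>
    Equiv.ofFiberEquiv_map _ x
  -- adjust the sign inside one orbit
  let x₀ : Fin n := ⟨0, hn⟩
  obtain ⟨y₀, hy₀, hne⟩ : ∃ y₀ ∈ orbit A x₀, y₀ ≠ x₀ := by
    by_contra hc
    push Not at hc
    have hsub : orbit A x₀ ⊆ {x₀} := fun y hy => hc y hy
    have h5 := Set.ncard_le_ncard hsub (Set.toFinite _)
    rw [Set.ncard_singleton] at h5
    rcases hA.size x₀ with h | h <;> rw [Nat.card_coe_set_eq] at h <;> omega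
  obtain ⟨σ, hσs, hσ⟩ : ∃ σ : Perm (Fin n), Perm.sign σ = 1 ∧
      ∀ x, Quotient.mk (orbitRel B (Fin n)) (σ x) = e (Quotient.mk (orbitRel A (Fin n)) x) := by
    rcases Int.units_eq_one_or (Perm.sign σ₀) with h | h
    · exact ⟨σ₀, h, hσ₀⟩
    · refine ⟨σ₀ * Equiv.swap x₀ y₀, by rw [map_mul, h, Perm.sign_swap hne.symm]; decide, fun x => ?_⟩
      rw [Perm.mul_apply, hσ₀]
      congr 1
      have hq : Quotient.mk (orbitRel A (Fin n)) y₀ = Quotient.mk (orbitRel A (Fin n)) x₀ :=
        Quotient.sound (orbitRel_apply.mpr hy₀)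
      rcases eq_or_ne x x₀ with rfl | h1
      · rw [swap_apply_left, hq]
      rcases eq_or_ne x y₀ with rfl | h2
      · rw [swap_apply_right, hq]
      · rw [swap_apply_of_ne_of_ne h1 h2]
  refine ⟨σ, Perm.mem_alternatingGroup.mpr hσs, (Subgroup.eq_of_le_of_card_ge ?_ ?_).symm⟩
  · rintro _ ⟨g, hg, rfl⟩
    refine mem_of_cond hB _ fun y => ?_
    have horb : ∀ u v : Fin n, σ u ∈ orbit B (σ v) ↔ u ∈ orbit A v := fun u v => by
      rw [← orbitRel_apply, ← orbitRel_apply]
      constructor <;> intro h
      · exact Quotient.exact (e.injective (by rw [← hσ, ← hσ]; exact Quotient.sound h))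
      · exact Quotient.exact (by rw [hσ, hσ, show Quotient.mk (orbitRel A (Fin n)) u =
          Quotient.mk (orbitRel A (Fin n)) v from Quotient.sound h])
    obtain ⟨x, rfl⟩ := σ.surjective y
    obtain ⟨h1, h2, h3⟩ := cond_of_mem hA ⟨g, hg⟩ x
    have hev : ∀ u, ((MulAut.conj σ).toMonoidHom g) (σ u) = σ (g u) := fun u => by simp
    refine ⟨by rw [hev]; exact (horb _ _).mpr h1, fun hh y hy => ?_, fun hh => ?_⟩
    · rw [hev] at hh
      obtain ⟨u, rfl⟩ := σ.surjective y
      rw [hev]
      exact congrArg σ (h2 (σ.injective hh) u ((horb u x).mp hy))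
    · rw [hev, hev]
      refine congrArg σ (h3 (Eq.trans ?_ hh))
      exact Nat.card_congr ((Equiv.subtypeEquiv σ fun u => (horb u x).symm))
  · rw [Subgroup.card_map_of_injective (MulAut.conj σ).injective, hcard]

theorem exists_ach : ∀ n, 3 ≤ n → Ach True n (bestOdd n) := by
  intro n hn
  obtain ⟨j, hj⟩ : ∃ j, n = 3 * j ∨ n = 3 * j + 1 ∨ n = 3 * j + 2 := ⟨n / 3, by omega⟩
  rcases hj with rfl | rfl | rfl
  · obtain ⟨i, rfl⟩ : ∃ i, j = i + 1 := ⟨j - 1, by omega⟩
    rcases i with _ | i
    · exact ach_cycle True 3 (by omega) fun _ => ⟨1, rfl⟩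
    · rw [show i + 1 + 1 = i + 2 by omega, (bestOdd_three i).1]
      exact ach_three_pow (i + 2)
  · obtain ⟨i, rfl⟩ : ∃ i, j = i + 1 := ⟨j - 1, by omega⟩
    rcases i with _ | i
    · exact ach_klein
    · rw [show i + 1 + 1 = i + 2 by omega, (bestOdd_three i).2.1,
        show 3 * (i + 2) + 1 = 4 + 3 * (i + 1) by omega]
      exact ach_add ach_klein (ach_three_pow (i + 1))
  · obtain ⟨i, rfl⟩ : ∃ i, j = i + 1 := ⟨j - 1, by omega⟩
    rcases i with _ | i
    · exact ach_cycle True 5 (by omega) fun _ => ⟨2, rfl⟩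
    · rw [show i + 1 + 1 = i + 2 by omega, (bestOdd_three i).2.2,
        show 3 * (i + 2) + 2 = 4 + 4 + 3 * i by omega, show 16 * 3 ^ i = 4 * 4 * 3 ^ i by ring]
      exact ach_add (ach_add ach_klein ach_klein) (ach_three_pow i)

/-- The conjugacy statement. -/
theorem main (n : ℕ) (A B : Subgroup (alternatingGroup (Fin n))) (hA : IsMulCommutative A) (hB : IsMulCommutative B)
    (hAmax : ∀ C : Subgroup (alternatingGroup (Fin n)), IsMulCommutative C → Nat.card C ≤ Nat.card A)
    (hBmax : ∀ C : Subgroup (alternatingGroup (Fin n)), IsMulCommutative C → Nat.card C ≤ Nat.card B) :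
    ∃ g : alternatingGroup (Fin n), B = MulAut.conj g • A := by
  classical
  by_cases hn : n < 3
  · haveI : Subsingleton (alternatingGroup (Fin n)) := by
      refine (Subgroup.subsingleton_iff (G := alternatingGroup (Fin n))).mp ?_
      haveI : Subsingleton (alternatingGroup (Fin n)) := by
        interval_cases n <;> exact ⟨by decide⟩
      infer_instance
    exact ⟨1, Subsingleton.elim _ _⟩
  have hlow : ∀ C : Subgroup (alternatingGroup (Fin n)),
      (∀ D : Subgroup (alternatingGroup (Fin n)), IsMulCommutative D → Nat.card D ≤ Nat.card C) →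
      bestOdd n ≤ Nat.card C := by
    intro C hC
    obtain ⟨D, hD, hDc, hDe⟩ := exists_ach n (by omega)
    rw [← hDc, ← Nat.card_congr (Subgroup.subgroupOfEquivOfLe (hDe trivial)).toEquiv]
    refine hC _ ⟨⟨fun x y => Subtype.ext (Subtype.ext ?_)⟩⟩
    have h := mul_comm' (⟨_, Subgroup.mem_subgroupOf.mp x.2⟩ : D) ⟨_, Subgroup.mem_subgroupOf.mp y.2⟩
    simpa using congrArg (fun z : D => (z : Perm (Fin n))) h
  have hcards : Nat.card A = Nat.card B := le_antisymm (hBmax A hA) (hAmax B hB)
  by_cases h5 : n = 5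
  · subst h5
    haveI : Fact (Nat.Prime 5) := ⟨by norm_num⟩
    have h60 : Nat.card (alternatingGroup (Fin 5)) = 60 := by
      rw [nat_card_alternatingGroup, Nat.card_eq_fintype_card, Fintype.card_fin]; rfl
    have hS : ∀ C : Subgroup (alternatingGroup (Fin 5)), IsMulCommutative C →
        bestOdd 5 ≤ Nat.card C → Nat.card C = 5 := by
      intro C hC h
      haveI := hC
      refine le_antisymm ?_ h
      rw [← Subgroup.card_map_of_injective (f := (alternatingGroup (Fin 5)).subtype) Subtype.val_injective]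
      exact (card_le_bestOdd _ inferInstance (Subgroup.map_subtype_le _)).trans (by decide)
    have mk : ∀ C : Subgroup (alternatingGroup (Fin 5)), Nat.card C = 5 → ∃ S : Sylow 5 (alternatingGroup (Fin 5)),
        (S : Subgroup (alternatingGroup (Fin 5))) = C := fun C hC => by
      have hi : ¬ 5 ∣ C.index := by
        have := C.card_mul_index
        rw [hC, h60] at this
        omega
      exact ⟨(IsPGroup.of_card (p := 5) (n := 1) (by rw [hC]; rfl)).toSylow hi, rfl⟩
    obtain ⟨S, rfl⟩ := mk A (hS A hA (hlow A hAmax))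
    obtain ⟨T, rfl⟩ := mk B (hS B hB (hlow B hBmax))
    obtain ⟨g, hg⟩ := MulAction.exists_smul_eq (alternatingGroup (Fin 5)) S T
    exact ⟨g, by rw [← hg, Sylow.coe_subgroup_smul]⟩
  have hshape : ∀ C : Subgroup (alternatingGroup (Fin n)), IsMulCommutative C → bestOdd n ≤ Nat.card C →
      Shape (C.map (alternatingGroup (Fin n)).subtype) := fun C hC h => by
    haveI := hC
    exact shape_of_card (by omega) h5 _ inferInstance (Subgroup.map_subtype_le _)
      (by rwa [Subgroup.card_map_of_injective Subtype.val_injective])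
  obtain ⟨σ, hσ, hconj⟩ := exists_conj _ _ (hshape A hA (hlow A hAmax)) (hshape B hB (hlow B hBmax))
    (by rw [Subgroup.card_map_of_injective Subtype.val_injective,
      Subgroup.card_map_of_injective Subtype.val_injective, hcards]) (by omega)
  refine ⟨⟨σ, hσ⟩, Subgroup.map_injective (alternatingGroup (Fin n)).subtype_injective ?_⟩
  rw [hconj, Subgroup.pointwise_smul_def, Subgroup.map_map]
  erw [Subgroup.map_map]
  rfl

end Cfsg.Agent.FGS2.AbelianAltUnique
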