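import Mathlib.GroupTheory.GroupAction.Quotient
import Mathlib.GroupTheory.Perm.Sign
import Mathlib.GroupTheory.SpecificGroups.Alternating
import Mathlib.Tactic

/-!
# The largest abelian subgroups of symmetric and alternating groups

An abelian group is determined on an orbit by the image of one point, so its order is at most the
product of its orbit lengths; for even permutations an orbit of length two may be omitted.
-/

set_option autoImplicit false
set_option linter.style.haveILetI false

namespace Cfsg.Agent.FGS2.AbelianPermBound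

open Equiv

/-- The largest product of a partition of `n`. -/
def best : ℕ → ℕ
  | 0 => 1
  | 1 => 1
  | 2 => 2
  | 3 => 3
  | 4 => 4
  | n + 5 => 3 * best (n + 2)

/-- The largest product of a partition of `n` without parts equal to `2`. -/
def bestOdd : ℕ → ℕ
  | 0 => 1
  | 1 => 1
  | 2 => 1
  | 3 => 3
  | 4 => 4
  | 5 => 5
  | 6 => 9
  | 7 => 12
  | 8 => 16
  | n + 9 => 3 * bestOdd (n + 6)

theorem best_add : ∀ a b, best a * best b ≤ best (a + b) := by
  intro a
  induction a using Nat.strong_induction_on with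
  | _ a iha =>
    intro b
    by_cases ha : 5 ≤ a
    · obtain ⟨c, rfl⟩ : ∃ c, a = c + 5 := ⟨a - 5, by omega⟩
      have := iha (c + 2) (by omega) b
      rw [show c + 5 + b = (c + b) + 5 by omega, best, best, mul_assoc]
      rw [show c + 2 + b = c + b + 2 by omega] at this
      omega
    induction b using Nat.strong_induction_on with
    | _ b ihb =>
      by_cases hb : 5 ≤ b
      · obtain ⟨c, rfl⟩ : ∃ c, b = c + 5 := ⟨b - 5, by omega⟩
        have := ihb (c + 2) (by omega)
        rw [show a + (c + 5) = (a + c) + 5 by omega, best, best, mul_left_comm]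
        rw [show a + (c + 2) = a + c + 2 by omega] at this
        omega
      · interval_cases a <;> interval_cases b <;> decide

theorem le_best : ∀ a, a ≤ best a := by
  intro a
  induction a using Nat.strong_induction_on with
  | _ a ih =>
    by_cases ha : 5 ≤ a
    · obtain ⟨c, rfl⟩ : ∃ c, a = c + 5 := ⟨a - 5, by omega⟩
      have := ih (c + 2) (by omega)
      rw [best]; omega
    · interval_cases a <;> decide

theorem best_pos : ∀ a, 1 ≤ best a := by
  intro a
  rcases a with _ | a
  · decide
  · exact le_trans (by omega) (le_best _)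

theorem best_mono {a b : ℕ} (h : a ≤ b) : best a ≤ best b := by
  obtain ⟨c, rfl⟩ := Nat.exists_eq_add_of_le h
  exact le_trans (Nat.le_mul_of_pos_right _ (best_pos c)) (best_add a c)

theorem bestOdd_add : ∀ a b, bestOdd a * bestOdd b ≤ bestOdd (a + b) := by
  intro a
  induction a using Nat.strong_induction_on with
  | _ a iha =>
    intro b
    by_cases ha : 9 ≤ a
    · obtain ⟨c, rfl⟩ : ∃ c, a = c + 9 := ⟨a - 9, by omega⟩
      have := iha (c + 6) (by omega) b
      rw [show c + 9 + b = (c + b) + 9 by omega, bestOdd, bestOdd, mul_assoc]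
      rw [show c + 6 + b = c + b + 6 by omega] at this
      omega
    induction b using Nat.strong_induction_on with
    | _ b ihb =>
      by_cases hb : 9 ≤ b
      · obtain ⟨c, rfl⟩ : ∃ c, b = c + 9 := ⟨b - 9, by omega⟩
        have := ihb (c + 6) (by omega)
        rw [show a + (c + 9) = (a + c) + 9 by omega, bestOdd, bestOdd, mul_left_comm]
        rw [show a + (c + 6) = a + c + 6 by omega] at this
        omega
      · interval_cases a <;> interval_cases b <;> decide

theorem le_bestOdd : ∀ a, a ≠ 2 → a ≤ bestOdd a := by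
  intro a
  induction a using Nat.strong_induction_on with
  | _ a ih =>
    intro h2
    by_cases ha : 9 ≤ a
    · obtain ⟨c, rfl⟩ : ∃ c, a = c + 9 := ⟨a - 9, by omega⟩
      have := ih (c + 6) (by omega) (by omega)
      rw [bestOdd]; omega
    · interval_cases a <;> first | decide | omega

theorem prod_le {ι : Type*} (s : Finset ι) (l : ι → ℕ) : ∏ i ∈ s, l i ≤ best (∑ i ∈ s, l i) := by
  classical
  induction s using Finset.induction_on with
  | empty => exact best_pos 0
  | @insert i s hi ih =>
    rw [Finset.prod_insert hi, Finset.sum_insert hi]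
    exact (Nat.mul_le_mul (le_best _) ih).trans (best_add _ _)

theorem prod_le_odd {ι : Type*} (s : Finset ι) (l : ι → ℕ) (h : ∀ i ∈ s, l i ≠ 2) :
    ∏ i ∈ s, l i ≤ bestOdd (∑ i ∈ s, l i) := by
  classical
  induction s using Finset.induction_on with
  | empty => simp [bestOdd]
  | @insert i s hi ih =>
    rw [Finset.prod_insert hi, Finset.sum_insert hi]
    exact (Nat.mul_le_mul (le_bestOdd _ (h i (Finset.mem_insert_self i s)))
      (ih fun j hj => h j (Finset.mem_insert_of_mem hj))).trans (bestOdd_add _ _)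

section upper

variable {n : ℕ} (A : Subgroup (Perm (Fin n)))

open MulAction

theorem comm_apply (hA : IsMulCommutative A) (a b : A) (x : Fin n) : a • b • x = b • a • x := by
  rw [smul_smul, smul_smul, mul_comm' a b]

/-- The product bound over the orbits in a set containing all orbits on which `A` acts faithfully. -/
theorem card_le_prod (hA : IsMulCommutative A) [Fintype (orbitRel.Quotient A (Fin n))]
    (s : Finset (orbitRel.Quotient A (Fin n)))
    (hs : ∀ a b : A, (∀ ω ∈ s, a • ω.out = b • ω.out) → a = b) :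
    Nat.card A ≤ ∏ ω ∈ s, Nat.card (orbit A ω.out) := by
  classical
  rw [← Finset.prod_coe_sort, ← Nat.card_pi]
  exact Nat.card_le_card_of_injective
    (fun a ω => (⟨a • ω.1.out, mem_orbit _ a⟩ : orbit A ω.1.out))
    fun a b h => hs a b fun ω hω => congrArg Subtype.val (congrFun h ⟨ω, hω⟩)

theorem eq_on_orbit (hA : IsMulCommutative A) (a b : A) (ω : orbitRel.Quotient A (Fin n))
    (h : a • ω.out = b • ω.out) (x : Fin n) (hx : Quotient.mk (orbitRel A (Fin n)) x = ω) :
    a • x = b • x := by
  have hxo : x ∈ orbit A ω.out := by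
    rw [← orbitRel_apply]
    exact Quotient.exact (hx.trans ω.out_eq.symm)
  obtain ⟨c, rfl⟩ := hxo
  show a • c • ω.out = b • c • ω.out
  rw [comm_apply A hA a c, comm_apply A hA b c, h]

theorem ext_of_forall (hA : IsMulCommutative A) (a b : A)
    (h : ∀ x : Fin n, a • x = b • x) : a = b :=
  Subtype.ext (Equiv.ext fun x => h x)

theorem card_le_best (hA : IsMulCommutative A) : Nat.card A ≤ best n := by
  classical
  haveI := Fintype.ofFinite (orbitRel.Quotient A (Fin n))
  have hsum : ∑ ω : orbitRel.Quotient A (Fin n), Nat.card (orbit A ω.out) = n := by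
    rw [← Nat.card_sigma, ← Nat.card_congr (selfEquivSigmaOrbits A (Fin n)), Nat.card_eq_fintype_card,
      Fintype.card_fin]
  refine le_trans (card_le_prod A hA Finset.univ fun a b h => ?_) (le_of_le_of_eq (prod_le _ _) (by rw [hsum]))
  exact ext_of_forall A hA a b fun x => eq_on_orbit A hA a b _ (h _ (Finset.mem_univ _)) x rfl

theorem card_le_bestOdd (hA : IsMulCommutative A) (heven : A ≤ alternatingGroup (Fin n)) :
    Nat.card A ≤ max (bestOdd n) (best (n - 2)) := by
  classical
  haveI := Fintype.ofFinite (orbitRel.Quotient A (Fin n))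
  have hsum : ∑ ω : orbitRel.Quotient A (Fin n), Nat.card (orbit A ω.out) = n := by
    rw [← Nat.card_sigma, ← Nat.card_congr (selfEquivSigmaOrbits A (Fin n)), Nat.card_eq_fintype_card,
      Fintype.card_fin]
  by_cases h2 : ∃ ω : orbitRel.Quotient A (Fin n), Nat.card (orbit A ω.out) = 2
  · obtain ⟨ω₀, hω₀⟩ := h2
    refine le_max_of_le_right ?_
    have h1 : ∑ ω ∈ Finset.univ.erase ω₀, Nat.card (orbit A ω.out) = n - 2 := by
      have := Finset.add_sum_erase Finset.univ (fun ω : orbitRel.Quotient A (Fin n) => Nat.card (orbit A ω.out))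
        (Finset.mem_univ ω₀)
      simp only [hω₀, hsum] at this
      omega
    refine le_trans (card_le_prod A hA (Finset.univ.erase ω₀) fun a b h => ?_)
      (le_of_le_of_eq (prod_le _ _) (by rw [h1]))
    -- the quotient of `a` and `b` moves at most two points
    set c := b⁻¹ * a with hc
    have hfix : ∀ x : Fin n, Quotient.mk (orbitRel A (Fin n)) x ≠ ω₀ → c • x = x := fun x hx => by
      rw [hc, mul_smul, eq_on_orbit A hA a b _ (h _ (Finset.mem_erase.mpr ⟨hx, Finset.mem_univ _⟩)) x rfl,
        inv_smul_smul]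
    have hsupp : ((c : Perm (Fin n)).support : Set (Fin n)) ⊆ orbit A ω₀.out := by
      intro x hx
      rw [Finset.mem_coe, Perm.mem_support] at hx
      by_contra hxo
      refine hx (hfix x fun he => hxo ?_)
      rw [← orbitRel_apply]
      exact Quotient.exact (he.trans ω₀.out_eq.symm)
    have hcard : (c : Perm (Fin n)).support.card ≤ 2 := by
      have h3 := Nat.card_mono (Set.toFinite _) hsupp
      rw [hω₀, Nat.card_coe_set_eq, Set.ncard_coe_finset] at h3
      exact h3
    by_contra hab
    have hc1 : (c : Perm (Fin n)) ≠ 1 := by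
      intro e
      exact hab (mul_right_injective b⁻¹ (show b⁻¹ * a = b⁻¹ * b by rw [inv_mul_cancel]; exact Subtype.ext e))
    have h4 : (c : Perm (Fin n)).IsSwap := Perm.card_support_eq_two.mp
      (le_antisymm hcard (Perm.two_le_card_support_of_ne_one hc1))
    have h5 := Perm.mem_alternatingGroup.mp (heven c.2)
    rw [h4.sign_eq] at h5
    exact absurd h5 (by decide)
  · push Not at h2
    refine le_max_of_le_left ?_
    refine le_trans (card_le_prod A hA Finset.univ fun a b h => ?_)
      (le_of_le_of_eq (prod_le_odd _ _ fun ω _ => h2 ω) (by rw [hsum]))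
    exact ext_of_forall A hA a b fun x => eq_on_orbit A hA a b _ (h _ (Finset.mem_univ _)) x rfl

end upper

/-- An abelian subgroup of order `c` of permutations of `n` points, even if `e`. -/
def Ach (e : Prop) (n c : ℕ) : Prop :=
  ∃ A : Subgroup (Perm (Fin n)), IsMulCommutative A ∧ Nat.card A = c ∧ (e → A ≤ alternatingGroup (Fin n))

theorem ach_add {e : Prop} {m n a b : ℕ} (h₁ : Ach e m a) (h₂ : Ach e n b) : Ach e (m + n) (a * b) := by
  obtain ⟨A, hA, hAc, hAe⟩ := h₁
  obtain ⟨B, hB, hBc, hBe⟩ := h₂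
  let f : Perm (Fin m) × Perm (Fin n) →* Perm (Fin (m + n)) :=
    ((finSumFinEquiv : Fin m ⊕ Fin n ≃ Fin (m + n)).permCongrHom).toMonoidHom.comp
      (Perm.sumCongrHom (Fin m) (Fin n))
  have hf : Function.Injective f := by
    rw [MonoidHom.coe_comp]
    exact (MulEquiv.injective _).comp Perm.sumCongrHom_injective
  refine ⟨(A.prod B).map f, ?_, ?_, fun he => ?_⟩
  · haveI := hA
    haveI := hB
    haveI : IsMulCommutative (A.prod B) := ⟨⟨fun x y => Subtype.ext (Prod.ext
      (congrArg Subtype.val (mul_comm' (⟨x.1.1, x.2.1⟩ : A) ⟨y.1.1, y.2.1⟩))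
      (congrArg Subtype.val (mul_comm' (⟨x.1.2, x.2.2⟩ : B) ⟨y.1.2, y.2.2⟩)))⟩⟩
    infer_instance
  · rw [Subgroup.card_map_of_injective hf, Nat.card_congr (Subgroup.prodEquiv A B).toEquiv, Nat.card_prod,
      hAc, hBc]
  · rintro _ ⟨⟨x, y⟩, hxy, rfl⟩
    rw [Perm.mem_alternatingGroup]
    show Perm.sign (finSumFinEquiv.permCongr (Equiv.sumCongr x y)) = 1
    rw [Perm.sign_permCongr, Perm.sign_sumCongr, Perm.mem_alternatingGroup.mp (hAe he hxy.1),
      Perm.mem_alternatingGroup.mp (hBe he hxy.2), mul_one]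

theorem ach_zero (e : Prop) : Ach e 0 1 :=
  ⟨⊥, inferInstance, Subgroup.card_bot, fun _ => bot_le⟩

theorem ach_cycle (e : Prop) (n : ℕ) (hn : 2 ≤ n) (h : e → Odd n) : Ach e n n := by
  refine ⟨Subgroup.zpowers (finRotate n), inferInstance, ?_, fun he => ?_⟩
  · rw [Nat.card_zpowers]
    obtain ⟨m, rfl⟩ : ∃ m, n = m + 2 := ⟨n - 2, by omega⟩
    rw [isCycle_finRotate.orderOf, support_finRotate, Finset.card_univ, Fintype.card_fin]
  · rw [Subgroup.zpowers_le, Perm.mem_alternatingGroup]
    obtain ⟨m, rfl⟩ : ∃ m, n = m + 1 := ⟨n - 1, by omega⟩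
    have hm : Even m := by have := h he; rw [Nat.odd_add_one, Nat.not_odd_iff_even] at this; exact this
    rw [sign_finRotate]
    exact Even.neg_one_pow hm

theorem ach_klein : Ach True 4 4 := by
  set a : Perm (Fin 4) := Equiv.swap 0 1 * Equiv.swap 2 3 with ha
  set b : Perm (Fin 4) := Equiv.swap 0 2 * Equiv.swap 1 3 with hb
  have haa : a * a = 1 := by decide
  have hbb : b * b = 1 := by decide
  have hab : a * b = b * a := by decide
  let V : Subgroup (Perm (Fin 4)) :=
    { carrier := {1, a, b, a * b}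
      one_mem' := Or.inl rfl
      mul_mem' := fun {x y} hx hy => by
        simp only [Set.mem_insert_iff, Set.mem_singleton_iff] at hx hy ⊢
        rcases hx with rfl | rfl | rfl | rfl <;> rcases hy with rfl | rfl | rfl | rfl <;> decide
      inv_mem' := fun {x} hx => by
        simp only [Set.mem_insert_iff, Set.mem_singleton_iff] at hx ⊢
        rcases hx with rfl | rfl | rfl | rfl <;> decide }
  refine ⟨V, ⟨⟨fun ⟨x, hx⟩ ⟨y, hy⟩ => Subtype.ext ?_⟩⟩, ?_, fun _ x hx => ?_⟩
  · show x * y = y * x
    change x ∈ ({1, a, b, a * b} : Set (Perm (Fin 4))) at hx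
    change y ∈ ({1, a, b, a * b} : Set (Perm (Fin 4))) at hy
    simp only [Set.mem_insert_iff, Set.mem_singleton_iff] at hx hy
    rcases hx with rfl | rfl | rfl | rfl <;> rcases hy with rfl | rfl | rfl | rfl <;> decide
  · show Nat.card ({1, a, b, a * b} : Set (Perm (Fin 4))) = 4
    rw [Nat.card_coe_set_eq, Set.ncard_insert_of_notMem (by simp [ha, hb]; decide),
      Set.ncard_insert_of_notMem (by simp [ha, hb]; decide), Set.ncard_pair (by decide)]
  · change x ∈ ({1, a, b, a * b} : Set (Perm (Fin 4))) at hx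
    simp only [Set.mem_insert_iff, Set.mem_singleton_iff] at hx
    rw [Perm.mem_alternatingGroup]
    rcases hx with rfl | rfl | rfl | rfl <;> decide

theorem ach_three_pow {e : Prop} : ∀ k, Ach e (3 * k) (3 ^ k) := by
  intro k
  induction k with
  | zero => exact ach_zero e
  | succ k ih =>
    rw [show 3 * (k + 1) = 3 * k + 3 by omega, pow_succ]
    exact ach_add ih (ach_cycle e 3 (by omega) fun _ => ⟨1, rfl⟩)

theorem ach_weaken {n c : ℕ} (h : Ach True n c) (e : Prop) : Ach e n c := by
  obtain ⟨A, h1, h2, h3⟩ := h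
  exact ⟨A, h1, h2, fun _ => h3 trivial⟩

theorem best_three : ∀ k, best (3 * (k + 1)) = 3 ^ (k + 1) ∧ best (3 * (k + 1) + 1) = 4 * 3 ^ k ∧
    best (3 * (k + 1) + 2) = 2 * 3 ^ (k + 1) := by
  intro k
  induction k with
  | zero => decide
  | succ k ih =>
    refine ⟨?_, ?_, ?_⟩
    · rw [show 3 * (k + 1 + 1) = (3 * k + 1) + 5 by omega, best, show 3 * k + 1 + 2 = 3 * (k + 1) by omega,
        ih.1]; ring
    · rw [show 3 * (k + 1 + 1) + 1 = (3 * k + 2) + 5 by omega, best,
        show 3 * k + 2 + 2 = 3 * (k + 1) + 1 by omega, ih.2.1]; ring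
    · rw [show 3 * (k + 1 + 1) + 2 = (3 * k + 3) + 5 by omega, best,
        show 3 * k + 3 + 2 = 3 * (k + 1) + 2 by omega, ih.2.2]; ring

theorem bestOdd_three : ∀ k, bestOdd (3 * (k + 2)) = 3 ^ (k + 2) ∧ bestOdd (3 * (k + 2) + 1) = 4 * 3 ^ (k + 1) ∧
    bestOdd (3 * (k + 2) + 2) = 16 * 3 ^ k := by
  intro k
  induction k with
  | zero => decide
  | succ k ih =>
    refine ⟨?_, ?_, ?_⟩
    · rw [show 3 * (k + 1 + 2) = (3 * k) + 9 by omega, bestOdd, show 3 * k + 6 = 3 * (k + 2) by omega,
        ih.1]; ring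
    · rw [show 3 * (k + 1 + 2) + 1 = (3 * k + 1) + 9 by omega, bestOdd,
        show 3 * k + 1 + 6 = 3 * (k + 2) + 1 by omega, ih.2.1]; ring
    · rw [show 3 * (k + 1 + 2) + 2 = (3 * k + 2) + 9 by omega, bestOdd,
        show 3 * k + 2 + 6 = 3 * (k + 2) + 2 by omega, ih.2.2]; ring

theorem symmetric_greatest {n : ℕ} (h : Ach False n (best n)) :
    IsGreatest {c : ℕ | ∃ A : Subgroup (Perm (Fin n)), IsMulCommutative A ∧ Nat.card A = c} (best n) := by
  obtain ⟨A, hA, hAc, -⟩ := h
  refine ⟨⟨A, hA, hAc⟩, ?_⟩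
  rintro c ⟨B, hB, rfl⟩
  exact card_le_best B hB

theorem alternating_greatest {n c : ℕ} (h : Ach True n c) (h1 : bestOdd n = c) (h2 : best (n - 2) ≤ c) :
    IsGreatest {c : ℕ | ∃ A : Subgroup (alternatingGroup (Fin n)), IsMulCommutative A ∧ Nat.card A = c} c := by
  obtain ⟨A, hA, hAc, hAe⟩ := h
  refine ⟨⟨A.subgroupOf (alternatingGroup (Fin n)), ?_, ?_⟩, ?_⟩
  · refine ⟨⟨fun x y => Subtype.ext (Subtype.ext ?_)⟩⟩
    have h := mul_comm' (⟨_, Subgroup.mem_subgroupOf.mp x.2⟩ : A) ⟨_, Subgroup.mem_subgroupOf.mp y.2⟩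
    simpa using congrArg (fun z : A => (z : Perm (Fin n))) h
  · rw [Nat.card_congr (Subgroup.subgroupOfEquivOfLe (hAe trivial)).toEquiv, hAc]
  · rintro d ⟨B, hB, rfl⟩
    haveI := hB
    rw [← Subgroup.card_map_of_injective (f := (alternatingGroup (Fin n)).subtype)
      Subtype.val_injective]
    exact (card_le_bestOdd _ inferInstance (Subgroup.map_subtype_le _)).trans (max_le h1.le h2)

end Cfsg.Agent.FGS2.AbelianPermBound
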