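import Cfsg.Agent.Screen.FourCentralizer
import Mathlib.GroupTheory.Index
import Mathlib.Data.Nat.Choose.Dvd
import Mathlib.Tactic.Group
import Mathlib.Tactic.Ring

/-! A nonabelian finite group has at most `|G| / p` orbits under its automorphism group, for the
least prime divisor `p` of its order. -/

set_option autoImplicit false
set_option linter.style.haveILetI false
set_option linter.unusedSectionVars false

namespace Cfsg.Agent.FGS2.AutOrbitBound

open scoped Classical
open Subgroup Finset

variable {G : Type*} [Group G] [Fintype G]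

/-- The elements of the orbit of `g` under automorphisms. -/
noncomputable def orb (g : G) : Finset G :=
  univ.filter fun h : G => ∃ φ : MulAut G, φ g = h

/-- Weights bound the number of orbits. -/
theorem card_orbits_mul_le (M : ℕ) (w : G → ℕ) (h : ∀ g, M ≤ w g * (orb g).card) :
    Nat.card (MulAction.orbitRel.Quotient (MulAut G) G) * M ≤ ∑ g, w g := by
  haveI : Fintype (MulAction.orbitRel.Quotient (MulAut G) G) := Fintype.ofFinite _
  let π : G → MulAction.orbitRel.Quotient (MulAut G) G := Quotient.mk''
  rw [← Finset.sum_fiberwise univ π w, Nat.card_eq_fintype_card, ← Finset.card_univ, ← smul_eq_mul,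
    ← Finset.sum_const]
  refine Finset.sum_le_sum fun q _ => ?_
  obtain ⟨g₀, rfl⟩ := Quotient.mk''_surjective q
  set F := univ.filter fun g => π g = Quotient.mk'' g₀ with hF
  have horb : ∀ g ∈ F, orb g = F := by
    intro g hg
    rw [hF, mem_filter] at hg
    ext k
    simp only [orb, hF, mem_filter, mem_univ, true_and]
    constructor
    · rintro ⟨φ, rfl⟩
      rw [← hg.2]
      exact Quotient.sound ⟨φ, rfl⟩
    · intro hk
      obtain ⟨φ, hφ⟩ := Quotient.exact (hk.trans hg.2.symm)
      exact ⟨φ, hφ⟩
  have hne : 0 < F.card := card_pos.2 ⟨g₀, by simp [hF, π]⟩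
  refine Nat.le_of_mul_le_mul_left ?_ hne
  calc F.card * M = ∑ _g ∈ F, M := by rw [sum_const, smul_eq_mul]
    _ ≤ ∑ g ∈ F, w g * F.card := Finset.sum_le_sum fun g hg => horb g hg ▸ h g
    _ = F.card * ∑ g ∈ F, w g := by rw [← Finset.sum_mul, mul_comm]

theorem class_le_orb (g : G) : (univ.image fun k => k * g * k⁻¹).card ≤ (orb g).card := by
  refine card_le_card fun v hv => ?_
  obtain ⟨k, -, rfl⟩ := mem_image.1 hv
  exact mem_filter.2 ⟨mem_univ _, MulAut.conj k, rfl⟩

theorem one_le_orb (g : G) : 1 ≤ (orb g).card :=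
  card_pos.2 ⟨g, mem_filter.2 ⟨mem_univ _, 1, rfl⟩⟩

theorem index_centralizer_eq (g : G) :
    (centralizer ({g} : Set G)).index = (univ.image fun k => k * g * k⁻¹).card := by
  have h := Screen.FourCentralizer.card_eq_image_mul (⊤ : Subgroup G) g le_top
  rw [Subgroup.card_top] at h
  have he : (univ.filter fun k => k ∈ (⊤ : Subgroup G)) = univ := filter_true_of_mem fun k _ => mem_top k
  rw [he, ← index_mul_card (centralizer ({g} : Set G))] at h
  exact Nat.eq_of_mul_eq_mul_right Nat.card_pos h

theorem index_ge_of_ne_top {H : Subgroup G} (h : H ≠ ⊤) : (Nat.card G).minFac ≤ H.index :=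
  Nat.minFac_le_of_dvd (one_lt_index_of_ne_top h) H.index_dvd_card

theorem mem_center_iff_centralizer {g : G} : g ∈ center G ↔ centralizer ({g} : Set G) = ⊤ := by
  rw [Subgroup.mem_center_iff, eq_top_iff]
  exact ⟨fun h k _ => mem_centralizer_singleton_iff.2 (h k),
    fun h k => mem_centralizer_singleton_iff.1 (h (mem_top k))⟩

/-- The index of the center is at least `p ^ 2`. -/
theorem sq_le_index_center (hna : ¬ IsMulCommutative G) :
    (Nat.card G).minFac * (Nat.card G).minFac ≤ (center G).index := by
  set p := (Nat.card G).minFac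
  have hne : center G ≠ ⊤ := fun h => hna ⟨⟨fun a b => ((mem_center_iff.1 (h ▸ mem_top b)) a)⟩⟩
  have h1 := one_lt_index_of_ne_top hne
  have hq := Nat.minFac_prime (Nat.ne_of_gt h1)
  have hd := Nat.minFac_dvd (center G).index
  rcases Nat.lt_or_ge ((center G).index / (center G).index.minFac) 2 with h2 | h2
  · exfalso
    have hqi : (center G).index = (center G).index.minFac := by
      have h3 := Nat.div_mul_cancel hd
      rcases Nat.eq_zero_or_pos ((center G).index / (center G).index.minFac) with h | h
      · rw [h, zero_mul] at h3; omega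
      · rw [show (center G).index / (center G).index.minFac = 1 by omega, one_mul] at h3; exact h3.symm
    haveI : Fact (center G).index.Prime := ⟨by rw [hqi]; exact hq⟩
    haveI : IsCyclic (G ⧸ center G) := isCyclic_of_prime_card (p := (center G).index) (center G).index_eq_card.symm
    exact hna ⟨⟨fun a b => (commutative_of_cyclic_center_quotient (QuotientGroup.mk' (center G))
      (QuotientGroup.ker_mk' _).le) a b⟩⟩
  · calc p * p ≤ ((center G).index / (center G).index.minFac) * (center G).index.minFac :=
          Nat.mul_le_mul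
            (Nat.minFac_le_of_dvd h2 ((Nat.div_dvd_of_dvd hd).trans (center G).index_dvd_card))
            (Nat.minFac_le_of_dvd hq.two_le (hd.trans (center G).index_dvd_card))
      _ = _ := Nat.div_mul_cancel hd

theorem filter_mem_card (H : Subgroup G) [DecidablePred (· ∈ H)] : (univ.filter (· ∈ H)).card = Nat.card H := by
  rw [Nat.card_eq_fintype_card, Fintype.card_subtype]

theorem sum_two_level (a b : ℕ) (P : G → Prop) [DecidablePred P] :
    ∑ g, (if P g then a else b) = a * (univ.filter P).card + b * (univ.filter fun g => ¬ P g).card := by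
  rw [Finset.sum_ite, sum_const, sum_const, smul_eq_mul, smul_eq_mul, mul_comm a, mul_comm b]

theorem sum_three_level (a b c : ℕ) (P Q : G → Prop) [DecidablePred P] [DecidablePred Q] (hPQ : ∀ g, P g → Q g) :
    ∑ g, (if P g then a else if Q g then b else c) + b * (univ.filter P).card =
      a * (univ.filter P).card + b * (univ.filter Q).card + c * (univ.filter fun g => ¬ Q g).card := by
  rw [Finset.sum_ite, Finset.sum_ite, sum_const, sum_const, sum_const, smul_eq_mul, smul_eq_mul, smul_eq_mul,
    Finset.filter_filter, Finset.filter_filter]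
  have h1 : (univ.filter fun g => ¬ P g ∧ ¬ Q g) = univ.filter fun g => ¬ Q g :=
    filter_congr fun g _ => ⟨fun h => h.2, fun h => ⟨fun hP => h (hPQ g hP), h⟩⟩
  have h2 : (univ.filter fun g => ¬ P g ∧ Q g).card + (univ.filter P).card = (univ.filter Q).card := by
    rw [← card_union_of_disjoint (disjoint_filter.2 fun g _ h h' => h.1 h')]
    congr 1
    ext g
    simp only [mem_union, mem_filter, mem_univ, true_and]
    refine ⟨fun h => h.elim (fun h => h.2) (hPQ g), fun h => ?_⟩
    by_cases hP : P g
    · exact Or.inr hP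
    · exact Or.inl ⟨hP, h⟩
  rw [h1, ← h2]
  ring

/-- Powers of a product when the commutator is central. -/
theorem mul_pow_of_central {a b : G} (h : b * a * b⁻¹ * a⁻¹ ∈ center G) (n : ℕ) :
    (a * b) ^ n = a ^ n * b ^ n * (b * a * b⁻¹ * a⁻¹) ^ n.choose 2 := by
  set c := b * a * b⁻¹ * a⁻¹ with hc
  have hcen : ∀ (k : ℕ) (g : G), g * c ^ k = c ^ k * g := fun k g => mem_center_iff.1 (pow_mem h k) g
  have hba : b * a = c * (a * b) := by rw [hc]; group
  have hswap : ∀ m : ℕ, b ^ m * a = c ^ m * (a * b ^ m) := by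
    intro m
    induction m with
    | zero => simp
    | succ m ih =>
      calc b ^ (m + 1) * a = b * (b ^ m * a) := by rw [pow_succ']; group
        _ = b * c ^ m * a * b ^ m := by rw [ih]; group
        _ = c ^ m * (b * a) * b ^ m := by rw [hcen m b]; group
        _ = c ^ m * c * a * (b * b ^ m) := by rw [hba]; group
        _ = _ := by rw [← pow_succ, ← pow_succ']; group
  induction n with
  | zero => simp
  | succ n ih =>
    have hch : (n + 1).choose 2 = n + n.choose 2 := by rw [Nat.choose_succ_succ', Nat.choose_one_right]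
    calc (a * b) ^ (n + 1) = a ^ n * b ^ n * c ^ n.choose 2 * (a * b) := by rw [pow_succ, ih]
      _ = a ^ n * b ^ n * (a * b) * c ^ n.choose 2 := by
          rw [mul_assoc, ← hcen, ← mul_assoc]
      _ = a ^ n * (b ^ n * a) * b * c ^ n.choose 2 := by group
      _ = a ^ n * c ^ n * (a * b ^ n) * b * c ^ n.choose 2 := by rw [hswap]; group
      _ = c ^ n * (a ^ n * a) * (b ^ n * b) * c ^ n.choose 2 := by rw [hcen n (a ^ n)]; group
      _ = a ^ (n + 1) * b ^ (n + 1) * (c ^ n * c ^ n.choose 2) := by
          rw [← pow_succ, ← pow_succ, ← hcen n (a ^ (n + 1)), mul_assoc (a ^ (n + 1)) (c ^ n),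
            ← hcen n (b ^ (n + 1))]
          simp only [mul_assoc]
      _ = _ := by rw [hch, pow_add c]

/-- An automorphism fixing a normal subgroup of index `p` and multiplying an outside element. -/
theorem exists_aut {p : ℕ} (hp : p.Prime) (H : Subgroup G) [H.Normal] (hidx : H.index = p) {x u : G}
    (hx : x ∉ H) (hu : u ∈ H) (huc : ∀ h ∈ H, Commute u h) (hpow : (x * u) ^ p = x ^ p) :
    ∃ σ : MulAut G, σ x = x * u ∧ ∀ h ∈ H, σ h = h := by
  haveI := Fact.mk hp
  have hq : orderOf (QuotientGroup.mk' H x) = p := by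
    refine orderOf_eq_prime ?_ fun h => hx ((QuotientGroup.eq_one_iff x).1 h)
    rw [← hidx, index_eq_card]
    exact pow_card_eq_one'
  haveI hcyc : IsCyclic (G ⧸ H) := isCyclic_of_prime_card (p := p) (by rw [← index_eq_card]; exact hidx)
  have hgen : ∀ g : G, ∃ i : ℕ, (x ^ i)⁻¹ * g ∈ H := by
    intro g
    have h1 : zpowers (QuotientGroup.mk' H x) = ⊤ := eq_top_of_card_eq _ (by
      rw [Nat.card_zpowers, hq, ← index_eq_card, hidx])
    obtain ⟨i, hi⟩ := (mem_powers_iff_mem_zpowers (x := QuotientGroup.mk' H x)).2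
      (h1.symm ▸ mem_top (QuotientGroup.mk' H g))
    refine ⟨i, QuotientGroup.eq.1 ?_⟩
    simpa using hi
  have hmem : ∀ i : ℕ, x ^ i ∈ H → p ∣ i := by
    intro i hi
    rw [← hq]
    exact orderOf_dvd_of_pow_eq_one (by rw [← map_pow]; exact (QuotientGroup.eq_one_iff _).2 hi)
  have hsame : ∀ i : ℕ, p ∣ i → (x * u) ^ i = x ^ i := by
    rintro i ⟨m, rfl⟩
    rw [pow_mul, hpow, ← pow_mul]
  have wd : ∀ {i j : ℕ} {g : G}, (x ^ i)⁻¹ * g ∈ H → (x ^ j)⁻¹ * g ∈ H →
      (x * u) ^ i * ((x ^ i)⁻¹ * g) = (x * u) ^ j * ((x ^ j)⁻¹ * g) := by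
    intro i j g hi hj
    wlog hij : i ≤ j generalizing i j
    · exact (this hj hi (Nat.le_of_not_le hij)).symm
    obtain ⟨d, rfl⟩ := Nat.exists_eq_add_of_le hij
    have hd : x ^ d ∈ H := by
      have h1 := H.mul_mem hi (H.inv_mem hj)
      rwa [show (x ^ i)⁻¹ * g * ((x ^ (i + d))⁻¹ * g)⁻¹ = x ^ d by rw [pow_add]; group] at h1
    rw [pow_add, pow_add, hsame d (hmem d hd)]
    group
  let σ₀ : G → G := fun g => (x * u) ^ (hgen g).choose * ((x ^ (hgen g).choose)⁻¹ * g)
  have hσ : ∀ (i : ℕ) (h : G), h ∈ H → σ₀ (x ^ i * h) = (x * u) ^ i * h := by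
    intro i h hh
    show _ * _ = _
    rw [wd (hgen (x ^ i * h)).choose_spec (show (x ^ i)⁻¹ * (x ^ i * h) ∈ H by rwa [inv_mul_cancel_left]),
      inv_mul_cancel_left]
  have hconj : ∀ h ∈ H, (x * u)⁻¹ * h * (x * u) = x⁻¹ * h * x := by
    intro h hh
    have h2 : x⁻¹ * h * x ∈ H := by simpa using Subgroup.Normal.conj_mem inferInstance h hh x⁻¹
    calc (x * u)⁻¹ * h * (x * u) = u⁻¹ * ((x⁻¹ * h * x) * u) := by group
      _ = _ := by rw [← (huc _ h2).eq, inv_mul_cancel_left]
  have hconjk : ∀ (j : ℕ) (h : G), h ∈ H →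
      ((x * u) ^ j)⁻¹ * h * (x * u) ^ j = (x ^ j)⁻¹ * h * x ^ j := by
    intro j
    induction j with
    | zero => intro h _; simp
    | succ j ih =>
      intro h hh
      have h2 : (x ^ j)⁻¹ * h * x ^ j ∈ H := by
        simpa using Subgroup.Normal.conj_mem inferInstance h hh (x ^ j)⁻¹
      calc ((x * u) ^ (j + 1))⁻¹ * h * (x * u) ^ (j + 1)
          = (x * u)⁻¹ * (((x * u) ^ j)⁻¹ * h * (x * u) ^ j) * (x * u) := by rw [pow_succ]; group
        _ = x⁻¹ * ((x ^ j)⁻¹ * h * x ^ j) * x := by rw [ih h hh, hconj _ h2]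
        _ = _ := by rw [pow_succ]; group
  let f : G →* G := MonoidHom.mk' σ₀ fun a b => by
    obtain ⟨i, hi⟩ := hgen a
    obtain ⟨j, hj⟩ := hgen b
    obtain ⟨h, hh, rfl⟩ : ∃ h ∈ H, a = x ^ i * h := ⟨_, hi, by group⟩
    obtain ⟨k, hk, rfl⟩ : ∃ k ∈ H, b = x ^ j * k := ⟨_, hj, by group⟩
    have h2 : (x ^ j)⁻¹ * h * x ^ j ∈ H := by
      simpa using Subgroup.Normal.conj_mem inferInstance h hh (x ^ j)⁻¹
    rw [show x ^ i * h * (x ^ j * k) = x ^ (i + j) * ((x ^ j)⁻¹ * h * x ^ j * k) by rw [pow_add]; group,
      hσ _ _ (H.mul_mem h2 hk), hσ i h hh, hσ j k hk, pow_add, ← hconjk j h hh]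
    group
  have hinj : Function.Injective f := by
    rw [← MonoidHom.ker_eq_bot_iff, eq_bot_iff]
    intro g hg
    obtain ⟨i, hi⟩ := hgen g
    obtain ⟨h, hh, rfl⟩ : ∃ h ∈ H, g = x ^ i * h := ⟨_, hi, by group⟩
    have h1 : (x * u) ^ i * h = 1 := (hσ i h hh).symm.trans hg
    have h2 : QuotientGroup.mk' H x ^ i = 1 := by
      have := congrArg (QuotientGroup.mk' H) h1
      rwa [map_mul, map_pow, map_mul, show QuotientGroup.mk' H h = 1 from (QuotientGroup.eq_one_iff h).2 hh,
        show QuotientGroup.mk' H u = 1 from (QuotientGroup.eq_one_iff u).2 hu, mul_one, mul_one, map_one] at this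
    rw [hsame i (hq ▸ orderOf_dvd_of_pow_eq_one h2)] at h1
    rw [Subgroup.mem_bot, h1]
  refine ⟨MulEquiv.ofBijective f (Finite.injective_iff_bijective.1 hinj), ?_, fun h hh => ?_⟩
  · show σ₀ x = _
    simpa using hσ 1 1 H.one_mem
  · show σ₀ h = h
    simpa using hσ 0 h hh

/-- The main bound. -/
theorem card_orbits_le (hna : ¬ IsMulCommutative G) :
    Nat.card (MulAction.orbitRel.Quotient (MulAut G) G) ≤ Nat.card G / (Nat.card G).minFac := by
  set p := (Nat.card G).minFac with hp_def
  set K := Nat.card (MulAction.orbitRel.Quotient (MulAut G) G) with hK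
  have hn1 : Nat.card G ≠ 1 := by
    intro h
    haveI := (Nat.card_eq_one_iff_unique.1 h).1
    exact hna ⟨⟨fun a b => Subsingleton.elim _ _⟩⟩
  have hp : p.Prime := Nat.minFac_prime hn1
  haveI := Fact.mk hp
  have hp2 := hp.two_le
  suffices h : K * p ≤ Nat.card G by exact (Nat.le_div_iff_mul_le hp.pos).2 h
  have hzi := (center G).index_mul_card
  set z := Nat.card (center G) with hz
  set ι := (center G).index with hι
  have hι2 : p * p ≤ ι := sq_le_index_center hna
  have hclass : ∀ g : G, g ∉ center G → p ≤ (univ.image fun k => k * g * k⁻¹).card := fun g hg => by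
    rw [← index_centralizer_eq]
    exact index_ge_of_ne_top fun h => hg (mem_center_iff_centralizer.2 h)
  set Sset : Set G := {g | g ∉ center G ∧ (centralizer ({g} : Set G)).index ≤ p}
  have hS : ∀ g ∈ Sset, (centralizer ({g} : Set G)).index = p ∧ (centralizer ({g} : Set G)).Normal := by
    intro g hg
    have h1 : (centralizer ({g} : Set G)).index = p :=
      le_antisymm hg.2 (index_ge_of_ne_top fun h => hg.1 (mem_center_iff_centralizer.2 h))
    exact ⟨h1, Subgroup.normal_of_index_eq_minFac_card (h1.trans hp_def)⟩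
  by_cases hT : closure Sset ⊔ center G = ⊤
  swap
  · -- many elements with large classes
    set T := closure Sset ⊔ center G
    have hTidx : p ≤ T.index := index_ge_of_ne_top hT
    have hι3 : p * (p + 1) ≤ ι := by
      rcases Nat.lt_or_ge ι (p * (p + 1)) with hlt | hge
      swap
      · exact hge
      exfalso
      have hιeq : ι = p * p := by
        have hd : ι ∣ Nat.card G := (center G).index_dvd_card
        obtain ⟨q, hq, hqd⟩ := Nat.exists_prime_and_dvd (n := ι) (by nlinarith)
        obtain ⟨m, hm⟩ := hqd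
        have hpq : p ≤ q := Nat.minFac_le_of_dvd hq.two_le ((Dvd.intro m hm.symm).trans hd)
        have hm1 : 2 ≤ m := by
          by_contra hc
          interval_cases m
          · nlinarith
          · rw [mul_one] at hm
            haveI := Fact.mk hq
            haveI : IsCyclic (G ⧸ center G) := isCyclic_of_prime_card (p := q) (by rw [← index_eq_card]; exact hm)
            exact hna ⟨⟨fun a b => (commutative_of_cyclic_center_quotient (QuotientGroup.mk' (center G))
              (QuotientGroup.ker_mk' _).le) a b⟩⟩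
        have hpm : p ≤ m := Nat.minFac_le_of_dvd hm1 ((Dvd.intro_left q hm.symm).trans hd)
        rcases hpq.lt_or_eq with h1 | h1
        · exfalso; nlinarith
        rcases hpm.lt_or_eq with h2 | h2
        · exfalso; nlinarith
        rw [hm, ← h1, ← h2]
      refine hT (eq_top_iff.2 fun g _ => ?_)
      by_cases hg : g ∈ center G
      · exact mem_sup_right hg
      refine mem_sup_left (Subgroup.subset_closure ⟨hg, ?_⟩)
      -- the centralizer contains the center properly
      have hle : center G ≤ centralizer ({g} : Set G) := center_le_centralizer _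
      have hlt' : center G < centralizer ({g} : Set G) := lt_of_le_of_ne hle fun h => hg (h ▸
        mem_centralizer_singleton_iff.2 rfl)
      have h1 := relIndex_mul_index hle
      have h2 : (center G).relIndex (centralizer ({g} : Set G)) ∣ Nat.card G :=
        (Dvd.intro _ h1).trans (center G).index_dvd_card
      have h3 : 2 ≤ (center G).relIndex (centralizer ({g} : Set G)) := by
        have hne0 : (center G).relIndex (centralizer ({g} : Set G)) ≠ 0 := by
          rw [relIndex]; exact index_ne_zero_of_finite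
        have hne1 : (center G).relIndex (centralizer ({g} : Set G)) ≠ 1 := fun h =>
          hlt'.not_ge (relIndex_eq_one.1 h)
        omega
      have h4 := Nat.minFac_le_of_dvd h3 h2
      rw [← hι, hιeq] at h1
      nlinarith
    have hB : ∀ g : G, g ∉ T → p + 1 ≤ (univ.image fun k => k * g * k⁻¹).card := by
      intro g hg
      rw [← index_centralizer_eq]
      by_contra hlt
      exact hg (mem_sup_left (Subgroup.subset_closure ⟨fun h => hg (mem_sup_right h), by omega⟩))
    have hw := card_orbits_mul_le (p * (p + 1))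
      (fun g => if g ∈ center G then p * (p + 1) else if g ∈ T then p + 1 else p) (fun g => by
      have ho := class_le_orb g
      split_ifs with h1 h2
      · exact Nat.le_mul_of_pos_right _ (one_le_orb g)
      · rw [mul_comm p]; exact Nat.mul_le_mul_left _ ((hclass g h1).trans ho)
      · exact Nat.mul_le_mul_left _ ((hB g h2).trans ho))
    have hsum := sum_three_level (G := G) (p * (p + 1)) (p + 1) p (· ∈ center G) (· ∈ T)
      (fun g hg => mem_sup_right hg)
    have hTcard := filter_mem_card T
    have hsplit : (univ.filter (· ∈ T)).card + (univ.filter fun g => ¬ g ∈ T).card = Nat.card G := by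
      rw [Finset.card_filter_add_card_filter_not, card_univ, Nat.card_eq_fintype_card]
    rw [filter_mem_card, hTcard] at hsum
    rw [hTcard] at hsplit
    have hTi := T.index_mul_card
    have hT' : p * Nat.card T ≤ Nat.card G := hTi ▸ Nat.mul_le_mul_right _ hTidx
    refine Nat.le_of_mul_le_mul_left ?_ (show 0 < p + 1 by omega)
    set nB := (univ.filter fun g => ¬ g ∈ T).card
    have hkey : (p * p - 1) * z ≤ nB := by
      obtain ⟨q, hq⟩ : ∃ q, p = q + 1 := ⟨p - 1, by omega⟩
      have h1 : p * (p + 1) * z ≤ Nat.card G := hzi ▸ Nat.mul_le_mul_right _ hι3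
      have h2 : (p * p - 1) * z * p ≤ nB * p := by
        rw [show p * p - 1 = q * (p + 1) by rw [hq]; ring_nf; omega]
        have e1 : Nat.card G * q ≤ nB * p := by
          have e : (Nat.card T + nB) * p = Nat.card G * p := by rw [hsplit]
          rw [hq] at e hT' ⊢
          linarith
        calc q * (p + 1) * z * p = p * (p + 1) * z * q := by ring
          _ ≤ Nat.card G * q := Nat.mul_le_mul_right _ h1
          _ ≤ _ := e1
      exact Nat.le_of_mul_le_mul_right h2 hp.pos
    obtain ⟨r, hr⟩ : ∃ r, p * p = r + 1 := ⟨p * p - 1, by have := Nat.mul_le_mul hp2 hp2; omega⟩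
    rw [show p * p - 1 = r by omega] at hkey
    have e2 : p * p * z = r * z + z := by rw [hr]; ring
    rw [← hz] at hsum
    rw [← hK] at hw
    have e3 : (p + 1) * Nat.card T + (p + 1) * nB = (p + 1) * Nat.card G := by rw [← hsplit]; ring
    linarith
  -- now the centralizers of the small elements generate
  have hgenS : ∀ (w : G), (∀ s ∈ Sset, Commute w s) → w ∈ center G := by
    intro w hw
    have h1 : (⊤ : Subgroup G) ≤ centralizer ({w} : Set G) :=
      hT ▸ sup_le ((Subgroup.closure_le _).2 fun s hs => mem_centralizer_singleton_iff.2 (hw s hs).eq.symm)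
        (center_le_centralizer _)
    exact mem_center_iff_centralizer.2 (top_le_iff.1 h1)
  have hpc : ∀ g : G, g ^ p ∈ center G := fun g => hgenS _ fun s hs => by
    obtain ⟨hidx, hn⟩ := hS s hs
    haveI := hn
    have : g ^ p ∈ centralizer ({s} : Set G) := by
      rw [← QuotientGroup.eq_one_iff, QuotientGroup.mk_pow, ← hidx, index_eq_card]
      exact pow_card_eq_one'
    exact mem_centralizer_singleton_iff.1 this
  have hcc : ∀ a b : G, a * b * a⁻¹ * b⁻¹ ∈ center G := fun a b => hgenS _ fun s hs => by
    obtain ⟨hidx, hn⟩ := hS s hs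
    haveI := hn
    haveI : IsCyclic (G ⧸ centralizer ({s} : Set G)) :=
      isCyclic_of_prime_card (p := p) (by rw [← index_eq_card]; exact hidx)
    have : a * b * a⁻¹ * b⁻¹ ∈ centralizer ({s} : Set G) := by
      rw [← QuotientGroup.eq_one_iff]
      simp only [QuotientGroup.mk_mul, QuotientGroup.mk_inv]
      rw [mul_comm' (a : G ⧸ centralizer ({s} : Set G)) b]
      group
    exact mem_centralizer_singleton_iff.1 this
  let cm : G → G → G := fun a b => a * b * a⁻¹ * b⁻¹
  have hcm_mul : ∀ a b c, cm (a * b) c = cm a c * cm b c := fun a b c => by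
    have h1 : a * cm b c = cm b c * a := mem_center_iff.1 (hcc b c) a
    calc cm (a * b) c = a * cm b c * (c * a⁻¹ * c⁻¹) := by simp only [cm]; group
      _ = cm b c * cm a c := by rw [h1]; simp only [cm]; group
      _ = cm a c * cm b c := ((mem_center_iff.1 (hcc b c)) (cm a c)).symm
  have hcm_swap : ∀ a b, cm b a = (cm a b)⁻¹ := fun a b => by simp only [cm]; group
  have hcm_pow : ∀ a c, ∀ k : ℕ, cm (a ^ k) c = cm a c ^ k := by
    intro a c k
    induction k with
    | zero => simp [cm]
    | succ k ih => rw [pow_succ, hcm_mul, ih, pow_succ]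
  have hcm_one : ∀ a b, cm a b = 1 ↔ Commute a b := fun a b => by
    simp only [cm]
    rw [mul_inv_eq_one, mul_inv_eq_iff_eq_mul]
    exact Iff.rfl
  have hcm_p : ∀ a c, cm a c ^ p = 1 := fun a c => by
    rw [← hcm_pow, hcm_one]
    exact ((mem_center_iff.1 (hpc a)) c).symm
  -- every centralizer index is a power of `p`
  have hidxpow : ∀ g : G, ∃ k, (centralizer ({g} : Set G)).index = p ^ k := by
    intro g
    let ψ : G →* G := MonoidHom.mk' (fun k => cm k g) fun a b => hcm_mul a b g
    have hker : ψ.ker = centralizer ({g} : Set G) := by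
      ext k
      rw [MonoidHom.mem_ker, mem_centralizer_singleton_iff]
      exact hcm_one k g
    have hP : IsPGroup p ψ.range := by
      rintro ⟨_, k, rfl⟩
      exact ⟨1, Subtype.ext (by rw [pow_one]; exact hcm_p k g)⟩
    obtain ⟨k, hk⟩ := IsPGroup.iff_card.1 hP
    exact ⟨k, by rw [← hker, Subgroup.index_ker]; exact hk⟩
  by_cases hBig : ∃ g : G, g ∉ center G ∧ p < (centralizer ({g} : Set G)).index
  · -- classes of size at least `p ^ 2`, in at least `p` cosets
    have hB2 : ∀ g : G, p < (centralizer ({g} : Set G)).index →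
        p * p ≤ (univ.image fun k => k * g * k⁻¹).card := by
      intro g hg
      obtain ⟨k, hk⟩ := hidxpow g
      rw [← index_centralizer_eq, hk]
      rw [hk] at hg
      rcases k with _ | _ | k
      · simp at hg; omega
      · simp at hg
      · calc p * p = p ^ 2 := (pow_two p).symm
          _ ≤ _ := Nat.pow_le_pow_right hp.pos (by omega)
    obtain ⟨y, hy, hyB⟩ := hBig
    set Bf := univ.filter fun g : G => p < (centralizer ({g} : Set G)).index with hBf
    have hcent : ∀ (g w : G), w ∈ center G → centralizer ({g * w} : Set G) = centralizer ({g} : Set G) := by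
      intro g w hw
      ext k
      simp only [mem_centralizer_singleton_iff]
      have h1 : k * w = w * k := mem_center_iff.1 hw k
      constructor
      · intro h
        apply mul_right_cancel (b := w)
        calc k * g * w = k * (g * w) := mul_assoc _ _ _
          _ = g * (w * k) := by rw [h, mul_assoc]
          _ = g * k * w := by rw [← h1, mul_assoc]
      · intro h
        rw [← mul_assoc, h, mul_assoc, h1, ← mul_assoc]
    have hypow : ∀ i : ℕ, ¬ p ∣ i → centralizer ({y ^ i} : Set G) = centralizer ({y} : Set G) := by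
      intro i hi
      ext k
      simp only [mem_centralizer_singleton_iff]
      constructor
      · intro h
        have h1 : cm y k ^ i = 1 := by rw [← hcm_pow, hcm_one]; exact Commute.symm h
        have h2 : cm y k = 1 := orderOf_eq_one_iff.1 (Nat.eq_one_of_dvd_coprimes
          (hp.coprime_iff_not_dvd.2 hi) (orderOf_dvd_of_pow_eq_one (hcm_p y k)) (orderOf_dvd_of_pow_eq_one h1))
        exact ((hcm_one y k).1 h2).symm
      · intro h; exact (Commute.pow_right (show Commute k y from h) i).eq
    obtain ⟨v, hvB, hv⟩ : ∃ v, v ∈ Bf ∧ v ∉ zpowers y ⊔ center G := by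
      by_contra hcon
      push Not at hcon
      have hsmall : ∀ s, s ∉ zpowers y ⊔ center G → (centralizer ({s} : Set G)).index = p := by
        intro s hs
        refine le_antisymm ?_ (index_ge_of_ne_top fun h => hs (mem_sup_right (mem_center_iff_centralizer.2 h)))
        by_contra hlt
        exact hs (hcon s (mem_filter.2 ⟨mem_univ _, by omega⟩))
      have hL : zpowers y ⊔ center G ≠ ⊤ := fun h => hy (mem_center_iff.2 fun k => by
        obtain ⟨a, ha, b, hb, rfl⟩ := mem_sup_of_normal_right.1 (h.symm ▸ mem_top k : k ∈ zpowers y ⊔ center G)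
        obtain ⟨i, rfl⟩ := mem_zpowers_iff.1 ha
        exact ((Commute.self_zpow y i).mul_right ((mem_center_iff.1 hb) y)).eq.symm)
      -- `y` commutes with every element outside `<y>Z`
      have hcomm : ∀ s, s ∉ zpowers y ⊔ center G → Commute y s := by
        intro s hs
        by_contra hne
        have hsy : s * y ∉ zpowers y ⊔ center G := fun h => hs (by
          simpa using mul_mem h (inv_mem (mem_sup_left (mem_zpowers y))))
        let ψ : G → G →* G := fun g => MonoidHom.mk' (fun k => cm k g) fun a b => hcm_mul a b g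
        have hrange : ∀ g, Nat.card (ψ g).range = (centralizer ({g} : Set G)).index := fun g => by
          rw [← Subgroup.index_ker]
          congr 1
          ext k
          rw [MonoidHom.mem_ker, mem_centralizer_singleton_iff]
          exact hcm_one k g
        have hr1 := (hrange s).trans (hsmall s hs)
        have hr2 := (hrange (s * y)).trans (hsmall _ hsy)
        have hd : cm y s ∈ (ψ s).range ⊓ (ψ (s * y)).range := by
          refine ⟨⟨y, rfl⟩, ⟨y, ?_⟩⟩
          show cm y (s * y) = cm y s
          simp only [cm]; group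
        have hne1 : cm y s ≠ 1 := fun h => hne ((hcm_one y s).1 h)
        have heq : (ψ s).range = (ψ (s * y)).range := by
          have hsub : ∀ R : Subgroup G, Nat.card R = p → cm y s ∈ R → R = zpowers (cm y s) := fun R hR hm =>
            (eq_of_le_of_card_ge (zpowers_le.2 hm) (by
              rw [hR, Nat.card_zpowers, orderOf_eq_prime (hcm_p y s) hne1])).symm
          rw [hsub _ hr1 hd.1, hsub _ hr2 hd.2]
        have hle : (ψ y).range ≤ (ψ s).range := by
          rintro _ ⟨k, rfl⟩
          have h3 : cm k (s * y) = cm k s * cm k y := by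
            rw [hcm_swap (s * y) k, hcm_mul, hcm_swap s k, hcm_swap y k, mul_inv_rev]
            exact (mem_center_iff.1 (inv_mem (hcc y k)) _).symm
          have h4 : cm k y = (cm k s)⁻¹ * cm k (s * y) := by rw [h3, inv_mul_cancel_left]
          show cm k y ∈ _
          rw [h4]
          exact mul_mem (inv_mem ⟨k, rfl⟩) (heq ▸ ⟨k, rfl⟩)
        have := card_le_of_le hle
        rw [hr1, hrange y] at this
        omega
      refine hy (mem_center_iff_centralizer.2 ?_)
      by_contra hC
      obtain ⟨s, hs1, hs2⟩ : ∃ s, s ∉ centralizer ({y} : Set G) ∧ s ∉ zpowers y ⊔ center G := by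
        obtain ⟨a, ha⟩ := SetLike.exists_not_mem_of_ne_top _ hC
        by_cases ha2 : a ∈ zpowers y ⊔ center G
        · obtain ⟨b, hb⟩ := SetLike.exists_not_mem_of_ne_top _ hL
          by_cases hb2 : b ∈ centralizer ({y} : Set G)
          · exact ⟨a * b, fun h => ha (by simpa using mul_mem h (inv_mem hb2)),
              fun h => hb (by simpa using mul_mem (inv_mem ha2) h)⟩
          · exact ⟨b, hb2, hb⟩
        · exact ⟨a, ha, ha2⟩
      exact hs1 (mem_centralizer_singleton_iff.2 (hcomm s hs2).eq.symm)
    have hBcard : p * z ≤ Bf.card := by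
      let f : Fin p × (center G) → G := fun q => if q.1.val = 0 then v * q.2 else y ^ q.1.val * q.2
      have hf : Function.Injective f := by
        have hvy : ∀ (i : ℕ) (a b : center G), v * (a : G) ≠ y ^ i * b := fun i a b h => hv (by
          rw [show v = y ^ i * ((b : G) * (a : G)⁻¹) by rw [← mul_assoc, eq_mul_inv_iff_mul_eq]; exact h]
          exact mul_mem (mem_sup_left (pow_mem (mem_zpowers y) i)) (mem_sup_right (mul_mem b.2 (inv_mem a.2))))
        have hyy : ∀ i j : ℕ, i < j → j < p → ∀ a b : center G, y ^ i * (a : G) ≠ y ^ j * b := by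
          intro i j hij hjp a b h
          have hc : y ^ (j - i) ∈ center G := by
            have h2 : y ^ (j - i) = (a : G) * (b : G)⁻¹ := by
              rw [eq_mul_inv_iff_mul_eq]
              apply mul_left_cancel (a := y ^ i)
              rw [← mul_assoc, ← pow_add, Nat.add_sub_cancel' hij.le]
              exact h.symm
            exact h2 ▸ mul_mem a.2 (inv_mem b.2)
          refine hy (mem_center_iff_centralizer.2 ?_)
          rw [← hypow (j - i) (fun hd => by have := Nat.le_of_dvd (by omega) hd; omega)]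
          exact mem_center_iff_centralizer.1 hc
        rintro ⟨i, a⟩ ⟨j, b⟩ h
        simp only [f] at h
        split_ifs at h with hi hj hj
        · exact Prod.ext (Fin.ext (hi.trans hj.symm)) (Subtype.ext (mul_left_cancel h))
        · exact absurd h (hvy _ a b)
        · exact absurd h.symm (hvy _ b a)
        · rcases lt_trichotomy i.val j.val with hlt | heq | hgt
          · exact absurd h (hyy _ _ hlt j.2 a b)
          · rw [heq] at h
            exact Prod.ext (Fin.ext heq) (Subtype.ext (mul_left_cancel h))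
          · exact absurd h.symm (hyy _ _ hgt i.2 b a)
      calc p * z = (univ.image f).card := by
            rw [card_image_of_injective _ hf, card_univ, Fintype.card_prod, Fintype.card_fin, hz,
              Nat.card_eq_fintype_card]
        _ ≤ Bf.card := card_le_card fun w hw => by
            obtain ⟨⟨i, a⟩, -, rfl⟩ := mem_image.1 hw
            refine mem_filter.2 ⟨mem_univ _, ?_⟩
            simp only [f]
            split_ifs with hi
            · rw [hcent v a a.2]; exact (mem_filter.1 hvB).2
            · rw [hcent _ a a.2, hypow i.val (fun hd => by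
                have := Nat.le_of_dvd (by omega) hd
                have := i.2
                omega)]
              exact hyB
    have hw := card_orbits_mul_le (p * p)
      (fun g => if g ∈ center G then p * p else if g ∉ Bf then p else 1) (fun g => by
      have ho := class_le_orb g
      split_ifs with h1 h2
      · exact Nat.le_mul_of_pos_right _ (one_le_orb g)
      · rw [one_mul]
        exact (hB2 g (mem_filter.1 h2).2).trans ho
      · exact Nat.mul_le_mul_left _ ((hclass g h1).trans ho))
    have hsum := sum_three_level (G := G) (p * p) p 1 (· ∈ center G) (· ∉ Bf)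
      (fun g hg hgB => by
        have := (mem_filter.1 hgB).2
        rw [mem_center_iff_centralizer.1 hg, index_top] at this
        omega)
    have hsplit : (univ.filter fun g => g ∉ Bf).card + (univ.filter fun g => ¬ g ∉ Bf).card = Nat.card G := by
      rw [Finset.card_filter_add_card_filter_not, card_univ, Nat.card_eq_fintype_card]
    rw [filter_mem_card] at hsum
    simp only [Decidable.not_not, Finset.filter_univ_mem] at hsum hsplit
    rw [← hz] at hsum
    rw [← hK] at hw
    refine Nat.le_of_mul_le_mul_left ?_ hp.pos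
    obtain ⟨q, hq⟩ : ∃ q, p = q + 1 := ⟨p - 1, by omega⟩
    have e1 := Nat.mul_le_mul_left q hBcard
    have e2 : q * (p * z) + p * z = p * p * z := by rw [hq]; ring
    have e3 : q * Bf.card + Bf.card = p * Bf.card := by rw [hq]; ring
    have e4 : p * (univ.filter fun g => g ∉ Bf).card + p * Bf.card = p * Nat.card G := by
      rw [← hsplit]; ring
    linarith
  -- all classes of noncentral elements have size `p`
  push Not at hBig
  let Ω : Subgroup G :=
    { carrier := {w | w ∈ center G ∧ w ^ p = 1}
      mul_mem' := fun {a b} ha hb => ⟨mul_mem ha.1 hb.1, by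
        rw [(show Commute a b from (mem_center_iff.1 hb.1 a)).mul_pow, ha.2, hb.2, one_mul]⟩
      one_mem' := ⟨one_mem _, one_pow p⟩
      inv_mem' := fun {a} ha => ⟨inv_mem ha.1, by rw [inv_pow, ha.2, inv_one]⟩ }
  -- subgroups of index `p` avoiding a given noncentral element
  have hmaxsub : ∀ g : G, g ∉ center G → ∃ H : Subgroup G, H.Normal ∧ H.index = p ∧ g ∉ H ∧ center G ≤ H := by
    intro g hg
    obtain ⟨H, ⟨hZH, hgH⟩, hmax⟩ := (Set.toFinite {H : Subgroup G | center G ≤ H ∧ g ∉ H}).exists_maximal
      ⟨center G, le_rfl, hg⟩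
    have hHn : H.Normal := ⟨fun h hh k => by
      have := mul_mem (hZH (hcc k h)) hh
      rwa [inv_mul_cancel_right] at this⟩
    refine ⟨H, hHn, ?_, hgH, hZH⟩
    have hq : orderOf (QuotientGroup.mk' H g) = p := by
      refine orderOf_eq_prime ?_ fun h => hgH ((QuotientGroup.eq_one_iff g).1 h)
      rw [← map_pow]; exact (QuotientGroup.eq_one_iff _).2 (hZH (hpc g))
    have htop : zpowers (QuotientGroup.mk' H g) = ⊤ := by
      rw [eq_top_iff]
      intro q _
      obtain ⟨k, rfl⟩ := QuotientGroup.mk'_surjective H q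
      by_cases hk : k ∈ H
      · rw [show QuotientGroup.mk' H k = 1 from (QuotientGroup.eq_one_iff k).2 hk]; exact one_mem _
      have hgk : g ∈ zpowers k ⊔ H := by
        by_contra hgk
        exact hk (hmax (show zpowers k ⊔ H ∈ _ from ⟨hZH.trans le_sup_right, hgk⟩) le_sup_right
          (mem_sup_left (mem_zpowers k)))
      obtain ⟨a, ha, b, hb, hab⟩ := mem_sup_of_normal_right.1 hgk
      obtain ⟨i, rfl⟩ := mem_zpowers_iff.1 ha
      have hgi : QuotientGroup.mk' H g = QuotientGroup.mk' H k ^ i := by
        rw [← hab, map_mul, map_zpow, show QuotientGroup.mk' H b = 1 from (QuotientGroup.eq_one_iff b).2 hb, mul_one]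
      have hk' : orderOf (QuotientGroup.mk' H k) = p := by
        refine orderOf_eq_prime ?_ fun h => hk ((QuotientGroup.eq_one_iff k).1 h)
        rw [← map_pow]; exact (QuotientGroup.eq_one_iff _).2 (hZH (hpc k))
      have heq : zpowers (QuotientGroup.mk' H g) = zpowers (QuotientGroup.mk' H k) :=
        eq_of_le_of_card_ge (zpowers_le.2 (hgi ▸ zpow_mem_zpowers _ i))
          (by rw [Nat.card_zpowers, Nat.card_zpowers, hq, hk'])
      rw [heq]; exact mem_zpowers _
    rw [index_eq_card, ← Subgroup.card_top, ← htop, Nat.card_zpowers, hq]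
  by_cases hΩ : p < Nat.card Ω
  · have hΩ2 : p * p ≤ Nat.card Ω := by
      have hP : IsPGroup p Ω := fun w => ⟨1, Subtype.ext (by rw [pow_one]; exact w.2.2)⟩
      obtain ⟨k, hk⟩ := IsPGroup.iff_card.1 hP
      rw [hk] at hΩ ⊢
      rcases k with _ | _ | k
      · simp at hΩ; omega
      · simp at hΩ
      · calc p * p = p ^ 2 := (pow_two p).symm
          _ ≤ _ := Nat.pow_le_pow_right hp.pos (by omega)
    have horb : ∀ g : G, g ∉ center G → p * p ≤ (orb g).card := by
      intro g hg
      obtain ⟨H, hHn, hHi, hgH, hZH⟩ := hmaxsub g hg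
      haveI := hHn
      calc p * p ≤ Nat.card Ω := hΩ2
        _ = (univ.image fun w : Ω => g * (w : G)).card := by
            rw [card_image_of_injective _ (fun a b h => Subtype.ext (mul_left_cancel h)), card_univ,
              Nat.card_eq_fintype_card]
        _ ≤ (orb g).card := card_le_card fun v hv => by
            obtain ⟨w, -, rfl⟩ := mem_image.1 hv
            have hwc : ∀ h : G, Commute (w : G) h := fun h => (mem_center_iff.1 w.2.1 h).symm
            obtain ⟨σ, hσ, -⟩ := exists_aut hp H hHi hgH (hZH w.2.1) (fun h _ => hwc h)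
              (by rw [(hwc g).symm.mul_pow, w.2.2, mul_one])
            exact mem_filter.2 ⟨mem_univ _, σ, hσ⟩
    have hw := card_orbits_mul_le (p * p) (fun g => if g ∈ center G then p * p else 1) (fun g => by
      split_ifs with h1
      · exact Nat.le_mul_of_pos_right _ (one_le_orb g)
      · rw [one_mul]; exact horb g h1)
    rw [sum_two_level, filter_mem_card, ← hK, ← hz] at hw
    have hsplit : (univ.filter (· ∈ center G)).card + (univ.filter fun g => ¬ g ∈ center G).card = Nat.card G := by
      rw [Finset.card_filter_add_card_filter_not, card_univ, Nat.card_eq_fintype_card]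
    rw [filter_mem_card] at hsplit
    have h1 : p * p * z ≤ Nat.card G := hzi ▸ Nat.mul_le_mul_right _ hι2
    rw [← hz] at hsplit
    refine Nat.le_of_mul_le_mul_left ?_ hp.pos
    have e1 := Nat.mul_le_mul_right (Nat.card G) hp2
    linarith
  -- the subgroup `Ω` has order `p`
  have hΩc : ∀ a b : G, cm a b ∈ Ω := fun a b => ⟨hcc a b, hcm_p a b⟩
  obtain ⟨g, h, hgh⟩ : ∃ g h : G, cm g h ≠ 1 := by
    by_contra hcon
    push Not at hcon
    exact hna ⟨⟨fun a b => (hcm_one a b).1 (hcon a b)⟩⟩
  have hord : ∀ a b : G, cm a b ≠ 1 → orderOf (cm a b) = p := fun a b hab => orderOf_eq_prime (hcm_p a b) hab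
  have hΩeq : zpowers (cm g h) = Ω := eq_of_le_of_card_ge (zpowers_le.2 (hΩc g h)) (by
    rw [Nat.card_zpowers, hord g h hgh]; omega)
  -- `p`-th powers in the center
  let π : center G →* center G := MonoidHom.mk' (fun w => w ^ p) fun a b => Commute.mul_pow
    (Subtype.ext ((mem_center_iff.1 b.2) (a : G))) p
  set R := π.range.map (center G).subtype
  have hRZ : R ≤ center G := map_subtype_le _
  have hmemR : ∀ w : G, w ∈ R ↔ ∃ v ∈ center G, v ^ p = w := fun w =>
    ⟨fun ⟨_, ⟨v, hv⟩, hvw⟩ => ⟨v, v.2, by rw [← hvw, ← hv]; rfl⟩,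
      fun ⟨v, hv, hvw⟩ => ⟨π ⟨v, hv⟩, ⟨_, rfl⟩, hvw⟩⟩
  haveI hRn : R.Normal := ⟨fun r hr k => by
    rwa [mem_center_iff.1 (hRZ hr) k, mul_inv_cancel_right]⟩
  have hRidx : R.relIndex (center G) = p := by
    have hker : π.ker.map (center G).subtype = Ω := by
      ext w
      constructor
      · rintro ⟨v, hv, rfl⟩; exact ⟨v.2, congrArg Subtype.val hv⟩
      · rintro ⟨hw1, hw2⟩; exact ⟨⟨w, hw1⟩, Subtype.ext hw2, rfl⟩
    have h1 := π.ker.card_mul_index
    rw [Subgroup.index_ker] at h1
    have h2 := relIndex_mul_relIndex ⊥ R (center G) bot_le hRZ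
    rw [relIndex_bot_left, relIndex_bot_left, mul_comm] at h2
    rw [Subgroup.card_subtype] at h2
    have h3 : Nat.card π.ker = p := by
      rw [← Subgroup.card_subtype (center G) π.ker, hker, ← hΩeq, Nat.card_zpowers,
        hord g h hgh]
    rw [h3] at h1
    exact Nat.eq_of_mul_eq_mul_right Nat.card_pos (h2.trans h1.symm)
  have hRgen : ∀ a ∈ center G, a ∉ R → ∀ b ∈ center G, ∃ i : ℕ, (a ^ i)⁻¹ * b ∈ R := by
    intro a ha haR b hb
    have hidx' : (R.subgroupOf (center G)).index = p := hRidx
    haveI : (R.subgroupOf (center G)).Normal := inferInstance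
    have hne : QuotientGroup.mk' (R.subgroupOf (center G)) ⟨a, ha⟩ ≠ 1 := fun h =>
      haR ((QuotientGroup.eq_one_iff (⟨a, ha⟩ : center G)).1 h)
    obtain ⟨i, hi⟩ := (mem_powers_iff_mem_zpowers).2 (mem_zpowers_of_prime_card
      (p := p) (by rw [← index_eq_card]; exact hidx') (g' := QuotientGroup.mk' (R.subgroupOf (center G)) ⟨b, hb⟩) hne)
    have h5 : ((⟨a, ha⟩ : center G) ^ i)⁻¹ * ⟨b, hb⟩ ∈ R.subgroupOf (center G) :=
      QuotientGroup.eq.1 (by rw [QuotientGroup.mk_pow]; exact hi)
    exact ⟨i, h5⟩
  obtain ⟨y₀, hy₀, hy₀R⟩ : ∃ y : G, y ∉ center G ∧ y ^ p * cm g h ^ p.choose 2 ∈ R := by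
    set γ := cm g h ^ p.choose 2
    have hgZ : g ∉ center G := fun hc => hgh ((hcm_one g h).2 (mem_center_iff.1 hc h).symm)
    have hhZ : h ∉ center G := fun hc => hgh ((hcm_one g h).2 (mem_center_iff.1 hc g))
    by_cases hγ : γ ∈ R
    · by_cases hgR : g ^ p ∈ R
      · exact ⟨g, hgZ, mul_mem hgR hγ⟩
      · obtain ⟨i, hi⟩ := hRgen (g ^ p) (hpc g) hgR (h ^ p) (hpc h)
        refine ⟨(g ^ i)⁻¹ * h, fun hc => hgh ?_, mul_mem ?_ hγ⟩
        · rw [hcm_one]
          have h1 : Commute g ((g ^ i)⁻¹ * h) := mem_center_iff.1 hc g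
          have h2 := (Commute.self_pow g i).mul_right h1
          rwa [mul_inv_cancel_left] at h2
        · rw [mul_pow_of_central (hcc h (g ^ i)⁻¹)]
          refine mul_mem ?_ ?_
          · rw [inv_pow, ← pow_mul, mul_comm i p, pow_mul]; exact hi
          · have h5 : h * (g ^ i)⁻¹ * h⁻¹ * ((g ^ i)⁻¹)⁻¹ ∈ zpowers (cm g h) := hΩeq ▸ hΩc h (g ^ i)⁻¹
            obtain ⟨j, hj⟩ := mem_zpowers_iff.1 h5
            rw [← hj, ← zpow_natCast, ← zpow_mul, mul_comm, zpow_mul, zpow_natCast]
            exact zpow_mem hγ j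
    · have hp_eq : p = 2 := by
        by_contra hne
        refine hγ ?_
        have hd : p ∣ p.choose 2 := hp.dvd_choose_self (by norm_num) (by omega)
        obtain ⟨m, hm⟩ := hd
        show cm g h ^ p.choose 2 ∈ R
        rw [hm, pow_mul, hcm_p, one_pow]
        exact one_mem R
      have hγZ : γ ∈ center G := pow_mem (hcc g h) _
      have hcase : ∀ w : G, w ^ p ∈ R ∨ w ^ p * γ ∈ R := by
        intro w
        obtain ⟨i, hi⟩ := hRgen γ hγZ hγ (w ^ p) (hpc w)
        rcases Nat.even_or_odd' i with ⟨k, rfl | rfl⟩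
        · left
          have h1 : γ ^ (2 * k) ∈ R := (hmemR _).2 ⟨γ ^ k, pow_mem hγZ k, by rw [← pow_mul, mul_comm k, hp_eq]⟩
          simpa using mul_mem h1 hi
        · right
          have h1 : γ ^ (2 * k + 2) ∈ R := (hmemR _).2
            ⟨γ ^ (k + 1), pow_mem hγZ _, by rw [← pow_mul, hp_eq]; ring_nf⟩
          have h3 : w ^ p * γ = γ ^ (2 * k + 2) * ((γ ^ (2 * k + 1))⁻¹ * w ^ p) := by
            rw [pow_succ' γ (2 * k + 1), mul_assoc, mul_inv_cancel_left]
            exact mem_center_iff.1 hγZ _
          rw [h3]; exact mul_mem h1 hi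
      rcases hcase g with hg2 | hg2
      swap
      · exact ⟨g, hgZ, hg2⟩
      rcases hcase h with hh2 | hh2
      swap
      · exact ⟨h, hhZ, hh2⟩
      refine ⟨g * h, fun hc => hgh ?_, ?_⟩
      · rw [hcm_one]
        have h1 : Commute g (g * h) := mem_center_iff.1 hc g
        have h2 := ((Commute.refl g).inv_right).mul_right h1
        rwa [inv_mul_cancel_left] at h2
      · have hc2 : h * g * h⁻¹ * g⁻¹ = (cm g h)⁻¹ := hcm_swap g h
        rw [mul_pow_of_central (hcc h g), hc2, inv_pow, inv_mul_cancel_right]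
        exact mul_mem hg2 hh2
  obtain ⟨w, hwZ, hw⟩ := (hmemR _).1 hy₀R
  set y := y₀ * w⁻¹ with hydef
  have hy : y ∉ center G := fun hc => hy₀ (by simpa [hydef] using mul_mem hc hwZ)
  have hyp : y ^ p * cm g h ^ p.choose 2 = 1 := by
    rw [hydef, (show Commute y₀ w⁻¹ from mem_center_iff.1 (inv_mem hwZ) y₀).mul_pow, inv_pow, hw, mul_inv_rev]
    have hcz : cm g h ∈ center G := hcc g h
    rw [← mul_assoc, mem_center_iff.1 (inv_mem (pow_mem hcz _)) (y₀ ^ p), mul_inv_cancel_right, inv_mul_cancel]
  set C := centralizer ({y} : Set G)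
  have hCidx : C.index = p := le_antisymm (hBig y hy) (index_ge_of_ne_top fun hc => hy (mem_center_iff_centralizer.2 hc))
  haveI hCn : C.Normal := Subgroup.normal_of_index_eq_minFac_card (hCidx.trans hp_def)
  have hyC : y ∈ C := mem_centralizer_singleton_iff.2 rfl
  have horb : ∀ x : G, x ∉ C → p * p ≤ (orb x).card := by
    intro x hx
    have hxy : cm y x ≠ 1 := fun hc => hx (mem_centralizer_singleton_iff.2 ((hcm_one y x).1 hc).eq.symm)
    have hpow : (x * y) ^ p = x ^ p := by
      rw [mul_pow_of_central (hcc y x)]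
      obtain ⟨j, hj⟩ := (mem_powers_iff_mem_zpowers (x := cm g h)).2 (hΩeq.symm ▸ hΩc y x)
      have hj' : cm g h ^ j = y * x * y⁻¹ * x⁻¹ := hj
      have hkey : cm g h ^ (j * p.choose 2) = cm g h ^ p.choose 2 := by
        by_cases hd : p ∣ p.choose 2
        · obtain ⟨m, hm⟩ := hd
          rw [hm, show j * (p * m) = p * (j * m) by ring]
          simp only [pow_mul, hcm_p, one_pow]
        · have hp_eq : p = 2 := by
            by_contra hne
            exact hd (hp.dvd_choose_self (by norm_num) (by omega))
          rcases Nat.even_or_odd' j with ⟨m, rfl | rfl⟩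
          · exfalso
            refine hxy ?_
            show y * x * y⁻¹ * x⁻¹ = 1
            rw [← hj', pow_mul, ← hp_eq, hcm_p, one_pow]
          · rw [pow_mul, pow_succ, pow_mul, ← hp_eq, hcm_p, one_pow, one_mul]
      rw [← hj', ← pow_mul, hkey, mul_assoc, hyp, mul_one]
    obtain ⟨σ, hσx, hσC⟩ := exists_aut hp C hCidx hx hyC
      (fun c hc => (show Commute c y from mem_centralizer_singleton_iff.1 hc).symm) hpow
    have hiter : ∀ b : ℕ, (σ ^ b) x = x * y ^ b := by
      intro b
      induction b with
      | zero => simp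
      | succ b ih => rw [pow_succ', MulAut.mul_apply, ih, map_mul, map_pow, hσx, hσC y hyC, pow_succ']; group
    let f : Fin p × Fin p → G := fun q => x * y ^ q.1.val * cm y x ^ q.2.val
    have hf : Function.Injective f := by
      rintro ⟨a, b⟩ ⟨a', b'⟩ hab
      simp only [f] at hab
      have h1 : y ^ a.val * cm y x ^ b.val = y ^ a'.val * cm y x ^ b'.val :=
        mul_left_cancel (a := x) (by simpa only [mul_assoc] using hab)
      have hyord : ∀ i j : ℕ, i < j → j < p → ∀ k l : ℕ, y ^ i * cm y x ^ k ≠ y ^ j * cm y x ^ l := by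
        intro i j hij hjp k l h
        have h2 : y ^ (j - i) = cm y x ^ k * (cm y x ^ l)⁻¹ := by
          rw [eq_mul_inv_iff_mul_eq]
          apply mul_left_cancel (a := y ^ i)
          rw [← mul_assoc, ← pow_add, Nat.add_sub_cancel' hij.le]
          exact h.symm
        have hc : Commute (y ^ (j - i)) x :=
          (mem_center_iff.1 (h2 ▸ mul_mem (pow_mem (hcc y x) k) (inv_mem (pow_mem (hcc y x) l))) x).symm
        have h3 := (hcm_one _ _).2 hc
        rw [hcm_pow] at h3
        have := Nat.le_of_dvd (by omega) ((hord y x hxy) ▸ orderOf_dvd_of_pow_eq_one h3)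
        omega
      rcases lt_trichotomy a.val a'.val with hlt | heq | hgt
      · exact absurd h1 (hyord _ _ hlt a'.2 _ _)
      · rw [heq] at h1
        refine Prod.ext (Fin.ext heq) (Fin.ext ?_)
        refine pow_injOn_Iio_orderOf ?_ ?_ (mul_left_cancel h1)
        · rw [Set.mem_Iio, hord y x hxy]; exact b.2
        · rw [Set.mem_Iio, hord y x hxy]; exact b'.2
      · exact absurd h1.symm (hyord _ _ hgt a.2 _ _)
    calc p * p = (univ.image f).card := by
          rw [card_image_of_injective _ hf, card_univ, Fintype.card_prod, Fintype.card_fin]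
      _ ≤ (orb x).card := card_le_card fun v hv => by
          obtain ⟨⟨a, b⟩, -, rfl⟩ := mem_image.1 hv
          refine mem_filter.2 ⟨mem_univ _, MulAut.conj (y ^ b.val) * σ ^ a.val, ?_⟩
          show y ^ b.val * (σ ^ a.val) x * (y ^ b.val)⁻¹ = x * y ^ a.val * cm y x ^ b.val
          rw [hiter, ← hcm_pow]
          have hy' : y ^ a.val * (y ^ b.val)⁻¹ = (y ^ b.val)⁻¹ * y ^ a.val :=
            ((Commute.pow_pow_self y a.val b.val).inv_right).eq
          calc y ^ b.val * (x * y ^ a.val) * (y ^ b.val)⁻¹ = y ^ b.val * x * (y ^ a.val * (y ^ b.val)⁻¹) := by group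
            _ = cm (y ^ b.val) x * (x * y ^ a.val) := by rw [hy']; simp only [cm]; group
            _ = x * y ^ a.val * cm (y ^ b.val) x := (mem_center_iff.1 (hcc _ _) _).symm
  have hw' := card_orbits_mul_le (p * p) (fun a => if a ∈ center G then p * p else if a ∈ C then p else 1) (fun a => by
    split_ifs with h1 h2
    · exact Nat.le_mul_of_pos_right _ (one_le_orb a)
    · exact Nat.mul_le_mul_left _ ((hclass a h1).trans (class_le_orb a))
    · rw [one_mul]; exact horb a h2)
  have hsum := sum_three_level (G := G) (p * p) p 1 (· ∈ center G) (· ∈ C)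
    (fun a ha => center_le_centralizer _ ha)
  have hsplit : (univ.filter (· ∈ C)).card + (univ.filter fun a => ¬ a ∈ C).card = Nat.card G := by
    rw [Finset.card_filter_add_card_filter_not, card_univ, Nat.card_eq_fintype_card]
  rw [filter_mem_card] at hsum hsplit
  rw [filter_mem_card] at hsum
  have hCc := C.index_mul_card
  rw [hCidx] at hCc
  have h1 : p * p * z ≤ Nat.card G := hzi ▸ Nat.mul_le_mul_right _ hι2
  rw [← hz] at hsum
  rw [← hK] at hw'
  refine Nat.le_of_mul_le_mul_left ?_ (Nat.mul_pos hp.pos hp.pos)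
  obtain ⟨q, hq⟩ : ∃ q, p = q + 2 := ⟨p - 2, by omega⟩
  have e1 := Nat.mul_le_mul_left (q + 1) h1
  have e2 := Nat.mul_le_mul_left p hw'
  have e3 : p * (univ.filter fun a => ¬ a ∈ C).card + p * Nat.card C = p * Nat.card G := by
    rw [← hsplit]; ring
  rw [hq] at e1 e2 e3 hsum hCc ⊢
  have e4 := congrArg (fun t => (q + 2) * t) hsum
  nlinarith only [e1, e2, e3, e4, hCc, Nat.zero_le (q * (q + 1) * Nat.card G)]

end Cfsg.Agent.FGS2.AutOrbitBound
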