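import Cfsg.Agent.FGS2.OrderType
import Cfsg.Agent.OddLocal.UniqueSubgroup
import Cfsg.Agent.FGS3.PGroupAut
import Cfsg.Agent.FGS3.PGroupFrattini
import Cfsg.Agent.Core.MinimalNormal
import Cfsg.Agent.Core.BurnsidePQ
import Cfsg.Agent.Core.Cores
import Cfsg.Agent.Core.Fitting

/-!
# Solvable groups whose Sylow subgroups have a unique subgroup of prime order
-/

set_option autoImplicit false
set_option linter.style.haveILetI false

namespace Cfsg.Agent.FGS2.ComplementTower

open Cfsg

/-- Every Sylow subgroup has a unique subgroup of prime order. -/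
def HasUniqueOrders (K : Type*) [Group K] : Prop :=
  ∀ (r : ℕ) [Fact r.Prime] (R : Sylow r K), OddLocal.UniqueOrderP r (R : Subgroup K)

theorem uniqueOrderP_of_injective {A B : Type*} [Group A] [Group B] (f : A →* B)
    (hf : Function.Injective f) {p : ℕ} (h : OddLocal.UniqueOrderP p B) :
    OddLocal.UniqueOrderP p A := by
  intro a b ha hb ha1
  have h1 := h (f a) (f b) (by rw [← map_pow, ha, map_one]) (by rw [← map_pow, hb, map_one])
    (fun e => ha1 (hf (by rw [e, map_one])))
  obtain ⟨k, hk⟩ := Subgroup.mem_zpowers_iff.mp h1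
  exact Subgroup.mem_zpowers_iff.mpr ⟨k, hf (by rw [map_zpow]; exact hk)⟩

theorem HasUniqueOrders.of_pGroup {K : Type*} [Group K] [Finite K] (h : HasUniqueOrders K) {r : ℕ}
    [Fact r.Prime] {X : Subgroup K} (hX : IsPGroup r X) : OddLocal.UniqueOrderP r X := by
  obtain ⟨R, hR⟩ := hX.exists_le_sylow
  exact uniqueOrderP_of_injective (Subgroup.inclusion hR) (Subgroup.inclusion_injective hR) (h r R)

theorem HasUniqueOrders.of_injective {K L : Type*} [Group K] [Group L] [Finite L] (f : K →* L)
    (hf : Function.Injective f) (h : HasUniqueOrders L) : HasUniqueOrders K := by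
  intro r _ R
  exact uniqueOrderP_of_injective (f.subgroupMap (R : Subgroup K))
    (fun a b hab => Subtype.ext (hf (congrArg Subtype.val hab))) (h.of_pGroup (R.isPGroup'.map f))

theorem HasUniqueOrders.quotient_sylow {K : Type*} [Group K] [Finite K] (h : HasUniqueOrders K)
    {p : ℕ} [Fact p.Prime] (P : Sylow p K) [(P : Subgroup K).Normal] :
    HasUniqueOrders (K ⧸ (P : Subgroup K)) := by
  obtain ⟨C, hC⟩ := Subgroup.exists_right_complement'_of_coprime P.card_coprime_index
  exact h.of_injective (C.subtype.comp (Subgroup.IsComplement'.QuotientMulEquiv hC.symm).toMonoidHom)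
    (C.subtype_injective.comp (Subgroup.IsComplement'.QuotientMulEquiv hC.symm).injective)

theorem mulAut_eq_one {X : Type*} [Group X] [Finite X] {p q : ℕ} [Fact p.Prime] [Fact q.Prime]
    (hp5 : 5 ≤ p) (hqp : q < p) (hX : IsPGroup q X) (hu : OddLocal.UniqueOrderP q X)
    (φ : MulAut X) {k : ℕ} (hφ : φ ^ p ^ k = 1) : φ = 1 := by
  have hp := (Fact.out : p.Prime)
  have hq := (Fact.out : q.Prime)
  -- a cyclic subgroup of index at most 2
  obtain ⟨A, hAc, hAi⟩ : ∃ A : Subgroup X, IsCyclic A ∧ (A.index = 1 ∨ q = 2 ∧ A.index = 2) := by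
    rcases OddLocal.isCyclic_or_quaternion hX hu with hc | ⟨hq2, n, ⟨e⟩⟩
    · exact ⟨⊤, inferInstance, Or.inl Subgroup.index_top⟩
    · haveI : NeZero (2 ^ n) := ⟨by positivity⟩
      refine ⟨Subgroup.zpowers (e.symm (QuaternionGroup.a 1)), inferInstance, Or.inr ⟨hq2, ?_⟩⟩
      have h1 := (Subgroup.zpowers (e.symm (QuaternionGroup.a 1))).index_mul_card
      rw [Nat.card_zpowers, MulEquiv.orderOf_eq, QuaternionGroup.orderOf_a_one, Nat.card_congr e.toEquiv,
        Nat.card_eq_fintype_card, QuaternionGroup.card] at h1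
      exact Nat.eq_of_mul_eq_mul_right (by positivity : 0 < 2 * 2 ^ n) (h1.trans (by ring))
  obtain ⟨r, hr⟩ := hX.index (frattini X)
  have hr' : Nat.card (X ⧸ frattini X) = q ^ r := by rw [← Subgroup.index_eq_card]; exact hr
  have hrle : r ≤ 1 ∨ q = 2 ∧ r ≤ 2 := by
    let π := QuotientGroup.mk' (frattini X)
    have hcard : Nat.card (A.map π) ≤ q := by
      obtain ⟨g, hg⟩ := IsCyclic.exists_generator (α := A)
      have hle : A.map π ≤ Subgroup.zpowers (π g) := by
        rintro _ ⟨a, ha, rfl⟩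
        obtain ⟨m, hm⟩ := Subgroup.mem_zpowers_iff.mp (hg ⟨a, ha⟩)
        exact Subgroup.mem_zpowers_iff.mpr ⟨m, by
          rw [← map_zpow, show a = ((g ^ m : A) : X) by rw [hm]]; rfl⟩
      refine (Subgroup.card_le_of_le hle).trans ?_
      rw [Nat.card_zpowers]
      exact Nat.le_of_dvd hq.pos (orderOf_dvd_of_pow_eq_one (FGS3.quotient_frattini_pow hX _))
    have hidx := A.index_map_dvd (f := π) (QuotientGroup.mk'_surjective _)
    have htot := (A.map π).index_mul_card
    rw [hr'] at htot
    rcases hAi with h1 | ⟨hq2, h1⟩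
    · rw [h1, Nat.dvd_one] at hidx
      rw [hidx, one_mul] at htot
      exact Or.inl ((Nat.pow_le_pow_iff_right hq.one_lt).mp (by rw [pow_one, ← htot]; exact hcard))
    · subst hq2
      rw [h1] at hidx
      refine Or.inr ⟨rfl, (Nat.pow_le_pow_iff_right one_lt_two).mp ?_⟩
      rw [← htot, pow_two]
      exact Nat.mul_le_mul (Nat.le_of_dvd two_pos hidx) hcard
  have hdvd := FGS3.card_mulAut_dvd hX hr
  have hcop : ¬ p ∣ Nat.card (MulAut X) := by
    intro hd
    rcases hp.dvd_mul.mp (hd.trans hdvd) with h1 | h1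
    · obtain ⟨m, hm⟩ := IsPGroup.iff_card.mp (hX.to_subgroup (frattini X))
      have h2 := hp.dvd_of_dvd_pow h1
      rw [hm] at h2
      exact (Nat.ne_of_lt hqp).symm ((Nat.prime_dvd_prime_iff_eq hp hq).mp (hp.dvd_of_dvd_pow h2))
    · rw [Prime.dvd_finsetProd_iff hp.prime] at h1
      obtain ⟨i, hi, h2⟩ := h1
      have hi' := Finset.mem_range.mp hi
      have hlt : q ^ i < q ^ r := Nat.pow_lt_pow_right hq.one_lt hi'
      have h3 := Nat.le_of_dvd (by omega) h2
      rcases hrle with h4 | ⟨hq2, h4⟩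
      · have : q ^ r ≤ q ^ 1 := Nat.pow_le_pow_right hq.pos h4
        rw [pow_one] at this
        omega
      · subst hq2
        have : (2 : ℕ) ^ r ≤ 2 ^ 2 := Nat.pow_le_pow_right two_pos h4
        norm_num at this
        have := Nat.two_pow_pos i
        omega
  exact orderOf_eq_one_iff.mp (Nat.eq_one_of_dvd_coprimes
    (Nat.Coprime.pow_left k (hp.coprime_iff_not_dvd.mpr hcop))
    (orderOf_dvd_of_pow_eq_one hφ) (orderOf_dvd_natCard φ))

/-- The Sylow subgroup of the largest prime (at least 5) is normal. -/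
theorem sylow_normal {K : Type*} [Group K] [Finite K] [Group.IsSolvable K] (h : HasUniqueOrders K)
    {p : ℕ} [Fact p.Prime] (hp5 : 5 ≤ p) (hmax : ∀ q : ℕ, q.Prime → q ∣ Nat.card K → q ≤ p)
    (P : Sylow p K) : (P : Subgroup K).Normal := by
  have hp := (Fact.out : p.Prime)
  have hPc : IsCyclic (P : Subgroup K) :=
    (OddLocal.isCyclic_or_quaternion P.isPGroup' (h p P)).resolve_right fun hh => by omega
  have hcen : (P : Subgroup K) ≤ Subgroup.centralizer (fittingSubgroup K : Set K) := by
    intro x hx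
    suffices hle : fittingSubgroup K ≤ Subgroup.centralizer ({x} : Set K) from
      Subgroup.mem_centralizer_iff.mpr fun y hy =>
        Subgroup.mem_centralizer_singleton_iff.mp (hle hy)
    rw [Core.fittingSubgroup_eq_iSup]
    refine iSup_le fun q y hy => Subgroup.mem_centralizer_singleton_iff.mpr ?_
    haveI := Fact.mk q.2
    by_cases hqp : (q : ℕ) = p
    · rw [hqp] at hy
      obtain ⟨g, hg⟩ := IsCyclic.exists_generator (α := (P : Subgroup K))
      obtain ⟨a, ha⟩ := Subgroup.mem_zpowers_iff.mp (hg ⟨y, Core.pCore_le_sylow P hy⟩)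
      obtain ⟨b, hb⟩ := Subgroup.mem_zpowers_iff.mp (hg ⟨x, hx⟩)
      have := congrArg Subtype.val ((Commute.refl g).zpow_zpow a b).eq
      rwa [ha, hb] at this
    · by_cases hy1 : y = 1
      · rw [hy1, one_mul, mul_one]
      have hX := Core.isPGroup_pCore (q : ℕ) K
      have hqd : (q : ℕ) ∣ Nat.card K := by
        obtain ⟨k, hk⟩ := IsPGroup.iff_orderOf.mp hX ⟨y, hy⟩
        rw [Subgroup.orderOf_mk] at hk
        rcases k with _ | k
        · exact absurd (orderOf_eq_one_iff.mp hk) hy1
        · exact ((dvd_pow_self _ (Nat.succ_ne_zero k)).trans hk.symm.dvd).trans (orderOf_dvd_natCard y)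
      have hqlt : (q : ℕ) < p := lt_of_le_of_ne (hmax q q.2 hqd) hqp
      obtain ⟨k, hk⟩ := IsPGroup.iff_orderOf.mp P.isPGroup' ⟨x, hx⟩
      rw [Subgroup.orderOf_mk] at hk
      have h1 := mulAut_eq_one hp5 hqlt hX (h.of_pGroup hX)
        (MulAut.conjNormal x : MulAut (pCore (q : ℕ) K)) (k := k)
        (by rw [← map_pow, ← hk, pow_orderOf_eq_one, map_one])
      have h2 := congrArg (fun f : MulAut (pCore (q : ℕ) K) => ((f ⟨y, hy⟩ : pCore (q : ℕ) K) : K)) h1
      simp only [MulAut.conjNormal_apply, MulAut.one_apply] at h2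
      exact (mul_inv_eq_iff_eq_mul.mp h2).symm
  have hPF : (P : Subgroup K) ≤ fittingSubgroup K := hcen.trans Core.centralizer_fittingSubgroup_le
  haveI : Group.IsNilpotent (fittingSubgroup K) := Core.isNilpotent_fittingSubgroup K
  haveI hn : ((P.subtype hPF : Sylow p (fittingSubgroup K)) : Subgroup (fittingSubgroup K)).Normal :=
    Core.isNilpotent_iff_forall_sylow_normal.mp inferInstance p inferInstance _
  haveI := Sylow.characteristic_of_normal (P.subtype hPF : Sylow p (fittingSubgroup K)) hn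
  have h2 := Core.normal_map_subtype_of_characteristic
    ((P.subtype hPF : Sylow p (fittingSubgroup K)) : Subgroup (fittingSubgroup K))
  rwa [Sylow.coe_subtype, Subgroup.map_subgroupOf_eq_of_le hPF] at h2

/-- Solvability is detected by the order type, for such groups. -/
theorem isSolvable_of_samePow (n : ℕ) : ∀ {K : Type*} {L : Type*} [Group K] [Finite K] [Group L] [Finite L],
    Nat.card K = n → HasUniqueOrders K → Group.IsSolvable K → OrderType.SamePow K L → Group.IsSolvable L := by
  induction n using Nat.strong_induction_on with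
  | _ n ih =>
  intro K L _ _ _ _ hn hu hs hT
  classical
  by_cases hsmall : ∀ q : ℕ, q.Prime → q ∣ Nat.card K → q < 5
  · refine Core.isSolvable_of_primeFactors_card_le_two ?_
    refine (Finset.card_le_card (?_ : _ ⊆ ({2, 3} : Finset ℕ))).trans Finset.card_le_two
    intro q hq
    rw [Nat.mem_primeFactors, ← hT.card_eq] at hq
    have h5 := hsmall q hq.1 hq.2.1
    have h2 := hq.1.two_le
    have h4 : q ≠ 4 := fun e => by
      have := hq.1; rw [e] at this; norm_num at this
    simp only [Finset.mem_insert, Finset.mem_singleton]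
    omega
  push Not at hsmall
  obtain ⟨q₀, hq₀, hq₀d, hq₀5⟩ := hsmall
  have hne : (Nat.card K).primeFactors.Nonempty :=
    ⟨q₀, Nat.mem_primeFactors.mpr ⟨hq₀, hq₀d, Nat.card_pos.ne'⟩⟩
  set p := (Nat.card K).primeFactors.max' hne with hp
  have hpm := (Nat.card K).primeFactors.max'_mem hne
  haveI : Fact p.Prime := ⟨Nat.prime_of_mem_primeFactors hpm⟩
  have hmax : ∀ q : ℕ, q.Prime → q ∣ Nat.card K → q ≤ p := fun q hq hd =>
    Finset.le_max' _ _ (Nat.mem_primeFactors.mpr ⟨hq, hd, Nat.card_pos.ne'⟩)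
  let P : Sylow p K := default
  let Q : Sylow p L := default
  haveI hP : (P : Subgroup K).Normal := sylow_normal hu (hq₀5.trans (hmax q₀ hq₀ hq₀d)) hmax P
  obtain ⟨hQ, hPQ⟩ := hT.sylow_normal hP Q
  have hlt : Nat.card (K ⧸ (P : Subgroup K)) < n := by
    rw [← hn, ← (P : Subgroup K).index_mul_card, ← Subgroup.index_eq_card]
    exact lt_mul_of_one_lt_right (Nat.pos_of_ne_zero Subgroup.index_ne_zero_of_finite)
      (((P : Subgroup K).one_lt_card_iff_ne_bot).mpr
        (P.ne_bot_of_dvd_card (Nat.dvd_of_mem_primeFactors hpm)))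
  haveI : Group.IsSolvable (L ⧸ (Q : Subgroup L)) := ih _ hlt rfl (hu.quotient_sylow P)
    inferInstance (hT.quotient (P : Subgroup K) P.card_coprime_index (Q : Subgroup L) Q.card_coprime_index hPQ)
  haveI : Group.IsNilpotent (Q : Subgroup L) := Q.isPGroup'.isNilpotent
  haveI : Group.IsSolvable (Q : Subgroup L) := IsNilpotent.to_isSolvable
  exact Group.isSolvable_of_ker_le_range (Q : Subgroup L).subtype (QuotientGroup.mk' (Q : Subgroup L))
    (by rw [QuotientGroup.ker_mk', Subgroup.range_subtype])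

end Cfsg.Agent.FGS2.ComplementTower
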