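import Cfsg.Agent.FGS2.DGroupSylow
import Cfsg.Agent.Core.Cores
import Cfsg.Prelude.Def_Local

/-! Normal `p`-solvable subgroups when `p`-subgroups of equal order are conjugate. -/

set_option autoImplicit false
set_option linter.style.haveILetI false
set_option linter.unusedSectionVars false

namespace Cfsg.Agent.FGS2.DGroupPSolvable

open Subgroup Cfsg

variable {G : Type*} [Group G] [Finite G] {p : ℕ} [hp : Fact p.Prime]

theorem main (hp2 : p ≠ 2)
    (hC : ∀ H K : Subgroup G, IsPGroup p H → IsPGroup p K → Nat.card H = Nat.card K →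
      ∃ g : G, K = H.map (MulAut.conj g).toMonoidHom) (P : Sylow p G)
    (H : Subgroup G) [H.Normal] (hsolv : IsPSolvable p H) (hdiv : p ∣ Nat.card H) :
    IsMulCommutative P ∧ ((P : Subgroup G) ≤ H ∨ IsCyclic P) := by
  rcases DGroupSylow.exponent_or_unique (P : Subgroup G) P.2 hC with hexp | huniq
  swap
  · haveI := OddLocal.isCyclic_of_uniqueOrderP _ P.2 huniq (Or.inl hp2) le_rfl
    exact ⟨inferInstance, Or.inr inferInstance⟩
  set K := (pPrimeCore p H).map H.subtype with hKdef
  haveI hKn : K.Normal := ConjAct.normal_of_characteristic_of_normal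
  have hKH : K ≤ H := map_subtype_le _
  have hKcop : (Nat.card K).Coprime p := by
    rw [hKdef, card_map_of_injective H.subtype_injective]
    exact Core.card_pPrimeCore_coprime p H
  set π := QuotientGroup.mk' K with hπ
  set Hb := H.map π
  haveI hHbn : Hb.Normal := Normal.map inferInstance π (QuotientGroup.mk'_surjective K)
  -- a nontrivial normal `p`-subgroup of `Hb`
  obtain ⟨L, hLn, hLp, hLH⟩ : ∃ L : Subgroup H, L.Normal ∧
      IsPGroup p (L.map (π.comp H.subtype) : Subgroup (G ⧸ K)) ∧ p ∣ Nat.card L := by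
    obtain ⟨n, S, hS0, hSl, hSm, hSn, hSr⟩ := hsolv
    by_contra hcon
    have key : ∀ i : Fin (n + 1), ¬ p ∣ Nat.card (S i) := by
      intro i
      induction i using Fin.induction with
      | zero => rw [hS0, card_bot]; exact hp.out.not_dvd_one
      | succ i ih =>
        intro hd
        haveI := hSn i.succ
        haveI := hSn i.castSucc
        have hle : S i.castSucc ≤ S i.succ := hSm (Fin.castSucc_le_succ i)
        have hcard : Nat.card (S i.castSucc) * (S i.castSucc).relIndex (S i.succ) = Nat.card (S i.succ) := by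
          have h1 := relIndex_mul_relIndex ⊥ (S i.castSucc) (S i.succ) bot_le hle
          rwa [relIndex_bot_left, relIndex_bot_left] at h1
        have hr : p ∣ (S i.castSucc).relIndex (S i.succ) := by
          rw [← hcard] at hd
          exact (hp.out.dvd_mul.1 hd).resolve_left ih
        obtain ⟨m, hm⟩ := (hSr i).resolve_right fun hco =>
          hp.out.coprime_iff_not_dvd.1 hco.symm hr
        have hpc : S i.castSucc ≤ pPrimeCore p H :=
          Core.le_pPrimeCore (hSn _) (Nat.Coprime.symm (hp.out.coprime_iff_not_dvd.2 ih))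
        refine hcon ⟨S i.succ, hSn _, ?_, hd⟩
        rintro ⟨_, x, hx, rfl⟩
        refine ⟨m, Subtype.ext ?_⟩
        show (π (x : G)) ^ p ^ m = 1
        rw [← map_pow]
        refine (QuotientGroup.eq_one_iff _).2 ⟨x ^ p ^ m, hpc ?_, rfl⟩
        have h1 : (⟨x, hx⟩ : S i.succ) ^ ((S i.castSucc).subgroupOf (S i.succ)).index ∈
            (S i.castSucc).subgroupOf (S i.succ) := pow_index_mem _ _
        rw [show ((S i.castSucc).subgroupOf (S i.succ)).index = p ^ m from hm, mem_subgroupOf] at h1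
        exact h1
    exact key (Fin.last n) (by rw [hSl, card_top]; exact hdiv)
  set V := (pCore p Hb).map Hb.subtype
  haveI hVn : V.Normal := ConjAct.normal_of_characteristic_of_normal
  have hVp : IsPGroup p V := (Core.isPGroup_pCore p Hb).map _
  have hVH : V.comap π ≤ H := by
    intro g hg
    obtain ⟨h, hh, hhg⟩ := map_subtype_le _ hg
    have h1 : h⁻¹ * g ∈ H := hKH (QuotientGroup.eq.1 hhg)
    have h2 := mul_mem hh h1
    rwa [mul_inv_cancel_left] at h2
  have hVb : V ≠ ⊥ := by
    obtain ⟨⟨x, hxL⟩, hxo⟩ := exists_prime_orderOf_dvd_card' p hLH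
    set L' := L.map (π.comp H.subtype)
    have hL'le : L' ≤ Hb := by rintro _ ⟨y, -, rfl⟩; exact ⟨y, y.2, rfl⟩
    haveI : (L'.subgroupOf Hb).Normal := ⟨by
      rintro ⟨_, hw⟩ hv ⟨_, g, hg, rfl⟩
      obtain ⟨y, hy, hyw⟩ := mem_subgroupOf.1 hv
      refine mem_subgroupOf.2 ⟨⟨g, hg⟩ * y * ⟨g, hg⟩⁻¹, hLn.conj_mem y hy _, ?_⟩
      show π (g * (y : G) * g⁻¹) = _
      rw [map_mul, map_mul, map_inv]
      exact congrArg (fun t => π g * t * (π g)⁻¹) hyw⟩
    intro e
    have hle : L'.subgroupOf Hb ≤ pCore p Hb :=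
      Core.le_pCore inferInstance (hLp.of_equiv (subgroupOfEquivOfLe hL'le).symm)
    have h1 : π (x : G) ∈ V := ⟨⟨π (x : G), ⟨x, x.2, rfl⟩⟩, hle (mem_subgroupOf.2 ⟨x, hxL, rfl⟩), rfl⟩
    rw [e, mem_bot] at h1
    have h2 : orderOf (x : G) ∣ Nat.card K := orderOf_dvd_natCard K ((QuotientGroup.eq_one_iff _).1 h1)
    rw [orderOf_coe] at h2
    rw [orderOf_mk] at hxo
    rw [hxo] at h2
    exact hp.out.coprime_iff_not_dvd.1 hKcop.symm h2
  -- every element of `P` maps into any nontrivial normal `p`-subgroup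
  have hsub : ∀ W : Subgroup (G ⧸ K), W.Normal → IsPGroup p W → W ≠ ⊥ → ∀ x ∈ (P : Subgroup G), π x ∈ W := by
    intro W hW hWp hWb x hx
    by_cases hx1 : x = 1
    · rw [hx1, map_one]; exact one_mem W
    have hxo : orderOf x = p := orderOf_eq_prime (hexp x hx) hx1
    haveI : Nontrivial W := (nontrivial_iff_ne_bot W).2 hWb
    obtain ⟨k, hk, hkc⟩ := hWp.nontrivial_iff_card.1 inferInstance
    have hd : p ∣ Nat.card (W.comap π) := by
      have h1 : Nat.card W ∣ Nat.card (W.comap π) := by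
        have := card_map_dvd (f := π) (W.comap π)
        rwa [map_comap_eq_self_of_surjective (QuotientGroup.mk'_surjective K)] at this
      exact (dvd_pow_self p hk.ne').trans (hkc ▸ h1)
    obtain ⟨v, hv⟩ := exists_prime_orderOf_dvd_card' p hd
    rw [← orderOf_coe] at hv
    obtain ⟨g, hg⟩ := hC (zpowers (v : G)) (zpowers x)
      (IsPGroup.of_card (n := 1) (by rw [Nat.card_zpowers, hv, pow_one]))
      (IsPGroup.of_card (n := 1) (by rw [Nat.card_zpowers, hxo, pow_one]))
      (by rw [Nat.card_zpowers, Nat.card_zpowers, hv, hxo])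
    obtain ⟨w, hw, hwx⟩ : x ∈ (zpowers (v : G)).map (MulAut.conj g).toMonoidHom := hg ▸ mem_zpowers x
    rw [← hwx]
    show π (g * w * g⁻¹) ∈ W
    rw [map_mul, map_mul, map_inv]
    exact hW.conj_mem _ (show π w ∈ W from zpowers_le.2 v.2 hw) _
  have hPH : (P : Subgroup G) ≤ H := fun x hx => hVH (mem_comap.2 (hsub V hVn hVp hVb x hx))
  refine ⟨?_, Or.inl hPH⟩
  let P' : Sylow p (G ⧸ K) := P.mapSurjective (QuotientGroup.mk'_surjective K)
  have hP' : (P' : Subgroup (G ⧸ K)) = (P : Subgroup G).map π := Sylow.coe_mapSurjective _ _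
  have hPV : V = (P : Subgroup G).map π := by
    rw [← hP']
    refine P'.is_maximal' hVp ?_
    rw [hP']
    rintro _ ⟨x, hx, rfl⟩
    exact hsub V hVn hVp hVb x hx
  set W := (center V).map V.subtype
  haveI hWn : W.Normal := ConjAct.normal_of_characteristic_of_normal
  have hWb : W ≠ ⊥ := by
    rw [Ne, map_eq_bot_iff_of_injective _ V.subtype_injective]
    haveI : Nontrivial V := (nontrivial_iff_ne_bot V).2 hVb
    haveI := hVp.center_nontrivial
    exact (nontrivial_iff_ne_bot _).1 inferInstance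
  refine ⟨⟨fun a b => ?_⟩⟩
  obtain ⟨c, hc, hca⟩ := hsub W hWn ((hVp.to_subgroup (center V)).map _) hWb a a.2
  have hbV : π (b : G) ∈ V := hsub V hVn hVp hVb b b.2
  have h1 := congrArg Subtype.val (mem_center_iff.1 hc ⟨π (b : G), hbV⟩)
  have h2 : π (b : G) * π (a : G) = π (a : G) * π (b : G) := by rw [← hca]; exact h1
  rw [← map_mul, ← map_mul] at h2
  have h3 : ((b : G) * a)⁻¹ * ((a : G) * b) ∈ K := QuotientGroup.eq.1 h2
  have h4 : ((b : G) * a)⁻¹ * ((a : G) * b) ∈ (P : Subgroup G) :=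
    mul_mem (inv_mem (mul_mem b.2 a.2)) (mul_mem a.2 b.2)
  obtain ⟨k, hk⟩ := IsPGroup.iff_orderOf.1 P.2 ⟨_, h4⟩
  rw [orderOf_mk] at hk
  have h5 := orderOf_eq_one_iff.1 (Nat.eq_one_of_dvd_coprimes (hKcop.pow_right k)
    (orderOf_dvd_natCard K h3) (hk ▸ dvd_rfl))
  exact Subtype.ext (inv_mul_eq_one.1 h5).symm

end Cfsg.Agent.FGS2.DGroupPSolvable
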