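import Cfsg.Agent.OddLocal.UniqueSubgroup
import Cfsg.Agent.OddLocal.NilBasics
import Cfsg.Prelude.Def_Transfer
import Mathlib.GroupTheory.Sylow
import Cfsg.Agent.Coprime.Conjugacy

/-! Sylow subgroups when subgroups of equal prime power order are conjugate. -/

set_option autoImplicit false
set_option linter.style.haveILetI false
set_option linter.unusedSectionVars false

namespace Cfsg.Agent.FGS2.DGroupSylow

open Cfsg.Agent

variable {G : Type*} [Group G] [Finite G]

theorem exponent_or_unique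
    {p : ℕ} [hp : Fact p.Prime] (P : Subgroup G) (hP : IsPGroup p P)
    (hB : ∀ A B : Subgroup G, IsPGroup p A → IsPGroup p B → Nat.card ↥A = Nat.card ↥B → ∃ g : G, B = A.map (MulAut.conj g).toMonoidHom) :
    (∀ x ∈ P, x ^ p = 1) ∨ OddLocal.UniqueOrderP p P := by
  by_contra hcon
  obtain ⟨hexp, huni⟩ := not_or.mp hcon
  push Not at hexp
  obtain ⟨x, hx, hxp⟩ := hexp
  -- a cyclic subgroup of order `p ^ 2`
  obtain ⟨i, hi⟩ := IsPGroup.iff_orderOf.mp hP ⟨x, hx⟩
  rw [Subgroup.orderOf_mk] at hi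
  have hi2 : 2 ≤ i := by
    by_contra hlt
    refine hxp (orderOf_dvd_iff_pow_eq_one.mp ?_)
    rw [hi]
    exact (pow_dvd_pow p (show i ≤ 1 by omega)).trans (by rw [pow_one])
  obtain ⟨j, rfl⟩ : ∃ j, i = j + 2 := ⟨i - 2, by omega⟩
  have hy : orderOf (x ^ p ^ j) = p ^ 2 := by
    rw [orderOf_pow' x (pow_ne_zero _ hp.out.ne_zero), hi, Nat.gcd_eq_right (pow_dvd_pow p (by omega)),
      pow_add, Nat.mul_div_cancel_left _ (pow_pos hp.out.pos _)]
  -- an elementary abelian subgroup of order `p ^ 2`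
  haveI : Nontrivial P := Subgroup.nontrivial_iff_ne_bot P |>.mpr fun e => hxp (by
    rw [e] at hx; rw [Subgroup.mem_bot.mp hx, one_pow])
  obtain ⟨z, hz⟩ := exists_prime_orderOf_dvd_card' (G := Subgroup.center P) p (by
    haveI := hP.center_nontrivial
    obtain ⟨k, hk⟩ := IsPGroup.iff_card.mp (hP.to_subgroup (Subgroup.center P))
    rw [hk]
    refine dvd_pow_self p fun e => ?_
    rw [e, pow_zero] at hk
    exact Finite.one_lt_card.ne' hk)
  set c : G := ((z : P) : G) with hcdef
  have hc : orderOf c = p := by rw [hcdef, Subgroup.orderOf_coe, Subgroup.orderOf_coe, hz]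
  obtain ⟨b, hbp, hbn⟩ : ∃ b : P, b ^ p = 1 ∧ b ∉ Subgroup.zpowers (z : P) := by
    by_contra h
    push Not at h
    refine huni fun a d ha hd ha1 => ?_
    have heq : Subgroup.zpowers a = Subgroup.zpowers (z : P) := by
      refine Subgroup.eq_of_le_of_card_ge (Subgroup.zpowers_le.mpr (h a ha)) ?_
      rw [Nat.card_zpowers, Nat.card_zpowers, Subgroup.orderOf_coe, hz, orderOf_eq_prime ha ha1]
    exact heq ▸ h d hd
  have hb1 : b ≠ 1 := fun e => hbn (e ▸ Subgroup.one_mem _)
  have hcb : Commute c (b : G) := by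
    have := Subgroup.mem_center_iff.mp z.2 b
    exact (congrArg Subtype.val this).symm
  set E := Subgroup.zpowers c ⊔ Subgroup.zpowers (b : G) with hE
  haveI hEc : IsMulCommutative E := by
    rw [hE, Subgroup.zpowers_eq_closure, Subgroup.zpowers_eq_closure,
      ← Subgroup.closure_union]
    refine Subgroup.isMulCommutative_closure ?_
    rintro u (rfl | rfl) v (rfl | rfl)
    · rfl
    · exact hcb.eq
    · exact hcb.eq.symm
    · rfl
  have hEexp : ∀ e ∈ E, e ^ p = 1 := by
    intro e he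
    have hn : Subgroup.zpowers (b : G) ≤ Subgroup.normalizer (Subgroup.zpowers c : Set G) := by
      refine le_trans ?_ (Subgroup.centralizer_le_normalizer _)
      rw [Subgroup.zpowers_le, Subgroup.mem_centralizer_iff]
      intro u hu
      obtain ⟨s, rfl⟩ := Subgroup.mem_zpowers_iff.mp hu
      exact (hcb.zpow_left s).eq
    rw [hE, ← SetLike.mem_coe, Subgroup.coe_mul_of_right_le_normalizer_left _ _ hn] at he
    obtain ⟨u, hu, v, hv, rfl⟩ := he
    obtain ⟨s, rfl⟩ := Subgroup.mem_zpowers_iff.mp hu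
    obtain ⟨t, rfl⟩ := Subgroup.mem_zpowers_iff.mp hv
    show (c ^ s * (b : G) ^ t) ^ p = 1
    rw [(hcb.zpow_zpow s t).mul_pow]
    have e1 : c ^ p = 1 := by rw [← hc, pow_orderOf_eq_one]
    have e2 : (b : G) ^ p = 1 := by simpa using congrArg Subtype.val hbp
    have e3 : (c ^ s) ^ p = 1 := by
      rw [← zpow_natCast, ← zpow_mul, mul_comm, zpow_mul, zpow_natCast, e1, one_zpow]
    have e4 : ((b : G) ^ t) ^ p = 1 := by
      rw [← zpow_natCast, ← zpow_mul, mul_comm, zpow_mul, zpow_natCast, e2, one_zpow]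
    rw [e3, e4, one_mul]
  have hEcard : Nat.card E = p ^ 2 := by
    have hn : Subgroup.zpowers (b : G) ≤ Subgroup.normalizer (Subgroup.zpowers c : Set G) := by
      refine le_trans ?_ (Subgroup.centralizer_le_normalizer _)
      rw [Subgroup.zpowers_le, Subgroup.mem_centralizer_iff]
      intro u hu
      obtain ⟨s, rfl⟩ := Subgroup.mem_zpowers_iff.mp hu
      exact (hcb.zpow_left s).eq
    rw [hE, Coprime.card_sup hn]
    · rw [Nat.card_zpowers, Nat.card_zpowers, hc, Subgroup.orderOf_coe, orderOf_eq_prime hbp hb1, pow_two]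
    · rw [Subgroup.eq_bot_iff_forall]
      rintro u ⟨hu, hu'⟩
      by_contra hu1
      have h1 : Subgroup.zpowers u = Subgroup.zpowers (b : G) := by
        refine Subgroup.eq_of_le_of_card_ge (Subgroup.zpowers_le.mpr hu') ?_
        rw [Nat.card_zpowers, Nat.card_zpowers, Subgroup.orderOf_coe, orderOf_eq_prime hbp hb1]
        refine le_of_eq (orderOf_eq_prime ?_ hu1).symm
        exact hEexp u (Subgroup.mem_sup_left hu)
      have h2 : (b : G) ∈ Subgroup.zpowers c := Subgroup.zpowers_le.mpr hu (h1 ▸ Subgroup.mem_zpowers (b : G))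
      obtain ⟨s, hs⟩ := Subgroup.mem_zpowers_iff.mp h2
      exact hbn (Subgroup.mem_zpowers_iff.mpr ⟨s, Subtype.ext (by simpa [hcdef] using hs)⟩)
  obtain ⟨g, hg⟩ := hB E (Subgroup.zpowers (x ^ p ^ j)) (IsPGroup.of_card hEcard)
    (IsPGroup.of_card (n := 2) (by rw [Nat.card_zpowers, hy]))
    (by rw [hEcard, Nat.card_zpowers, hy])
  have hmem : x ^ p ^ j ∈ E.map (MulAut.conj g).toMonoidHom := hg ▸ Subgroup.mem_zpowers _
  obtain ⟨e, he, hee⟩ := hmem
  have h3 : (x ^ p ^ j) ^ p = 1 := by rw [← hee, ← map_pow, hEexp e he, map_one]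
  have h4 := orderOf_dvd_of_pow_eq_one h3
  rw [hy] at h4
  have := Nat.le_of_dvd hp.out.pos h4
  have := hp.out.two_le
  nlinarith


theorem comm_of_exponent_two {S : Subgroup G} (h : ∀ x ∈ S, x ^ 2 = 1) : IsMulCommutative S := by
  refine ⟨⟨fun a b => ?_⟩⟩
  have key : ∀ z : S, z⁻¹ = z := fun z =>
    inv_eq_of_mul_eq_one_right (Subtype.ext (by simpa [pow_two] using h z z.2))
  rw [← key (a * b), mul_inv_rev, key, key]

/-- A nonabelian group of prime exponent whose subgroups of order `p ^ 3` are all isomorphic has order `p ^ 3`. -/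
theorem card_eq_cube {P : Type*} [Group P] [Finite P] {p : ℕ} [hp : Fact p.Prime] (hexp : ∀ x : P, x ^ p = 1)
    (hna : ¬ IsMulCommutative P)
    (hiso : ∀ H K : Subgroup P, Nat.card H = p ^ 3 → Nat.card K = p ^ 3 → IsMulCommutative H → IsMulCommutative K) :
    Nat.card P = p ^ 3 := by
  have hpp := hp.out
  have hP : IsPGroup p P := fun x => ⟨1, by rw [pow_one]; exact hexp x⟩
  haveI := hP.isNilpotent
  -- a nonabelian subgroup of order `p ^ 3`
  obtain ⟨q, hq, hq1⟩ : ∃ q : P ⧸ Subgroup.center P, q ∈ Subgroup.center (P ⧸ Subgroup.center P) ∧ q ≠ 1 := by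
    have hnt : Nontrivial (P ⧸ Subgroup.center P) := by
      rw [QuotientGroup.nontrivial_iff]
      intro e
      exact hna ⟨⟨fun a b => (Subgroup.mem_center_iff.1 (e ▸ Subgroup.mem_top b)) a⟩⟩
    haveI := (hP.to_quotient (Subgroup.center P)).center_nontrivial
    obtain ⟨⟨q, hq⟩, hq1⟩ := exists_ne (1 : Subgroup.center (P ⧸ Subgroup.center P))
    exact ⟨q, hq, fun e => hq1 (Subtype.ext e)⟩
  obtain ⟨z, rfl⟩ := QuotientGroup.mk'_surjective _ q
  have hzc : ∀ g : P, g * z * g⁻¹ * z⁻¹ ∈ Subgroup.center P := fun g => (QuotientGroup.eq_one_iff _).1 (by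
    show QuotientGroup.mk' _ (g * z * g⁻¹ * z⁻¹) = 1
    rw [map_mul, map_mul, map_mul, map_inv, map_inv, Subgroup.mem_center_iff.1 hq, mul_inv_cancel_right,
      mul_inv_cancel])
  have hzZ : z ∉ Subgroup.center P := fun h => hq1 ((QuotientGroup.eq_one_iff z).2 h)
  obtain ⟨a, ha⟩ : ∃ a : P, a * z ≠ z * a := by
    by_contra h
    push Not at h
    exact hzZ (Subgroup.mem_center_iff.2 h)
  set c := a * z * a⁻¹ * z⁻¹ with hcdef
  have hcZ := hzc a
  have hcc : ∀ g : P, g * c = c * g := Subgroup.mem_center_iff.1 hcZ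
  have hc1 : c ≠ 1 := fun e => ha (by
    rw [hcdef, mul_inv_eq_one, mul_inv_eq_iff_eq_mul] at e
    exact e)
  have hz1 : z ≠ 1 := fun e => hzZ (e ▸ one_mem _)
  have ha1 : a ≠ 1 := fun e => ha (by rw [e]; simp)
  have hord : ∀ g : P, g ≠ 1 → orderOf g = p := fun g hg => orderOf_eq_prime (hexp g) hg
  set K := Subgroup.zpowers c ⊔ Subgroup.zpowers z
  have hKn : Subgroup.zpowers z ≤ Subgroup.normalizer (Subgroup.zpowers c : Set P) := by
    refine le_trans ?_ (Subgroup.centralizer_le_normalizer _)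
    rw [Subgroup.zpowers_le, Subgroup.mem_centralizer_iff]
    intro u hu
    obtain ⟨i, rfl⟩ := Subgroup.mem_zpowers_iff.1 hu
    exact ((show Commute c z from (hcc z).symm).zpow_left i).eq
  have hzc' : Subgroup.zpowers c ⊓ Subgroup.zpowers z = ⊥ := by
    rw [eq_bot_iff]
    rintro u ⟨hu, hu'⟩
    rw [Subgroup.mem_bot]
    by_contra hu1
    have h1 : Subgroup.zpowers u = Subgroup.zpowers z := Subgroup.eq_of_le_of_card_ge
      (Subgroup.zpowers_le.2 hu') (by rw [Nat.card_zpowers, Nat.card_zpowers, hord u hu1, hord z hz1])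
    refine hzZ (Subgroup.zpowers_le.2 hcZ (Subgroup.zpowers_le.2 hu ?_))
    rw [h1]
    exact Subgroup.mem_zpowers z
  have hKc : Nat.card K = p ^ 2 := by
    rw [show K = Subgroup.zpowers c ⊔ Subgroup.zpowers z from rfl, Coprime.card_sup hKn hzc', Nat.card_zpowers,
      Nat.card_zpowers, hord c hc1, hord z hz1, pow_two]
  have hKcen : K ≤ Subgroup.centralizer ({z} : Set P) := by
    refine sup_le (Subgroup.zpowers_le.2 ?_) (Subgroup.zpowers_le.2 ?_) <;>
      rw [Subgroup.mem_centralizer_singleton_iff]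
    exact (hcc z).symm
  have haK : Subgroup.zpowers a ≤ Subgroup.normalizer (K : Set P) := by
    have h1 : K.map (MulAut.conj a).toMonoidHom = K := by
      refine Subgroup.eq_of_le_of_card_ge ?_
        (Subgroup.card_map_of_injective (MulAut.conj a).injective).ge
      rw [Subgroup.map_sup, MonoidHom.map_zpowers, MonoidHom.map_zpowers]
      refine sup_le (Subgroup.zpowers_le.2 ?_) (Subgroup.zpowers_le.2 ?_)
      · show a * c * a⁻¹ ∈ K
        rw [hcc a, mul_inv_cancel_right]
        exact Subgroup.mem_sup_left (Subgroup.mem_zpowers c)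
      · show a * z * a⁻¹ ∈ K
        rw [show a * z * a⁻¹ = c * z by rw [hcdef, inv_mul_cancel_right]]
        exact mul_mem (Subgroup.mem_sup_left (Subgroup.mem_zpowers c))
          (Subgroup.mem_sup_right (Subgroup.mem_zpowers z))
    exact Subgroup.zpowers_le.2 (Subgroup.mem_normalizer_iff_map_conj_eq.2 h1)
  have hint : K ⊓ Subgroup.zpowers a = ⊥ := by
    rw [eq_bot_iff]
    rintro u ⟨hu, hu'⟩
    rw [Subgroup.mem_bot]
    by_contra hu1
    have h1 : Subgroup.zpowers u = Subgroup.zpowers a := Subgroup.eq_of_le_of_card_ge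
      (Subgroup.zpowers_le.2 hu') (by rw [Nat.card_zpowers, Nat.card_zpowers, hord u hu1, hord a ha1])
    refine ha (Subgroup.mem_centralizer_singleton_iff.1 (hKcen (Subgroup.zpowers_le.2 hu ?_)))
    rw [h1]
    exact Subgroup.mem_zpowers a
  set H := K ⊔ Subgroup.zpowers a
  have hHc : Nat.card H = p ^ 3 := by
    rw [show H = K ⊔ Subgroup.zpowers a from rfl, Coprime.card_sup haK hint, hKc, Nat.card_zpowers,
      hord a ha1, ← pow_succ]
  have hHna : ¬ IsMulCommutative H := fun e => ha (congrArg Subtype.val (e.is_comm.comm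
    (⟨a, Subgroup.mem_sup_right (Subgroup.mem_zpowers a)⟩ : H)
    ⟨z, Subgroup.mem_sup_left (Subgroup.mem_sup_right (Subgroup.mem_zpowers z))⟩))
  -- a self-centralizing normal abelian subgroup has order at most `p ^ 2`
  obtain ⟨A, hAn, hAc, hAcen⟩ := OddLocal.exists_normal_isMulCommutative_eq_centralizer (G := P)
  obtain ⟨k, hk⟩ := IsPGroup.iff_card.1 (hP.to_subgroup A)
  have hk2 : k ≤ 2 := by
    by_contra hk3
    obtain ⟨B, hB⟩ := Sylow.exists_subgroup_card_pow_prime p (G := A) (n := 3)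
      (by rw [hk]; exact pow_dvd_pow p (by omega))
    refine hHna (hiso (B.map A.subtype) H (by rw [Subgroup.card_map_of_injective A.subtype_injective, hB]) hHc ?_)
    refine ⟨⟨fun u v => ?_⟩⟩
    apply Subtype.ext
    exact congrArg A.subtype (hAc.is_comm.comm
      (⟨u, Subgroup.map_subtype_le _ u.2⟩ : A) (⟨v, Subgroup.map_subtype_le _ v.2⟩ : A))
  -- hence the group is small
  obtain ⟨n, hn⟩ := IsPGroup.iff_card.1 hP
  have hn3 : 3 ≤ n := by
    have h1 := H.card_le_card_group
    rw [hHc, hn] at h1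
    exact (Nat.pow_le_pow_iff_right hpp.one_lt).1 h1
  have hZA : Subgroup.center P ≤ A := fun u hu => by
    rw [← hAcen, Subgroup.mem_centralizer_iff]
    exact fun v _ => Subgroup.mem_center_iff.1 hu v
  have hZlt : Subgroup.center P < A := by
    refine lt_of_le_of_ne hZA fun e => hna ?_
    have : A = ⊤ := by
      rw [← hAcen, ← e]
      exact eq_top_iff.2 fun g _ => Subgroup.mem_centralizer_iff.2 fun v hv => (Subgroup.mem_center_iff.1 hv g).symm
    exact ⟨⟨fun u v => congrArg Subtype.val (hAc.is_comm.comm (⟨u, this ▸ Subgroup.mem_top u⟩ : A)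
      ⟨v, this ▸ Subgroup.mem_top v⟩)⟩⟩
  obtain ⟨d, hdA, hdZ⟩ := SetLike.exists_of_lt hZlt
  haveI : Nontrivial P := ⟨⟨z, 1, hz1⟩⟩
  haveI := hP.center_nontrivial
  obtain ⟨⟨w, hw⟩, hw1⟩ := exists_ne (1 : Subgroup.center P)
  have hw1' : w ≠ 1 := fun e => hw1 (Subtype.ext e)
  have hd1 : d ≠ 1 := fun e => hdZ (e ▸ one_mem _)
  have hwd : Subgroup.zpowers w ⊔ Subgroup.zpowers d = A := by
    have hle : Subgroup.zpowers w ⊔ Subgroup.zpowers d ≤ A :=
      sup_le (Subgroup.zpowers_le.2 (hZA hw)) (Subgroup.zpowers_le.2 hdA)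
    refine Subgroup.eq_of_le_of_card_ge hle ?_
    rw [Coprime.card_sup, Nat.card_zpowers, Nat.card_zpowers, hord w hw1', hord d hd1, ← pow_two, hk]
    · exact Nat.pow_le_pow_right hpp.pos hk2
    · refine le_trans ?_ (Subgroup.centralizer_le_normalizer _)
      rw [Subgroup.zpowers_le, Subgroup.mem_centralizer_iff]
      intro u hu
      exact (Subgroup.mem_center_iff.1 (Subgroup.zpowers_le.2 hw hu) d).symm
    · rw [eq_bot_iff]
      rintro u ⟨hu, hu'⟩
      rw [Subgroup.mem_bot]
      by_contra hu1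
      have h1 : Subgroup.zpowers u = Subgroup.zpowers d := Subgroup.eq_of_le_of_card_ge
        (Subgroup.zpowers_le.2 hu') (by rw [Nat.card_zpowers, Nat.card_zpowers, hord u hu1, hord d hd1])
      refine hdZ (Subgroup.zpowers_le.2 hw (Subgroup.zpowers_le.2 hu ?_))
      rw [h1]
      exact Subgroup.mem_zpowers d
  have hCd : Subgroup.centralizer ({d} : Set P) = A := by
    refine le_antisymm (fun g hg => ?_) fun g hg => ?_
    · have h1 : A ≤ Subgroup.centralizer ({g} : Set P) := by
        rw [← hwd]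
        refine sup_le (Subgroup.zpowers_le.2 ?_) (Subgroup.zpowers_le.2 ?_) <;>
          rw [Subgroup.mem_centralizer_singleton_iff]
        · exact (Subgroup.mem_center_iff.1 hw g).symm
        · exact (Subgroup.mem_centralizer_singleton_iff.1 hg).symm
      rw [← hAcen, Subgroup.mem_centralizer_iff]
      exact fun v hv => Subgroup.mem_centralizer_singleton_iff.1 (h1 hv)
    · exact Subgroup.mem_centralizer_singleton_iff.2
        (congrArg Subtype.val (hAc.is_comm.comm (⟨g, hg⟩ : A) ⟨d, hdA⟩))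
  have hidx : A.index < p ^ 2 := by
    have hinj : Function.Injective (fun q : P ⧸ A => (⟨q.out * d * q.out⁻¹, hAn.conj_mem d hdA q.out⟩ : A)) := by
      intro q r hqr
      have h1 : q.out * d * q.out⁻¹ = r.out * d * r.out⁻¹ := congrArg Subtype.val hqr
      rw [← q.out_eq, ← r.out_eq]
      refine QuotientGroup.eq.2 (hCd.le (Subgroup.mem_centralizer_singleton_iff.2 ?_))
      calc q.out⁻¹ * r.out * d = q.out⁻¹ * (r.out * d * r.out⁻¹) * r.out := by group
        _ = q.out⁻¹ * (q.out * d * q.out⁻¹) * r.out := by rw [h1]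
        _ = d * (q.out⁻¹ * r.out) := by group
    have hne : ¬ Function.Surjective (fun q : P ⧸ A => (⟨q.out * d * q.out⁻¹, hAn.conj_mem d hdA q.out⟩ : A)) := by
      intro hs
      obtain ⟨q, hq⟩ := hs 1
      exact hd1 (conj_eq_one_iff.1 (congrArg Subtype.val hq))
    haveI : Fintype (P ⧸ A) := Fintype.ofFinite _
    haveI : Fintype A := Fintype.ofFinite _
    have h2 := Fintype.card_lt_of_injective_not_surjective _ hinj hne
    rw [← Nat.card_eq_fintype_card, ← Nat.card_eq_fintype_card, hk] at h2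
    rw [Subgroup.index_eq_card]
    exact h2.trans_le (Nat.pow_le_pow_right hpp.pos hk2)
  obtain ⟨m, -, hm⟩ := (Nat.dvd_prime_pow hpp).1 (hn ▸ A.index_dvd_card)
  rw [hm] at hidx
  have hm1 := (Nat.pow_lt_pow_iff_right hpp.one_lt).1 hidx
  have h3 := A.index_mul_card
  rw [hm, hk, hn, ← pow_add] at h3
  have h4 := Nat.pow_right_injective hpp.two_le h3
  rw [hn, show n = 3 by omega]

theorem main {p : ℕ} [hp : Fact p.Prime]
    (hC : ∀ H K : Subgroup G, IsPGroup p H → IsPGroup p K → Nat.card H = Nat.card K →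
      ∃ g : G, K = H.map (MulAut.conj g).toMonoidHom) (P : Sylow p G) :
    IsCyclic P ∨ Cfsg.IsElementaryAbelian p (P : Subgroup G) ∨
      (p = 2 ∧ Nonempty ((P : Subgroup G) ≃* QuaternionGroup 2)) ∨
      (p ≠ 2 ∧ ¬ IsMulCommutative P ∧ Nat.card P = p ^ 3 ∧ Monoid.exponent P = p) := by
  -- subgroups of the same order inside `P` are isomorphic
  have hiso : ∀ H K : Subgroup (P : Subgroup G), Nat.card H = Nat.card K →
      ∃ f : H →* K, Function.Surjective f := by
    intro H K hHK
    obtain ⟨g, hg⟩ := hC (H.map (P : Subgroup G).subtype) (K.map (P : Subgroup G).subtype)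
      ((P.2.to_subgroup H).map _) ((P.2.to_subgroup K).map _)
      (by rw [Subgroup.card_map_of_injective (P : Subgroup G).subtype_injective,
        Subgroup.card_map_of_injective (P : Subgroup G).subtype_injective, hHK])
    let e1 := H.equivMapOfInjective (P : Subgroup G).subtype (P : Subgroup G).subtype_injective
    let e2 := K.equivMapOfInjective (P : Subgroup G).subtype (P : Subgroup G).subtype_injective
    let e3 := (H.map (P : Subgroup G).subtype).equivMapOfInjective (MulAut.conj g).toMonoidHom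
      (MulAut.conj g).injective
    let e := ((e1.trans e3).trans (MulEquiv.subgroupCongr hg.symm)).trans e2.symm
    exact ⟨e.toMonoidHom, e.surjective⟩
  rcases exponent_or_unique (P : Subgroup G) P.2 hC with hexp | huniq
  · by_cases hab : IsMulCommutative P
    · exact Or.inr (Or.inl ⟨hab, hexp⟩)
    have hp2 : p ≠ 2 := by
      rintro rfl
      exact hab (comm_of_exponent_two hexp)
    have hexp' : ∀ x : (P : Subgroup G), x ^ p = 1 := fun x => Subtype.ext (by simpa using hexp x x.2)
    refine Or.inr (Or.inr (Or.inr ⟨hp2, hab, card_eq_cube hexp' hab fun H K hH hK hc => ?_, ?_⟩))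
    · obtain ⟨f, hf⟩ := hiso H K (hH.trans hK.symm)
      haveI := hc
      refine ⟨⟨fun u v => ?_⟩⟩
      obtain ⟨u, rfl⟩ := hf u
      obtain ⟨v, rfl⟩ := hf v
      rw [← map_mul, ← map_mul, mul_comm']
    · refine ((Nat.dvd_prime hp.out).1 (Monoid.exponent_dvd_of_forall_pow_eq_one hexp')).resolve_left fun h => hab ?_
      haveI := Monoid.exp_eq_one_iff.1 h
      exact ⟨⟨fun a b => Subsingleton.elim _ _⟩⟩
  · rcases OddLocal.isCyclic_or_quaternion P.2 huniq with h | ⟨rfl, k, ⟨e⟩⟩
    · exact Or.inl h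
    rcases k with _ | _ | k
    · left
      haveI : IsCyclic (QuaternionGroup (2 ^ 0)) := QuaternionGroup.quaternionGroup_one_isCyclic
      exact isCyclic_of_surjective e.symm e.symm.surjective
    · exact Or.inr (Or.inr (Or.inl ⟨rfl, ⟨e⟩⟩))
    exfalso
    haveI : NeZero (2 ^ (k + 1 + 1)) := ⟨by positivity⟩
    set m := 2 ^ (k + 1 + 1) with hm
    set x := e.symm (QuaternionGroup.xa 0)
    set a := e.symm (QuaternionGroup.a 1)
    have hcard : Nat.card (P : Subgroup G) = 2 * (2 * m) := by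
      rw [Nat.card_congr e.toEquiv, Nat.card_eq_fintype_card, QuaternionGroup.card]
      ring
    have hao : orderOf a = 2 * m := by rw [MulEquiv.orderOf_eq, QuaternionGroup.orderOf_a_one]
    have hxo : orderOf x = 4 := by rw [MulEquiv.orderOf_eq, QuaternionGroup.orderOf_xa]
    have hm4 : 4 ≤ m := by
      calc 4 = 1 * 4 := rfl
        _ ≤ 2 ^ k * 4 := Nat.mul_le_mul_right _ Nat.one_le_two_pow
        _ = m := by rw [hm]; ring
    obtain ⟨M, hMc, hxM⟩ := Sylow.exists_subgroup_card_pow_prime_le 2 (G := (P : Subgroup G)) (n := 2)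
      (m := k + 1 + 1 + 1)
      (by rw [hcard, pow_succ 2 (k + 1 + 1), ← hm]; exact ⟨2, by ring⟩)
      (Subgroup.zpowers x) (by rw [Nat.card_zpowers, hxo]; rfl) (by omega)
    have hMm : Nat.card M = 2 * m := by rw [hMc, pow_succ, ← hm, mul_comm]
    obtain ⟨f, hf⟩ := hiso (Subgroup.zpowers a) M (by rw [Nat.card_zpowers, hao, hMm])
    haveI : IsCyclic M := isCyclic_of_surjective f hf
    obtain ⟨g, hg⟩ := IsCyclic.exists_ofOrder_eq_natCard (α := M)
    rw [hMm, ← Subgroup.orderOf_coe, ← MulEquiv.orderOf_eq e] at hg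
    have hgM : Subgroup.zpowers (g : (P : Subgroup G)) = M := Subgroup.eq_of_le_of_card_ge
      (Subgroup.zpowers_le.2 g.2) (by rw [Nat.card_zpowers, ← MulEquiv.orderOf_eq e, hg, hMm])
    rcases hge : e (g : (P : Subgroup G)) with i | i
    · have h1 : e x ∈ Subgroup.zpowers (QuaternionGroup.a 1 : QuaternionGroup m) := by
        obtain ⟨j, hj⟩ := Subgroup.mem_zpowers_iff.1 (hgM.symm ▸ hxM (Subgroup.mem_zpowers x))
        rw [← hj, map_zpow, hge]
        refine zpow_mem (Subgroup.mem_zpowers_iff.2 ⟨(i.val : ℤ), ?_⟩) j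
        rw [zpow_natCast, QuaternionGroup.a_one_pow, ZMod.natCast_zmod_val]
      rw [MulEquiv.apply_symm_apply] at h1
      obtain ⟨j, hj⟩ := mem_powers_iff_mem_zpowers.2 h1
      simp only [QuaternionGroup.a_one_pow] at hj
      cases hj
    · rw [hge, QuaternionGroup.orderOf_xa] at hg
      omega

end Cfsg.Agent.FGS2.DGroupSylow
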