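import Mathlib.GroupTheory.Nilpotent
import Mathlib.GroupTheory.PGroup
import Mathlib.GroupTheory.Solvable
import Mathlib.Tactic
import Cfsg.Agent.FGS3.PolySeq
import Cfsg.Agent.Transfer.HallFactor

/-!
# The order of a `p`-group of given derived length

If a derived factor at level `i` has the least possible order, the next derived subgroup is
monogenic, so all later derived subgroups lie one step deeper in the lower central series.
-/

set_option autoImplicit false
set_option linter.style.haveILetI false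

namespace Cfsg.Agent.FGS2.DerivedLengthBound

open scoped commutatorElement
open Cfsg.Agent.Transfer

variable {P : Type*} [Group P]

theorem filt_lower (W : ℕ → Subgroup P) [∀ k, (W k).Normal]
    (hW : ∀ k, ⁅W (k + 1), (⊤ : Subgroup P)⁆ ≤ W k) (m : ℕ) : ∀ j,
    ⁅W (j + m + 1), (⊤ : Subgroup P).lowerCentralSeries m⁆ ≤ W j := by
  induction m with
  | zero => intro j; exact hW j
  | succ m ih =>
    intro j
    rw [Subgroup.commutator_comm, Subgroup.lowerCentralSeries_succ]
    apply HallFactor.rotate_le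
    · refine (Subgroup.commutator_mono ?_ le_rfl).trans (ih j)
      rw [Subgroup.commutator_comm]
      exact hW (j + m + 1)
    · refine (Subgroup.commutator_mono ?_ le_rfl).trans (hW j)
      have := ih (j + 1)
      rwa [show j + 1 + m + 1 = j + (m + 1) + 1 by omega] at this

/-- The elements of `A` that fall into the `j`-th term of the upper central series modulo `B`. -/
def layer (A B : Subgroup P) [B.Normal] (j : ℕ) : Subgroup P :=
  A ⊓ (Subgroup.upperCentralSeries (P ⧸ B) j).comap (QuotientGroup.mk' B)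

instance (A B : Subgroup P) [A.Normal] [B.Normal] (j : ℕ) : (layer A B j).Normal := by
  unfold layer; infer_instance

theorem le_layer {A B : Subgroup P} [B.Normal] (h : B ≤ A) (j : ℕ) : B ≤ layer A B j := fun x hx =>
  ⟨h hx, by
    show QuotientGroup.mk' B x ∈ Subgroup.upperCentralSeries (P ⧸ B) j
    rw [QuotientGroup.mk'_apply, (QuotientGroup.eq_one_iff x).2 hx]
    exact one_mem _⟩

/-- The layer centralizes `A` modulo `⁅B, P⁆`. -/
theorem layer_commutator (A B : Subgroup P) [B.Normal] {j : ℕ}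
    (hA : A ≤ (⊤ : Subgroup P).lowerCentralSeries j) :
    ⁅layer A B j, A⁆ ≤ ⁅B, (⊤ : Subgroup P)⁆ := by
  let W : ℕ → Subgroup P := fun k => match k with
    | 0 => ⁅B, (⊤ : Subgroup P)⁆
    | k + 1 => (Subgroup.upperCentralSeries (P ⧸ B) k).comap (QuotientGroup.mk' B)
  haveI : ∀ k, (W k).Normal := fun k => by cases k <;> dsimp only [W] <;> infer_instance
  have hW : ∀ k, ⁅W (k + 1), (⊤ : Subgroup P)⁆ ≤ W k := by
    intro k
    cases k with
    | zero =>
      refine Subgroup.commutator_mono ?_ le_rfl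
      dsimp only [W]
      rw [Subgroup.upperCentralSeries_zero, MonoidHom.comap_bot, QuotientGroup.ker_mk']
    | succ k =>
      rw [Subgroup.commutator_le]
      intro g hg y _
      dsimp only [W] at hg ⊢
      rw [Subgroup.mem_comap, map_commutatorElement]
      exact Subgroup.mem_upperCentralSeries_succ_iff.1 hg _
  refine le_trans (Subgroup.commutator_mono ?_ hA) (filt_lower W hW j 0)
  rw [Nat.zero_add]
  exact inf_le_right

variable [Finite P] {p : ℕ} [Fact p.Prime]

theorem mul_le_of_lt (hP : IsPGroup p P) {S T : Subgroup P} (h : S < T) :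
    Nat.card S * p ≤ Nat.card T := by
  obtain ⟨a, ha⟩ := IsPGroup.iff_card.1 (hP.to_subgroup S)
  obtain ⟨b, hb⟩ := IsPGroup.iff_card.1 (hP.to_subgroup T)
  have h1 : Nat.card S < Nat.card T := by
    rcases (Subgroup.card_le_of_le h.le).lt_or_eq with h' | h'
    · exact h'
    · exact absurd (Subgroup.eq_of_le_of_card_ge h.le h'.ge) h.ne
  rw [ha, hb] at h1 ⊢
  rw [← pow_succ]
  exact Nat.pow_le_pow_right (Fact.out : p.Prime).pos ((Nat.pow_lt_pow_iff_right (Fact.out : p.Prime).one_lt).1 h1)

theorem card_layer (hP : IsPGroup p P) {A B : Subgroup P} [A.Normal] [B.Normal] (hBA : B ≤ A) {j : ℕ}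
    (hnot : ¬ A ≤ layer A B j) : Nat.card B * p ^ j ≤ Nat.card (layer A B j) := by
  have hmono : ∀ {a b : ℕ}, a ≤ b → layer A B a ≤ layer A B b := fun h =>
    inf_le_inf_left _ (Subgroup.comap_mono (Subgroup.upperCentralSeries_mono _ h))
  have hs : Function.Surjective (QuotientGroup.mk' B) := QuotientGroup.mk'_surjective B
  haveI : Group.IsNilpotent (P ⧸ B) := (hP.to_quotient B).isNilpotent
  haveI : (A.map (QuotientGroup.mk' B)).Normal := Subgroup.Normal.map inferInstance _ hs
  have hlt : ∀ k, k < j → layer A B k < layer A B (k + 1) := by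
    intro k hk
    refine lt_of_le_of_ne (hmono (by omega)) fun h => hnot ?_
    have h' : A.map (QuotientGroup.mk' B) ⊓ Subgroup.upperCentralSeries (P ⧸ B) (k + 1) ≤
        A.map (QuotientGroup.mk' B) ⊓ Subgroup.upperCentralSeries (P ⧸ B) k := by
      rintro _ ⟨⟨x, hx, rfl⟩, hxu⟩
      exact ⟨⟨x, hx, rfl⟩, (h ▸ (⟨hx, hxu⟩ : x ∈ layer A B (k + 1)) : x ∈ layer A B k).2⟩
    obtain ⟨c, hc⟩ := Group.IsNilpotent.nilpotent (G := P ⧸ B)
    have h2 := HallFactor.inf_upper_stable _ h' c
    rw [hc, inf_top_eq] at h2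
    exact le_trans (le_inf le_rfl fun x hx => h2 ⟨x, hx, rfl⟩) (hmono hk.le)
  have key : ∀ k, k ≤ j → Nat.card B * p ^ k ≤ Nat.card (layer A B k) := by
    intro k hk
    induction k with
    | zero => rw [pow_zero, mul_one]; exact Subgroup.card_le_of_le (le_layer hBA 0)
    | succ k ih =>
      rw [pow_succ, ← mul_assoc]
      exact (Nat.mul_le_mul_right _ (ih (by omega))).trans (mul_le_of_lt hP (hlt k (by omega)))
  exact key j le_rfl

theorem commutator_le_of_map {A K : Subgroup P} [K.Normal] (s : Set P)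
    (hA : A ≤ Subgroup.closure s) (hs : ∀ u ∈ s, ∀ v ∈ s, ⁅u, v⁆ ∈ K) : ⁅A, A⁆ ≤ K := by
  refine (Subgroup.commutator_mono hA hA).trans ?_
  rw [← QuotientGroup.ker_mk' K, ← Subgroup.map_eq_bot_iff, Subgroup.map_commutator,
    Subgroup.commutator_eq_bot_iff_le_centralizer, MonoidHom.map_closure, Subgroup.centralizer_closure,
    Subgroup.closure_le]
  rintro _ ⟨u, hu, rfl⟩
  rw [SetLike.mem_coe, Subgroup.mem_centralizer_iff]
  rintro _ ⟨v, hv, rfl⟩
  rw [← commutatorElement_eq_one_iff_mul_comm, ← map_commutatorElement]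
  exact (QuotientGroup.eq_one_iff _).2 (hs v hv u hu)

/-- Hall's bound on a derived factor, and the structure in the case of equality. -/
theorem step (hP : IsPGroup p P) (A : Subgroup P) [A.Normal] {j : ℕ}
    (hA : A ≤ (⊤ : Subgroup P).lowerCentralSeries j) (hne : ⁅A, A⁆ ≠ ⊥) :
    Nat.card (⁅A, A⁆ : Subgroup P) * p ^ (j + 2) ≤ Nat.card A ∧
      (Nat.card A < Nat.card (⁅A, A⁆ : Subgroup P) * p ^ (j + 3) →
        ∃ b ∈ ⁅A, A⁆, ⁅A, A⁆ ≤ Subgroup.closure (insert b ((⁅⁅A, A⁆, (⊤ : Subgroup P)⁆ : Subgroup P) : Set P))) := by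
  set B := ⁅A, A⁆ with hB
  haveI : B.Normal := by rw [hB]; infer_instance
  set C := ⁅B, (⊤ : Subgroup P)⁆ with hC
  haveI : C.Normal := by rw [hC]; infer_instance
  have hBA : B ≤ A := Subgroup.commutator_le_left A A
  have hCB : C < B := Coprime.commutator_lt_of_isPGroup (hP.to_subgroup B) (hP.to_subgroup ⊤)
    (by rw [Subgroup.normalizer_eq_top (H := B)]) hne
  set S := layer A B j with hS
  have hSA : S ≤ A := inf_le_left
  have hSC : ⁅S, A⁆ ≤ C := layer_commutator A B hA
  -- generation by two elements modulo `S` controls the commutators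
  have gen : ∀ x ∈ A, ∀ y ∈ A, A ≤ Subgroup.closure (insert x (insert y (S : Set P))) →
      ∀ K : Subgroup P, K.Normal → C ≤ K → ⁅x, y⁆ ∈ K → B ≤ K := by
    intro x hx y hy hg K hK hCK hxy
    haveI := hK
    have hSK : ∀ u ∈ S, ∀ v ∈ A, ⁅u, v⁆ ∈ K ∧ ⁅v, u⁆ ∈ K := fun u hu v hv => by
      have h := hCK (hSC (Subgroup.commutator_mem_commutator hu hv))
      exact ⟨h, by rw [← commutatorElement_inv]; exact K.inv_mem h⟩
    refine commutator_le_of_map _ hg ?_
    rintro u (rfl | rfl | hu) v (rfl | rfl | hv)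
    all_goals first
      | exact (hSK _ hu _ ‹_›).1
      | exact (hSK _ hv _ ‹_›).2
      | exact (hSK _ hu _ (hSA hv)).1
      | (rw [commutatorElement_self]; exact K.one_mem)
      | exact hxy
      | (rw [← commutatorElement_inv]; exact K.inv_mem hxy)
  have hAS : ¬ A ≤ S := fun h => hCB.not_ge (gen 1 A.one_mem 1 A.one_mem
    (h.trans fun u hu => Subgroup.subset_closure (Or.inr (Or.inr hu))) C inferInstance le_rfl
    (by rw [commutatorElement_self]; exact C.one_mem))
  obtain ⟨x, hx, hxS⟩ := SetLike.not_le_iff_exists.1 hAS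
  set T1 := Subgroup.closure (insert x (S : Set P)) with hT1
  have hT1A : T1 ≤ A := (Subgroup.closure_le _).2 (Set.insert_subset hx hSA)
  have hS1 : S < T1 := lt_of_le_of_ne (fun u hu => Subgroup.subset_closure (Or.inr hu))
    fun h => hxS (h ▸ Subgroup.subset_closure (Or.inl rfl))
  have hT1ne : ¬ A ≤ T1 := fun h => hCB.not_ge (gen x hx x hx
    (h.trans (Subgroup.closure_mono (by rintro u (rfl | hu) <;> simp_all)))
    C inferInstance le_rfl (by rw [commutatorElement_self]; exact C.one_mem))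
  obtain ⟨y, hy, hyT⟩ := SetLike.not_le_iff_exists.1 hT1ne
  set T2 := Subgroup.closure (insert x (insert y (S : Set P))) with hT2
  have hT2A : T2 ≤ A := (Subgroup.closure_le _).2 (Set.insert_subset hx (Set.insert_subset hy hSA))
  have hT12 : T1 < T2 := lt_of_le_of_ne
    (Subgroup.closure_mono (Set.insert_subset_insert (Set.subset_insert _ _)))
    fun h => hyT (h ▸ Subgroup.subset_closure (Or.inr (Or.inl rfl)))
  have h2 : Nat.card B * p ^ (j + 2) ≤ Nat.card T2 := by
    rw [pow_succ, pow_succ, ← mul_assoc, ← mul_assoc]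
    exact (Nat.mul_le_mul_right _ ((Nat.mul_le_mul_right _ (card_layer hP hBA hAS)).trans
      (mul_le_of_lt hP hS1))).trans (mul_le_of_lt hP hT12)
  refine ⟨h2.trans (Subgroup.card_le_of_le hT2A), fun hlt => ⟨⁅x, y⁆,
    Subgroup.commutator_mem_commutator hx hy, ?_⟩⟩
  have hT2eq : T2 = A := by
    refine hT2A.eq_or_lt.resolve_right fun h => ?_
    have := (Nat.mul_le_mul_right p h2).trans (mul_le_of_lt hP h)
    rw [mul_assoc, ← pow_succ] at this
    exact absurd hlt this.not_gt
  set K := Subgroup.closure (insert ⁅x, y⁆ (C : Set P)) with hK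
  have hCK : C ≤ K := fun u hu => Subgroup.subset_closure (Or.inr hu)
  have hKB : K ≤ B := (Subgroup.closure_le _).2
    (Set.insert_subset (Subgroup.commutator_mem_commutator hx hy) hCB.le)
  haveI : K.Normal := ⟨fun u hu g => by
    have h1 : ⁅u, g⁆ ∈ K := hCK (Subgroup.commutator_mem_commutator (hKB hu) (Subgroup.mem_top g))
    have h3 := K.mul_mem (K.inv_mem h1) hu
    rw [commutatorElement_inv, commutatorElement_def, inv_mul_cancel_right] at h3
    exact h3⟩
  exact gen x hx y hy hT2eq.ge K inferInstance hCK (Subgroup.subset_closure (Or.inl rfl))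

theorem bound {n k : ℕ} (hcard : Nat.card P = p ^ n) (hk : derivedSeries P k ≠ ⊥) :
    2 ^ k + 2 * k ≤ n + 2 := by
  have hP : IsPGroup p P := IsPGroup.of_card hcard
  set D := derivedSeries P with hD
  let L := (⊤ : Subgroup P).lowerCentralSeries
  have hLL : ∀ a b c, c ≤ a + b + 1 → ⁅L a, L b⁆ ≤ L c := fun a b c h =>
    (FGS3.PolySeq.commutator_lcs_le b a).trans (Subgroup.lowerCentralSeries_antitone _ h)
  have hDs : ∀ i, D (i + 1) = ⁅D i, D i⁆ := fun i => derivedSeries_succ P i
  haveI : ∀ i, (D i).Normal := fun i => derivedSeries_normal P i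
  have hDne : ∀ i, i ≤ k → D i ≠ ⊥ := fun i hi h => hk (le_bot_iff.1 (h ▸ derivedSeries_antitone P hi))
  have hpow : ∀ i, 1 ≤ 2 ^ i := fun i => Nat.one_le_two_pow
  have hbase : ∀ i, D i ≤ L (2 ^ i - 1) := by
    intro i
    induction i with
    | zero => exact le_top
    | succ i ih =>
      rw [hDs]
      refine (Subgroup.commutator_mono ih ih).trans (hLL _ _ _ ?_)
      have := hpow i; rw [pow_succ]; omega
  choose e he using fun i => IsPGroup.iff_card.1 (hP.to_subgroup (D i))
  have hp := (Fact.out : p.Prime)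
  have hge : ∀ i j, i < k → D i ≤ L j → e (i + 1) + j + 2 ≤ e i := by
    intro i j hi hj
    have h := (step hP (D i) hj (by rw [← hDs]; exact hDne _ hi)).1
    rw [← hDs, he, he, ← pow_add, Nat.pow_le_pow_iff_right hp.one_lt] at h
    omega
  let Min : ℕ → Prop := fun i => e i < e (i + 1) + (2 ^ i - 1) + 3
  have hdeep : ∀ i, i < k → Min i → ∀ d, D (i + 2 + d) ≤ L (2 ^ (i + 2 + d)) := by
    intro i hi hmin d
    induction d with
    | zero =>
      obtain ⟨b, hb, hgen⟩ := (step hP (D i) (hbase i) (by rw [← hDs]; exact hDne _ hi)).2 (by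
        rw [← hDs, he, he, ← pow_add, Nat.pow_lt_pow_iff_right hp.one_lt]
        show e i < _
        have : e i < e (i + 1) + (2 ^ i - 1) + 3 := hmin
        omega)
      rw [Nat.add_zero, hDs, hDs i]
      refine commutator_le_of_map _ hgen ?_
      have hb' : b ∈ L (2 ^ (i + 1) - 1) := hbase (i + 1) (by rw [hDs]; exact hb)
      have hCL : ∀ u ∈ ((⁅⁅D i, D i⁆, (⊤ : Subgroup P)⁆ : Subgroup P) : Set P), u ∈ L (2 ^ (i + 1)) := fun u hu => by
        have h1 : u ∈ ⁅L (2 ^ (i + 1) - 1), (⊤ : Subgroup P)⁆ :=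
          Subgroup.commutator_mono (by rw [← hDs]; exact hbase (i + 1)) le_rfl hu
        rwa [← Subgroup.lowerCentralSeries_succ,
          show 2 ^ (i + 1) - 1 + 1 = 2 ^ (i + 1) by have := hpow (i + 1); omega] at h1
      have hcomm : ∀ a c, 2 ^ (i + 2) ≤ a + c + 1 → ∀ u ∈ L a, ∀ v ∈ L c, ⁅u, v⁆ ∈ L (2 ^ (i + 2)) :=
        fun a c h u hu v hv => hLL a c _ h (Subgroup.commutator_mem_commutator hu hv)
      have h4 : 2 ^ (i + 2) = 2 ^ (i + 1) + 2 ^ (i + 1) := by rw [pow_succ]; omega
      have := hpow (i + 1)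
      rintro u (rfl | hu) v (rfl | hv)
      · rw [commutatorElement_self]; exact one_mem _
      · exact hcomm _ _ (by omega) _ hb' _ (hCL _ hv)
      · exact hcomm _ _ (by omega) _ (hCL _ hu) _ hb'
      · exact hcomm _ _ (by omega) _ (hCL _ hu) _ (hCL _ hv)
    | succ d ih =>
      rw [show i + 2 + (d + 1) = i + 2 + d + 1 by omega, hDs]
      refine (Subgroup.commutator_mono ih ih).trans (hLL _ _ _ ?_)
      rw [pow_succ]; omega
  obtain ⟨i0, hlate, hearly⟩ : ∃ i0, (∀ i, i < k → i0 + 2 ≤ i → ¬ Min i) ∧ ∀ i, i < k → i < i0 → ¬ Min i := by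
    by_cases hex : ∃ i, i < k ∧ Min i
    · classical
      obtain ⟨hi0, hmin⟩ := Nat.find_spec hex
      refine ⟨Nat.find hex, fun i hi hle hm => ?_, fun i hi hlt hm => Nat.find_min hex hlt ⟨hi, hm⟩⟩
      obtain ⟨d, rfl⟩ := Nat.exists_eq_add_of_le hle
      have := hge _ _ hi (hdeep _ hi0 hmin d)
      have h' : e (Nat.find hex + 2 + d) < _ := hm
      have := hpow (Nat.find hex + 2 + d)
      omega
    · exact ⟨k, fun i hi _ hm => hex ⟨i, hi, hm⟩, fun i hi _ hm => hex ⟨i, hi, hm⟩⟩
  have key : ∀ t, t ≤ k → e t + 2 ^ t + 2 * t ≤ e 0 + 1 + min 2 (t - i0) := by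
    intro t ht
    induction t with
    | zero => simp
    | succ t ih =>
      have h1 := ih (by omega)
      have h2 := hge t _ (by omega) (hbase t)
      have h3 := hpow t
      rw [pow_succ]
      by_cases hm : Min t
      · have h5 : ¬ (i0 + 2 ≤ t) := fun h => hlate t (by omega) h hm
        have h6 : ¬ (t < i0) := fun h => hearly t (by omega) h hm
        omega
      · have h5 : ¬ e t < e (t + 1) + (2 ^ t - 1) + 3 := hm
        omega
  have he0 : e 0 = n := by
    have h := he 0
    rw [show D 0 = ⊤ from derivedSeries_zero P, Subgroup.card_top, hcard] at h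
    exact (Nat.pow_right_injective hp.two_le h).symm
  have hek : 1 ≤ e k := by
    by_contra h
    exact hDne k le_rfl (Subgroup.eq_bot_of_card_eq _ (by rw [he, show e k = 0 by omega, pow_zero]))
  have := key k le_rfl
  omega

end Cfsg.Agent.FGS2.DerivedLengthBound
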