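import Cfsg.Agent.PermGroups.PermModule
import Mathlib

/-! The derived length of a `p`-group of linear maps. -/

set_option autoImplicit false
set_option linter.style.haveILetI false

namespace Cfsg.Agent.FGS2.DerivedLength

open Module
open scoped commutatorElement

universe u v w

variable {F : Type v} [Field F] {P : Type u} [Group P] {V : Type w} [AddCommGroup V] [Module F V]

/-- A representation restricted to an invariant subspace. -/
def resRep (ρ : P →* Module.End F V) (W : Submodule F V) (h : ∀ g, ∀ x ∈ W, ρ g x ∈ W) :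
    P →* Module.End F W where
  toFun g := (ρ g).restrict (h g)
  map_one' := LinearMap.ext fun x => Subtype.ext (by simp [LinearMap.restrict_apply])
  map_mul' a b := LinearMap.ext fun x => Subtype.ext (by simp [LinearMap.restrict_apply])

theorem resRep_eq_one {ρ : P →* Module.End F V} {W : Submodule F V} {h : ∀ g, ∀ x ∈ W, ρ g x ∈ W}
    {g : P} (hg : resRep ρ W h g = 1) {x : V} (hx : x ∈ W) : ρ g x = x := by
  have := congrArg (fun f : Module.End F W => ((f ⟨x, hx⟩ : W) : V)) hg
  simpa [resRep, LinearMap.restrict_apply] using this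

/-- The representation on the quotient by an invariant subspace. -/
def quotRep (ρ : P →* Module.End F V) (W : Submodule F V) (h : ∀ g, ∀ x ∈ W, ρ g x ∈ W) :
    P →* Module.End F (V ⧸ W) where
  toFun g := W.mapQ W (ρ g) fun x hx => h g x hx
  map_one' := Submodule.linearMap_qext _ (LinearMap.ext fun x => by simp)
  map_mul' a b := Submodule.linearMap_qext _ (LinearMap.ext fun x => by simp)

theorem quotRep_eq_one {ρ : P →* Module.End F V} {W : Submodule F V} {h : ∀ g, ∀ x ∈ W, ρ g x ∈ W}
    {g : P} (hg : quotRep ρ W h g = 1) (x : V) : ρ g x - x ∈ W := by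
  have := congrArg (fun f : Module.End F (V ⧸ W) => f (Submodule.Quotient.mk x)) hg
  rw [← Submodule.Quotient.eq]
  simpa [quotRep] using this

theorem derived_succ_le_ker {ρ : P →* Module.End F V} {W : Submodule F V}
    {h : ∀ g, ∀ x ∈ W, ρ g x ∈ W} {c : ℕ} (h1 : derivedSeries P c ≤ (resRep ρ W h).ker)
    (h2 : derivedSeries P c ≤ (quotRep ρ W h).ker) : derivedSeries P (c + 1) ≤ ρ.ker := by
  rw [derivedSeries_succ, Subgroup.commutator_le]
  intro a ha b hb
  have hW : ∀ z ∈ derivedSeries P c, ∀ x ∈ W, ρ z x = x := fun z hz x hx =>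
    resRep_eq_one (MonoidHom.mem_ker.mp (h1 hz)) hx
  have hQ : ∀ z ∈ derivedSeries P c, ∀ x : V, ρ z x - x ∈ W := fun z hz x =>
    quotRep_eq_one (MonoidHom.mem_ker.mp (h2 hz)) x
  have key : ρ a * ρ b = ρ b * ρ a := LinearMap.ext fun x => by
    have e1 := hW a ha _ (hQ b hb x)
    have e2 := hW b hb _ (hQ a ha x)
    rw [map_sub] at e1 e2
    rw [Module.End.mul_apply, Module.End.mul_apply]
    rw [sub_eq_iff_eq_add] at e1 e2
    rw [e1, e2]
    abel
  rw [MonoidHom.mem_ker, commutatorElement_def, map_mul, map_mul, map_mul, key, mul_assoc (ρ b),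
    ← map_mul ρ a a⁻¹, mul_inv_cancel, map_one, mul_one, ← map_mul, mul_inv_cancel, map_one]

theorem trivial_of_trivial_sub_quot [Finite P] (hN : (Nat.card P : F) ≠ 0) {ρ : P →* Module.End F V}
    {W : Submodule F V} {h : ∀ g, ∀ x ∈ W, ρ g x ∈ W} {g : P} (h1 : resRep ρ W h g = 1)
    (h2 : quotRep ρ W h g = 1) : ρ g = 1 := by
  refine LinearMap.ext fun x => ?_
  set w := ρ g x - x with hw
  have hpow : ∀ k : ℕ, ρ (g ^ k) x = x + k • w := by
    intro k
    induction k with
    | zero => simp
    | succ k ih =>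
      rw [pow_succ', map_mul, Module.End.mul_apply, ih, map_add, map_nsmul,
        show ρ g w = w from resRep_eq_one h1 (quotRep_eq_one h2 x), succ_nsmul, hw]
      abel
  have h0 := hpow (Nat.card P)
  rw [pow_card_eq_one', map_one, Module.End.one_apply] at h0
  have h1' : (Nat.card P : F) • w = 0 := by
    rw [Nat.cast_smul_eq_nsmul]; exact left_eq_add.mp h0
  have : w = 0 := (smul_eq_zero.mp h1').resolve_left hN
  simpa [hw, sub_eq_zero] using this

theorem derived_succ_le_map (M : Subgroup P) (hM : derivedSeries P 1 ≤ M) :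
    ∀ k, derivedSeries P (k + 1) ≤ (derivedSeries M k).map M.subtype
  | 0 => by simpa [← MonoidHom.range_eq_map] using hM
  | k + 1 => by
    rw [derivedSeries_succ, derivedSeries_succ M, Subgroup.map_commutator]
    exact Subgroup.commutator_mono (derived_succ_le_map M hM k) (derived_succ_le_map M hM k)

theorem exists_split [Finite P] [IsAlgClosed F] [FiniteDimensional F V] [Nontrivial V] {p : ℕ}
    [Fact p.Prime] (hP : IsPGroup p P) (ρ : P →* Module.End F V)
    (hirr : ∀ W : Submodule F V, (∀ g, ∀ x ∈ W, ρ g x ∈ W) → W = ⊥ ∨ W = ⊤)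
    (hna : ¬ ∀ a b : P, ρ a * ρ b = ρ b * ρ a) :
    ∃ (M : Subgroup P) (W : Submodule F V), M.Normal ∧ derivedSeries P 1 ≤ M ∧ W ≠ ⊥ ∧
      (∀ m ∈ M, ∀ x ∈ W, ρ m x ∈ W) ∧ 2 * finrank F W ≤ finrank F V := by
  -- elements commuting with the image act as scalars
  have schur : ∀ f : Module.End F V, (∀ g, ρ g * f = f * ρ g) → ∃ μ : F, f = μ • 1 := by
    intro f hf
    obtain ⟨μ, hμ⟩ := Module.End.exists_eigenvalue f
    refine ⟨μ, ?_⟩
    have hinv : ∀ g, ∀ x ∈ f.eigenspace μ, ρ g x ∈ f.eigenspace μ := fun g x hx => by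
      rw [Module.End.mem_eigenspace_iff] at hx ⊢
      rw [← Module.End.mul_apply, ← hf, Module.End.mul_apply, hx, map_smul]
    rcases hirr (f.eigenspace μ) hinv with hW | hW
    · exact absurd hW (Module.End.hasEigenvalue_iff.mp hμ)
    · refine LinearMap.ext fun x => ?_
      have : x ∈ f.eigenspace μ := hW ▸ Submodule.mem_top
      simpa using Module.End.mem_eigenspace_iff.mp this
  -- the centre of the image, as a subgroup of `P`
  let Z : Subgroup P :=
    { carrier := {b | ∀ g, ρ g * ρ b = ρ b * ρ g}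
      mul_mem' := by
        intro a b ha hb g
        rw [map_mul, ← mul_assoc, ha g, mul_assoc, hb g, mul_assoc]
      one_mem' := fun g => by simp
      inv_mem' := by
        intro a ha g
        have e1 : ρ a⁻¹ * ρ a = 1 := by rw [← map_mul, inv_mul_cancel, map_one]
        have e2 : ρ a * ρ a⁻¹ = 1 := by rw [← map_mul, mul_inv_cancel, map_one]
        calc ρ g * ρ a⁻¹ = ρ a⁻¹ * (ρ a * ρ g) * ρ a⁻¹ := by rw [← mul_assoc (ρ a⁻¹), e1, one_mul]
          _ = ρ a⁻¹ * (ρ g * ρ a) * ρ a⁻¹ := by rw [ha g]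
          _ = ρ a⁻¹ * ρ g := by rw [mul_assoc, mul_assoc (ρ g), e2, mul_one] }
  haveI hZn : Z.Normal := ⟨fun b hb g => by
    intro h
    have e : ρ (g * b * g⁻¹) = ρ b := by
      rw [map_mul, map_mul, hb g, mul_assoc, ← map_mul ρ g, mul_inv_cancel, map_one, mul_one]
    rw [e]; exact hb h⟩
  haveI : Nontrivial (P ⧸ Z) := by
    rw [QuotientGroup.nontrivial_iff]
    intro hZ
    exact hna fun a b => ((hZ ▸ Subgroup.mem_top b : b ∈ Z) a)
  haveI := (hP.to_quotient Z).center_nontrivial
  obtain ⟨⟨z, hz⟩, hz1⟩ := exists_ne (1 : Subgroup.center (P ⧸ Z))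
  obtain ⟨b, rfl⟩ := QuotientGroup.mk_surjective z
  have hbZ : b ∉ Z := fun h => hz1 (Subtype.ext ((QuotientGroup.eq_one_iff b).mpr h))
  have hscal : ∀ g, ∃ μ : F, μ ≠ 0 ∧ ρ g * ρ b = μ • (ρ b * ρ g) := by
    intro g
    have hmem : g * b * g⁻¹ * b⁻¹ ∈ Z := by
      rw [← QuotientGroup.eq_one_iff]
      simp only [QuotientGroup.mk_mul, QuotientGroup.mk_inv]
      rw [Subgroup.mem_center_iff.mp hz (g : P ⧸ Z)]
      group
    obtain ⟨μ, hμ⟩ := schur _ fun h => hmem h
    refine ⟨μ, ?_, ?_⟩
    · rintro rfl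
      rw [zero_smul] at hμ
      have : (1 : Module.End F V) = 0 := by
        rw [← map_one ρ, ← mul_inv_cancel (g * b * g⁻¹ * b⁻¹), map_mul, hμ, zero_mul]
      exact one_ne_zero this
    · rw [← map_mul, ← map_mul, show g * b = (g * b * g⁻¹ * b⁻¹) * (b * g) by group, map_mul, hμ,
        smul_mul_assoc, one_mul]
  let M : Subgroup P :=
    { carrier := {g | ρ g * ρ b = ρ b * ρ g}
      mul_mem' := by
        intro x y (hx : ρ x * ρ b = _) (hy : ρ y * ρ b = _)
        show ρ (x * y) * ρ b = ρ b * ρ (x * y)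
        rw [map_mul, mul_assoc, hy, ← mul_assoc, hx, mul_assoc]
      one_mem' := by simp
      inv_mem' := by
        intro x (hx : ρ x * ρ b = _)
        show ρ x⁻¹ * ρ b = ρ b * ρ x⁻¹
        have e1 : ρ x⁻¹ * ρ x = 1 := by rw [← map_mul, inv_mul_cancel, map_one]
        have e2 : ρ x * ρ x⁻¹ = 1 := by rw [← map_mul, mul_inv_cancel, map_one]
        calc ρ x⁻¹ * ρ b = ρ x⁻¹ * (ρ b * ρ x) * ρ x⁻¹ := by rw [mul_assoc, mul_assoc, e2, mul_one]
          _ = ρ x⁻¹ * (ρ x * ρ b) * ρ x⁻¹ := by rw [hx]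
          _ = ρ b * ρ x⁻¹ := by rw [← mul_assoc (ρ x⁻¹), e1, one_mul] }
  have hder : derivedSeries P 1 ≤ M := by
    rw [derivedSeries_one, commutator_def, Subgroup.commutator_le]
    intro x _ y _
    show ρ ⁅x, y⁆ * ρ b = ρ b * ρ ⁅x, y⁆
    obtain ⟨s, -, hs⟩ := hscal x
    obtain ⟨t, -, ht⟩ := hscal y
    obtain ⟨s', -, hs'⟩ := hscal x⁻¹
    obtain ⟨t', -, ht'⟩ := hscal y⁻¹
    have hss : ∀ (x : P) (s s' : F), ρ x * ρ b = s • (ρ b * ρ x) → ρ x⁻¹ * ρ b = s' • (ρ b * ρ x⁻¹) →
        s * s' = 1 := by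
      intro x s s' hs hs'
      have h : ρ b = (s' * s) • ρ b := by
        have e1 : ρ x * ρ x⁻¹ = 1 := by rw [← map_mul, mul_inv_cancel, map_one]
        calc ρ b = ρ x * (ρ x⁻¹ * ρ b) := by rw [← mul_assoc, e1, one_mul]
          _ = s' • ((ρ x * ρ b) * ρ x⁻¹) := by rw [hs', mul_smul_comm, mul_assoc]
          _ = (s' * s) • ρ b := by rw [hs, smul_mul_assoc, mul_assoc, e1, mul_one, smul_smul]
      have hb0 : ρ b ≠ 0 := by
        intro e
        have : (1 : Module.End F V) = 0 := by rw [← map_one ρ, ← mul_inv_cancel b, map_mul, e, zero_mul]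
        exact one_ne_zero this
      have h' : (1 - s' * s) • ρ b = 0 := by rw [sub_smul, one_smul, ← h, sub_self]
      rw [mul_comm]
      exact (sub_eq_zero.mp ((smul_eq_zero.mp h').resolve_right hb0)).symm
    have h1 := hss x s s' hs hs'
    have h2 := hss y t t' ht ht'
    rw [commutatorElement_def, map_mul, map_mul, map_mul]
    calc ρ x * ρ y * ρ x⁻¹ * ρ y⁻¹ * ρ b = ρ x * ρ y * ρ x⁻¹ * (ρ y⁻¹ * ρ b) := by rw [mul_assoc]
      _ = t' • (ρ x * ρ y * (ρ x⁻¹ * ρ b) * ρ y⁻¹) := by
        rw [ht', mul_smul_comm]; simp only [mul_assoc]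
      _ = (t' * s') • (ρ x * (ρ y * ρ b) * ρ x⁻¹ * ρ y⁻¹) := by
        rw [hs']; simp only [mul_smul_comm, smul_mul_assoc, mul_assoc, smul_smul]
      _ = (t' * s' * t) • ((ρ x * ρ b) * ρ y * ρ x⁻¹ * ρ y⁻¹) := by
        rw [ht]; simp only [mul_smul_comm, smul_mul_assoc, mul_assoc, smul_smul]
      _ = (t' * s' * t * s) • (ρ b * (ρ x * ρ y * ρ x⁻¹ * ρ y⁻¹)) := by
        rw [hs]; simp only [mul_smul_comm, smul_mul_assoc, mul_assoc, smul_smul]
      _ = ρ b * (ρ x * ρ y * ρ x⁻¹ * ρ y⁻¹) := by
        rw [show t' * s' * t * s = (s * s') * (t * t') by ring, h1, h2, one_mul, one_smul]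
  obtain ⟨c, hc⟩ := Module.End.exists_eigenvalue (ρ b)
  obtain ⟨g, hg⟩ : ∃ g, ρ g * ρ b ≠ ρ b * ρ g := not_forall.mp hbZ
  set W := (ρ b).eigenspace c with hW
  refine ⟨M, W, (Subgroup.Normal.of_commutator_le P (by rw [← derivedSeries_one]; exact hder)), hder,
    Module.End.hasEigenvalue_iff.mp hc, fun m (hm : ρ m * ρ b = ρ b * ρ m) x hx => ?_, ?_⟩
  · rw [hW, Module.End.mem_eigenspace_iff] at hx ⊢
    rw [← Module.End.mul_apply, ← hm, Module.End.mul_apply, hx, map_smul]
  · obtain ⟨μ, hμ0, hμ⟩ := hscal g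
    have hμ1 : μ ≠ 1 := fun e => hg (by rwa [e, one_smul] at hμ)
    have hc0 : c ≠ 0 := by
      intro e
      apply Module.End.hasEigenvalue_iff.mp hc
      rw [eq_bot_iff]
      intro x hx
      rw [e, Module.End.mem_eigenspace_iff, zero_smul] at hx
      have : ρ b⁻¹ (ρ b x) = x := by rw [← Module.End.mul_apply, ← map_mul, inv_mul_cancel, map_one, Module.End.one_apply]
      rw [hx, map_zero] at this
      exact this ▸ Submodule.zero_mem _
    have hle : Submodule.map (ρ g) W ≤ (ρ b).eigenspace (μ⁻¹ * c) := by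
      rintro _ ⟨x, hx, rfl⟩
      rw [SetLike.mem_coe, hW, Module.End.mem_eigenspace_iff] at hx
      rw [Module.End.mem_eigenspace_iff]
      have h3 := congrArg (fun f : Module.End F V => f x) hμ
      simp only [Module.End.mul_apply, LinearMap.smul_apply, hx, map_smul] at h3
      rw [mul_smul, h3, smul_smul, inv_mul_cancel₀ hμ0, one_smul]
    have hne : c ≠ μ⁻¹ * c := by
      intro e
      apply hμ1
      have : μ⁻¹ = 1 := mul_right_cancel₀ hc0 (by rw [one_mul]; exact e.symm)
      rwa [inv_eq_one] at this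
    have hdis : Disjoint W (Submodule.map (ρ g) W) :=
      ((ρ b).disjoint_genEigenspace hne 1 1).mono le_rfl hle
    have hinj : Function.Injective (ρ g) := Function.LeftInverse.injective (g := ρ g⁻¹) fun x => by
      rw [← Module.End.mul_apply, ← map_mul, inv_mul_cancel, map_one, Module.End.one_apply]
    have hdim : finrank F (Submodule.map (ρ g) W) = finrank F W :=
      (Submodule.equivMapOfInjective _ hinj W).symm.finrank_eq
    have := Submodule.finrank_add_finrank_le_of_disjoint hdis
    omega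

/-- Bound in characteristic prime to `p`. -/
theorem derived_le_ker_of_coprime [IsAlgClosed F] {p : ℕ} [hp : Fact p.Prime] (hpF : (p : F) ≠ 0)
    (c : ℕ) : ∀ {P : Type u} [Group P] [Finite P], IsPGroup p P →
      ∀ {V : Type w} [AddCommGroup V] [Module F V] [FiniteDimensional F V] (ρ : P →* Module.End F V),
        finrank F V < 2 ^ c → derivedSeries P c ≤ ρ.ker := by
  induction c with
  | zero =>
    intro P _ _ _ V _ _ _ ρ h g _
    haveI : Subsingleton V := Module.finrank_zero_iff.mp (by simpa using h)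
    exact LinearMap.ext fun x => Subsingleton.elim _ _
  | succ c ihc =>
    intro P _ _ hP V _ _ _ ρ h
    obtain ⟨n, hn⟩ : ∃ n, finrank F V ≤ n := ⟨_, le_rfl⟩
    induction n generalizing V with
    | zero =>
      intro g _
      haveI : Subsingleton V := Module.finrank_zero_iff.mp (Nat.le_zero.mp hn)
      exact LinearMap.ext fun x => Subsingleton.elim _ _
    | succ n ihn =>
      have hN : (Nat.card P : F) ≠ 0 := by
        obtain ⟨k, hk⟩ := IsPGroup.iff_card.mp hP
        rw [hk, Nat.cast_pow]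
        exact pow_ne_zero _ hpF
      by_cases hred : ∃ W : Submodule F V, (∀ g, ∀ x ∈ W, ρ g x ∈ W) ∧ W ≠ ⊥ ∧ W ≠ ⊤
      · obtain ⟨W, hW, hW0, hW1⟩ := hred
        have e := W.finrank_quotient_add_finrank
        have l1 : 0 < finrank F W := Nat.pos_of_ne_zero fun e => hW0 (Submodule.finrank_eq_zero.mp e)
        have l2 := Submodule.finrank_lt hW1
        intro g hg
        exact trivial_of_trivial_sub_quot hN
          (MonoidHom.mem_ker.mp (ihn (resRep ρ W hW) (by omega) (by omega) hg))
          (MonoidHom.mem_ker.mp (ihn (quotRep ρ W hW) (by omega) (by omega) hg))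
      have hirr : ∀ W : Submodule F V, (∀ g, ∀ x ∈ W, ρ g x ∈ W) → W = ⊥ ∨ W = ⊤ := fun W hW => by
        by_contra hc
        push Not at hc
        exact hred ⟨W, hW, hc.1, hc.2⟩
      by_cases hab : ∀ a b : P, ρ a * ρ b = ρ b * ρ a
      · refine (derivedSeries_antitone P (show 1 ≤ c + 1 by omega)).trans ?_
        rw [derivedSeries_one, commutator_def, Subgroup.commutator_le]
        intro a _ b _
        rw [MonoidHom.mem_ker, commutatorElement_def, map_mul, map_mul, map_mul, hab a b,
          mul_assoc (ρ b), ← map_mul ρ a a⁻¹, mul_inv_cancel, map_one, mul_one, ← map_mul,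
          mul_inv_cancel, map_one]
      rcases subsingleton_or_nontrivial V with hV | hV
      · intro g _
        exact LinearMap.ext fun x => Subsingleton.elim _ _
      obtain ⟨M, W, hMn, hM, hW0, hWM, hWdim⟩ := exists_split hP ρ hirr hab
      intro x hx
      obtain ⟨y, hy, rfl⟩ := derived_succ_le_map M hM c hx
      have hall : ∀ g : P, Submodule.map (ρ g) W ≤ LinearMap.ker (ρ y - 1) := by
        intro g
        have hinv : ∀ m : M, ∀ v ∈ Submodule.map (ρ g) W, (ρ.comp M.subtype) m v ∈ Submodule.map (ρ g) W := by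
          rintro m _ ⟨v, hv, rfl⟩
          refine ⟨ρ (g⁻¹ * m * g) v, hWM _ ?_ v hv, ?_⟩
          · have := hMn.conj_mem _ m.2 g⁻¹
            rwa [inv_inv] at this
          · rw [← Module.End.mul_apply, ← map_mul, MonoidHom.comp_apply, Subgroup.coe_subtype,
              ← Module.End.mul_apply, ← map_mul]
            congr 2
            group
        have hdim : finrank F (Submodule.map (ρ g) W) < 2 ^ c := by
          have := Submodule.finrank_map_le (ρ g) W
          rw [pow_succ] at h
          omega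
        have hk := ihc (hP.to_subgroup M) (resRep (ρ.comp M.subtype) _ hinv) hdim hy
        intro v hv
        rw [LinearMap.mem_ker, LinearMap.sub_apply, Module.End.one_apply, sub_eq_zero]
        exact resRep_eq_one (MonoidHom.mem_ker.mp hk) hv
      rcases hirr (⨆ g : P, Submodule.map (ρ g) W) (fun g v hv => by
          induction hv using Submodule.iSup_induction' with
          | mem i z hz =>
            obtain ⟨u, hu, rfl⟩ := hz
            rw [← Module.End.mul_apply, ← map_mul]
            exact Submodule.mem_iSup_of_mem _ (Submodule.mem_map_of_mem hu)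
          | zero => rw [map_zero]; exact Submodule.zero_mem _
          | add a b _ _ ha hb => rw [map_add]; exact Submodule.add_mem _ ha hb) with h' | h'
      · exfalso
        apply hW0
        rw [eq_bot_iff]
        intro w hw
        rw [← h']
        refine Submodule.mem_iSup_of_mem 1 ⟨w, hw, by simp⟩
      · rw [MonoidHom.mem_ker]
        refine LinearMap.ext fun v => ?_
        have : v ∈ LinearMap.ker (ρ y - 1) := (iSup_le hall) (h' ▸ Submodule.mem_top)
        rwa [LinearMap.mem_ker, LinearMap.sub_apply, sub_eq_zero] at this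

/-- A fixed vector in characteristic `p`. -/
theorem exists_fixed [Finite P] {p : ℕ} [Fact p.Prime] [CharP F p] (hP : IsPGroup p P)
    (ρ : P →* Module.End F V) [Nontrivial V] : ∃ v : V, v ≠ 0 ∧ ∀ g, ρ g v = v := by
  letI : MulAction P V :=
    { smul := fun g x => ρ g x
      one_smul := fun x => by show ρ 1 x = x; simp
      mul_smul := fun a b x => by show ρ (a * b) x = ρ a (ρ b x); simp }
  obtain ⟨v, -, hv, hfix⟩ := Cfsg.Agent.PermGroups.exists_fixed_vector (K := F) hP
    (fun g x y => map_add (ρ g) x y) (⊤ : Submodule F V) (fun g x _ => Submodule.mem_top) top_ne_bot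
  exact ⟨v, hv, hfix⟩

theorem exists_invariant_of_finrank [Finite P] {p : ℕ} [Fact p.Prime] [CharP F p] [FiniteDimensional F V]
    (hP : IsPGroup p P) (ρ : P →* Module.End F V) :
    ∀ k, k ≤ finrank F V → ∃ W : Submodule F V, (∀ g, ∀ x ∈ W, ρ g x ∈ W) ∧ finrank F W = k
  | 0, _ => ⟨⊥, fun g x hx => by simp [(Submodule.mem_bot F).mp hx], finrank_bot F V⟩
  | k + 1, hk => by
    obtain ⟨W, hW, hWk⟩ := exists_invariant_of_finrank hP ρ k (by omega)
    haveI : Nontrivial (V ⧸ W) := Module.nontrivial_of_finrank_pos (R := F) (by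
      have := W.finrank_quotient_add_finrank; omega)
    obtain ⟨v, hv, hfix⟩ := exists_fixed hP (quotRep ρ W hW)
    obtain ⟨v, rfl⟩ := Submodule.Quotient.mk_surjective W v
    refine ⟨W ⊔ F ∙ v, fun g x hx => ?_, ?_⟩
    · obtain ⟨w, hw, u, hu, rfl⟩ := Submodule.mem_sup.mp hx
      obtain ⟨a, rfl⟩ := Submodule.mem_span_singleton.mp hu
      rw [map_add, map_smul]
      have h2 : ρ g v - v ∈ W := by
        rw [← Submodule.Quotient.eq]
        simpa [quotRep] using hfix g
      refine Submodule.add_mem _ (Submodule.mem_sup_left (hW g w hw)) (Submodule.smul_mem _ a ?_)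
      rw [show ρ g v = (ρ g v - v) + v by abel]
      exact Submodule.add_mem _ (Submodule.mem_sup_left h2)
        (Submodule.mem_sup_right (Submodule.mem_span_singleton_self v))
    · have hvW : v ∉ W := fun hvW => hv ((Submodule.Quotient.mk_eq_zero W).mpr hvW)
      have hlt : W < W ⊔ F ∙ v :=
        lt_of_le_of_ne le_sup_left fun e => hvW (e ▸ Submodule.mem_sup_right (Submodule.mem_span_singleton_self v))
      have h1 := Submodule.finrank_lt_finrank_of_lt hlt
      have h2 := Submodule.finrank_add_le_finrank_add_finrank W (F ∙ v)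
      have h3 : finrank F (F ∙ v : Submodule F V) ≤ 1 := by
        rw [finrank_span_singleton (fun e => hvW (by rw [e]; exact W.zero_mem))]
      omega

/-- Bound in characteristic `p`. -/
theorem derived_le_ker_of_charP {p : ℕ} [Fact p.Prime] [CharP F p] (c : ℕ) :
    ∀ {P : Type u} [Group P] [Finite P], IsPGroup p P →
      ∀ {V : Type w} [AddCommGroup V] [Module F V] [FiniteDimensional F V] (ρ : P →* Module.End F V),
        finrank F V ≤ 2 ^ c → derivedSeries P c ≤ ρ.ker := by
  induction c with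
  | zero =>
    intro P _ _ hP V _ _ _ ρ h g _
    rcases subsingleton_or_nontrivial V with hV | hV
    · exact LinearMap.ext fun x => Subsingleton.elim _ _
    obtain ⟨v, hv, hfix⟩ := exists_fixed hP ρ
    refine LinearMap.ext fun x => ?_
    obtain ⟨a, rfl⟩ := (finrank_eq_one_iff_of_nonzero' v hv).mp
      (le_antisymm (by simpa using h) Module.finrank_pos) x
    rw [map_smul, hfix, Module.End.one_apply]
  | succ c ih =>
    intro P _ _ hP V _ _ _ ρ h
    obtain ⟨W, hW, hWk⟩ := exists_invariant_of_finrank hP ρ (min (finrank F V) (2 ^ c)) (min_le_left _ _)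
    have e := W.finrank_quotient_add_finrank
    rw [pow_succ] at h
    exact derived_succ_le_ker (ih hP (resRep ρ W hW) (by omega)) (ih hP (quotRep ρ W hW) (by omega))

end Cfsg.Agent.FGS2.DerivedLength
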