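import Cfsg.Agent.FGS2.ComplementTower
import Cfsg.Agent.PermGroups.FrobeniusKernel
import Cfsg.Agent.OddLocal.FPF
import Cfsg.Agent.Core.ThompsonFPF

/-!
# Frobenius groups and order type
-/

set_option autoImplicit false
set_option linter.style.haveILetI false

namespace Cfsg.Agent.FGS2.FrobeniusType

open Cfsg
open scoped Pointwise

variable {F : Type*} [Group F] [Finite F]

theorem kernel_data {C : Subgroup F} (hC : IsFrobeniusComplement C) :
    ∃ N : Subgroup F, N.Normal ∧ Subgroup.IsComplement' N C ∧ Group.IsNilpotent N ∧ N ≠ ⊥ ∧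
      (Nat.card N).Coprime N.index ∧ OddLocal.FPF N C ∧ ComplementTower.HasUniqueOrders C := by
  obtain ⟨N, hNc, hNn, hcompl⟩ := Agent.PermGroups.Frobenius.exists_kernel hC
  haveI := hNn
  have hNb : N ≠ ⊥ := by
    rintro rfl
    exact hC.2.1 (Subgroup.isComplement'_bot_left.mp hcompl)
  have hfpf : OddLocal.FPF N C := fun x hx hx1 k hk hc =>
    PermGroups.Frobenius.centralizer_kernel_eq_one hC hcompl.disjoint hx hx1 hk hc
  refine ⟨N, hNn, hcompl, ?_, hNb, ?_, hfpf, ?_⟩
  · obtain ⟨r, hr, hrH⟩ := Nat.exists_prime_and_dvd ((Subgroup.one_lt_card_iff_ne_bot C).mpr hC.1).ne'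
    haveI : Fact r.Prime := ⟨hr⟩
    obtain ⟨h, hh⟩ := exists_prime_orderOf_dvd_card' (G := C) r hrH
    refine Agent.Core.ThompsonFPF.isNilpotent_of_fpf hr (MulAut.conjNormal (h : F)) ?_ ?_
    · intro n hn
      have hn' : (h : F) * n * (h : F)⁻¹ = n := by rw [← MulAut.conjNormal_apply (h : F) n, hn]
      refine Subtype.ext (hfpf h h.2 ?_ n n.2 (mul_inv_eq_iff_eq_mul.mp hn'))
      intro e
      rw [show h = 1 from Subtype.ext e, orderOf_one] at hh
      exact hr.ne_one hh.symm
    · intro n
      rw [Agent.Core.ThompsonFPF.iterate_eq_pow, ← map_pow]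
      have hpow : (h : F) ^ r = 1 := by rw [← hh, ← Subgroup.orderOf_coe, pow_orderOf_eq_one]
      rw [hpow, map_one]
      rfl
  · have h1 : N.index = Nat.card C := hcompl.symm.index_eq_card
    rw [h1]
    exact (hfpf.coprime (Subgroup.normalizer_eq_top_iff.mpr hNn ▸ le_top)).symm
  · intro r _ R
    refine ComplementTower.uniqueOrderP_of_injective (C.subtype.subgroupMap (R : Subgroup C))
      (fun a b hab => by
        have := congrArg Subtype.val hab
        exact Subtype.ext (C.subtype_injective this)) ?_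
    exact hfpf.uniqueOrderP hNb (Subgroup.normalizer_eq_top_iff.mpr hNn ▸ le_top)
      ((R : Subgroup C).map C.subtype) (Subgroup.map_subtype_le _) (R.isPGroup'.map C.subtype)

variable {G : Type*} [Group G] [Finite G]

/-- The kernel is recognised by the order type. -/
theorem exists_kernel (h : OrderType.SamePow F G) (N : Subgroup F) [N.Normal]
    (hnil : Group.IsNilpotent N) (hcop : (Nat.card N).Coprime N.index) :
    ∃ M : Subgroup G, M.Normal ∧ Group.IsNilpotent M ∧ Nat.card M = Nat.card N ∧
      (Nat.card M).Coprime M.index := by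
  classical
  set π : Set ℕ := {p | p.Prime ∧ p ∣ Nat.card N} with hπ
  have hG := h.card_eq
  -- normal Sylow subgroups of `G`
  have hS : ∀ (p : ℕ) [Fact p.Prime], p ∣ Nat.card N → ∀ Q : Sylow p G,
      (Q : Subgroup G).Normal ∧ (Q : Subgroup G) ≤ piCore π G := by
    intro p _ hpN Q
    have hp := (Fact.out : p.Prime)
    obtain ⟨P⟩ : Nonempty (Sylow p N) := inferInstance
    haveI hPn : (P : Subgroup N).Normal := Core.isNilpotent_iff_forall_sylow_normal.mp hnil p inferInstance P
    haveI := Sylow.characteristic_of_normal P hPn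
    have hPF : ((P : Subgroup N).map N.subtype).Normal := Core.normal_map_subtype_of_characteristic _
    obtain ⟨P', hP'⟩ := (P.isPGroup'.map N.subtype).exists_le_sylow
    have hPP : (P' : Subgroup F) = (P : Subgroup N).map N.subtype := by
      refine (Subgroup.eq_of_le_of_card_ge hP' ?_).symm
      rw [Subgroup.card_map_of_injective N.subtype_injective, P'.card_eq_multiplicity,
        P.card_eq_multiplicity, ← Subgroup.index_mul_card N, Nat.factorization_mul
          Subgroup.index_ne_zero_of_finite Nat.card_pos.ne', Finsupp.add_apply,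
        Nat.factorization_eq_zero_of_not_dvd (fun hd => hp.not_dvd_one (hcop ▸ Nat.dvd_gcd hpN hd)),
        zero_add]
    obtain ⟨hQn, -⟩ := h.sylow_normal (hPP ▸ hPF : (P' : Subgroup F).Normal) Q
    refine ⟨hQn, Core.le_piCore hQn ?_⟩
    obtain ⟨k, hk⟩ := IsPGroup.iff_card.mp Q.isPGroup'
    rw [hk]
    exact Core.isPiNat_prime_pow hp (show p ∈ π from ⟨hp, hpN⟩) k
  set M := piCore π G with hM
  have hMn : M.Normal := inferInstance
  have hMπ := Core.isPiNat_card_piCore π G
  have hfac : ∀ p : ℕ, p.Prime → p ∣ Nat.card N →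
      (Nat.card M).factorization p = (Nat.card G).factorization p := by
    intro p hp hpN
    haveI := Fact.mk hp
    let Q : Sylow p G := default
    refine le_antisymm (Nat.factorization_le_iff_dvd Nat.card_pos.ne' Nat.card_pos.ne' |>.mpr
      (Subgroup.card_subgroup_dvd_card M) p) ?_
    rw [← hp.pow_dvd_iff_le_factorization Nat.card_pos.ne', ← Q.card_eq_multiplicity]
    exact Subgroup.card_dvd_of_le (hS p hpN Q).2
  have hcard : Nat.card M = Nat.card N := by
    refine Nat.eq_of_factorization_eq Nat.card_pos.ne' Nat.card_pos.ne' fun p => ?_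
    by_cases hp : p.Prime ∧ p ∣ Nat.card N
    · obtain ⟨hp, hpN⟩ := hp
      rw [hfac p hp hpN, ← hG, ← Subgroup.index_mul_card N, Nat.factorization_mul
          Subgroup.index_ne_zero_of_finite Nat.card_pos.ne', Finsupp.add_apply,
        Nat.factorization_eq_zero_of_not_dvd (fun hd => hp.not_dvd_one (hcop ▸ Nat.dvd_gcd hpN hd)),
        zero_add]
    · by_cases hp' : p.Prime
      · rw [Nat.factorization_eq_zero_of_not_dvd (fun hd => hp ⟨hp', (hMπ p hp' hd).2⟩),
          Nat.factorization_eq_zero_of_not_dvd (fun hd => hp ⟨hp', hd⟩)]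
      · rw [Nat.factorization_eq_zero_of_not_prime _ hp', Nat.factorization_eq_zero_of_not_prime _ hp']
  refine ⟨M, hMn, Core.isNilpotent_of_sylow_normal fun p hp Q => ?_, hcard, ?_⟩
  · by_cases hpN : p ∣ Nat.card M
    · rw [hcard] at hpN
      let Q₀ : Sylow p G := default
      obtain ⟨hQn, hQle⟩ := hS p hpN Q₀
      haveI := hQn
      have hn : ((Q₀.subtype hQle : Sylow p M) : Subgroup M).Normal := by
        rw [Sylow.coe_subtype]; infer_instance
      haveI : Subsingleton (Sylow p M) := (Sylow.unique_of_normal _ hn).instSubsingleton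
      rwa [Subsingleton.elim Q (Q₀.subtype hQle : Sylow p M)]
    · have : (Q : Subgroup M) = ⊥ := Subgroup.eq_bot_of_card_eq _ (by
        rw [Q.card_eq_multiplicity, Nat.factorization_eq_zero_of_not_dvd hpN, pow_zero])
      rw [this]; infer_instance
  · rw [hcard]
    have h1 := M.index_mul_card
    rw [hcard, ← hG, ← N.index_mul_card] at h1
    rw [Nat.eq_of_mul_eq_mul_right Nat.card_pos h1]
    exact hcop

/-- Equal order type transfers the Frobenius property. -/
theorem main {C : Subgroup F} (hC : IsFrobeniusComplement C)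
    (hT : ∀ m : ℕ, Nat.card {g : F // orderOf g = m} = Nat.card {x : G // orderOf x = m}) :
    (∃ D : Subgroup G, IsFrobeniusComplement D) ∧ (Group.IsSolvable F → Group.IsSolvable G) := by
  classical
  have h := OrderType.samePow_of_order hT
  obtain ⟨N, hNn, hcompl, hnil, hNb, hcop, hfpf, hu⟩ := kernel_data hC
  haveI := hNn
  obtain ⟨M, hMn, hMnil, hMN, hMcop⟩ := exists_kernel h N hnil hcop
  haveI := hMn
  obtain ⟨D, hD⟩ := Subgroup.exists_right_complement'_of_coprime hMcop
  have hDcard : Nat.card D = Nat.card C := by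
    have h1 := hD.card_mul
    rw [hMN, ← h.card_eq, ← hcompl.card_mul] at h1
    exact Nat.eq_of_mul_eq_mul_left Nat.card_pos h1
  have hDi : M.index = Nat.card D := hD.symm.index_eq_card
  have hNi : N.index = Nat.card C := hcompl.symm.index_eq_card
  -- no element of mixed order
  have hno : ∀ p q : ℕ, p.Prime → q.Prime → p ∣ Nat.card N → q ∣ Nat.card C → ∀ g : G, orderOf g ≠ p * q := by
    intro p q hp hq hpN hqC g hg
    have hpos : Nat.card {y : F // orderOf y = p * q} ≠ 0 := by
      rw [hT]
      haveI : Nonempty {x : G // orderOf x = p * q} := ⟨⟨g, hg⟩⟩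
      exact Nat.card_pos.ne'
    obtain ⟨⟨y, hy⟩⟩ := (Nat.card_ne_zero.mp hpos).1
    haveI := Fact.mk hp
    haveI := Fact.mk hq
    have hqN : ¬ q ∣ Nat.card N := fun hd =>
      hq.not_dvd_one (hcop ▸ Nat.dvd_gcd hd (hNi ▸ hqC))
    have ho1 : orderOf (y ^ q) = p := by
      rw [orderOf_pow_of_dvd hq.ne_zero (by rw [hy]; exact dvd_mul_left q p), hy, Nat.mul_div_cancel _ hq.pos]
    have ho2 : orderOf (y ^ p) = q := by
      rw [orderOf_pow_of_dvd hp.ne_zero (by rw [hy]; exact dvd_mul_right p q), hy,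
        Nat.mul_div_cancel_left _ hp.pos]
    have hyN : y ^ q ∈ N := by
      rw [← QuotientGroup.eq_one_iff, ← orderOf_eq_one_iff]
      refine Nat.eq_one_of_dvd_coprimes hcop ?_ (N.index_eq_card ▸ orderOf_dvd_natCard _)
      exact ((orderOf_map_dvd (QuotientGroup.mk' N) (y ^ q)).trans ho1.dvd).trans hpN
    obtain ⟨x, hx⟩ := PermGroups.Frobenius.exists_le_conj hC (Subgroup.zpowers (y ^ p))
      (by rw [Nat.card_zpowers, ho2]; exact hqC)
    have hxy : x⁻¹ * (y ^ p) * x ∈ C := PermGroups.mem_conj_smul.mp (hx (Subgroup.mem_zpowers _))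
    have hk : x⁻¹ * (y ^ q) * x ∈ N := by simpa using hNn.conj_mem _ hyN x⁻¹
    have h1 := hfpf _ hxy (fun e => by
      have : y ^ p = 1 := by
        have := congrArg (fun w => x * w * x⁻¹) e
        simpa [mul_assoc] using this
      rw [this, orderOf_one] at ho2
      exact hq.ne_one ho2.symm) _ hk (by
        rw [show x⁻¹ * y ^ p * x * (x⁻¹ * y ^ q * x) = x⁻¹ * (y ^ p * y ^ q) * x by group,
          show x⁻¹ * y ^ q * x * (x⁻¹ * y ^ p * x) = x⁻¹ * (y ^ q * y ^ p) * x by group,
          ← pow_add, ← pow_add, add_comm])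
    have : y ^ q = 1 := by
      have := congrArg (fun w => x * w * x⁻¹) h1
      simpa [mul_assoc] using this
    rw [this, orderOf_one] at ho1
    exact hp.ne_one ho1.symm
  have hfpf' : OddLocal.FPF M D := by
    intro d hd hd1 k hk hc
    by_contra hk1
    have hc' : Commute d k := hc
    obtain ⟨p, hp, hpd⟩ := Nat.exists_prime_and_dvd (n := orderOf k) (fun e => hk1 (orderOf_eq_one_iff.mp e))
    obtain ⟨q, hq, hqd⟩ := Nat.exists_prime_and_dvd (n := orderOf d) (fun e => hd1 (orderOf_eq_one_iff.mp e))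
    have hpM : p ∣ Nat.card M := hpd.trans (M.orderOf_dvd_natCard hk)
    have hqD : q ∣ Nat.card D := hqd.trans (D.orderOf_dvd_natCard hd)
    have hne : p ≠ q := fun e => hp.not_dvd_one (hMcop ▸ Nat.dvd_gcd hpM (hDi ▸ e ▸ hqD))
    have h1 : orderOf (k ^ (orderOf k / p)) = p := orderOf_pow_orderOf_div (orderOf_pos k).ne' hpd
    have h2 : orderOf (d ^ (orderOf d / q)) = q := orderOf_pow_orderOf_div (orderOf_pos d).ne' hqd
    refine hno p q hp hq (hMN ▸ hpM) (hDcard ▸ hqD) (k ^ (orderOf k / p) * d ^ (orderOf d / q)) ?_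
    rw [Commute.orderOf_mul_eq_mul_orderOf_of_coprime (hc'.symm.pow_pow _ _)
      (by rw [h1, h2]; exact (Nat.coprime_primes hp hq).mpr hne), h1, h2]
  constructor
  · refine ⟨D, ?_, ?_, ?_⟩
    · intro e
      rw [e, Subgroup.card_bot] at hDcard
      exact hC.1 (Subgroup.eq_bot_of_card_eq C hDcard.symm)
    · intro e
      have := hD.card_mul
      rw [e, Subgroup.card_top, hMN] at this
      have h1 : 1 < Nat.card N := (Subgroup.one_lt_card_iff_ne_bot N).mpr hNb
      have h2 : 0 < Nat.card G := Nat.card_pos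
      nlinarith
    · intro g hg
      rw [eq_bot_iff]
      intro x hx
      rw [Subgroup.mem_bot]
      by_contra hx1
      have hy : g⁻¹ * x * g ∈ D := PermGroups.mem_conj_smul.mp hx.2
      obtain ⟨k, hk, c, hc, hgk⟩ : ∃ k ∈ M, ∃ c ∈ D, g = k * c := by
        obtain ⟨⟨⟨k, hk⟩, ⟨c, hc⟩⟩, hkc⟩ := hD.2 g
        exact ⟨k, hk, c, hc, hkc.symm⟩
      subst hgk
      have hy2 : k⁻¹ * x * k ∈ D := by
        have := D.mul_mem (D.mul_mem hc hy) (D.inv_mem hc)
        simpa [mul_assoc] using this
      have h1 : x⁻¹ * (k⁻¹ * x * k) ∈ M := by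
        have := M.mul_mem (hMn.conj_mem _ (M.inv_mem hk) x⁻¹) hk
        simpa [mul_assoc] using this
      have h2 : x⁻¹ * (k⁻¹ * x * k) = 1 := Subgroup.disjoint_def.mp hD.disjoint h1
        (D.mul_mem (D.inv_mem hx.1) hy2)
      rw [inv_mul_eq_one] at h2
      have hcomm : x * k = k * x := by
        conv_rhs => rw [h2]
        group
      have hk1 := hfpf' x hx.1 hx1 k hk hcomm
      exact hg (by rw [hk1, one_mul]; exact hc)
  · intro hs
    haveI := hs
    let e : F ⧸ N ≃* C := Subgroup.IsComplement'.QuotientMulEquiv hcompl.symm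
    have hu' : ComplementTower.HasUniqueOrders (F ⧸ N) := hu.of_injective e.toMonoidHom e.injective
    haveI : Group.IsSolvable (G ⧸ M) := ComplementTower.isSolvable_of_samePow _ rfl hu' inferInstance
      (h.quotient N hcop M hMcop hMN.symm)
    haveI : Group.IsSolvable M := IsNilpotent.to_isSolvable (h := hMnil)
    exact Group.isSolvable_of_ker_le_range M.subtype (QuotientGroup.mk' M)
      (by rw [QuotientGroup.ker_mk', Subgroup.range_subtype])

end Cfsg.Agent.FGS2.FrobeniusType
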