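import Cfsg.Agent.FGS2.GLCrossSylow
import Cfsg.Agent.S4014
import Cfsg.Agent.S4010

/-! Derived length of Sylow `p`-subgroups of `GL_n(q)`, `p` odd and prime to `q`. -/

set_option autoImplicit false
set_option linter.style.haveILetI false

namespace Cfsg.Agent.FGS2.GLCross

theorem derived_mon_sylow_le {A : Type} [CommGroup A] [Finite A] {p : ℕ} [hp : Fact p.Prime] (w : ℕ)
    (S : Sylow p (Mon A (Fin w))) : derivedSeries S.toSubgroup (Nat.log p w + 1) = ⊥ := by
  let π : S.toSubgroup →* Equiv.Perm (Fin w) := SemidirectProduct.rightHom.comp S.toSubgroup.subtype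
  have hk : derivedSeries S.toSubgroup (Nat.log p w) ≤ π.ker := by
    intro g hg
    letI : MulAction S.toSubgroup (Fin w) := MulAction.compHom _ π
    refine Equiv.ext fun x => ?_
    obtain ⟨j, hj⟩ := S.2.card_orbit x
    have hjk : j ≤ Nat.log p w := Nat.le_log_of_pow_le hp.out.one_lt (by
      rw [← hj]; exact (Finite.card_subtype_le _).trans_eq (Nat.card_fin w))
    exact Cfsg.Agent.S4014.fixes (p := p) (α := Fin w) _ S.2 x (hj ▸ pow_dvd_pow p hjk) g hg
  rw [derivedSeries_succ, eq_bot_iff, Subgroup.commutator_le]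
  intro a ha b hb
  have h1 : (a : Mon A (Fin w)).right = 1 := hk ha
  have h2 : (b : Mon A (Fin w)).right = 1 := hk hb
  rw [Subgroup.mem_bot, commutatorElement_eq_one_iff_mul_comm]
  refine Subtype.ext (SemidirectProduct.ext ?_ ?_)
  · simp [h1, h2, mul_comm]
  · simp [h1, h2]

theorem derived_sylow_eq_bot {F : Type*} [Field F] [Fintype F] {p q : ℕ} [hp : Fact p.Prime] (hp2 : p ≠ 2)
    (hF : Fintype.card F = q) (hq : ¬ p ∣ q) (n : ℕ) (P : Sylow p (GL (Fin n) F)) :
    derivedSeries P.toSubgroup (Nat.log p (n / orderOf (q : ZMod p)) + 1) = ⊥ := by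
  obtain ⟨K, _, _, -, h⟩ := exists_sylow_equiv (F := F) hp2 hF hq n
  obtain ⟨S⟩ : Nonempty (Sylow p (Mon Kˣ (Fin (n / orderOf (q : ZMod p))))) := inferInstance
  obtain ⟨e⟩ := h P S
  rw [← map_derivedSeries_eq (f := e.symm.toMonoidHom) e.symm.surjective, derived_mon_sylow_le,
    Subgroup.map_bot]

theorem derived_sylow_ne_bot {F : Type*} [Field F] [Fintype F] {p q : ℕ} [hp : Fact p.Prime]
    (hF : Fintype.card F = q) (hq : ¬ p ∣ q) (n : ℕ) (hn : orderOf (q : ZMod p) ≤ n)
    (P : Sylow p (GL (Fin n) F)) :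
    derivedSeries P.toSubgroup (Nat.log p (n / orderOf (q : ZMod p))) ≠ ⊥ := by
  classical
  set e := orderOf (q : ZMod p) with he
  have he0 : e ≠ 0 := orderOf_ne_zero hq
  set k := Nat.log p (n / e) with hk
  obtain ⟨K, _, _, hK, hhom⟩ := exists_mon_hom (F := F) e n he0
  have hp_dvd : p ∣ Nat.card Kˣ := by
    rw [Nat.card_units, hK, Nat.card_eq_fintype_card, hF]
    exact (dvd_pow_sub_one_iff hq e).mpr dvd_rfl
  obtain ⟨c, hc⟩ := exists_prime_orderOf_dvd_card' p hp_dvd
  set G := Multiplicative (ZMod p)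
  have hG : Nat.card G = p := Nat.card_zmod p
  haveI : Nontrivial G := Finite.one_lt_card_iff_nontrivial.mp (hG ▸ hp.out.one_lt)
  haveI : IsCyclic G := isCyclic_of_prime_card hG
  let e₁ : G ≃* Subgroup.zpowers c := mulEquivOfPrimeCardEq hG (by rw [Nat.card_zpowers, hc])
  let i : G →* Kˣ := (Subgroup.zpowers c).subtype.comp e₁.toMonoidHom
  obtain ⟨f, hf⟩ := exists_iterated_hom G i (Subtype.val_injective.comp e₁.injective) k
  obtain ⟨g, hg⟩ := hhom (Fin k → G) (by
    rw [Nat.card_fun, Nat.card_fin, hG]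
    refine le_trans (Nat.mul_le_mul_left e ?_) (Nat.mul_div_le n e)
    exact Nat.pow_log_le_self p (Nat.ne_of_gt (Nat.div_pos hn (Nat.pos_of_ne_zero he0))))
  have hfg : Function.Injective (g.comp f) := hg.comp hf
  have hR : IsPGroup p (g.comp f).range :=
    (IsPGroup.of_card (n := ∑ j ∈ Finset.range (k + 1), p ^ j) (p := p)
      (by rw [IteratedWreathProduct.card, hG])).of_surjective _ (g.comp f).rangeRestrict_surjective
  obtain ⟨Q, hQ⟩ := hR.exists_le_sylow
  let ψ : IteratedWreathProduct G (k + 1) →* P.toSubgroup :=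
    (Q.equiv P).toMonoidHom.comp ((Subgroup.inclusion hQ).comp (g.comp f).rangeRestrict)
  have hψ : Function.Injective ψ :=
    (Q.equiv P).injective.comp ((Subgroup.inclusion_injective hQ).comp
      fun a b h => hfg (congrArg Subtype.val h))
  intro h
  refine Cfsg.Agent.S4014.wreath_ne_bot G k ((Subgroup.map_eq_bot_iff_of_injective _ hψ).mp (le_bot_iff.mp ?_))
  exact (map_derivedSeries_le_derivedSeries ψ k).trans h.le

/-- Upper bound for all `p`-subgroups. -/
theorem derived_pgroup_eq_bot {F : Type*} [Field F] [Fintype F] {p q : ℕ} [hp : Fact p.Prime]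
    (hF : Fintype.card F = q) (hq : ¬ p ∣ q) (n : ℕ) (hn : orderOf (q : ZMod p) ≤ n)
    (P : Subgroup (GL (Fin n) F)) (hP : IsPGroup p P) :
    derivedSeries P (Nat.log 2 (n / orderOf (q : ZMod p)) + 1) = ⊥ := by
  by_cases hp2 : p = 2
  · subst hp2
    have he : orderOf (q : ZMod 2) = 1 := by
      rw [orderOf_eq_one_iff]
      have : (q : ZMod 2) ≠ 0 := by rwa [Ne, ZMod.natCast_eq_zero_iff]
      exact Fin.eq_one_of_ne_zero _ this
    rw [he, Nat.div_one]
    exact Cfsg.Agent.S4010.result 2 hP F n ((orderOf_ne_zero hq).bot_lt.trans_le hn) P.subtype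
      P.subtype_injective
  obtain ⟨Q, hQ⟩ := hP.exists_le_sylow
  have h1 : derivedSeries Q.toSubgroup (Nat.log 2 (n / orderOf (q : ZMod p)) + 1) = ⊥ :=
    le_bot_iff.mp ((derivedSeries_antitone _ (Nat.succ_le_succ
      (Nat.log_anti_left one_lt_two hp.out.two_le))).trans (derived_sylow_eq_bot hp2 hF hq n Q).le)
  refine (Subgroup.map_eq_bot_iff_of_injective _ (Subgroup.inclusion_injective hQ)).mp
    (le_bot_iff.mp ?_)
  exact (map_derivedSeries_le_derivedSeries _ _).trans h1.le

end Cfsg.Agent.FGS2.GLCross
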