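import Mathlib
import Cfsg.Agent.Linear.SylowCard

/-! Sylow `p`-subgroups of `GL_n(q)` for `p` odd prime to `q`: they live in monomial groups over the
extension of degree `ord_p(q)`. -/

set_option autoImplicit false
set_option linter.style.haveILetI false

namespace Cfsg.Agent.FGS2.GLCross

universe u v w

variable (A : Type u) [CommGroup A] (Ω : Type v)

/-- Coordinate permutation as automorphisms of the base group. -/
def permAct : Equiv.Perm Ω →* MulAut (Ω → A) where
  toFun σ :=
    { toFun := fun f x => f (σ⁻¹ x)
      invFun := fun f x => f (σ x)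
      left_inv := fun f => funext fun x => by simp
      right_inv := fun f => funext fun x => by simp
      map_mul' := fun _ _ => rfl }
  map_one' := MulEquiv.ext fun f => funext fun x => by simp
  map_mul' σ τ := MulEquiv.ext fun f => funext fun x => by simp [Equiv.Perm.mul_apply]

@[simp] theorem permAct_apply (σ : Equiv.Perm Ω) (f : Ω → A) (x : Ω) :
    permAct A Ω σ f x = f (σ⁻¹ x) := rfl

/-- The monomial group `A ≀ Sym(Ω)`. -/
abbrev Mon : Type _ := (Ω → A) ⋊[permAct A Ω] Equiv.Perm Ω

instance instFiniteMon [Finite A] [Finite Ω] : Finite (Mon A Ω) :=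
  Finite.of_equiv _ SemidirectProduct.equivProd.symm

theorem card_mon [Finite A] [Finite Ω] :
    Nat.card (Mon A Ω) = Nat.card A ^ Nat.card Ω * (Nat.card Ω).factorial := by
  rw [SemidirectProduct.card, Nat.card_fun, Nat.card_perm]

section Rep

variable {A Ω}
variable (F : Type u) [Field F] (K : Type w) [Field K] [Algebra F K] (R : Type*) [AddCommGroup R] [Module F R]

/-- Monomial action on `(Ω → K) × R`, trivial on the second factor. -/
def monRep (Ω : Type v) : Mon Kˣ Ω →* Module.End F ((Ω → K) × R) where
  toFun m :=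
    { toFun := fun v => (fun x => (m.left x : K) * v.1 (m.right⁻¹ x), v.2)
      map_add' := fun a b => by
        refine Prod.ext (funext fun x => ?_) rfl
        simp [mul_add]
      map_smul' := fun c a => by
        refine Prod.ext (funext fun x => ?_) rfl
        simp }
  map_one' := LinearMap.ext fun v => Prod.ext (funext fun x => by simp) rfl
  map_mul' a b := LinearMap.ext fun v => Prod.ext (funext fun x => by
    simp [Module.End.mul_apply, mul_assoc, Equiv.Perm.mul_apply]) rfl

theorem monRep_injective (Ω : Type v) [DecidableEq Ω] : Function.Injective (monRep F K R Ω) := by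
  intro a b h
  have hv : ∀ (f : Ω → K) (x : Ω), (a.left x : K) * f (a.right⁻¹ x) = (b.left x : K) * f (b.right⁻¹ x) :=
    fun f x => congrFun (congrArg Prod.fst (LinearMap.congr_fun h (f, 0))) x
  have hl : a.left = b.left := funext fun x => Units.ext (by simpa using hv (fun _ => 1) x)
  refine SemidirectProduct.ext hl (inv_injective (Equiv.ext fun x => ?_))
  by_contra hne
  have h1 := hv (Pi.single (a.right⁻¹ x) 1) x
  rw [Pi.single_eq_same, Pi.single_eq_of_ne (Ne.symm hne), mul_one, mul_zero] at h1
  exact Units.ne_zero _ h1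

end Rep

/-- The monomial group over the degree `e` extension inside `GL_n`. -/
theorem exists_mon_hom {F : Type u} [Field F] [Finite F] (e n : ℕ) (he : e ≠ 0) :
    ∃ (K : Type) (_ : Field K) (_ : Finite K), Nat.card K = Nat.card F ^ e ∧
      ∀ (Ω : Type) [Finite Ω], e * Nat.card Ω ≤ n →
        ∃ f : Mon Kˣ Ω →* GL (Fin n) F, Function.Injective f := by
  classical
  obtain ⟨r, hchar⟩ := CharP.exists F
  haveI := hchar
  haveI : Fact r.Prime := ⟨CharP.char_is_prime F r⟩
  haveI : NeZero e := ⟨he⟩
  refine ⟨FiniteField.Extension F r e, inferInstance, inferInstance, FiniteField.natCard_extension F r e,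
    fun Ω _ hΩ => ?_⟩
  haveI : Fintype Ω := Fintype.ofFinite Ω
  set R := Fin (n - e * Nat.card Ω) → F
  have hd : Module.finrank F ((Ω → FiniteField.Extension F r e) × R) = n := by
    rw [Module.finrank_prod, Module.finrank_pi_fintype F, Finset.sum_const, smul_eq_mul,
      Module.finrank_fin_fun, FiniteField.finrank_extension, Finset.card_univ,
      ← Nat.card_eq_fintype_card, mul_comm]
    omega
  let b := (Module.finBasis F ((Ω → FiniteField.Extension F r e) × R)).reindex (finCongr hd)
  let f : Mon (FiniteField.Extension F r e)ˣ Ω →* Matrix (Fin n) (Fin n) F :=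
    (LinearMap.toMatrixAlgEquiv b).toAlgHom.toRingHom.toMonoidHom.comp (monRep F _ R Ω)
  refine ⟨f.toHomUnits, fun x y h => ?_⟩
  exact monRep_injective F _ R Ω ((LinearMap.toMatrixAlgEquiv b).injective (congrArg Units.val h))

section Numbers

variable {p q : ℕ} [hp : Fact p.Prime]

theorem dvd_pow_sub_one_iff (hq : ¬ p ∣ q) (i : ℕ) :
    p ∣ q ^ i - 1 ↔ orderOf (q : ZMod p) ∣ i := by
  have h1 : 1 ≤ q ^ i := Nat.one_le_pow _ _ (Nat.pos_of_ne_zero (by rintro rfl; exact hq (dvd_zero p)))
  rw [← ZMod.natCast_eq_zero_iff, Nat.cast_sub h1, sub_eq_zero, Nat.cast_pow,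
    Nat.cast_one, orderOf_dvd_iff_pow_eq_one]

theorem orderOf_ne_zero (hq : ¬ p ∣ q) : orderOf (q : ZMod p) ≠ 0 := by
  have hu : (q : ZMod p) ≠ 0 := by rwa [Ne, ZMod.natCast_eq_zero_iff]
  exact orderOf_ne_zero_iff.mpr (isOfFinOrder_iff_pow_eq_one.mpr
    ⟨p - 1, by have := hp.out.two_le; omega, ZMod.pow_card_sub_one_eq_one hu⟩)

theorem padic_prod (hp2 : p ≠ 2) (hq : ¬ p ∣ q) (hq1 : 1 < q) (n : ℕ) :
    padicValNat p (∏ i ∈ Finset.range n, (q ^ (i + 1) - 1)) =
      (n / orderOf (q : ZMod p)) * padicValNat p (q ^ orderOf (q : ZMod p) - 1) +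
        padicValNat p (n / orderOf (q : ZMod p)).factorial := by
  set e := orderOf (q : ZMod p) with he
  have he0 : e ≠ 0 := orderOf_ne_zero hq
  have hne : ∀ i : ℕ, q ^ (i + 1) - 1 ≠ 0 := fun i => by
    have := Nat.one_lt_pow (Nat.succ_ne_zero i) hq1
    rw [Nat.succ_eq_add_one] at this
    omega
  induction n with
  | zero => simp
  | succ n ih =>
    rw [Finset.prod_range_succ, padicValNat.mul (Finset.prod_ne_zero_iff.mpr fun i _ => hne i) (hne n), ih,
      Nat.succ_div]
    by_cases hd : e ∣ n + 1
    · rw [if_pos hd]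
      obtain ⟨j, hj⟩ := hd
      have hj' : n / e + 1 = j := by
        have := Nat.succ_div (a := n) (b := e)
        rw [if_pos ⟨j, hj⟩, hj, Nat.mul_div_cancel_left _ (Nat.pos_of_ne_zero he0)] at this
        exact this.symm
      have hval : padicValNat p (q ^ (n + 1) - 1) = padicValNat p (q ^ e - 1) + padicValNat p j := by
        rw [hj, pow_mul]
        have hyx : 1 < q ^ e := Nat.one_lt_pow he0 hq1
        have hd1 : p ∣ q ^ e - 1 := (dvd_pow_sub_one_iff hq e).mpr dvd_rfl
        have := padicValNat.pow_sub_pow (p := p) (x := q ^ e) (y := 1) (hp.out.odd_of_ne_two hp2) hyx hd1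
          (fun h => hq (hp.out.dvd_of_dvd_pow h)) (n := j) (by rintro rfl; simp at hj)
        rwa [one_pow] at this
      rw [hval, ← hj', Nat.factorial_succ,
        padicValNat.mul (Nat.succ_ne_zero _) (Nat.factorial_ne_zero _)]
      ring
    · rw [if_neg hd, add_zero, padicValNat.eq_zero_of_not_dvd (mt (dvd_pow_sub_one_iff hq _).mp hd),
        add_zero]

end Numbers

/-- For `p` odd, prime to `q`, the `p`-part of `|GL_n(q)|` is that of the monomial group. -/
theorem padic_card_eq {F : Type u} [Field F] [Fintype F] {p q : ℕ} [hp : Fact p.Prime] (hp2 : p ≠ 2)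
    (hF : Fintype.card F = q) (hq : ¬ p ∣ q) (n : ℕ) (K : Type v) [Field K] [Finite K]
    (hK : Nat.card K = q ^ orderOf (q : ZMod p)) :
    padicValNat p (Nat.card (GL (Fin n) F)) =
      padicValNat p (Nat.card (Mon Kˣ (Fin (n / orderOf (q : ZMod p))))) := by
  have hq1 : 1 < q := hF ▸ Fintype.one_lt_card
  rw [Linear.card_GL_eq_mul, hF, card_mon, Nat.card_units, hK, Nat.card_fin]
  have hprod : (∏ i : Fin n, (q ^ (n - (i : ℕ)) - 1)) = ∏ i ∈ Finset.range n, (q ^ (i + 1) - 1) := by
    rw [Fin.prod_univ_eq_prod_range (fun i => q ^ (n - i) - 1) n, ← Finset.prod_range_reflect]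
    refine Finset.prod_congr rfl fun i hi => ?_
    rw [Finset.mem_range] at hi
    congr 2
    omega
  have hne : ∏ i ∈ Finset.range n, (q ^ (i + 1) - 1) ≠ 0 := Finset.prod_ne_zero_iff.mpr fun i _ => by
    have := Nat.one_lt_pow (Nat.succ_ne_zero i) hq1
    rw [Nat.succ_eq_add_one] at this
    omega
  have hE : q ^ orderOf (q : ZMod p) - 1 ≠ 0 := by
    have := Nat.one_lt_pow (orderOf_ne_zero hq) hq1
    omega
  rw [hprod, padicValNat.mul (pow_ne_zero _ (by omega)) hne,
    padicValNat.eq_zero_of_not_dvd (fun h => hq (hp.out.dvd_of_dvd_pow h)), zero_add,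
    padic_prod hp2 hq hq1, padicValNat.mul (pow_ne_zero _ hE) (Nat.factorial_ne_zero _),
    padicValNat.pow]

/-- A Sylow `p`-subgroup of `GL_n(q)` is one of the monomial group `GL_1(q^e) ≀ S_w`. -/
theorem exists_sylow_equiv {F : Type u} [Field F] [Fintype F] {p q : ℕ} [hp : Fact p.Prime] (hp2 : p ≠ 2)
    (hF : Fintype.card F = q) (hq : ¬ p ∣ q) (n : ℕ) :
    ∃ (K : Type) (_ : Field K) (_ : Finite K), Nat.card K = q ^ orderOf (q : ZMod p) ∧
      ∀ (P : Sylow p (GL (Fin n) F)) (S : Sylow p (Mon Kˣ (Fin (n / orderOf (q : ZMod p))))),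
        Nonempty ((P : Subgroup (GL (Fin n) F)) ≃* S.toSubgroup) := by
  obtain ⟨K, hKf, hKfin, hK, hhom⟩ := exists_mon_hom (F := F) (orderOf (q : ZMod p)) n (orderOf_ne_zero hq)
  have hK' : Nat.card K = q ^ orderOf (q : ZMod p) := by rw [hK, Nat.card_eq_fintype_card, hF]
  refine ⟨K, hKf, hKfin, hK', fun P S => ?_⟩
  obtain ⟨f, hf⟩ := hhom (Fin (n / orderOf (q : ZMod p))) (by rw [Nat.card_fin]; exact Nat.mul_div_le _ _)
  let e := Subgroup.equivMapOfInjective S.toSubgroup f hf
  let Q : Sylow p (GL (Fin n) F) := Sylow.ofCard (S.toSubgroup.map f) (by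
    rw [← Nat.card_congr e.toEquiv, S.card_eq_multiplicity]
    congr 1
    rw [Nat.factorization_def _ hp.out, Nat.factorization_def _ hp.out, padic_card_eq hp2 hF hq n K hK'])
  exact ⟨(P.equiv Q).trans e.symm⟩

/-- Monomial groups iterate under regular wreath products. -/
def monWreath {A : Type u} [CommGroup A] {Ω : Type v} {Q : Type w} [Group Q] :
    RegularWreathProduct (Mon A Ω) Q →* Mon A (Ω × Q) where
  toFun m :=
    { left := fun x => (m.left x.2).left x.1
      right :=
        { toFun := fun x => ((m.left (m.right * x.2)).right x.1, m.right * x.2)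
          invFun := fun x => ((m.left x.2).right⁻¹ x.1, m.right⁻¹ * x.2)
          left_inv := fun x => by simp
          right_inv := fun x => by simp } }
  map_one' := SemidirectProduct.ext (funext fun x => by simp) (Equiv.ext fun x => by simp)
  map_mul' a b := SemidirectProduct.ext
    (funext fun x => by simp [Equiv.Perm.inv_def])
    (Equiv.ext fun x => by simp [Equiv.Perm.mul_apply, mul_assoc])

theorem monWreath_injective {A : Type u} [CommGroup A] {Ω : Type v} [Nonempty Ω] {Q : Type w} [Group Q] :
    Function.Injective (monWreath (A := A) (Ω := Ω) (Q := Q)) := by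
  intro a b h
  have hl := congrArg SemidirectProduct.left h
  have hr := congrArg SemidirectProduct.right h
  obtain ⟨o⟩ := ‹Nonempty Ω›
  have hq : a.right = b.right := by
    have h2 := congrArg Prod.snd (Equiv.congr_fun hr (o, 1))
    simpa [monWreath] using h2
  refine RegularWreathProduct.ext (funext fun y => SemidirectProduct.ext (funext fun x => ?_) (Equiv.ext fun x => ?_)) hq
  · exact congrFun hl (x, y)
  · have h2 := congrArg Prod.fst (Equiv.congr_fun hr (x, a.right⁻¹ * y))
    simp only [monWreath] at h2
    simpa [hq] using h2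

/-- The iterated wreath product of a cyclic group embeds in a monomial group over `A`. -/
theorem exists_iterated_hom {A : Type u} [CommGroup A] (G : Type) [Group G] (i : G →* A)
    (hi : Function.Injective i) (k : ℕ) :
    ∃ f : IteratedWreathProduct G (k + 1) →* Mon A (Fin k → G), Function.Injective f := by
  induction k with
  | zero =>
    haveI : Subsingleton (IteratedWreathProduct G 0) := inferInstanceAs (Subsingleton PUnit)
    refine ⟨{ toFun := fun x => ⟨fun _ => i x.right, 1⟩, map_one' := ?_, map_mul' := ?_ }, ?_⟩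
    · exact SemidirectProduct.ext (funext fun _ => map_one i) rfl
    · intro a b
      exact SemidirectProduct.ext (funext fun _ => map_mul i _ _) (by simp)
    · intro a b h
      refine RegularWreathProduct.ext (funext fun _ => Subsingleton.elim _ _) (hi ?_)
      exact congrFun (congrArg SemidirectProduct.left h) default
  | succ k ih =>
    obtain ⟨f, hf⟩ := ih
    let f₁ : IteratedWreathProduct G (k + 2) →* RegularWreathProduct (Mon A (Fin k → G)) G :=
      { toFun := fun x => ⟨fun y => f (x.left y), x.right⟩
        map_one' := RegularWreathProduct.ext (funext fun y => map_one f) rfl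
        map_mul' := fun a b => RegularWreathProduct.ext (funext fun y => map_mul f _ _) rfl }
    let e := Fin.succFunEquiv G k
    let f₂ : Mon A ((Fin k → G) × G) →* Mon A (Fin (k + 1) → G) :=
      { toFun := fun x => ⟨fun y => x.left (e y), e.symm.permCongrHom x.right⟩
        map_one' := SemidirectProduct.ext (funext fun _ => rfl) (map_one _)
        map_mul' := fun a b => SemidirectProduct.ext
          (funext fun y => by simp [Equiv.Perm.inv_def, Equiv.permCongrHom, Equiv.permCongr_def]) (map_mul _ _ _) }
    refine ⟨f₂.comp (monWreath.comp f₁), ?_⟩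
    show Function.Injective (f₂ ∘ (monWreath ∘ f₁))
    refine Function.Injective.comp ?_ (Function.Injective.comp monWreath_injective ?_)
    · intro a b h
      refine SemidirectProduct.ext (funext fun y => ?_) (e.symm.permCongrHom.injective (congrArg SemidirectProduct.right h))
      have := congrFun (congrArg SemidirectProduct.left h) (e.symm y)
      simpa [f₂] using this
    · intro a b h
      exact RegularWreathProduct.ext (funext fun y => hf (congrFun (congrArg RegularWreathProduct.left h) y))
        (congrArg (fun z : RegularWreathProduct (Mon A (Fin k → G)) G => z.right) h)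

end Cfsg.Agent.FGS2.GLCross
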