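import Mathlib.GroupTheory.Nilpotent
import Mathlib.GroupTheory.PGroup
import Mathlib.GroupTheory.Sylow
import Mathlib.Tactic
import Mathlib.Data.Nat.Choose.Dvd
import Cfsg.Agent.Coprime.PxQ

/-!
# Generators of subgroups of a group of odd prime power order

If every normal abelian subgroup is `k`-generated, every subgroup is generated by `k * (k + 4) / 4`
elements: a maximal normal elementary abelian subgroup `A` contains every element of order `p` of
its centralizer, and the leading positions of the action on a central flag of `A` that are not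
composite form a triangle-free graph.
-/

set_option autoImplicit false
set_option linter.style.haveILetI false
set_option linter.unusedSectionVars false

namespace Cfsg.Agent.FGS2.GenBound

open scoped commutatorElement

section formula

variable {G : Type*} [Group G]

theorem pow_comm_formula {a z : G} (hca : Commute ⁅a, z⁆ a) (hcz : Commute ⁅a, z⁆ z) (n : ℕ) :
    a ^ n * z = ⁅a, z⁆ ^ n * (z * a ^ n) ∧ (z * a) ^ n = ⁅a, z⁆ ^ n.choose 2 * (z ^ n * a ^ n) := by
  set c := ⁅a, z⁆ with hc
  have h1 : ∀ n : ℕ, a ^ n * z = c ^ n * (z * a ^ n) := by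
    intro n
    induction n with
    | zero => simp
    | succ n ih =>
      have hh : a * z = c * (z * a) := by rw [hc, commutatorElement_def]; group
      calc a ^ (n + 1) * z = a * c ^ n * (z * a ^ n) := by rw [pow_succ', mul_assoc, ih, mul_assoc]
        _ = c ^ n * (a * z) * a ^ n := by rw [(hca.pow_left n).eq.symm]; group
        _ = c ^ (n + 1) * (z * a ^ (n + 1)) := by rw [hh]; group
  refine ⟨h1 n, ?_⟩
  induction n with
  | zero => simp
  | succ n ih =>
    rw [pow_succ (z * a), ih, show (n + 1).choose 2 = n.choose 2 + n by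
      rw [Nat.choose_succ_succ, Nat.choose_one_right, Nat.add_comm]]
    calc c ^ n.choose 2 * (z ^ n * a ^ n) * (z * a)
        = c ^ n.choose 2 * (z ^ n * (a ^ n * z) * a) := by group
      _ = c ^ n.choose 2 * (z ^ n * c ^ n * z * a ^ n * a) := by rw [h1]; group
      _ = c ^ n.choose 2 * (c ^ n * z ^ n * z * a ^ n * a) := by
          rw [((hcz.pow_left n).pow_right n).eq]
      _ = c ^ (n.choose 2 + n) * (z ^ (n + 1) * a ^ (n + 1)) := by
          rw [pow_add, pow_succ z, pow_succ a]; group

theorem prime_dvd_choose_two {p : ℕ} (hp : p.Prime) (h2 : p ≠ 2) : p ∣ p.choose 2 := by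
  have := hp.two_le
  exact Nat.Prime.dvd_choose_self hp (by omega) (by omega)

theorem prod_pow {p : ℕ} (hp : p.Prime) (h2 : p ≠ 2) {a z : G} (hca : Commute ⁅a, z⁆ a)
    (hcz : Commute ⁅a, z⁆ z) (hap : Commute (a ^ p) z) :
    (z * a) ^ p = z ^ p * a ^ p ∧ ⁅a, z⁆ ^ p = 1 := by
  obtain ⟨h1, h3⟩ := pow_comm_formula hca hcz p
  rw [hap.eq] at h1
  have hcp : ⁅a, z⁆ ^ p = 1 := mul_eq_right.mp h1.symm
  obtain ⟨t, ht⟩ := prime_dvd_choose_two hp h2
  rw [ht, pow_mul, hcp, one_pow, one_mul] at h3
  exact ⟨h3, hcp⟩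

/-- In a nilpotent group generated by two elements with central `p`-th powers, if the elements of
order `p` of the derived subgroup are central then the derived subgroup is central. -/
theorem lcs_two_eq_bot [Group.IsNilpotent G] {p : ℕ} (hp : p.Prime) (h2 : p ≠ 2) (a b : G)
    (hgen : Subgroup.closure ({a, b} : Set G) = ⊤) (ha : a ^ p ∈ Subgroup.center G)
    (hb : b ^ p ∈ Subgroup.center G)
    (hΩ : ∀ x ∈ (⊤ : Subgroup G).lowerCentralSeries 1, x ^ p = 1 → x ∈ Subgroup.center G) :
    (⊤ : Subgroup G).lowerCentralSeries 2 = ⊥ := by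
  set L := (⊤ : Subgroup G).lowerCentralSeries with hL
  have hstep : ∀ m, 2 ≤ m → L (m + 1) = ⊥ → L m = ⊥ := by
    intro m hm hbot
    obtain ⟨j, rfl⟩ : ∃ j, m = j + 2 := ⟨m - 2, by omega⟩
    have hc : L (j + 2) ≤ Subgroup.center G := by
      intro x hx
      rw [Subgroup.mem_center_iff]
      intro y
      have h := Subgroup.commutator_mem_commutator hx (Subgroup.mem_top y)
      rw [hL] at hbot h
      rw [← Subgroup.lowerCentralSeries_succ, hbot, Subgroup.mem_bot,
        commutatorElement_eq_one_iff_mul_comm] at h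
      exact h.symm
    suffices hz : L (j + 1) ≤ Subgroup.center G by
      rw [eq_bot_iff, hL, Subgroup.lowerCentralSeries_succ, Subgroup.commutator_le]
      intro x hx y _
      rw [Subgroup.mem_bot, commutatorElement_eq_one_iff_mul_comm]
      exact (Subgroup.mem_center_iff.mp (hz hx) y).symm
    rw [hL, Subgroup.lowerCentralSeries_succ, Subgroup.commutator_le]
    intro w hw g _
    let S : Subgroup G :=
      { carrier := {g | ⁅w, g⁆ ∈ Subgroup.center G}
        one_mem' := by simp [Subgroup.one_mem]
        mul_mem' := fun {g h} hg hh => by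
          rw [Set.mem_setOf_eq] at hg hh ⊢
          rw [commutatorElement_mul_right_eq_mul_conj, mul_assoc, mul_assoc,
            ← mul_assoc g, Subgroup.mem_center_iff.mp hh g, mul_inv_cancel_right]
          exact mul_mem hg hh
        inv_mem' := fun {g} hg => by
          rw [Set.mem_setOf_eq] at hg ⊢
          have : ⁅w, g⁻¹⁆ = g⁻¹ * ⁅w, g⁆⁻¹ * g := by simp only [commutatorElement_def]; group
          rw [this, Subgroup.mem_center_iff.mp (inv_mem hg) g⁻¹, inv_mul_cancel_right]
          exact inv_mem hg }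
    have hkey : ∀ u, u ^ p ∈ Subgroup.center G → u ∈ S := by
      intro u hu
      show ⁅w, u⁆ ∈ Subgroup.center G
      set z := ⁅w, u⁆ with hz
      have hzL : z ∈ L (j + 1) := Subgroup.commutator_mem_commutator hw (Subgroup.mem_top u)
      have hcC : ⁅u, z⁆ ∈ Subgroup.center G := by
        rw [← commutatorElement_inv]
        exact inv_mem (hc (Subgroup.commutator_mem_commutator hzL (Subgroup.mem_top u)))
      have hcomm : ∀ {y : G}, Commute ⁅u, z⁆ y := fun {y} => (Subgroup.mem_center_iff.mp hcC y).symm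
      obtain ⟨h3, -⟩ := prod_pow hp h2 hcomm hcomm (Subgroup.mem_center_iff.mp hu z).symm
      have hzu : z * u = w * u * w⁻¹ := by rw [hz, commutatorElement_def]; group
      rw [hzu, conj_pow, Subgroup.mem_center_iff.mp hu w, mul_inv_cancel_right] at h3
      exact hΩ z (Subgroup.lowerCentralSeries_antitone _ (by omega : 1 ≤ j + 1) hzL) (mul_eq_right.mp h3.symm)
    have hS : ⊤ ≤ S := by
      rw [← hgen, Subgroup.closure_le]
      rintro u (rfl | rfl)
      · exact hkey _ ha
      · exact hkey _ hb
    exact hS (Subgroup.mem_top g)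
  obtain ⟨n, hn⟩ := Subgroup.nilpotent_iff_lowerCentralSeries.mp ‹Group.IsNilpotent G›
  have key : ∀ d, L (2 + d) = ⊥ → L 2 = ⊥ := by
    intro d
    induction d with
    | zero => exact id
    | succ d ih => exact fun h => ih (hstep _ (by omega) h)
  exact key n (le_bot_iff.mp (hn ▸ Subgroup.lowerCentralSeries_antitone _ (by omega : n ≤ 2 + n)))

variable [Finite G] {p : ℕ} [Fact p.Prime]

/-- Two elements with central `p`-th powers in the group they generate: their product. -/
theorem pair_pow (hG : IsPGroup p G) (h2 : p ≠ 2) (a b : G) (U : Subgroup G) [U.Normal]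
    (hab : ⁅a, b⁆ ∈ U) (ha : Commute (a ^ p) b) (hb : Commute (b ^ p) a)
    (hΩ : ∀ x ∈ U, x ^ p = 1 → Commute x a ∧ Commute x b) :
    (b * a) ^ p = b ^ p * a ^ p ∧ ⁅a, b⁆ ^ p = 1 := by
  set K := Subgroup.closure ({a, b} : Set G) with hK
  let a' : K := ⟨a, Subgroup.subset_closure (Or.inl rfl)⟩
  let b' : K := ⟨b, Subgroup.subset_closure (Or.inr rfl)⟩
  haveI : Group.IsNilpotent K := (hG.to_subgroup K).isNilpotent
  have hgen : Subgroup.closure ({a', b'} : Set K) = ⊤ := by
    refine Subgroup.map_injective K.subtype_injective ?_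
    rw [MonoidHom.map_closure, Set.image_pair, ← MonoidHom.range_eq_map, Subgroup.range_subtype]
    rfl
  have hcen : ∀ x : K, Commute (x : G) a → Commute (x : G) b → x ∈ Subgroup.center K := by
    intro x h1 h3
    rw [Subgroup.mem_center_iff]
    intro y
    have hle : K ≤ Subgroup.centralizer ({(x : G)} : Set G) := (Subgroup.closure_le _).mpr (by
      rintro u (rfl | rfl)
      · exact Subgroup.mem_centralizer_singleton_iff.mpr h1.eq.symm
      · exact Subgroup.mem_centralizer_singleton_iff.mpr h3.eq.symm)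
    exact Subtype.ext (Subgroup.mem_centralizer_singleton_iff.mp (hle y.2))
  have hle1 : (⊤ : Subgroup K).lowerCentralSeries 1 ≤ U.subgroupOf K := by
    rw [Subgroup.lowerCentralSeries_succ, Subgroup.lowerCentralSeries_zero]
    have hA : (⊤ : Subgroup K) ≤ Subgroup.closure ({a', b'} : Set K) := hgen.ge
    refine (Subgroup.commutator_mono hA hA).trans ?_
    rw [← QuotientGroup.ker_mk' (U.subgroupOf K), ← Subgroup.map_eq_bot_iff, Subgroup.map_commutator,
      Subgroup.commutator_eq_bot_iff_le_centralizer, MonoidHom.map_closure, Subgroup.centralizer_closure,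
      Subgroup.closure_le]
    have h0 : ⁅a', b'⁆ ∈ U.subgroupOf K := hab
    rintro _ ⟨u, hu, rfl⟩
    rw [SetLike.mem_coe, Subgroup.mem_centralizer_iff]
    rintro _ ⟨v, hv, rfl⟩
    rw [← commutatorElement_eq_one_iff_mul_comm, ← map_commutatorElement]
    refine (QuotientGroup.eq_one_iff _).mpr ?_
    rcases hu with rfl | rfl <;> rcases hv with rfl | rfl
    · rw [commutatorElement_self]; exact one_mem _
    · rw [← commutatorElement_inv]; exact inv_mem h0
    · exact h0
    · rw [commutatorElement_self]; exact one_mem _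
  have h := lcs_two_eq_bot (Fact.out : p.Prime) h2 a' b' hgen
    (hcen _ (by exact (Commute.pow_self a p)) (by exact ha))
    (hcen _ (by exact hb) (by exact (Commute.pow_self b p)))
    (fun x hx hxp => hcen x (hΩ x (hle1 hx) (by exact congrArg Subtype.val hxp)).1
      (hΩ x (hle1 hx) (by exact congrArg Subtype.val hxp)).2)
  have hcomm : ∀ y : K, Commute ⁅a', b'⁆ y := by
    intro y
    have h1 : ⁅⁅a', b'⁆, y⁆ ∈ (⊤ : Subgroup K).lowerCentralSeries 2 :=
      Subgroup.commutator_mem_commutator
        (Subgroup.commutator_mem_commutator (Subgroup.mem_top a') (Subgroup.mem_top b')) (Subgroup.mem_top y)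
    rwa [h, Subgroup.mem_bot, commutatorElement_eq_one_iff_commute] at h1
  exact prod_pow (Fact.out : p.Prime) h2 (congrArg Subtype.val (hcomm a').eq)
    (congrArg Subtype.val (hcomm b').eq) ha

theorem mul_le_of_lt (hG : IsPGroup p G) {S T : Subgroup G} (h : S < T) :
    Nat.card S * p ≤ Nat.card T := by
  obtain ⟨a, ha⟩ := IsPGroup.iff_card.1 (hG.to_subgroup S)
  obtain ⟨b, hb⟩ := IsPGroup.iff_card.1 (hG.to_subgroup T)
  have h1 : Nat.card S < Nat.card T := by
    rcases (Subgroup.card_le_of_le h.le).lt_or_eq with h' | h'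
    · exact h'
    · exact absurd (Subgroup.eq_of_le_of_card_ge h.le h'.ge) h.ne
  rw [ha, hb] at h1 ⊢
  rw [← pow_succ]
  exact Nat.pow_le_pow_right (Fact.out : p.Prime).pos ((Nat.pow_lt_pow_iff_right (Fact.out : p.Prime).one_lt).1 h1)

/-- A subgroup is generated by a smaller one and as few elements as the order allows. -/
theorem exists_gen_over (hG : IsPGroup p G) (E : Subgroup G) : ∀ (n : ℕ) (D : Subgroup G), D ≤ E →
    Nat.card E - Nat.card D = n → ∃ T : Finset G, (T : Set G) ⊆ E ∧
      D ⊔ Subgroup.closure (T : Set G) = E ∧ Nat.card D * p ^ T.card ≤ Nat.card E := by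
  classical
  intro n
  induction n using Nat.strong_induction_on with
  | _ n ih =>
    intro D hDE hn
    rcases hDE.eq_or_lt with rfl | hlt
    · exact ⟨∅, by simp, by simp, by simp⟩
    · obtain ⟨x, hxE, hxD⟩ := SetLike.exists_of_lt hlt
      set D' := D ⊔ Subgroup.zpowers x with hD'
      have hD'E : D' ≤ E := sup_le hDE (Subgroup.zpowers_le.mpr hxE)
      have hDD' : D < D' := lt_of_le_of_ne le_sup_left
        fun h => hxD (h ▸ (Subgroup.mem_sup_right (Subgroup.mem_zpowers x)))
      have h1 := mul_le_of_lt hG hDD'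
      have h3 := Subgroup.card_le_of_le hD'E
      have h4 : 0 < Nat.card D := Nat.card_pos
      have h5 := (Fact.out : p.Prime).two_le
      have h6 : Nat.card D * 2 ≤ Nat.card D * p := Nat.mul_le_mul_left _ h5
      obtain ⟨T, hT, hTE, hTc⟩ := ih _ (show Nat.card E - Nat.card D' < n by omega) D' hD'E rfl
      refine ⟨insert x T, ?_, ?_, ?_⟩
      · rw [Finset.coe_insert]; exact Set.insert_subset hxE hT
      · rw [← hTE, hD', Finset.coe_insert, Set.insert_eq, Subgroup.closure_union, ← Subgroup.zpowers_eq_closure, sup_assoc]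
      · refine le_trans ?_ hTc
        calc Nat.card D * p ^ (insert x T).card ≤ Nat.card D * p ^ (T.card + 1) :=
              Nat.mul_le_mul_left _ (Nat.pow_le_pow_right (by omega) (Finset.card_insert_le _ _))
          _ = Nat.card D * p * p ^ T.card := by rw [pow_succ]; ring
          _ ≤ Nat.card D' * p ^ T.card := Nat.mul_le_mul_right _ h1

end formula

/-- If all elements of order `p` are central (`p` odd), the group is generated by as many elements
as the rank of the subgroup they form. -/
theorem exists_gen_of_central {p : ℕ} [Fact p.Prime] (h2 : p ≠ 2) : ∀ (N : ℕ) (H : Type*) [Group H] [Finite H],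
    Nat.card H = N → IsPGroup p H → (∀ x : H, x ^ p = 1 → x ∈ Subgroup.center H) →
    ∃ S : Finset H, Subgroup.closure (S : Set H) = ⊤ ∧ p ^ S.card ≤ Nat.card {x : H // x ^ p = 1} := by
  classical
  intro N
  induction N using Nat.strong_induction_on with
  | _ N ih =>
    intro H _ _ hN hH hcen
    have hp := (Fact.out : p.Prime)
    haveI : Nonempty {x : H // x ^ p = 1} := ⟨⟨1, one_pow p⟩⟩
    rcases subsingleton_or_nontrivial H with hs | hnt
    · exact ⟨∅, Subsingleton.elim _ _, by simpa using (Nat.card_pos (α := {x : H // x ^ p = 1}))⟩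
    let E : Subgroup H :=
      { carrier := {x | x ^ p = 1}
        one_mem' := one_pow p
        mul_mem' := fun {x y} hx hy => by
          rw [Set.mem_setOf_eq] at hx hy ⊢
          rw [(show Commute x y from (Subgroup.mem_center_iff.mp (hcen x hx) y).symm).mul_pow, hx, hy, one_mul]
        inv_mem' := fun {x} hx => by
          rw [Set.mem_setOf_eq] at hx ⊢; rw [inv_pow, hx, inv_one] }
    have hEc : E ≤ Subgroup.center H := fun x hx => hcen x hx
    haveI : E.Normal := ⟨fun x hx g => by
      rw [Subgroup.mem_center_iff.mp (hEc hx) g, mul_inv_cancel_right]; exact hx⟩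
    haveI : (⊤ : Subgroup H).Normal := inferInstance
    have hpair : ∀ a b : H, a ^ p ∈ Subgroup.center H → b ^ p ∈ Subgroup.center H →
        (b * a) ^ p = b ^ p * a ^ p := fun a b ha hb =>
      (pair_pow hH h2 a b ⊤ (Subgroup.mem_top _) (Subgroup.mem_center_iff.mp ha b).symm
        (Subgroup.mem_center_iff.mp hb a).symm fun x _ hx =>
          ⟨(Subgroup.mem_center_iff.mp (hcen x hx) a).symm, (Subgroup.mem_center_iff.mp (hcen x hx) b).symm⟩).1
    let B : Subgroup H :=
      { carrier := {x | x ^ p ∈ E}
        one_mem' := by show (1 : H) ^ p ∈ E; rw [one_pow]; exact one_mem E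
        mul_mem' := fun {x y} hx hy => by
          show (x * y) ^ p ∈ E
          rw [hpair y x (hEc hy) (hEc hx)]; exact E.mul_mem hx hy
        inv_mem' := fun {x} hx => by show x⁻¹ ^ p ∈ E; rw [inv_pow]; exact E.inv_mem hx }
    -- the quotient inherits the property
    set π := QuotientGroup.mk' E with hπ
    have hpow : ∀ z : H, π z ^ p = 1 ↔ z ∈ B := fun z => by
      rw [← map_pow]; exact QuotientGroup.eq_one_iff _
    have hcen' : ∀ x : H ⧸ E, x ^ p = 1 → x ∈ Subgroup.center (H ⧸ E) := by
      intro x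
      obtain ⟨z, rfl⟩ := QuotientGroup.mk'_surjective E x
      intro hx
      rw [← hπ] at hx ⊢
      rw [Subgroup.mem_center_iff]
      intro y
      obtain ⟨h, rfl⟩ := QuotientGroup.mk'_surjective E y
      have hz := (hpow z).mp hx
      have h1 : z ^ p ∈ Subgroup.center H := hEc hz
      have h3 : (h * z⁻¹ * h⁻¹) ^ p = (z ^ p)⁻¹ := by
        rw [conj_pow, inv_pow, Subgroup.mem_center_iff.mp (inv_mem h1) h, mul_inv_cancel_right]
      have h4 : ⁅z, h⁆ ∈ E := by
        show ⁅z, h⁆ ^ p = 1
        rw [show ⁅z, h⁆ = z * (h * z⁻¹ * h⁻¹) by rw [commutatorElement_def]; group,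
          hpair _ z (by rw [h3]; exact inv_mem h1) h1, h3, mul_inv_cancel]
      have h5 : π ⁅z, h⁆ = 1 := (QuotientGroup.eq_one_iff _).mpr h4
      rw [map_commutatorElement, commutatorElement_eq_one_iff_mul_comm] at h5
      exact h5.symm
    have hEne : E ≠ ⊥ := by
      obtain ⟨x, hx⟩ := exists_prime_orderOf_dvd_card' p (by
        obtain ⟨n, hn0, hn⟩ := hH.nontrivial_iff_card.mp hnt
        exact hn ▸ dvd_pow_self p (by omega))
      intro h
      have hxE : x ∈ E := show x ^ p = 1 from hx ▸ pow_orderOf_eq_one x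
      rw [h, Subgroup.mem_bot] at hxE
      rw [hxE, orderOf_one] at hx
      exact hp.one_lt.ne hx
    have hlt : Nat.card (H ⧸ E) < N := by
      have h1 := Subgroup.card_eq_card_quotient_mul_card_subgroup E
      have h3 := (Subgroup.one_lt_card_iff_ne_bot E).mpr hEne
      have h4 : 0 < Nat.card (H ⧸ E) := Nat.card_pos
      rw [← hN, h1]
      exact lt_mul_right h4 h3
    obtain ⟨S₀, hS₀, hS₀c⟩ := ih _ hlt (H ⧸ E) rfl (hH.to_quotient E) hcen'
    choose f hf using QuotientGroup.mk'_surjective E
    set S₁ := S₀.image f with hS₁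
    set L := Subgroup.closure (S₁ : Set H) with hL
    have hLE : L ⊔ E = ⊤ := by
      have hmap : L.map π = ⊤ := by
        rw [eq_top_iff, ← hS₀, hL, MonoidHom.map_closure]
        refine Subgroup.closure_mono fun x hx => ⟨f x, ?_, hf x⟩
        rw [hS₁, Finset.coe_image]; exact ⟨x, hx, rfl⟩
      have := Subgroup.comap_map_eq π L
      rw [hmap, Subgroup.comap_top, QuotientGroup.ker_mk'] at this
      exact this.symm
    set D := L ⊓ E with hD
    obtain ⟨T, hTE, hTgen, hTc⟩ := exists_gen_over hH E _ D inf_le_right rfl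
    refine ⟨S₁ ∪ T, ?_, ?_⟩
    · rw [eq_top_iff, ← hLE, Finset.coe_union, Subgroup.closure_union, ← hL]
      refine sup_le le_sup_left ?_
      rw [← hTgen]
      exact sup_le (inf_le_left.trans le_sup_left) le_sup_right
    · have hinj : Nat.card {x : H ⧸ E // x ^ p = 1} ≤ Nat.card D := by
        have hmem : ∀ x : {x : H ⧸ E // x ^ p = 1}, f x.1 ^ p ∈ D := by
          intro x
          have hxB : f x.1 ∈ B := (hpow _).mp (by rw [hπ, hf]; exact x.2)
          refine ⟨?_, hxB⟩
          obtain ⟨l, hl, e, he, hle⟩ := Subgroup.mem_sup_of_normal_right.mp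
            (hLE ▸ Subgroup.mem_top (f x.1) : f x.1 ∈ L ⊔ E)
          rw [← hle, (show Commute l e from Subgroup.mem_center_iff.mp (hEc he) l).mul_pow,
            show e ^ p = 1 from he, mul_one]
          exact L.pow_mem hl p
        refine Nat.card_le_card_of_injective (fun x => (⟨f x.1 ^ p, hmem x⟩ : D)) fun x y hxy => ?_
        have hxy' : f x.1 ^ p = f y.1 ^ p := congrArg Subtype.val hxy
        have hx : f x.1 ^ p ∈ Subgroup.center H := hEc (hmem x).2
        have hy : (f y.1)⁻¹ ^ p ∈ Subgroup.center H := by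
          rw [inv_pow]; exact inv_mem (hEc (hmem y).2)
        have h1 : f x.1 * (f y.1)⁻¹ ∈ E := by
          show (f x.1 * (f y.1)⁻¹) ^ p = 1
          rw [hpair _ _ hy hx, inv_pow, hxy', mul_inv_cancel]
        refine Subtype.ext ?_
        rw [← hf x.1, ← hf y.1, ← mul_inv_eq_one, ← map_inv, ← map_mul]
        exact (QuotientGroup.eq_one_iff _).mpr h1
      calc p ^ (S₁ ∪ T).card ≤ p ^ (S₁.card + T.card) :=
            Nat.pow_le_pow_right hp.pos (Finset.card_union_le _ _)
        _ ≤ p ^ S₀.card * p ^ T.card := by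
            rw [pow_add]
            exact Nat.mul_le_mul_right _ (Nat.pow_le_pow_right hp.pos Finset.card_image_le)
        _ ≤ Nat.card D * p ^ T.card := Nat.mul_le_mul_right _ (hS₀c.trans hinj)
        _ ≤ Nat.card E := hTc
        _ = Nat.card {x : H // x ^ p = 1} := rfl

end Cfsg.Agent.FGS2.GenBound
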