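import Cfsg.Agent.Core.SubnormalFamily

/-!
# A generalised zipper lemma

If the normal closure of a proper subgroup `A` is the whole group and the proper subgroups generated
by their own conjugates of `A` do not generate the group, then `A` lies in one maximal subgroup only.
-/

set_option autoImplicit false
set_option linter.style.haveILetI false
set_option linter.unusedSectionVars false

namespace Cfsg.Agent.FGS2.GenZipper

open Subgroup
open scoped Pointwise

variable {G : Type*} [Group G]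

/-- `H` is generated by its own conjugates of `A`. -/
def Gen (A H : Subgroup G) : Prop :=
  A ≤ H ∧ ∀ N : Subgroup G, A ≤ N → N ≤ H → H ≤ normalizer (N : Set G) → N = H

theorem gen_self (A : Subgroup G) : Gen A A :=
  ⟨le_rfl, fun _ h1 h2 _ => le_antisymm h2 h1⟩

theorem gen_iff {A H : Subgroup G} (hAH : A ≤ H) :
    normalClosure ((A.subgroupOf H : Subgroup H) : Set H) = ⊤ ↔ Gen A H := by
  constructor
  · intro h
    refine ⟨hAH, fun N hAN hNH hN => ?_⟩
    haveI : (N.subgroupOf H).Normal := normal_subgroupOf_of_le_normalizer hN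
    have h1 : normalClosure ((A.subgroupOf H : Subgroup H) : Set H) ≤ N.subgroupOf H :=
      normalClosure_le_normal fun x hx => hAN hx
    rw [h, top_le_iff, subgroupOf_eq_top] at h1
    exact le_antisymm hNH h1
  · intro h
    set C := normalClosure ((A.subgroupOf H : Subgroup H) : Set H) with hC
    have h1 : C.map H.subtype = H := by
      refine h.2 _ (fun a ha => ⟨⟨a, hAH ha⟩, subset_normalClosure ha, rfl⟩) (map_subtype_le _) ?_
      have hCn : C.Normal := normalClosure_normal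
      intro x hx
      have h2 := le_normalizer_map H.subtype (mem_map_of_mem H.subtype
        (show (⟨x, hx⟩ : H) ∈ normalizer (C : Set H) by rw [normalizer_eq_top_iff.2 hCn]; exact mem_top _))
      exact h2
    refine eq_top_iff.2 fun x _ => ?_
    obtain ⟨y, hy, hyx⟩ := h1.ge x.2
    exact Subtype.ext hyx ▸ hy

theorem Gen.trans {A B H : Subgroup G} (h1 : Gen A B) (h2 : Gen B H) : Gen A H := by
  refine ⟨h1.1.trans h2.1, fun N hAN hNH hN => h2.2 N ?_ hNH hN⟩
  have h3 : N ⊓ B = B := h1.2 (N ⊓ B) (le_inf hAN h1.1) inf_le_right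
    (fun b hb => by
      rw [mem_normalizer_iff]
      intro n
      have hn := mem_normalizer_iff.1 (hN (h2.1 hb)) n
      have hbn := mem_normalizer_iff.1 (le_normalizer (H := B) hb) n
      exact and_congr hn hbn)
  exact inf_eq_right.1 h3

theorem Gen.smul {A H : Subgroup G} (h : Gen A H) (c : MulAut G) : Gen (c • A) (c • H) := by
  refine ⟨pointwise_smul_le_pointwise_smul_iff.2 h.1, fun N h1 h2 h3 => ?_⟩
  have hback : c⁻¹ • N = H := by
    refine h.2 _ (pointwise_smul_subset_iff.1 (by simpa using h1) |> fun _ => ?_) ?_ ?_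
    · rwa [← pointwise_smul_le_pointwise_smul_iff (a := c), smul_inv_smul]
    · rwa [← pointwise_smul_le_pointwise_smul_iff (a := c), smul_inv_smul]
    · intro x hx
      rw [mem_normalizer_iff]
      intro n
      have := mem_normalizer_iff.1 (h3 (smul_mem_pointwise_smul x c H hx)) (c n)
      simpa [mem_inv_pointwise_smul_iff, MulAut.smul_def] using this
  rw [← hback, smul_inv_smul]

/-- The join of the proper subgroups generated by their own conjugates of `A`. -/
def top' (A : Subgroup G) : Subgroup G := sSup {H : Subgroup G | A ≤ H ∧ H ≠ ⊤ ∧ Gen A H}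

theorem le_top' {A H : Subgroup G} (h1 : H ≠ ⊤) (h2 : Gen A H) : H ≤ top' A :=
  le_sSup ⟨h2.1, h1, h2⟩

theorem top'_smul_le (A : Subgroup G) (c : MulAut G) : c • top' A ≤ top' (c • A) := by
  rw [pointwise_smul_subset_iff]
  refine sSup_le fun H hH => ?_
  rw [← pointwise_smul_subset_iff]
  refine le_top' (fun he => hH.2.1 ?_) (hH.2.2.smul c)
  rw [← inv_smul_smul c H, he]
  refine eq_top_iff.2 fun x _ => ?_
  rw [mem_inv_pointwise_smul_iff]
  exact mem_top _

theorem gen_top' {A : Subgroup G} (hA : A ≠ ⊤) : Gen A (top' A) := by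
  refine ⟨le_top' hA (gen_self A), fun N hAN hN hnorm => le_antisymm hN (sSup_le fun H hH => ?_)⟩
  have h3 : N ⊓ H = H := hH.2.2.2 (N ⊓ H) (le_inf hAN hH.1) inf_le_right
    (fun b hb => by
      rw [mem_normalizer_iff]
      intro n
      have hn := mem_normalizer_iff.1 (hnorm (le_top' hH.2.1 hH.2.2 hb)) n
      have hbn := mem_normalizer_iff.1 (le_normalizer (H := H) hb) n
      exact and_congr hn hbn)
  exact inf_eq_right.1 h3

theorem isSubnormal_of_le {A H M : Subgroup G} (hHM : H ≤ M) (h : (A.subgroupOf M).IsSubnormal) :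
    (A.subgroupOf H).IsSubnormal := by
  have h1 := h.comap (Subgroup.inclusion hHM)
  exact h1

theorem isSubnormal_trans_subgroupOf {A B C : Subgroup G} (hAB : A ≤ B) (hBC : B ≤ C)
    (h1 : (A.subgroupOf B).IsSubnormal) (h2 : (B.subgroupOf C).IsSubnormal) :
    (A.subgroupOf C).IsSubnormal := by
  refine IsSubnormal.trans (fun x hx => hAB hx) ?_ h2
  exact h1.comap (subgroupOfEquivOfLe hBC).toMonoidHom

theorem Gen.eq_of_isSubnormal {A H : Subgroup G} (h : Gen A H)
    (hs : (A.subgroupOf H).IsSubnormal) : A = H := by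
  rcases hs.lt_normal with h1 | ⟨K, hKn, hAK, hK⟩
  · exact le_antisymm h.1 (subgroupOf_eq_top.1 h1)
  · exfalso
    refine hK.ne (eq_top_iff.2 ?_)
    rw [← (gen_iff h.1).2 h]
    exact normalClosure_le_normal hAK

theorem exists_gen_subnormal [Finite G] (A : Subgroup G) :
    ∀ (n : ℕ) (H : Subgroup G), Nat.card H = n → A ≤ H →
      ∃ B, Gen A B ∧ B ≤ H ∧ (B.subgroupOf H).IsSubnormal := by
  intro n
  induction n using Nat.strong_induction_on with
  | _ n ih =>
    intro H hn hAH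
    by_cases hG : Gen A H
    · exact ⟨H, hG, le_rfl, by rw [subgroupOf_self]; exact IsSubnormal.top⟩
    obtain ⟨N, hAN, hNH, hN, hne⟩ : ∃ N, A ≤ N ∧ N ≤ H ∧ H ≤ normalizer (N : Set G) ∧ N ≠ H := by
      by_contra hcon
      refine hG ⟨hAH, fun N h1 h2 h3 => ?_⟩
      by_contra h4
      exact hcon ⟨N, h1, h2, h3, h4⟩
    have hlt : Nat.card N < n := hn ▸ lt_of_le_of_ne (card_le_of_le hNH)
      (fun h => hne (eq_of_le_of_card_ge hNH h.ge))
    obtain ⟨B, hB, hBN, hBs⟩ := ih _ hlt N rfl hAN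
    exact ⟨B, hB, hBN.trans hNH, isSubnormal_trans_subgroupOf hBN hNH hBs
      (normal_subgroupOf_of_le_normalizer hN).isSubnormal⟩

theorem isCoatom_smul {M : Subgroup G} (hM : IsCoatom M) (c : MulAut G) : IsCoatom (c • M) :=
  ((MulEquiv.mapSubgroup c).isCoatom_iff M).2 hM

theorem isSubnormal_smul {B M : Subgroup G} (c : MulAut G)
    (h : (B.subgroupOf M).IsSubnormal) : ((c • B).subgroupOf (c • M)).IsSubnormal := by
  let f : ↥(c • M) →* ↥M :=
    (c⁻¹.toMonoidHom.comp (c • M).subtype).codRestrict M fun y => by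
      have := y.2
      rw [mem_pointwise_smul_iff_inv_smul_mem] at this
      simpa [MulAut.smul_def] using this
  have h2 := h.comap f
  convert h2 using 1
  ext y
  rw [mem_subgroupOf, mem_pointwise_smul_iff_inv_smul_mem, mem_comap, mem_subgroupOf]
  simp [f, MulAut.smul_def]

variable [Finite G]

/-- A proper subfamily of an invariant family of subgroups subnormal in `M` is normalized by a
member outside it. -/
theorem exists_normalizing {M : Subgroup G} {S S₀ : Set (Subgroup G)}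
    (hS : ∀ U ∈ S, U ≤ M ∧ (U.subgroupOf M).IsSubnormal)
    (hinv : ∀ U ∈ S, ∀ x ∈ M, MulAut.conj x • U ∈ S) (h₀ : S₀ ⊂ S) :
    ∃ X ∈ S, X ∉ S₀ ∧ X ≤ normalizer ((sSup S₀ : Subgroup G) : Set G) := by
  have hinj : ∀ {B C : Subgroup G}, B ≤ M → C ≤ M → B.subgroupOf M = C.subgroupOf M → B = C := by
    intro B C hB hC h
    rw [← map_subgroupOf_eq_of_le hB, h, map_subgroupOf_eq_of_le hC]
  obtain ⟨Y, hY, hY₀, hYn⟩ := Core.exists_member_normalizing (G := M)
    (S := (fun B => B.subgroupOf M) '' S) (S₀ := (fun B => B.subgroupOf M) '' S₀)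
    (by rintro _ ⟨B, hB, rfl⟩; exact (hS B hB).2)
    (by
      rintro _ ⟨B, hB, rfl⟩ r
      refine ⟨MulAut.conj (r : G) • B, hinv B hB r r.2, ?_⟩
      have hmap : (MulAut.conj r • B.subgroupOf M).map M.subtype = MulAut.conj (r : G) • B := by
        rw [Core.map_conj_smul, map_subgroupOf_eq_of_le (hS B hB).1]; rfl
      show (MulAut.conj (r : G) • B).subgroupOf M = _
      rw [← hmap]; exact comap_map_eq_self_of_injective M.subtype_injective _)
    (by
      refine Set.ssubset_iff_subset_ne.2 ⟨Set.image_mono h₀.subset, fun h => h₀.ne ?_⟩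
      refine Set.Subset.antisymm h₀.subset fun B hB => ?_
      obtain ⟨C, hC, hCB⟩ := h.ge (Set.mem_image_of_mem _ hB)
      exact (hinj (hS C (h₀.subset hC)).1 (hS B hB).1 hCB) ▸ hC)
  obtain ⟨B, hB, rfl⟩ := hY
  refine ⟨B, hB, fun h => hY₀ (Set.mem_image_of_mem _ h), ?_⟩
  have hmapJ : (sSup ((fun B : Subgroup G => B.subgroupOf M) '' S₀)).map M.subtype = sSup S₀ := by
    rw [sSup_eq_iSup, sSup_eq_iSup, Subgroup.map_iSup]
    simp only [Subgroup.map_iSup, iSup_image]
    exact iSup_congr fun C => iSup_congr fun hC => map_subgroupOf_eq_of_le (hS C (h₀.subset hC)).1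
  rw [← map_subgroupOf_eq_of_le (hS B hB).1, ← hmapJ]
  exact (map_mono hYn).trans (le_normalizer_map _)

theorem unique_coatom_aux (n : ℕ) : ∀ A : Subgroup G, A.index = n →
    normalClosure (A : Set G) = ⊤ → A ≠ ⊤ → top' A ≠ ⊤ →
      ∀ M K : Subgroup G, IsCoatom M → IsCoatom K → A ≤ M → A ≤ K → M = K := by
  classical
  induction n using Nat.strong_induction_on with
  | _ n ih =>
  intro A hn hnc hA hY
  have hidx : ∀ Z : Subgroup G, Nat.card A < Nat.card Z → Z.index < n := by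
    intro Z hZ
    rw [← hn]
    have h1 := A.card_mul_index
    rw [← Z.card_mul_index] at h1
    by_contra hle
    have h2 : 0 < Z.index := Nat.pos_of_ne_zero index_ne_zero_of_finite
    have h3 : Nat.card A * A.index < Nat.card Z * Z.index :=
      calc Nat.card A * A.index ≤ Nat.card A * Z.index := Nat.mul_le_mul_left _ (not_lt.1 hle)
        _ < Nat.card Z * Z.index := Nat.mul_lt_mul_of_pos_right hZ h2
    omega
  have hYN : normalizer ((top' A : Subgroup G) : Set G) ≠ ⊤ := by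
    intro h
    haveI := normalizer_eq_top_iff.1 h
    refine hY (top_le_iff.1 ?_)
    rw [← hnc]
    exact normalClosure_le_normal (gen_top' hA).1
  obtain ⟨L, hL, hNL⟩ := (eq_top_or_exists_le_coatom _).resolve_left hYN
  have hYL : top' A ≤ L := le_normalizer.trans hNL
  have hNA : normalizer (A : Set G) ≤ L := by
    refine le_trans (fun g hg => ?_) hNL
    rw [mem_normalizer_iff_map_conj_eq] at hg ⊢
    refine eq_of_le_of_card_ge ?_ (card_map_of_injective (MulAut.conj g).injective).ge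
    have h1 := top'_smul_le A (MulAut.conj g)
    rw [show MulAut.conj g • A = A from hg] at h1
    exact h1
  -- away from `L` the subgroup `A` is subnormal
  have key : ∀ M : Subgroup G, IsCoatom M → A ≤ M → M ≠ L → (A.subgroupOf M).IsSubnormal := by
    intro M hM hAM hne
    obtain ⟨B, hB, hBM, hBs⟩ := exists_gen_subnormal A _ M rfl hAM
    rcases hB.1.lt_or_eq with hlt | rfl
    swap
    · exact hBs
    exfalso
    have hBt : B ≠ ⊤ := fun h => hM.1 (top_le_iff.1 (h ▸ hBM))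
    refine hne (ih _ (hidx B ?_) B rfl (top_le_iff.1 (hnc ▸ normalClosure_mono hlt.le)) hBt ?_ M L
      hM hL hBM ((le_top' hBt hB).trans hYL))
    · exact lt_of_le_of_ne (card_le_of_le hlt.le) fun h => hlt.ne (eq_of_le_of_card_ge hlt.le h.ge)
    · exact fun h => hY (top_le_iff.1 (h ▸ sSup_le fun H hH => le_top' hH.2.1 (hB.trans hH.2.2)))
  -- conjugates and their distinguished maximal subgroups
  let Lf : Subgroup G → Subgroup G := fun B =>
    if h : ∃ g : G, MulAut.conj g • A = B then MulAut.conj h.choose • L else ⊤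
  have hLf : ∀ g : G, Lf (MulAut.conj g • A) = MulAut.conj g • L := by
    intro g
    have h : ∃ h : G, MulAut.conj h • A = MulAut.conj g • A := ⟨g, rfl⟩
    simp only [Lf, dif_pos h]
    have h1 := h.choose_spec
    generalize h.choose = k at h1 ⊢
    have h2 : g⁻¹ * k ∈ L := hNA (mem_normalizer_iff_map_conj_eq.2 (by
      show MulAut.conj (g⁻¹ * k) • A = A
      rw [Core.conj_mul_smul, h1, Core.conj_inv_smul_smul]))
    have h3 : MulAut.conj (g⁻¹ * k) • L = L :=
      mem_normalizer_iff_map_conj_eq.1 (le_normalizer h2)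
    rw [Core.conj_mul_smul] at h3
    calc MulAut.conj k • L = MulAut.conj g • MulAut.conj g⁻¹ • MulAut.conj k • L := by
          rw [Core.conj_smul_inv_smul]
      _ = MulAut.conj g • L := by rw [h3]
  let IsC : Subgroup G → Prop := fun B => ∃ g : G, MulAut.conj g • A = B
  have hCsmul : ∀ B, IsC B → ∀ x : G,
      IsC (MulAut.conj x • B) ∧ Lf (MulAut.conj x • B) = MulAut.conj x • Lf B := by
    rintro B ⟨g, rfl⟩ x
    refine ⟨⟨x * g, Core.conj_mul_smul x g A⟩, ?_⟩
    rw [← Core.conj_mul_smul, hLf, hLf, Core.conj_mul_smul]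
  have hCL : ∀ B, IsC B → IsCoatom (Lf B) ∧ B ≤ Lf B := by
    rintro B ⟨g, rfl⟩
    rw [hLf]
    exact ⟨isCoatom_smul hL _, pointwise_smul_le_pointwise_smul_iff.2 (le_normalizer.trans hNA)⟩
  have hCsub : ∀ B, IsC B → ∀ M : Subgroup G, IsCoatom M → B ≤ M → M ≠ Lf B →
      (B.subgroupOf M).IsSubnormal := by
    rintro B ⟨g, rfl⟩ M hM hBM hne
    rw [hLf] at hne
    have h1 := key ((MulAut.conj g)⁻¹ • M) (isCoatom_smul hM _)
      (by rwa [← pointwise_smul_le_pointwise_smul_iff (a := MulAut.conj g), smul_inv_smul])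
      (fun he => hne (by rw [← he, smul_inv_smul]))
    have h2 := isSubnormal_smul (MulAut.conj g) h1
    rwa [smul_inv_smul] at h2
  have hCcard : ∀ B, IsC B → Nat.card B = Nat.card A := by
    rintro B ⟨g, rfl⟩; exact Core.card_conj_smul g A
  have hCnc : ∀ B, IsC B → normalClosure (B : Set G) = ⊤ := by
    rintro B ⟨g, rfl⟩
    rw [eq_top_iff, ← hnc]
    refine normalClosure_le_normal fun a ha => ?_
    have := normalClosure_normal.conj_mem (g * a * g⁻¹)
      (subset_normalClosure (s := ((MulAut.conj g • A : Subgroup G) : Set G))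
        (by rw [SetLike.mem_coe, Core.mem_conj_smul_iff]; simpa [mul_assoc] using ha)) g⁻¹
    simpa [mul_assoc] using this
  -- two conjugates in two maximal subgroups
  have zlem : ∀ B C, IsC B → IsC C → C ≠ B → ∀ P Q : Subgroup G, IsCoatom P → IsCoatom Q →
      B ≤ P → C ≤ P → B ≤ Q → C ≤ Q → ∀ K₀ : Subgroup G, B ≤ K₀ → C ≤ K₀ → K₀ ≠ ⊤ →
      (∀ J : Subgroup G, IsCoatom J → B ≤ J → C ≤ J → J ≠ K₀ → J ≠ Lf B ∧ J ≠ Lf C) → P = Q := by
    intro B C hB hC hne P Q hP hQ hBP hCP hBQ hCQ K₀ hBK hCK hK₀ hJ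
    have hlt : B < B ⊔ C := lt_of_le_of_ne le_sup_left fun he => hne
      (eq_of_le_of_card_ge (he.symm ▸ le_sup_right) ((hCcard B hB).trans (hCcard C hC).symm).le)
    have hZt : B ⊔ C ≠ ⊤ := fun h => hP.1 (top_le_iff.1 (h ▸ sup_le hBP hCP))
    refine ih _ (hidx _ ?_) _ rfl (top_le_iff.1 (hCnc B hB ▸ normalClosure_mono hlt.le)) hZt ?_
      P Q hP hQ (sup_le hBP hCP) (sup_le hBQ hCQ)
    · rw [← hCcard B hB]
      exact lt_of_le_of_ne (card_le_of_le hlt.le) fun h => hlt.ne (eq_of_le_of_card_ge hlt.le h.ge)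
    · refine fun h => hK₀ (top_le_iff.1 (h ▸ sSup_le fun H hH => ?_))
      obtain ⟨J, hJc, hHJ⟩ := (eq_top_or_exists_le_coatom H).resolve_left hH.2.1
      by_cases hJK : J = K₀
      · exact hJK ▸ hHJ
      have hBH : B ≤ H := le_sup_left.trans hH.1
      have hCH : C ≤ H := le_sup_right.trans hH.1
      obtain ⟨h1, h2⟩ := hJ J hJc (hBH.trans hHJ) (hCH.trans hHJ) hJK
      have hs : ((B ⊔ C).subgroupOf H).IsSubnormal := by
        rw [subgroupOf_sup hBH hCH]
        exact Core.isSubnormal_sup (isSubnormal_of_le hHJ (hCsub B hB J hJc (hBH.trans hHJ) h1))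
          (isSubnormal_of_le hHJ (hCsub C hC J hJc (hCH.trans hHJ) h2))
      rw [← hH.2.2.eq_of_isSubnormal hs]
      exact sup_le hBK hCK
  have pair : ∀ P Q : Subgroup G, IsCoatom P → IsCoatom Q → P ≠ Q → ∀ B C, IsC B → IsC C →
      B ≤ P → B ≤ Q → C ≤ P → C ≤ Q → C ≤ Lf B := by
    intro P Q hP hQ hPQ B C hB hC hBP hBQ hCP hCQ
    by_contra hCB
    have hne : C ≠ B := fun h => hCB (h ▸ (hCL B hB).2)
    by_cases hBC : B ≤ Lf C
    · exact hPQ (zlem B C hB hC hne P Q hP hQ hBP hCP hBQ hCQ (Lf C) hBC (hCL C hC).2 (hCL C hC).1.1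
        fun J _ _ hCJ hJ => ⟨fun h => hCB (h ▸ hCJ), hJ⟩)
    · exact hPQ (zlem B C hB hC hne P Q hP hQ hBP hCP hBQ hCQ P hBP hCP hP.1
        fun J _ hBJ hCJ _ => ⟨fun h => hCB (h ▸ hCJ), fun h => hBC (h ▸ hBJ)⟩)
  have distinct : ∀ P Q : Subgroup G, IsCoatom P → IsCoatom Q → P ≠ Q → ∀ B C, IsC B → IsC C →
      B ≤ P → B ≤ Q → C ≤ P → C ≤ Q → C ≠ B → Lf B ≠ Lf C := by
    intro P Q hP hQ hPQ B C hB hC hBP hBQ hCP hCQ hne he
    exact hPQ (zlem B C hB hC hne P Q hP hQ hBP hCP hBQ hCQ (Lf B) (hCL B hB).2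
      (he ▸ (hCL C hC).2) (hCL B hB).1.1 fun J _ _ _ hJ => ⟨hJ, he ▸ hJ⟩)
  -- a second maximal subgroup gives a contradiction
  suffices huniq : ∀ M : Subgroup G, IsCoatom M → A ≤ M → M = L by
    intro M K hM hK hAM hAK
    rw [huniq M hM hAM, huniq K hK hAK]
  intro M hM hAM
  by_contra hML
  let sig : Subgroup G × Subgroup G → Set (Subgroup G) := fun z =>
    {B | IsC B ∧ B ≤ z.1 ∧ B ≤ z.2}
  have hIA : IsC A := ⟨1, by rw [map_one, one_smul]⟩
  have hLA : Lf A = L := by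
    have := hLf 1
    rwa [map_one, one_smul, one_smul] at this
  obtain ⟨C, hC, hCA⟩ : ∃ C, (IsC C ∧ C ≤ M ∧ C ≤ L) ∧ C ≠ A := by
    let S : Set (Subgroup G) := {B | IsC B ∧ B ≤ M ∧ Lf B ≠ M}
    have hsub : ∀ U ∈ S, U ≤ M ∧ (U.subgroupOf M).IsSubnormal := fun U hU =>
      ⟨hU.2.1, hCsub U hU.1 M hM hU.2.1 (Ne.symm hU.2.2)⟩
    have hfix : ∀ x ∈ M, MulAut.conj x • M = M := fun x hx =>
      mem_normalizer_iff_map_conj_eq.1 (le_normalizer hx)
    have hinv : ∀ U ∈ S, ∀ x ∈ M, MulAut.conj x • U ∈ S := by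
      intro U hU x hx
      refine ⟨(hCsmul U hU.1 x).1, hfix x hx ▸ pointwise_smul_le_pointwise_smul_iff.2 hU.2.1, ?_⟩
      intro he
      rw [(hCsmul U hU.1 x).2] at he
      exact hU.2.2 (by rw [← Core.conj_inv_smul_smul x (Lf U), he, hfix _ (inv_mem hx)])
    have hAS : A ∈ S := ⟨hIA, hAM, hLA.symm ▸ Ne.symm hML⟩
    by_cases hS : S = {A}
    · exfalso
      refine hML ((hM.le_iff_eq hL.1).1 ((?_ : M ≤ normalizer (A : Set G)).trans hNA)).symm
      intro x hx
      have := hinv A hAS x hx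
      rw [hS, Set.mem_singleton_iff] at this
      exact mem_normalizer_iff_map_conj_eq.2 this
    obtain ⟨X, hX, hXA, hXn⟩ := exists_normalizing hsub hinv
      (Set.ssubset_iff_subset_ne.2 ⟨Set.singleton_subset_iff.2 hAS, Ne.symm hS⟩)
    rw [sSup_singleton] at hXn
    exact ⟨X, ⟨hX.1, hX.2.1, hXn.trans hNA⟩, hXA⟩
  obtain ⟨⟨P₁, Q₁⟩, ⟨hP₁, hQ₁, hne₁⟩, hmax⟩ :=
    (Set.toFinite {z : Subgroup G × Subgroup G | IsCoatom z.1 ∧ IsCoatom z.2 ∧ z.1 ≠ z.2}).exists_maximalFor
      (fun z => (sig z).ncard) _ ⟨(M, L), hM, hL, hML⟩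
  simp only at hP₁ hQ₁ hne₁
  have hbig : ∀ z : Subgroup G × Subgroup G, IsCoatom z.1 → IsCoatom z.2 → z.1 ≠ z.2 →
      (sig z).ncard ≤ (sig (P₁, Q₁)).ncard := by
    intro z h1 h2 h3
    rcases le_total (sig z).ncard (sig (P₁, Q₁)).ncard with h | h
    · exact h
    · exact hmax (show z ∈ _ from ⟨h1, h2, h3⟩) h
  have htwo : 2 ≤ (sig (P₁, Q₁)).ncard := by
    refine le_trans ?_ (hbig (M, L) hM hL hML)
    rw [← Set.ncard_pair hCA]
    refine Set.ncard_le_ncard (fun B hB => ?_) (Set.toFinite _)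
    rcases hB with rfl | rfl
    · exact hC
    · exact ⟨hIA, hAM, le_normalizer.trans hNA⟩
  set V := sSup (sig (P₁, Q₁)) with hV
  obtain ⟨J, hJ, hVJ⟩ : ∃ J : Subgroup G, IsCoatom J ∧ normalizer (V : Set G) ≤ J := by
    refine (eq_top_or_exists_le_coatom _).resolve_left fun h => ?_
    haveI := normalizer_eq_top_iff.1 h
    obtain ⟨B, hB⟩ := Set.nonempty_of_ncard_ne_zero (by omega : (sig (P₁, Q₁)).ncard ≠ 0)
    refine hP₁.1 (top_le_iff.1 ?_)
    rw [← hCnc B hB.1]
    exact (normalClosure_le_normal (le_sSup hB : B ≤ V)).trans (sSup_le fun D hD => hD.2.1)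
  obtain ⟨P, Q, hP, hQ, hPQ, hsig, hPJ⟩ : ∃ P Q, IsCoatom P ∧ IsCoatom Q ∧ P ≠ Q ∧
      sig (P, Q) = sig (P₁, Q₁) ∧ P ≠ J := by
    by_cases h : P₁ = J
    · refine ⟨Q₁, P₁, hQ₁, hP₁, Ne.symm hne₁, ?_, fun he => hne₁ (h.trans he.symm)⟩
      ext B
      exact ⟨fun hb => ⟨hb.1, hb.2.2, hb.2.1⟩, fun hb => ⟨hb.1, hb.2.2, hb.2.1⟩⟩
    · exact ⟨P₁, Q₁, hP₁, hQ₁, hne₁, rfl, h⟩
  rw [← hsig] at hbig htwo hV
  set sg := sig (P, Q) with hsg
  let sP : Set (Subgroup G) := {B | B ∈ sg ∧ Lf B ≠ P}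
  let SP : Set (Subgroup G) := {B | IsC B ∧ B ≤ P ∧ Lf B ≠ P}
  have hfix : ∀ x ∈ P, MulAut.conj x • P = P := fun x hx =>
    mem_normalizer_iff_map_conj_eq.1 (le_normalizer hx)
  have hinv : ∀ U ∈ SP, ∀ x ∈ P, MulAut.conj x • U ∈ SP := by
    intro U hU x hx
    refine ⟨(hCsmul U hU.1 x).1, hfix x hx ▸ pointwise_smul_le_pointwise_smul_iff.2 hU.2.1, ?_⟩
    intro he
    rw [(hCsmul U hU.1 x).2] at he
    exact hU.2.2 (by rw [← Core.conj_inv_smul_smul x (Lf U), he, hfix _ (inv_mem hx)])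
  have hsub : ∀ U ∈ SP, U ≤ P ∧ (U.subgroupOf P).IsSubnormal := fun U hU =>
    ⟨hU.2.1, hCsub U hU.1 P hP hU.2.1 (Ne.symm hU.2.2)⟩
  obtain ⟨E, hE⟩ : sP.Nonempty := by
    obtain ⟨B, hB, C, hC, hne⟩ := (Set.one_lt_ncard (Set.toFinite _)).1 (by omega : 1 < sg.ncard)
    by_cases h : Lf B = P
    · refine ⟨C, hC, fun h' => ?_⟩
      exact distinct P Q hP hQ hPQ B C hB.1 hC.1 hB.2.1 hB.2.2 hC.2.1 hC.2.2 (Ne.symm hne)
        (h.trans h'.symm)
    · exact ⟨B, hB, h⟩
  have heqsig : ∀ F ∈ sP, sig (P, Lf F) = sg := by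
    intro F hF
    refine (Set.eq_of_subset_of_ncard_le (s := sg) (t := sig (P, Lf F))
      (fun B hB => ⟨hB.1, hB.2.1, ?_⟩)
      (hbig (P, Lf F) hP (hCL F hF.1.1).1 (Ne.symm hF.2)) (Set.toFinite _)).symm
    exact pair P Q hP hQ hPQ F B hF.1.1 hB.1 hF.1.2.1 hF.1.2.2 hB.2.1 hB.2.2
  have hperm : ∀ x ∈ P, (∀ F ∈ sP, MulAut.conj x • F ∈ sP) → x ∈ normalizer (V : Set G) := by
    intro x hx hxs
    have hmem : ∀ B ∈ sg, MulAut.conj x • B ∈ sg := by
      intro B hB
      have hB' : B ∈ sig (P, Lf E) := (heqsig E hE).symm ▸ hB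
      rw [← heqsig _ (hxs E hE)]
      refine ⟨(hCsmul B hB.1 x).1, ?_, ?_⟩
      · exact hfix x hx ▸ pointwise_smul_le_pointwise_smul_iff.2 hB'.2.1
      · show _ ≤ Lf (MulAut.conj x • E)
        rw [(hCsmul E hE.1.1 x).2]
        exact pointwise_smul_le_pointwise_smul_iff.2 hB'.2.2
    rw [mem_normalizer_iff_map_conj_eq]
    refine eq_of_le_of_card_ge ?_ (card_map_of_injective (MulAut.conj x).injective).ge
    show MulAut.conj x • V ≤ V
    rw [hV, pointwise_smul_subset_iff]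
    refine sSup_le fun B hB => ?_
    rw [← pointwise_smul_subset_iff]
    exact le_sSup (hmem B hB)
  by_cases hSP : sP = SP
  · refine hPJ ((hP.le_iff_eq hJ.1).1 (le_trans (fun x hx => hperm x hx fun F hF => ?_) hVJ)).symm
    rw [hSP] at hF ⊢
    exact hinv F hF x hx
  obtain ⟨X, hX, hXS, hXn⟩ := exists_normalizing hsub hinv (S₀ := sP)
    (Set.ssubset_iff_subset_ne.2 ⟨fun B hB => ⟨hB.1.1, hB.1.2.1, hB.2⟩, hSP⟩)
  have hXV : X ≤ normalizer (V : Set G) := fun x hx => by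
    refine hperm x (hX.2.1 hx) fun F hF => ?_
    have h1 := hinv F ⟨hF.1.1, hF.1.2.1, hF.2⟩ x (hX.2.1 hx)
    refine ⟨⟨h1.1, h1.2.1, ?_⟩, h1.2.2⟩
    calc MulAut.conj x • F ≤ MulAut.conj x • sSup sP :=
          pointwise_smul_le_pointwise_smul_iff.2 (le_sSup hF)
      _ = sSup sP := mem_normalizer_iff_map_conj_eq.1 (hXn hx)
      _ ≤ Q := sSup_le fun B hB => hB.1.2.2
  have hgt : sg ⊂ sig (P, J) := by
    refine Set.ssubset_iff_subset_ne.2 ⟨fun B hB => ⟨hB.1, hB.2.1, ?_⟩, fun h => ?_⟩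
    · exact ((le_sSup hB).trans_eq hV.symm).trans (le_normalizer.trans hVJ)
    · have hX' : X ∈ sg := h ▸ ⟨hX.1, hX.2.1, hXV.trans hVJ⟩
      exact hXS ⟨hX', hX.2.2⟩
  exact absurd (hbig (P, J) hP hJ hPJ) (not_le.2 (Set.ncard_lt_ncard hgt (Set.toFinite _)))

/-- The generalised zipper lemma. -/
theorem unique_coatom {A : Subgroup G} (hnc : normalClosure (A : Set G) = ⊤) (hA : A ≠ ⊤)
    (hY : top' A ≠ ⊤) : ∃! M : Subgroup G, IsCoatom M ∧ A ≤ M := by
  obtain ⟨M, hM, hAM⟩ := (eq_top_or_exists_le_coatom A).resolve_left hA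
  exact ⟨M, ⟨hM, hAM⟩, fun K hK => unique_coatom_aux _ A rfl hnc hA hY K M hK.1 hM hK.2 hAM⟩

end Cfsg.Agent.FGS2.GenZipper
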