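import Mathlib.GroupTheory.Sylow
import Mathlib.GroupTheory.Nilpotent
import Cfsg.Agent.OddLocal.Basic
import Mathlib.Tactic

/-! Baer's characterisation of the hypercentre of a finite group. -/

set_option autoImplicit false

namespace Cfsg.Agent.FGS2

open Subgroup
open scoped commutatorElement

variable {G : Type*} [Group G]

theorem isNilpotent_closure_pair_of_mem {g : G} {n : ℕ} (hg : g ∈ Subgroup.upperCentralSeries G n) (x : G) :
    Group.IsNilpotent ↥(closure ({x, g} : Set G)) := by
  set H := closure ({x, g} : Set G) with hH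
  have hdesc : ∀ k, ∀ h : H, (h : G) ∈ Subgroup.upperCentralSeries G k → h ∈ Subgroup.upperCentralSeries H k := by
    intro k
    induction k with
    | zero => intro h hh; simp only [Subgroup.upperCentralSeries_zero, mem_bot] at hh ⊢; exact Subtype.ext hh
    | succ k ih =>
      intro h hh
      rw [Subgroup.mem_upperCentralSeries_succ_iff] at hh ⊢
      intro y
      exact ih _ (hh y)
  set K := Subgroup.upperCentralSeries H n
  let q := QuotientGroup.mk' K
  have hgen : ∀ h : H, q h ∈ zpowers (q ⟨x, subset_closure (by simp)⟩) := by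
    rintro ⟨h, hh⟩
    induction hh using closure_induction with
    | mem y hy =>
      rcases hy with rfl | rfl
      · exact mem_zpowers _
      · rw [show q ⟨_, _⟩ = 1 from (QuotientGroup.eq_one_iff _).2 (hdesc n _ hg)]
        exact one_mem _
    | one => exact (map_one q).symm ▸ one_mem _
    | mul a b ha hb iha ihb => exact (map_mul q ⟨a, ha⟩ ⟨b, hb⟩).symm ▸ mul_mem iha ihb
    | inv a ha iha => exact (map_inv q ⟨a, ha⟩).symm ▸ inv_mem iha
  refine ⟨⟨n + 1, eq_top_iff.2 fun a _ => ?_⟩⟩
  rw [Subgroup.mem_upperCentralSeries_succ_iff]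
  intro b
  rw [← QuotientGroup.eq_one_iff (N := K), ← QuotientGroup.mk'_apply, map_commutatorElement,
    commutatorElement_eq_one_iff_mul_comm]
  obtain ⟨i, hi⟩ := mem_zpowers_iff.1 (hgen a)
  obtain ⟨j, hj⟩ := mem_zpowers_iff.1 (hgen b)
  show q a * q b = q b * q a
  rw [← hi, ← hj]
  exact ((Commute.refl _).zpow_zpow i j).eq

variable [Finite G]

theorem eq_top_of_sylow_le_of_coprime_mem {p : ℕ} [hp : Fact p.Prime] (P : Sylow p G) (S : Subgroup G)
    (hP : (P : Subgroup G) ≤ S) (h : ∀ x : G, (orderOf x).Coprime p → x ∈ S) : S = ⊤ := by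
  refine index_eq_one.1 (Nat.eq_one_iff_not_exists_prime_dvd.2 fun q hq hdvd => ?_)
  have := Fact.mk hq
  let Q : Sylow q G := default
  have hQ : (Q : Subgroup G) ≤ S := by
    rcases eq_or_ne q p with rfl | hne
    · exact absurd (hdvd.trans (index_dvd_of_le hP)) P.not_dvd_index
    · intro x hx
      obtain ⟨k, hk⟩ := IsPGroup.iff_orderOf.1 Q.isPGroup' ⟨x, hx⟩
      refine h x ?_
      rw [orderOf_mk] at hk
      rw [hk]
      exact ((Nat.coprime_primes hq hp.out).2 hne).pow_left k
  exact Q.not_dvd_index (hdvd.trans (index_dvd_of_le hQ))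

theorem le_hypercenter {p : ℕ} [hp : Fact p.Prime] (D : Subgroup G) [D.Normal] (hD : IsPGroup p D)
    (hcent : ∀ d ∈ D, ∀ x : G, (orderOf x).Coprime p → Commute d x) :
    ∃ n, D ≤ Subgroup.upperCentralSeries G n := by
  obtain ⟨P, hP⟩ := hD.exists_le_sylow
  obtain ⟨n, hn⟩ := (P.isPGroup'.isNilpotent).nilpotent' (G := (P : Subgroup G))
  refine ⟨n, fun d hd => ?_⟩
  suffices ∀ i, ∀ z : (P : Subgroup G), z ∈ Subgroup.upperCentralSeries (P : Subgroup G) i → (z : G) ∈ D →
      (z : G) ∈ Subgroup.upperCentralSeries G i from this n ⟨d, hP hd⟩ (hn ▸ mem_top _) hd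
  intro i
  induction i with
  | zero => intro z hz _; simp only [Subgroup.upperCentralSeries_zero, mem_bot] at hz ⊢; rw [hz]; rfl
  | succ i ih =>
    intro z hz hzD
    rw [Subgroup.mem_upperCentralSeries_succ_iff]
    let S : Subgroup G := (centralizer {QuotientGroup.mk' (Subgroup.upperCentralSeries G i) (z : G)}).comap
      (QuotientGroup.mk' (Subgroup.upperCentralSeries G i))
    have hS : ∀ y, y ∈ S ↔ ⁅(z : G), y⁆ ∈ Subgroup.upperCentralSeries G i := fun y => by
      rw [← QuotientGroup.eq_one_iff (N := Subgroup.upperCentralSeries G i), ← QuotientGroup.mk'_apply,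
        map_commutatorElement, commutatorElement_eq_one_iff_mul_comm, mem_comap,
        mem_centralizer_singleton_iff]
      exact eq_comm
    have htop : S = ⊤ := by
      refine eq_top_of_sylow_le_of_coprime_mem P S (fun y hy => (hS y).2 ?_) (fun y hy => (hS y).2 ?_)
      · refine ih ⁅z, (⟨y, hy⟩ : (P : Subgroup G))⁆ (Subgroup.mem_upperCentralSeries_succ_iff.1 hz _) ?_
        have h1 := mul_mem hzD (Normal.conj_mem inferInstance _ (inv_mem hzD) y)
        show ⁅(z : G), y⁆ ∈ D
        rw [commutatorElement_def, mul_assoc, mul_assoc]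
        rwa [mul_assoc] at h1
      · rw [commutatorElement_eq_one_iff_mul_comm.2 (hcent _ hzD y hy).eq]
        exact one_mem _
    intro y
    exact (hS y).1 (htop ▸ mem_top y)

theorem mem_hypercenter_iff (g : G) :
    (∀ x : G, Group.IsNilpotent ↥(closure ({x, g} : Set G))) ↔ g ∈ ⨆ n : ℕ, Subgroup.upperCentralSeries G n := by
  have hdir : Directed (· ≤ ·) (Subgroup.upperCentralSeries G) := (Subgroup.upperCentralSeries_mono G).directed_le
  refine ⟨fun h => ?_, fun h x => ?_⟩
  swap
  · obtain ⟨n, hn⟩ := (mem_iSup_of_directed hdir).1 h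
    exact isNilpotent_closure_pair_of_mem hn x
  set K := ⨆ n : ℕ, Subgroup.upperCentralSeries G n with hK
  have hKn : K.Normal := by
    refine ⟨fun x hx y => ?_⟩
    obtain ⟨n, hn⟩ := (mem_iSup_of_directed hdir).1 hx
    exact mem_iSup_of_mem n (Normal.conj_mem inferInstance x hn y)
  by_contra hg
  have hne : (g : G ⧸ K) ≠ 1 := fun e => hg ((QuotientGroup.eq_one_iff g).1 e)
  obtain ⟨p, hp, hpd⟩ := Nat.exists_prime_and_dvd (mt orderOf_eq_one_iff.1 hne)
  have := Fact.mk hp
  obtain ⟨a, o, hno, hoe⟩ := Nat.exists_eq_pow_mul_and_not_dvd (orderOf_pos g).ne' p hp.ne_one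
  suffices hgo : g ^ o ∈ K by
    exact hno (hpd.trans (orderOf_dvd_of_pow_eq_one (by rw [← QuotientGroup.mk_pow, QuotientGroup.eq_one_iff]; exact hgo)))
  set u := g ^ o with hu
  have huo : u ^ (p ^ a) = 1 := by rw [hu, ← pow_mul, mul_comm, ← hoe, pow_orderOf_eq_one]
  have hcomm : ∀ x : G, (orderOf x).Coprime p → Commute u x := by
    intro x hx
    have := h x
    have hmx : x ∈ closure ({x, g} : Set G) := subset_closure (by simp)
    have hmg : g ∈ closure ({x, g} : Set G) := subset_closure (by simp)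
    have hc : (orderOf (⟨u, pow_mem hmg o⟩ : closure ({x, g} : Set G))).Coprime
        (orderOf (⟨x, hmx⟩ : closure ({x, g} : Set G))) := by
      rw [orderOf_mk, orderOf_mk]
      exact Nat.Coprime.coprime_dvd_left (orderOf_dvd_of_pow_eq_one huo) (hx.symm.pow_left a)
    exact congrArg Subtype.val (OddLocal.commute_of_coprime_orderOf hc).eq
  -- the centralizer of all `p'`-elements is nilpotent
  let C : Subgroup G :=
    { carrier := {c | ∀ x : G, (orderOf x).Coprime p → Commute c x}
      one_mem' := fun x _ => Commute.one_left x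
      mul_mem' := fun ha hb x hx => (ha x hx).mul_left (hb x hx)
      inv_mem' := fun ha x hx => (ha x hx).inv_left }
  have hCn : C.Normal := by
    refine ⟨fun c hc y x hx => ?_⟩
    have h1 := hc (y⁻¹ * x * y) (by
      have := MulEquiv.orderOf_eq (MulAut.conj y⁻¹) x
      rw [MulAut.conj_apply, inv_inv] at this
      rwa [this])
    have h2 := h1.map (MulAut.conj y).toMonoidHom
    simp only [MulEquiv.coe_toMonoidHom, MulAut.conj_apply] at h2
    rwa [show y * (y⁻¹ * x * y) * y⁻¹ = x by group] at h2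
  have hnil : Group.IsNilpotent C := by
    refine Group.of_quotient_center_nilpotent (IsPGroup.isNilpotent (p := p) fun q => ?_)
    induction q using QuotientGroup.induction_on with | _ c => ?_
    obtain ⟨b, r, hnr, hre⟩ := Nat.exists_eq_pow_mul_and_not_dvd (orderOf_pos c).ne' p hp.ne_one
    refine ⟨b, ?_⟩
    rw [← QuotientGroup.mk_pow, QuotientGroup.eq_one_iff, mem_center_iff]
    intro d
    refine Subtype.ext (d.2 _ ?_).eq
    rw [orderOf_coe]
    have : (c ^ p ^ b) ^ r = 1 := by rw [← pow_mul, ← hre, pow_orderOf_eq_one]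
    exact Nat.Coprime.coprime_dvd_left (orderOf_dvd_of_pow_eq_one this)
      ((Nat.Prime.coprime_iff_not_dvd hp).2 hnr).symm
  let S : Sylow p C := default
  have hSn : (S : Subgroup C).Normal :=
    (Core.isNilpotent_iff_forall_sylow_normal.mp hnil) p ⟨hp⟩ S
  have : Subsingleton (Sylow p C) := Sylow.unique_of_normal S hSn |>.instSubsingleton
  have : (S : Subgroup C).Characteristic := Sylow.characteristic_of_normal S hSn
  let D : Subgroup G := (S : Subgroup C).map C.subtype
  have hDn : D.Normal := ConjAct.normal_of_characteristic_of_normal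
  obtain ⟨n, hn⟩ := le_hypercenter D (S.isPGroup'.map C.subtype) (by rintro _ ⟨c, -, rfl⟩ x hx; exact c.2 x hx)
  refine mem_iSup_of_mem n (hn ?_)
  have huC : u ∈ C := hcomm
  obtain ⟨i, -, hi⟩ := (Nat.dvd_prime_pow hp).1 (orderOf_dvd_of_pow_eq_one huo)
  obtain ⟨R, hR⟩ := (IsPGroup.of_card (G := zpowers (⟨u, huC⟩ : C)) (p := p) (n := i) (by
    rw [Nat.card_zpowers, orderOf_mk, hi])).exists_le_sylow
  exact ⟨⟨u, huC⟩, Subsingleton.elim R S ▸ hR (mem_zpowers _), rfl⟩

end Cfsg.Agent.FGS2
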