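import Cfsg.Agent.KnownA.NilpotentPerm

/-!
Nilpotent permutation groups of largest order in degree congruent to three modulo four.
-/

set_option autoImplicit false

namespace Cfsg.Agent.FGS2.NilpotentMax

open Equiv Equiv.Perm
open Cfsg.Agent.KnownA.NilpotentPerm (v T w u v_two_mul v_two_mul_add_one v_vals v_add v_add_carry v_le_of_le e bound)

/-! ### Arithmetic -/

theorem v_sub_three {n : ℕ} (hn : n % 4 = 3) : v n = v (n - 3) + 1 := by
  obtain ⟨a, rfl⟩ : ∃ a, n = 4 * a + 3 := ⟨n / 4, by omega⟩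
  rw [show 4 * a + 3 = 2 * (2 * a + 1) + 1 by ring, v_two_mul_add_one, v_two_mul_add_one,
    show 2 * (2 * a + 1) + 1 - 3 = 2 * (2 * a) by omega, v_two_mul, v_two_mul]
  omega

theorem v_gap {n k : ℕ} (hn : n % 4 = 3) (hk : 2 ≤ k) (hkn : 3 * k ≤ n) :
    v k + v (n - 3 * k) + 2 ≤ v (n - 3) := by
  obtain ⟨-, t2, t3, t4, -, t6, -⟩ := v_vals
  rcases (show k = 2 ∨ k = 3 ∨ 4 ≤ k by omega) with rfl | rfl | h4
  · have h := v_add_carry (n - 6) 3
    rw [e, if_pos (by omega), show n - 6 + 3 = n - 3 by omega] at h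
    rw [show n - 3 * 2 = n - 6 by omega]
    omega
  · have h := v_add (n - 9) 6
    rw [show n - 9 + 6 = n - 3 by omega] at h
    rw [show n - 3 * 3 = n - 9 by omega]
    omega
  · have h := v_add (n - 3 * k) (3 * k - 3)
    rw [show n - 3 * k + (3 * k - 3) = n - 3 by omega] at h
    have h1 := v_le_of_le (show k + 4 ≤ 3 * k - 3 by omega)
    have h2 := v_add k 4
    omega

theorem two_part_le {m N : ℕ} (hN : N ≠ 0) (h : 2 ^ m ∣ N) : m ≤ N.factorization 2 :=
  (Nat.prime_two.pow_dvd_iff_le_factorization hN).1 h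

/-! ### Abstract groups -/

variable {G : Type*} [Group G] [Finite G]

theorem decompose (N : Subgroup G) [Group.IsNilpotent N] {m : ℕ} (hN : Nat.card N = 3 * 2 ^ m) :
    ∃ (x : G) (Q : Subgroup G), orderOf x = 3 ∧ Q ≤ Subgroup.centralizer {x} ∧ Nat.card Q = 2 ^ m ∧
      N = Subgroup.zpowers x ⊔ Q := by
  haveI : Fact (Nat.Prime 3) := ⟨Nat.prime_three⟩
  haveI : Fact (Nat.Prime 2) := ⟨Nat.prime_two⟩
  obtain ⟨x, hx⟩ := exists_prime_orderOf_dvd_card' (G := N) 3 (hN ▸ dvd_mul_right _ _)
  obtain ⟨Q, hQ⟩ := Sylow.exists_subgroup_card_pow_prime 2 (hN ▸ dvd_mul_left (2 ^ m) 3)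
  have hQ' : Nat.card (Q.map N.subtype) = 2 ^ m := by
    rw [Subgroup.card_map_of_injective N.subtype_injective, hQ]
  refine ⟨x, Q.map N.subtype, by rw [Subgroup.orderOf_coe, hx], ?_, hQ', ?_⟩
  · rintro _ ⟨q, hq, rfl⟩
    rw [Subgroup.mem_centralizer_singleton_iff]
    have hc : (orderOf q).Coprime (orderOf x) := by
      rw [hx]
      refine Nat.Coprime.coprime_dvd_left ?_ (Nat.Coprime.pow_left m (by norm_num : Nat.Coprime 2 3))
      rw [← hQ, ← Subgroup.orderOf_mk q hq]
      exact orderOf_dvd_natCard _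
    exact congrArg Subtype.val (OddLocal.commute_of_coprime_orderOf hc).eq
  · refine (Subgroup.eq_of_le_of_card_ge (sup_le (Subgroup.zpowers_le.2 x.2) (Subgroup.map_subtype_le _)) ?_).symm
    refine Nat.le_of_dvd Nat.card_pos ((dvd_of_eq hN).trans ?_)
    refine Nat.Coprime.mul_dvd_of_dvd_of_dvd (Nat.Coprime.pow_right m (by norm_num : Nat.Coprime 3 2)) ?_ ?_
    · rw [← hx, ← Subgroup.orderOf_coe, ← Nat.card_zpowers]
      exact Subgroup.card_dvd_of_le le_sup_left
    · rw [← hQ']
      exact Subgroup.card_dvd_of_le le_sup_right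

/-- Two such decompositions with conjugate elements of order three are conjugate. -/
theorem conj_of_maximal {x₁ x₂ : G} {Q₁ Q₂ : Subgroup G} {m : ℕ} (hconj : IsConj x₁ x₂)
    (h₁ : Q₁ ≤ Subgroup.centralizer {x₁}) (h₂ : Q₂ ≤ Subgroup.centralizer {x₂})
    (c₁ : Nat.card Q₁ = 2 ^ m) (c₂ : Nat.card Q₂ = 2 ^ m)
    (hm : (Nat.card (Subgroup.centralizer {x₂})).factorization 2 ≤ m) :
    ∃ g : G, Subgroup.zpowers x₂ ⊔ Q₂ = (Subgroup.zpowers x₁ ⊔ Q₁).map (MulAut.conj g).toMonoidHom := by
  haveI : Fact (Nat.Prime 2) := ⟨Nat.prime_two⟩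
  obtain ⟨g, hg⟩ := isConj_iff.1 hconj
  set C := Subgroup.centralizer ({x₂} : Set G) with hC
  have hle : Q₁.map (MulAut.conj g).toMonoidHom ≤ C := by
    rintro _ ⟨q, hq, rfl⟩
    rw [hC, Subgroup.mem_centralizer_singleton_iff]
    have := Subgroup.mem_centralizer_singleton_iff.1 (h₁ hq)
    show g * q * g⁻¹ * x₂ = x₂ * (g * q * g⁻¹)
    rw [← hg]
    calc g * q * g⁻¹ * (g * x₁ * g⁻¹) = g * (q * x₁) * g⁻¹ := by group
      _ = g * (x₁ * q) * g⁻¹ := by rw [this]
      _ = g * x₁ * g⁻¹ * (g * q * g⁻¹) := by group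
  have hm' : (Nat.card C).factorization 2 = m :=
    le_antisymm hm (two_part_le Nat.card_pos.ne' (c₂ ▸ Subgroup.card_dvd_of_le h₂))
  have hcard : ∀ Q : Subgroup G, Q ≤ C → Nat.card Q = 2 ^ m →
      Nat.card (Q.subgroupOf C) = 2 ^ (Nat.card C).factorization 2 := by
    intro Q hQ hc
    rw [Nat.card_congr (Subgroup.subgroupOfEquivOfLe hQ).toEquiv, hc, hm']
  let S₁ : Sylow 2 C := Sylow.ofCard ((Q₁.map (MulAut.conj g).toMonoidHom).subgroupOf C)
    (hcard _ hle (by rw [Subgroup.card_map_of_injective (MulAut.conj g).injective, c₁]))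
  let S₂ : Sylow 2 C := Sylow.ofCard (Q₂.subgroupOf C) (hcard _ h₂ c₂)
  obtain ⟨c, hc⟩ := MulAction.exists_smul_eq C S₁ S₂
  refine ⟨(c : G) * g, ?_⟩
  have hQ : Q₂ = (Q₁.map (MulAut.conj g).toMonoidHom).map (MulAut.conj (c : G)).toMonoidHom := by
    have h := congrArg (fun S : Sylow 2 C => (S : Subgroup C).map C.subtype) hc
    simp only [Sylow.coe_subgroup_smul] at h
    rw [show (S₂ : Subgroup C) = Q₂.subgroupOf C from rfl, Subgroup.map_subgroupOf_eq_of_le h₂] at h
    rw [← h]
    ext y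
    constructor
    · rintro ⟨z, hz, rfl⟩
      obtain ⟨s, hs, rfl⟩ := hz
      exact ⟨(s : G), hs, rfl⟩
    · rintro ⟨z, hz, rfl⟩
      exact ⟨_, ⟨⟨z, hle hz⟩, hz, rfl⟩, rfl⟩
  rw [Subgroup.map_sup, hQ, Subgroup.map_map, MonoidHom.map_zpowers]
  congr 1
  · congr 1
    show x₂ = (c : G) * g * x₁ * ((c : G) * g)⁻¹
    have h := Subgroup.mem_centralizer_singleton_iff.1 c.2
    calc x₂ = (c : G) * x₂ * (c : G)⁻¹ := by rw [h]; group
      _ = _ := by rw [← hg]; group
  · congr 1
    ext y
    simp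

/-- The range of an embedding of `P × ℤ/3`. -/
theorem attained {P : Type*} [Group P] [Finite P] (hP : IsPGroup 2 P) (f : P × Multiplicative (ZMod 3) →* G)
    (hf : Function.Injective f) :
    ∃ M : Subgroup G, Group.IsNilpotent M ∧ Nat.card M = 3 * Nat.card P ∧
      Nonempty (M ≃* (P × Multiplicative (ZMod 3))) := by
  haveI : Fact (Nat.Prime 2) := ⟨Nat.prime_two⟩
  haveI : Group.IsNilpotent P := hP.isNilpotent
  refine ⟨f.range, Group.nilpotent_of_surjective f.rangeRestrict f.rangeRestrict_surjective, ?_,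
    ⟨(MonoidHom.ofInjective hf).symm⟩⟩
  rw [← Nat.card_congr (MonoidHom.ofInjective hf).toEquiv, Nat.card_prod, mul_comm]
  simp

/-! ### Permutations -/

/-- Rotations of three points. -/
def rot : Multiplicative (ZMod 3) →* Perm (Fin 3) where
  toFun a := Equiv.addLeft (G := Fin 3) a.toAdd
  map_one' := by decide
  map_mul' := by decide

theorem rot_sign (a : Multiplicative (ZMod 3)) : sign (rot a) = 1 := by
  revert a; decide

theorem rot_injective : Function.Injective rot := by decide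

/-- Side by side action on `n - 3` and `3` points. -/
def glue {n : ℕ} (h3 : 3 ≤ n) : Perm (Fin (n - 3)) × Multiplicative (ZMod 3) →* Perm (Fin n) :=
  (((finSumFinEquiv.trans (finCongr (Nat.sub_add_cancel h3))).permCongrHom).toMonoidHom.comp
    (Equiv.Perm.sumCongrHom _ _)).comp ((MonoidHom.id _).prodMap rot)

theorem glue_injective {n : ℕ} (h3 : 3 ≤ n) : Function.Injective (glue h3) := by
  rintro ⟨a, b⟩ ⟨a', b'⟩ e
  simp only [glue, MonoidHom.comp_apply, MulEquiv.coe_toMonoidHom, EmbeddingLike.apply_eq_iff_eq] at e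
  have e2 := Equiv.Perm.sumCongrHom_injective e
  simp only [MonoidHom.coe_prodMap, MonoidHom.id_apply, Prod.map_apply, Prod.mk.injEq] at e2
  rw [e2.1, rot_injective e2.2]

theorem glue_sign {n : ℕ} (h3 : 3 ≤ n) (x : Perm (Fin (n - 3)) × Multiplicative (ZMod 3)) :
    sign (glue h3 x) = sign x.1 := by
  simp [glue, rot_sign]

theorem card_sylow_perm (m : ℕ) (P : Sylow 2 (Perm (Fin m))) : Nat.card P = 2 ^ v m :=
  KnownA.NilpotentPerm.card_sylow_perm m P

theorem card_alternating_mul {n : ℕ} (hn : 2 ≤ n) :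
    2 * Nat.card (alternatingGroup (Fin n)) = n.factorial := by
  haveI : Nontrivial (Fin n) := Fin.nontrivial_iff_two_le.2 hn
  rw [Nat.card_eq_fintype_card, two_mul_card_alternatingGroup, Fintype.card_perm, Fintype.card_fin]

theorem card_sylow_alternating {m : ℕ} (hm : 2 ≤ m) (P : Sylow 2 (alternatingGroup (Fin m))) :
    2 * Nat.card P = 2 ^ v m := by
  haveI : Fact (Nat.Prime 2) := ⟨Nat.prime_two⟩
  rw [P.card_eq_multiplicity, v, ← Nat.factorization_def _ Nat.prime_two, ← card_alternating_mul hm,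
    Nat.factorization_mul two_ne_zero Nat.card_pos.ne', Finsupp.add_apply, Nat.prime_two.factorization_self,
    pow_add, pow_one]

/-- The two-part of a centralizer of an element of order three. -/
theorem two_part_centralizer {n k : ℕ} (x : Perm (Fin n)) (hx : x.cycleType = Multiset.replicate k 3) :
    (Nat.card (Subgroup.centralizer {x})).factorization 2 = v (n - 3 * k) + v k := by
  have h3 : (3 ^ k).factorization 2 = 0 := by
    rw [Nat.factorization_pow, Nat.prime_three.factorization]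
    simp
  rcases Nat.eq_zero_or_pos k with rfl | hk
  · rw [Equiv.Perm.nat_card_centralizer, hx]
    simp [v, Nat.factorization_def _ Nat.prime_two]
  rw [Equiv.Perm.nat_card_centralizer, hx, Multiset.sum_replicate, Multiset.prod_replicate,
    Multiset.toFinset_replicate, if_neg (by omega), Finset.prod_singleton, Multiset.count_replicate_self,
    Fintype.card_fin, smul_eq_mul, mul_comm k 3,
    Nat.factorization_mul (mul_ne_zero (Nat.factorial_ne_zero _) (pow_ne_zero _ (by norm_num))) (Nat.factorial_ne_zero _),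
    Finsupp.add_apply, Nat.factorization_mul (Nat.factorial_ne_zero _) (pow_ne_zero _ (by norm_num)),
    Finsupp.add_apply, h3, Nat.factorization_def _ Nat.prime_two, Nat.factorization_def _ Nat.prime_two]
  simp [v]

/-- An element of order three commuting with a large two-group is a three-cycle. -/
theorem isThreeCycle_of_large {n m : ℕ} (hn : n % 4 = 3) (x : Perm (Fin n)) (hx : orderOf x = 3)
    (hm : v (n - 3) ≤ m + 1) (hd : 2 ^ m ∣ Nat.card (Subgroup.centralizer {x})) : x.IsThreeCycle := by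
  obtain ⟨k, hk⟩ := Equiv.Perm.cycleType_prime_order (σ := x) (by rw [hx]; norm_num)
  rw [hx] at hk
  have h := two_part_le Nat.card_pos.ne' hd
  rw [two_part_centralizer x hk] at h
  have hkn : 3 * (k + 1) ≤ n := by
    have h1 := Finset.card_le_univ x.support
    rw [← Equiv.Perm.sum_cycleType, hk, Multiset.sum_replicate, smul_eq_mul, Fintype.card_fin] at h1
    omega
  rcases Nat.eq_zero_or_pos k with rfl | hk0
  · rw [Equiv.Perm.IsThreeCycle, hk]
    rfl
  · have := v_gap hn (show 2 ≤ k + 1 by omega) hkn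
    omega

theorem two_part_three_cycle {n : ℕ} {x : Perm (Fin n)} (hx : x.IsThreeCycle) :
    (Nat.card (Subgroup.centralizer {x})).factorization 2 = v (n - 3) := by
  rw [two_part_centralizer (k := 1) x hx]
  simp [v]

theorem two_part_three_cycle_alternating {n : ℕ} (hn : 5 ≤ n) (x : alternatingGroup (Fin n))
    (hx : (x : Perm (Fin n)).IsThreeCycle) :
    (Nat.card (Subgroup.centralizer ({x} : Set (alternatingGroup (Fin n))))).factorization 2 + 1 =
      v (n - 3) := by
  set C := Subgroup.centralizer ({(x : Perm (Fin n))} : Set (Perm (Fin n)))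
  have hmap : (Subgroup.centralizer ({x} : Set (alternatingGroup (Fin n)))).map (alternatingGroup (Fin n)).subtype =
      alternatingGroup (Fin n) ⊓ C := by
    ext y
    simp only [Subgroup.mem_map, Subgroup.mem_inf, Subgroup.mem_centralizer_singleton_iff, C]
    constructor
    · rintro ⟨z, hz, rfl⟩
      exact ⟨z.2, congrArg Subtype.val hz⟩
    · rintro ⟨hy, hc⟩
      exact ⟨⟨y, hy⟩, Subtype.ext hc, rfl⟩
  have hcard : (x : Perm (Fin n)).support.card = 3 := hx.card_support
  obtain ⟨a, ha, b, hb, hab⟩ : ∃ a ∈ (x : Perm (Fin n)).supportᶜ, ∃ b ∈ (x : Perm (Fin n)).supportᶜ, a ≠ b :=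
    Finset.one_lt_card.1 (by rw [Finset.card_compl, hcard, Fintype.card_fin]; omega)
  have hswap : Equiv.swap a b ∈ C := by
    rw [Subgroup.mem_centralizer_singleton_iff]
    refine (Equiv.Perm.Disjoint.commute ?_).eq
    rw [Equiv.Perm.disjoint_iff_disjoint_support, Equiv.Perm.support_swap hab, Finset.disjoint_left]
    intro y hy
    rcases Finset.mem_insert.1 hy with rfl | hy
    · exact Finset.mem_compl.1 ha
    · rw [Finset.mem_singleton.1 hy]; exact Finset.mem_compl.1 hb
  have hsurj : (sign.comp C.subtype).range = ⊤ := by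
    rw [eq_top_iff]
    intro s _
    rcases Int.units_eq_one_or s with rfl | rfl
    · exact one_mem _
    · exact ⟨⟨_, hswap⟩, Equiv.Perm.sign_swap hab⟩
  have hker : (sign.comp C.subtype).ker = (alternatingGroup (Fin n)).subgroupOf C := by
    ext y
    simp [Subgroup.mem_subgroupOf, Equiv.Perm.mem_alternatingGroup]
  have h2 : 2 * Nat.card (Subgroup.centralizer ({x} : Set (alternatingGroup (Fin n)))) = Nat.card C := by
    rw [← Subgroup.card_map_of_injective (alternatingGroup (Fin n)).subtype_injective, hmap,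
      ← (sign.comp C.subtype).ker.card_mul_index, Subgroup.index_ker, hsurj, Subgroup.card_top, hker]
    rw [← Nat.card_congr (Subgroup.subgroupOfEquivOfLe (inf_le_right : alternatingGroup (Fin n) ⊓ C ≤ C)).toEquiv,
      Subgroup.inf_subgroupOf_right, Nat.card_eq_fintype_card (α := ℤˣ), Fintype.card_units_int, mul_comm]
  have h3 := two_part_three_cycle hx
  rw [← h2, Nat.factorization_mul two_ne_zero Nat.card_pos.ne', Finsupp.add_apply,
    Nat.prime_two.factorization_self, add_comm] at h3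
  exact h3

theorem perm_result (n : ℕ) (hn : n % 4 = 3) (P : Sylow 2 (Equiv.Perm (Fin (n - 3)))) :
    (∀ N : Subgroup (Equiv.Perm (Fin n)), Group.IsNilpotent N → Nat.card N ≤ 3 * Nat.card P) ∧
    (∃ M : Subgroup (Equiv.Perm (Fin n)), Group.IsNilpotent M ∧ Nat.card M = 3 * Nat.card P ∧
      Nonempty (M ≃* (↥(P : Subgroup (Equiv.Perm (Fin (n - 3)))) × Multiplicative (ZMod 3)))) ∧
    (∀ N₁ N₂ : Subgroup (Equiv.Perm (Fin n)), Group.IsNilpotent N₁ → Group.IsNilpotent N₂ →
      Nat.card N₁ = 3 * Nat.card P → Nat.card N₂ = 3 * Nat.card P →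
      ∃ g : Equiv.Perm (Fin n), N₂ = N₁.map (MulAut.conj g).toMonoidHom) := by
  haveI : Fact (Nat.Prime 2) := ⟨Nat.prime_two⟩
  refine ⟨fun N hN => ?_, ?_, fun N₁ N₂ hN₁ hN₂ c₁ c₂ => ?_⟩
  · have h := (bound n (Fin n) (Fintype.card_fin n) N hN).1
    rw [Fintype.card_fin, u, if_pos hn, T, v_sub_three hn, pow_succ] at h
    rw [card_sylow_perm]
    omega
  · have h3 : 3 ≤ n := by omega
    refine attained P.isPGroup' ((glue h3).comp ((P : Subgroup (Equiv.Perm (Fin (n - 3)))).subtype.prodMap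
      (MonoidHom.id (Multiplicative (ZMod 3))))) ?_
    rw [MonoidHom.coe_comp]
    exact Function.Injective.comp (glue_injective h3)
      (Function.Injective.prodMap Subtype.val_injective Function.injective_id)
  · rw [card_sylow_perm] at c₁ c₂
    obtain ⟨x₁, Q₁, o₁, le₁, q₁, rfl⟩ := decompose N₁ c₁
    obtain ⟨x₂, Q₂, o₂, le₂, q₂, rfl⟩ := decompose N₂ c₂
    have t₁ := isThreeCycle_of_large hn x₁ o₁ (Nat.le_succ _) (q₁ ▸ Subgroup.card_dvd_of_le le₁)
    have t₂ := isThreeCycle_of_large hn x₂ o₂ (Nat.le_succ _) (q₂ ▸ Subgroup.card_dvd_of_le le₂)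
    exact conj_of_maximal (Equiv.Perm.isConj_iff_cycleType_eq.2 (t₁.trans t₂.symm)) le₁ le₂ q₁ q₂
      (two_part_three_cycle t₂).le

theorem alternating_result (n : ℕ) (hn : n % 4 = 3) (h7 : 7 ≤ n)
    (P : Sylow 2 (alternatingGroup (Fin (n - 3)))) :
    (∀ N : Subgroup (alternatingGroup (Fin n)), Group.IsNilpotent N → Nat.card N ≤ 3 * Nat.card P) ∧
    (∃ M : Subgroup (alternatingGroup (Fin n)), Group.IsNilpotent M ∧ Nat.card M = 3 * Nat.card P ∧
      Nonempty (M ≃* (↥(P : Subgroup (alternatingGroup (Fin (n - 3)))) × Multiplicative (ZMod 3)))) ∧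
    (∀ N₁ N₂ : Subgroup (alternatingGroup (Fin n)), Group.IsNilpotent N₁ → Group.IsNilpotent N₂ →
      Nat.card N₁ = 3 * Nat.card P → Nat.card N₂ = 3 * Nat.card P →
      ∃ g : alternatingGroup (Fin n), N₂ = N₁.map (MulAut.conj g).toMonoidHom) := by
  haveI : Fact (Nat.Prime 2) := ⟨Nat.prime_two⟩
  have hP := card_sylow_alternating (show 2 ≤ n - 3 by omega) P
  obtain ⟨m, hm⟩ := IsPGroup.iff_card.1 P.isPGroup'
  have hm' : m + 1 = v (n - 3) := by
    rw [hm, ← pow_succ'] at hP
    exact Nat.pow_right_injective le_rfl hP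
  refine ⟨fun N hN => ?_, ?_, fun N₁ N₂ hN₁ hN₂ c₁ c₂ => ?_⟩
  · set N' := N.map (alternatingGroup (Fin n)).subtype
    have hN' : Group.IsNilpotent N' :=
      Group.nilpotent_of_surjective (N.equivMapOfInjective _ Subtype.val_injective).toMonoidHom
        (MulEquiv.surjective _)
    have h := (bound n (Fin n) (Fintype.card_fin n) N' hN').2 (Subgroup.map_subtype_le N)
    rw [← Nat.card_congr (N.equivMapOfInjective _ Subtype.val_injective).toEquiv, Fintype.card_fin,
      show w n = 96 by simp only [w]; split_ifs <;> omega, T, v_sub_three hn, pow_succ] at h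
    omega
  · have h3 : 3 ≤ n := by omega
    let g : ↥(P : Subgroup (alternatingGroup (Fin (n - 3)))) × Multiplicative (ZMod 3) →* alternatingGroup (Fin n) :=
      ((glue h3).comp (((alternatingGroup (Fin (n - 3))).subtype.comp (P : Subgroup (alternatingGroup (Fin (n - 3)))).subtype).prodMap
        (MonoidHom.id (Multiplicative (ZMod 3))))).codRestrict _ fun x => by
          rw [Equiv.Perm.mem_alternatingGroup, MonoidHom.comp_apply, glue_sign]
          exact Equiv.Perm.mem_alternatingGroup.1 x.1.1.2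
    refine attained P.isPGroup' g ?_
    exact fun a b e => (glue_injective h3).comp (Function.Injective.prodMap
      (Subtype.val_injective.comp Subtype.val_injective) Function.injective_id) (congrArg Subtype.val e)
  · rw [hm] at c₁ c₂
    obtain ⟨x₁, Q₁, o₁, le₁, q₁, rfl⟩ := decompose N₁ c₁
    obtain ⟨x₂, Q₂, o₂, le₂, q₂, rfl⟩ := decompose N₂ c₂
    have key : ∀ (x : alternatingGroup (Fin n)) (Q : Subgroup (alternatingGroup (Fin n))), orderOf x = 3 →
        Q ≤ Subgroup.centralizer {x} → Nat.card Q = 2 ^ m → (x : Perm (Fin n)).IsThreeCycle := by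
      intro x Q o le q
      refine isThreeCycle_of_large hn _ (by rw [Subgroup.orderOf_coe, o]) hm'.ge ?_
      rw [← q, ← Subgroup.card_map_of_injective (alternatingGroup (Fin n)).subtype_injective]
      refine Subgroup.card_dvd_of_le ?_
      rintro _ ⟨z, hz, rfl⟩
      rw [Subgroup.mem_centralizer_singleton_iff]
      exact congrArg Subtype.val (Subgroup.mem_centralizer_singleton_iff.1 (le hz))
    have t₁ := key x₁ Q₁ o₁ le₁ q₁
    have t₂ := key x₂ Q₂ o₂ le₂ q₂
    have h2 := two_part_three_cycle_alternating (by omega) x₂ t₂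
    exact conj_of_maximal (alternatingGroup.isThreeCycle_isConj (by simp; omega) t₁ t₂) le₁ le₂ q₁ q₂ (by omega)

end Cfsg.Agent.FGS2.NilpotentMax
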