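import Mathlib

/-!
# Groups with the same order type
-/

set_option autoImplicit false

namespace Cfsg.Agent.FGS2.OrderType

/-- Same number of solutions of `x ^ d = 1` for every positive `d`. -/
def SamePow (G H : Type*) [Group G] [Group H] : Prop :=
  ∀ d : ℕ, d ≠ 0 → Nat.card {g : G // g ^ d = 1} = Nat.card {h : H // h ^ d = 1}

theorem card_pow_eq_one_eq_sum {G : Type*} [Group G] [Finite G] {d : ℕ} (hd : d ≠ 0) :
    Nat.card {g : G // g ^ d = 1} = ∑ m ∈ d.divisors, Nat.card {g : G // orderOf g = m} := by
  classical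
  have := Fintype.ofFinite G
  simp only [Nat.card_eq_fintype_card, Fintype.card_subtype]
  exact (sum_card_orderOf_eq_card_pow_eq_one hd).symm

variable {G H : Type*} [Group G] [Finite G] [Group H] [Finite H]

theorem samePow_of_order (h : ∀ m : ℕ, Nat.card {g : G // orderOf g = m} = Nat.card {x : H // orderOf x = m}) :
    SamePow G H := fun d hd => by
  rw [card_pow_eq_one_eq_sum hd, card_pow_eq_one_eq_sum hd]
  exact Finset.sum_congr rfl fun m _ => h m

omit [Finite G] [Finite H] in
theorem SamePow.symm (h : SamePow G H) : SamePow H G := fun d hd => (h d hd).symm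

theorem SamePow.card_eq (h : SamePow G H) : Nat.card G = Nat.card H := by
  have hd : Nat.card G * Nat.card H ≠ 0 := mul_ne_zero Nat.card_pos.ne' Nat.card_pos.ne'
  have h1 := h _ hd
  rwa [Nat.card_congr (Equiv.subtypeUnivEquiv fun g : G => by rw [pow_mul, pow_card_eq_one', one_pow]),
    Nat.card_congr (Equiv.subtypeUnivEquiv fun g : H => by
      rw [mul_comm, pow_mul, pow_card_eq_one', one_pow])] at h1

/-- In a group with a normal Hall subgroup `N`, the solutions of `x ^ |N| = 1` are the elements of `N`. -/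
theorem pow_eq_one_iff_mem (N : Subgroup G) [N.Normal] (hc : (Nat.card N).Coprime N.index) (g : G) :
    g ^ Nat.card N = 1 ↔ g ∈ N := by
  constructor
  · intro hg
    rw [← QuotientGroup.eq_one_iff, ← orderOf_eq_one_iff]
    refine Nat.eq_one_of_dvd_coprimes hc (orderOf_dvd_of_pow_eq_one ?_) ?_
    · rw [← QuotientGroup.mk_pow, hg]; rfl
    · rw [Subgroup.index_eq_card]; exact orderOf_dvd_natCard _
  · intro hg
    exact congrArg Subtype.val (pow_card_eq_one' (x := (⟨g, hg⟩ : N)))

theorem card_pow_eq_card (N : Subgroup G) [N.Normal] (hc : (Nat.card N).Coprime N.index) :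
    Nat.card {g : G // g ^ Nat.card N = 1} = Nat.card N :=
  Nat.card_congr (Equiv.subtypeEquivRight (pow_eq_one_iff_mem N hc))

/-- A Sylow subgroup whose order equals the number of solutions is normal. -/
theorem sylow_normal_of_card {p : ℕ} [Fact p.Prime] (P : Sylow p G)
    (h : Nat.card {g : G // g ^ Nat.card P = 1} = Nat.card P) : (P : Subgroup G).Normal := by
  let S := {g : G | g ^ Nat.card P = 1}
  have key : ∀ Q : Sylow p G, ((Q : Subgroup G) : Set G) = S := by
    intro Q
    refine Set.eq_of_subset_of_ncard_le (fun x hx => ?_) (le_of_eq ?_) (Set.toFinite _)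
    · have h1 := congrArg Subtype.val (pow_card_eq_one' (x := (⟨x, hx⟩ : (Q : Subgroup G))))
      show x ^ Nat.card P = 1
      rwa [P.card_eq_multiplicity, ← Q.card_eq_multiplicity]
    · rw [← Nat.card_coe_set_eq, ← Nat.card_coe_set_eq, SetLike.coe_sort_coe, Q.card_eq_multiplicity,
        ← P.card_eq_multiplicity]
      exact h
  have : Subsingleton (Sylow p G) :=
    ⟨fun A B => Sylow.ext (SetLike.coe_injective ((key A).trans (key B).symm))⟩
  exact Sylow.normal_of_subsingleton P

/-- Solutions in a quotient by a normal Hall subgroup. -/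
theorem card_quotient_pow (N : Subgroup G) [N.Normal] (hc : (Nat.card N).Coprime N.index) {d : ℕ} :
    Nat.card {q : G ⧸ N // q ^ d = 1} * Nat.card N = Nat.card {g : G // g ^ (d * Nat.card N) = 1} := by
  have h1 : ∀ g : G, g ^ (d * Nat.card N) = 1 ↔ ((g : G ⧸ N)) ^ d = 1 := by
    intro g
    rw [pow_mul, pow_eq_one_iff_mem N hc, ← QuotientGroup.mk_pow, QuotientGroup.eq_one_iff]
  rw [Nat.card_congr (Equiv.subtypeEquivRight h1), mul_comm]
  exact (QuotientGroup.card_preimage_mk N {q : G ⧸ N | q ^ d = 1}).symm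

theorem SamePow.quotient (h : SamePow G H) (N : Subgroup G) [N.Normal] (hc : (Nat.card N).Coprime N.index)
    (M : Subgroup H) [M.Normal] (hc' : (Nat.card M).Coprime M.index) (hNM : Nat.card N = Nat.card M) :
    SamePow (G ⧸ N) (H ⧸ M) := fun d hd => by
  have h1 := card_quotient_pow N hc (d := d)
  have h2 := card_quotient_pow M hc' (d := d)
  have h3 := h (d * Nat.card N) (mul_ne_zero hd Nat.card_pos.ne')
  rw [← hNM] at h2
  exact Nat.eq_of_mul_eq_mul_right (Nat.card_pos (α := N)) (h1.trans (h3.trans h2.symm))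

/-- Transfer of a normal Sylow subgroup along equal order type. -/
theorem SamePow.sylow_normal (h : SamePow G H) {p : ℕ} [Fact p.Prime] {P : Sylow p G}
    (hP : (P : Subgroup G).Normal) (Q : Sylow p H) :
    (Q : Subgroup H).Normal ∧ Nat.card P = Nat.card Q := by
  have hPQ : Nat.card P = Nat.card Q := by
    rw [P.card_eq_multiplicity, Q.card_eq_multiplicity, h.card_eq]
  refine ⟨sylow_normal_of_card Q ?_, hPQ⟩
  have h1 := card_pow_eq_card (P : Subgroup G) P.card_coprime_index
  rw [← h _ Nat.card_pos.ne', ← hPQ]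
  exact h1

end Cfsg.Agent.FGS2.OrderType
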