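import Mathlib.Algebra.QuadraticAlgebra.Basic
import Mathlib.LinearAlgebra.Matrix.SpecialLinearGroup
import Mathlib.Data.ZMod.Basic
import Mathlib.GroupTheory.OrderOfElement
import Cfsg.Agent.OddChar.Simple168

/-! # A subgroup `L₂(7)` of `SU₃(3)`, as a table -/

set_option autoImplicit false
set_option maxRecDepth 10000

namespace Cfsg.Agent.FGS2.PSU33

open Cfsg.Agent.OddChar.Simple168

/-- The ring `ZMod 3 [i]`. -/
abbrev R9 := QuadraticAlgebra (ZMod 3) (-1) 0

def dec (n : ℕ) : R9 := ⟨(n % 3 : ℕ), (n / 3 % 3 : ℕ)⟩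

def decMat (n : ℕ) : Matrix (Fin 3) (Fin 3) R9 :=
  Matrix.of fun x y => dec (n / 9 ^ (3 * x.1 + y.1) % 9)

def decPt (k : ℕ) : Option (ZMod 7) := if k = 7 then none else some k

def encPt : Option (ZMod 7) → ℕ
  | none => 7
  | some x => x.val

def permCodes : List ℕ := [16434824, 14899409, 16096528, 1139551, 14969626, 16392537, 3507623, 14857122, 15673952, 414967, 1977451, 571823, 15240547, 5903919, 15156267, 15744169, 2811655, 4108468, 2968119, 15226484, 16040178, 5179727, 14804300, 1886878, 1033613, 1269387, 6880048, 1906485, 15536556, 6465655, 6243013, 5364807, 15526021, 16339715, 7347095, 15075221, 4021472, 3397142, 3436244, 9272641, 4041030, 15796942, 9743391, 15374366, 6152489, 10126039, 1808723, 442134, 13727336, 1439921, 11744208, 945105, 7685048, 6365030, 6743520, 1549030, 650853, 10910872, 15835701, 8862343, 8148238, 7757967, 5761112, 5803805, 11661706, 6175624, 12136551, 8258418, 10687775, 2337692, 2838360, 3832514, 13911513, 3313114, 10081337, 8761256, 9111529, 3913000, 3018414, 13299937, 12698287, 10392963, 16135238,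 12855143, 4701221, 5005217, 10440794, 1012522, 1628130, 13505912, 12725965, 13228488, 10643066, 12101880, 380282, 1222585, 7873516, 7061614, 13011131, 6347964, 1766492, 1392076, 10538899, 11029711, 10282832, 8096417, 14053907, 8309777, 4390155, 5706211, 11157041, 11278834, 4441969, 5414640, 12527116, 7401002, 12346019, 3175795, 2189803, 12663609, 2773435, 3618874, 8435189, 9425584, 727804, 8741117, 2324133, 3785173, 12934684, 14432341, 13422871, 9768563, 6779220, 14451948, 5568388, 4557812, 9169419, 9977674, 13865117, 11109182, 7537789, 7960589, 13675459, 10985779, 12388761, 8625386, 13553218, 6805890, 7810817, 5169724, 5786235, 10831814, 11789505, 2895165, 4487406, 4346846, 12164740, 8942493, 6954437, 11504724, 9705150, 8518230, 13349700, 14124810, 11334694, 14522914, 9347534, 5288318]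

def matCodes : List ℕ := [43053283, 5083645, 244625662, 23804452, 219106581, 119017043, 307052710, 368484251, 355203181, 84800485, 175246301, 23274433, 111206742, 299975070, 142660900, 146544192, 219893897, 293223822, 307865244, 170970132, 289788787, 297741800, 168313395, 267527557, 63046328, 376688219, 143044728, 991395, 98804523, 176916690, 291435600, 117239011, 275135526, 111833303, 98126410, 275625735, 155106961, 245448509, 312120926, 63660124, 334883947, 277216260, 249042441, 247607081, 333464359, 141265911, 374096627, 325244529, 278779595, 221647047, 201637983, 126175891, 28699758, 62013555, 50127933, 174715211, 125034280, 220770586, 355591965, 348738843, 150098516, 234558935, 331287612, 120190583, 305464149, 55363560, 239367983, 183205165, 316237907, 359952073, 1771488, 26089614, 161785977, 163230257, 1562148, 266949291, 125581646, 293836685, 105835359, 162614906, 160080112, 284004230, 42042931, 21820509, 121373323, 129178877, 187651109, 382926210, 166108776, 279501304, 291144920, 51723219, 363707765, 153834128, 183431535,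 360355331, 94876562, 149316880, 147465975, 93433146, 280764726, 141674087, 283692643, 82808675, 169422740, 145873182, 304369373, 68281901, 35922867, 56462868, 120743464, 117731083, 350879565, 56961006, 156326691, 28650133, 37850476, 210587965, 217911065, 180410083, 61479873, 28114948, 204383221, 374216239, 187159927, 314394421, 119509115, 226465458, 316910374, 60420213, 317303021, 352750093, 230203894, 86094180, 100228259, 14703203, 191323530, 348482963, 9805462, 228371134, 185088173, 231232583, 205861849, 36382132, 309408110, 188180273, 77575262, 93796234, 70627987, 265442870, 349816287, 225933702, 59886531, 67968460, 339787165, 52150212, 295349145, 65783809, 258336512, 3202011, 107030735, 40692628, 177587591, 266233308, 303835367, 79956307, 41197827, 346539554]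

def nextIdx : List (List ℕ) := [[1, 2, 3], [4, 5, 6], [7, 8, 9], [10, 11, 0], [12, 7, 13], [14, 15, 16], [17, 18, 1], [19, 20, 21], [22, 0, 11], [23, 3, 2], [24, 25, 26], [27, 9, 8], [28, 14, 29], [30, 31, 4], [32, 33, 34], [35, 1, 18], [36, 6, 5], [37, 38, 39], [40, 16, 15], [41, 22, 42], [43, 4, 31], [44, 13, 7], [15, 28, 45], [46, 47, 48], [49, 27, 50], [51, 46, 52], [53, 54, 10], [55, 56, 57], [58, 19, 59], [60, 61, 12], [62, 63, 64], [65, 21, 20], [2, 35, 66], [8, 12, 61], [67, 29, 14], [20, 58, 68], [69, 70, 49], [71, 40, 72], [73, 69, 74], [75, 76, 17], [77, 78, 79], [5, 43, 80], [81, 59, 19], [33, 82, 83], [84, 85, 71], [86, 42, 22], [87, 10, 54], [88, 55, 89], [90, 91, 23], [47, 51, 36], [92, 93, 24], [94, 95, 77], [29, 26, 25], [96, 97, 98], [99, 52, 46], [100, 23, 91], [101, 24, 93], [102, 50, 27], [82, 32, 103], [104, 45, 28], [105, 53, 106], [107, 34, 33], [108, 65, 88], [109, 84, 92], [110, 111, 30], [112, 113, 87], [114, 103, 32], [97, 115, 108], [116, 66, 35], [117, 17, 76], [118, 77, 95], [70, 73, 44], [98, 119,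 37], [120, 121, 112], [59, 39, 38], [122, 123, 124], [125, 74, 69], [126, 36, 51], [127, 37, 119], [128, 72, 40], [129, 130, 41], [123, 131, 132], [0, 41, 130], [133, 80, 43], [134, 30, 111], [135, 112, 121], [136, 137, 134], [56, 88, 65], [124, 94, 62], [80, 48, 47], [72, 138, 139], [119, 89, 55], [103, 64, 63], [68, 57, 56], [11, 87, 113], [9, 49, 70], [140, 99, 136], [141, 60, 142], [130, 106, 53], [34, 132, 131], [25, 101, 104], [95, 124, 123], [111, 143, 140], [144, 68, 58], [145, 75, 100], [132, 107, 118], [146, 142, 60], [147, 148, 117], [85, 109, 67], [149, 150, 147], [151, 152, 153], [139, 92, 84], [154, 44, 73], [155, 62, 94], [152, 156, 157], [158, 147, 150], [159, 102, 141], [78, 118, 107], [153, 120, 105], [83, 79, 78], [18, 117, 148], [16, 71, 85], [160, 125, 159], [161, 104, 101], [3, 100, 75], [42, 157, 156], [38, 127, 144], [121, 153, 152], [142, 162, 160], [163, 90, 164], [165, 83, 82], [166, 136, 99], [115, 96, 81], [138, 128, 161], [113, 135, 86], [167, 149, 145], [39, 81, 96], [76, 145, 149], [106, 129, 151],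 [66, 164, 90], [61, 141, 102], [148, 158, 116], [89, 98, 97], [164, 116, 158], [143, 110, 126], [157, 86, 135], [91, 163, 167], [26, 67, 109], [54, 105, 120], [31, 134, 137], [21, 108, 115], [93, 139, 138], [57, 144, 127], [6, 126, 110], [63, 155, 165], [150, 167, 163], [50, 159, 125], [131, 122, 114], [52, 140, 143], [64, 114, 122], [45, 161, 128], [137, 166, 133], [48, 133, 166], [79, 165, 155], [156, 151, 129], [162, 146, 154], [74, 160, 162], [13, 154, 146]]

def pFun (i : ℕ) (x : Option (ZMod 7)) : Option (ZMod 7) :=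
  decPt (permCodes.getD i 0 / 8 ^ encPt x % 8)

def mat (i : ℕ) : Matrix (Fin 3) (Fin 3) R9 := decMat (matCodes.getD i 0)

def nxt (i s : ℕ) : ℕ := (nextIdx.getD i []).getD s 0

theorem table_ok :
    (∀ x, pFun 0 x = x) ∧ mat 0 = 1 ∧
    (∀ i : Fin 168, ∀ s : Fin 3, nxt i s < 168) ∧
    (∀ i : Fin 168, ∀ x, pFun (nxt i 0) x = pFun i (transl x)) ∧
    (∀ i : Fin 168, ∀ x, pFun (nxt i 1) x = pFun i (dbl x)) ∧
    (∀ i : Fin 168, ∀ x, pFun (nxt i 2) x = pFun i (flip3 x)) ∧
    (∀ i : Fin 168, ∀ s : Fin 3, mat (nxt i s) = mat i * mat (nxt 0 s)) := by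
  decide +kernel

theorem table_inj :
    (∀ i : Fin 168, (∀ x, pFun i x = x) → i = 0) ∧ (∀ i : Fin 168, mat i = 1 → i = 0) := by
  decide +kernel

theorem gen_ok : ∀ s : Fin 3, (mat (nxt 0 s)).det = 1 ∧
    (mat (nxt 0 s)).transpose * (mat (nxt 0 s)).map (fun x => x ^ 3) = 1 := by
  decide +kernel

theorem gens_not_comm : mat (nxt 0 0) * mat (nxt 0 1) ≠ mat (nxt 0 1) * mat (nxt 0 0) := by
  decide +kernel

/-- The special linear matrices of the three generators. -/
def gen (s : Fin 3) : Matrix.SpecialLinearGroup (Fin 3) R9 := ⟨mat (nxt 0 s), (gen_ok s).1⟩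

/-- The three generating pairs. -/
def pairs : Set (Equiv.Perm (Option (ZMod 7)) × Matrix.SpecialLinearGroup (Fin 3) R9) :=
  {(transl, gen 0), (dbl, gen 1), (flip3, gen 2)}

/-- The graph of the isomorphism. -/
def graph : Subgroup (Equiv.Perm (Option (ZMod 7)) × Matrix.SpecialLinearGroup (Fin 3) R9) :=
  Subgroup.closure pairs

theorem graph_mem {d : Equiv.Perm (Option (ZMod 7)) × Matrix.SpecialLinearGroup (Fin 3) R9}
    (hd : d ∈ graph) : ∃ i : Fin 168, (∀ x, d.1 x = pFun i x) ∧ (d.2 : Matrix _ _ R9) = mat i := by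
  haveI : Finite R9 := Finite.of_equiv _ (QuadraticAlgebra.equivProd (-1 : ZMod 3) 0).symm
  rw [graph, ← Subgroup.mem_toSubmonoid, Subgroup.closure_toSubmonoid_of_finite] at hd
  obtain ⟨h0, h1, h2, hT, hD, hC, hM⟩ := table_ok
  induction hd using Submonoid.closure_induction_right with
  | one => exact ⟨0, fun x => (h0 x).symm, h1.symm⟩
  | mul_right d _ g hg ih =>
    obtain ⟨i, hp, hm⟩ := ih
    have key : ∃ s : Fin 3, g.2 = gen s ∧ ∀ x, pFun (nxt i s) x = pFun i (g.1 x) := by
      simp only [pairs, Set.mem_insert_iff, Set.mem_singleton_iff] at hg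
      rcases hg with rfl | rfl | rfl
      · exact ⟨0, rfl, hT i⟩
      · exact ⟨1, rfl, hD i⟩
      · exact ⟨2, rfl, hC i⟩
    obtain ⟨s, hs, hx⟩ := key
    refine ⟨⟨nxt i s, h2 i s⟩, fun x => ?_, ?_⟩
    · rw [Prod.fst_mul, Equiv.Perm.mul_apply, hp, hx]
    · rw [Prod.snd_mul, Matrix.SpecialLinearGroup.coe_mul, hm, hs]
      exact (hM i s).symm

theorem fst_injective : Function.Injective ((MonoidHom.fst _ _).comp graph.subtype) := by
  rw [injective_iff_map_eq_one]
  intro d hd
  obtain ⟨i, hp, hm⟩ := graph_mem d.2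
  have hd' : d.1.1 = 1 := hd
  have hi : i = 0 := table_inj.1 i fun x => by rw [← hp, hd']; rfl
  subst hi
  exact Subtype.ext (Prod.ext hd' (Subtype.ext (hm.trans table_ok.2.1)))

theorem snd_injective : Function.Injective ((MonoidHom.snd _ _).comp graph.subtype) := by
  rw [injective_iff_map_eq_one]
  intro d hd
  obtain ⟨i, hp, hm⟩ := graph_mem d.2
  have hd' : d.1.2 = 1 := hd
  have hi : i = 0 := table_inj.2 i (by rw [← hm, hd']; rfl)
  subst hi
  exact Subtype.ext (Prod.ext (Equiv.ext fun x => (hp x).trans (table_ok.1 x)) hd')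

/-- The graph is isomorphic to the model of `L₂(7)`. -/
theorem graph_equiv_model : Nonempty (graph ≃* model) := by
  have hr : ((MonoidHom.fst _ _).comp graph.subtype).range = model := by
    rw [MonoidHom.range_comp, Subgroup.range_subtype, graph, MonoidHom.map_closure, model]
    simp [pairs, Set.image_insert_eq]
  exact ⟨(MonoidHom.ofInjective fst_injective).trans (MulEquiv.subgroupCongr hr)⟩

end Cfsg.Agent.FGS2.PSU33
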