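import Cfsg.Agent.FGS2.GenBound

/-!
# Generators of subgroups: the action on a central flag

The positions at which an element of `H` can lead are closed under composition; the subgroup
generated by one element for each position that is not composite, together with generators of
`H ⊓ C(A)`, is `H`. These positions form a triangle-free graph.
-/

set_option autoImplicit false
set_option linter.style.haveILetI false
set_option linter.unusedSectionVars false

namespace Cfsg.Agent.FGS2.RankBound

open scoped commutatorElement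
open GenBound

/-- Mantel's bound for an oriented graph. -/
theorem mantel : ∀ (n : ℕ) (V : Finset ℕ) (E : Finset (ℕ × ℕ)), V.card = n →
    (∀ e ∈ E, e.1 ∈ V ∧ e.2 ∈ V ∧ e.1 < e.2) →
    (∀ x y z : ℕ, (x, y) ∈ E → (y, z) ∈ E → (x, z) ∉ E) → 4 * E.card ≤ n * n := by
  classical
  intro n
  induction n using Nat.strong_induction_on with
  | _ n ih =>
    intro V E hV hE htri
    rcases E.eq_empty_or_nonempty with rfl | ⟨⟨u, v⟩, huv⟩
    · simp
    obtain ⟨hu, hv, hlt⟩ := hE _ huv
    simp only at hu hv hlt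
    set V' := (V.erase u).erase v with hV'
    have hv' : v ∈ V.erase u := Finset.mem_erase.mpr ⟨hlt.ne', hv⟩
    have hcard : V'.card + 2 = n := by
      have h1 := Finset.card_erase_add_one hv'
      have h2 := Finset.card_erase_add_one hu
      rw [hV']; omega
    set E' := E.filter (fun e => e.1 ∈ V' ∧ e.2 ∈ V') with hE'
    have h1 := ih V'.card (by omega) V' E' rfl
      (fun e he => ⟨(Finset.mem_filter.mp he).2.1, (Finset.mem_filter.mp he).2.2,
        (hE e (Finset.mem_filter.mp he).1).2.2⟩)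
      (fun x y z hxy hyz hxz => htri x y z (Finset.mem_filter.mp hxy).1 (Finset.mem_filter.mp hyz).1
        (Finset.mem_filter.mp hxz).1)
    let other : ℕ × ℕ → ℕ := fun e => if e.1 = u ∨ e.1 = v then e.2 else e.1
    have hcase : ∀ e ∈ (E \ E').erase (u, v), ∃ w ∈ V', other e = w ∧ w ≠ u ∧ w ≠ v ∧
        (e = (u, w) ∨ e = (v, w) ∨ e = (w, u) ∨ e = (w, v)) := by
      rintro ⟨a, b⟩ he
      rw [Finset.mem_erase, Finset.mem_sdiff, hE', Finset.mem_filter] at he
      obtain ⟨hne, heE, hnot⟩ := he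
      obtain ⟨ha, hb, hab⟩ := hE _ heE
      simp only at ha hb hab
      have hnot' : ¬ (a ∈ V' ∧ b ∈ V') := fun h => hnot ⟨heE, h⟩
      simp only [hV', Finset.mem_erase, ne_eq, ha, hb, and_true] at hnot'
      by_cases h : a = u ∨ a = v
      · have hbu : b ≠ u := by
          rcases h with h | h <;> omega
        have hbv : b ≠ v := by
          rcases h with h | h
          · intro h'; exact hne (by rw [h, h'])
          · omega
        refine ⟨b, ?_, if_pos h, hbu, hbv, ?_⟩
        · exact Finset.mem_erase.mpr ⟨hbv, Finset.mem_erase.mpr ⟨hbu, hb⟩⟩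
        · rcases h with h | h <;> simp [h]
      · push Not at h
        have hb' : b = u ∨ b = v := by
          by_contra hc
          push Not at hc
          exact hnot' ⟨⟨h.2, h.1⟩, hc.2, hc.1⟩
        refine ⟨a, ?_, if_neg (by tauto), h.1, h.2, ?_⟩
        · exact Finset.mem_erase.mpr ⟨h.2, Finset.mem_erase.mpr ⟨h.1, ha⟩⟩
        · rcases hb' with h' | h' <;> simp [h']
    have h2 : ((E \ E').erase (u, v)).card ≤ V'.card := by
      refine Finset.card_le_card_of_injOn other (fun e he => ?_) ?_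
      · obtain ⟨w, hw, hwe, -⟩ := hcase e he
        rw [Finset.mem_coe, hwe]; exact hw
      · intro e he e' he' heq
        obtain ⟨w, -, hwe, hwu, hwv, hc⟩ := hcase e he
        obtain ⟨w', -, hwe', -, -, hc'⟩ := hcase e' he'
        obtain rfl : w = w' := hwe.symm.trans (heq.trans hwe')
        have hm := (Finset.mem_sdiff.mp (Finset.mem_of_mem_erase (Finset.mem_coe.mp he))).1
        have hm' := (Finset.mem_sdiff.mp (Finset.mem_of_mem_erase (Finset.mem_coe.mp he'))).1
        rcases hc with rfl | rfl | rfl | rfl <;> rcases hc' with rfl | rfl | rfl | rfl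
        all_goals first
          | rfl
          | exact absurd hm (htri _ _ _ huv hm')
          | exact absurd hm' (htri _ _ _ huv hm)
          | exact absurd huv (htri _ _ _ hm hm')
          | exact absurd huv (htri _ _ _ hm' hm)
          | exact absurd hm (htri _ _ _ hm' huv)
          | exact absurd hm' (htri _ _ _ hm huv)
          | (have := (hE _ hm).2.2; have := (hE _ hm').2.2; simp only at *; omega)
    have h3 : E.card ≤ E'.card + V'.card + 1 := by
      have := Finset.card_le_card_sdiff_add_card (s := E) (t := E')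
      have h4 : (E \ E').card ≤ ((E \ E').erase (u, v)).card + 1 := by
        have := Finset.pred_card_le_card_erase (s := E \ E') (a := (u, v))
        omega
      omega
    nlinarith

variable {P : Type*} [Group P] [Finite P] {p : ℕ} [Fact p.Prime]

/-- A normal elementary abelian subgroup containing all elements of order `p` of its centralizer. -/
theorem exists_big_abelian (hP : IsPGroup p P) (h2 : p ≠ 2) :
    ∃ A : Subgroup P, A.Normal ∧ IsMulCommutative A ∧ (∀ x ∈ A, x ^ p = 1) ∧
      ∀ x ∈ Subgroup.centralizer (A : Set P), x ^ p = 1 → x ∈ A := by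
  classical
  let Q : Subgroup P → Prop := fun A => A.Normal ∧ IsMulCommutative A ∧ ∀ x ∈ A, x ^ p = 1
  haveI : Nonempty {A : Subgroup P // Q A} := ⟨⟨⊥, inferInstance, inferInstance,
    fun x hx => by rw [Subgroup.mem_bot.mp hx, one_pow]⟩⟩
  obtain ⟨⟨A, hAn, hAc, hAe⟩, hmax⟩ :=
    Finite.exists_max (fun A : {A : Subgroup P // Q A} => Nat.card A.1)
  refine ⟨A, hAn, hAc, hAe, ?_⟩
  haveI := hAn
  set C := Subgroup.centralizer (A : Set P) with hC
  haveI : C.Normal := by rw [hC]; infer_instance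
  haveI := hP.isNilpotent
  have key : ∀ n, ∀ x ∈ C, x ∈ Subgroup.upperCentralSeries P n → x ^ p = 1 → x ∈ A := by
    intro n
    induction n with
    | zero =>
      intro x _ hx _
      rw [Subgroup.upperCentralSeries_zero, Subgroup.mem_bot] at hx
      rw [hx]; exact A.one_mem
    | succ n ih =>
      intro x hxC hxZ hxp
      set U := C ⊓ Subgroup.upperCentralSeries P n with hU
      haveI : U.Normal := by rw [hU]; infer_instance
      have hu : ∀ g : P, ⁅g, x⁆ ∈ A := by
        intro g
        have hgU : ⁅g, x⁆ ∈ U := by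
          refine Subgroup.mem_inf.mpr ⟨?_, ?_⟩
          · rw [commutatorElement_def]
            exact mul_mem (‹C.Normal›.conj_mem x hxC g) (inv_mem hxC)
          · rw [← commutatorElement_inv]
            exact inv_mem (Subgroup.mem_upperCentralSeries_succ_iff.mp hxZ g)
        have hyC : g * x * g⁻¹ ∈ C := ‹C.Normal›.conj_mem x hxC g
        have hy : ⁅g, x⁆ = g * x * g⁻¹ * x⁻¹ := commutatorElement_def g x
        have hab : ⁅g * x * g⁻¹, x⁻¹⁆ ∈ U := by
          rw [show ⁅g * x * g⁻¹, x⁻¹⁆ = ⁅g, x⁆ * (x⁻¹ * ⁅g, x⁆⁻¹ * x⁻¹⁻¹) by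
            simp only [commutatorElement_def]; group]
          exact mul_mem hgU (‹U.Normal›.conj_mem _ (inv_mem hgU) _)
        have hp1 : (g * x * g⁻¹) ^ p = 1 := by rw [conj_pow, hxp, mul_one, mul_inv_cancel]
        have hp2 : (x⁻¹) ^ p = 1 := by rw [inv_pow, hxp, inv_one]
        obtain ⟨h3, -⟩ := GenBound.pair_pow hP h2 x⁻¹ (g * x * g⁻¹) U
          (by rw [← commutatorElement_inv]; exact inv_mem hab)
          (by rw [hp2]; exact Commute.one_left _) (by rw [hp1]; exact Commute.one_left _)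
          (fun y hy hyp => by
            have hyA := ih y hy.1 hy.2 hyp
            exact ⟨(Subgroup.mem_centralizer_iff.mp (inv_mem hxC) y hyA),
              (Subgroup.mem_centralizer_iff.mp hyC y hyA)⟩)
        refine ih _ hgU.1 hgU.2 ?_
        rw [hy, h3, hp1, hp2, one_mul]
      by_contra hxA
      set A' := Subgroup.closure (insert x (A : Set P)) with hA'
      have hAA' : A ≤ A' := fun y hy => Subgroup.subset_closure (Or.inr hy)
      have hn' : A'.Normal := by
        constructor
        intro y hy g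
        induction hy using Subgroup.closure_induction with
        | mem y hy =>
          rcases hy with rfl | hy
          · rw [show g * y * g⁻¹ = ⁅g, y⁆ * y by rw [commutatorElement_def]; group]
            exact mul_mem (hAA' (hu g)) (Subgroup.subset_closure (Or.inl rfl))
          · exact hAA' (hAn.conj_mem y hy g)
        | one => simp [one_mem]
        | mul a b _ _ ha hb =>
          rw [show g * (a * b) * g⁻¹ = (g * a * g⁻¹) * (g * b * g⁻¹) by group]
          exact mul_mem ha hb
        | inv a _ ha =>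
          rw [show g * a⁻¹ * g⁻¹ = (g * a * g⁻¹)⁻¹ by group]
          exact inv_mem ha
      have hc' : IsMulCommutative A' := by
        refine Subgroup.isMulCommutative_closure fun a ha b hb => ?_
        rcases ha with rfl | ha <;> rcases hb with rfl | hb
        · rfl
        · exact (Subgroup.mem_centralizer_iff.mp hxC b hb).symm
        · exact Subgroup.mem_centralizer_iff.mp hxC a ha
        · exact congrArg Subtype.val (mul_comm' (⟨a, ha⟩ : A) ⟨b, hb⟩)
      have he' : ∀ y ∈ A', y ^ p = 1 := by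
        intro y hy
        induction hy using Subgroup.closure_induction with
        | mem y hy =>
          rcases hy with rfl | hy
          · exact hxp
          · exact hAe y hy
        | one => exact one_pow p
        | mul a b ha' hb' ha hb =>
          rw [(show Commute a b from congrArg Subtype.val (mul_comm' (⟨a, ha'⟩ : A') ⟨b, hb'⟩)).mul_pow,
            ha, hb, one_mul]
        | inv a _ ha => rw [inv_pow, ha, inv_one]
      have hle : Nat.card A' ≤ Nat.card A := hmax ⟨A', hn', hc', he'⟩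
      exact hxA (Subgroup.eq_of_le_of_card_ge hAA' hle ▸ Subgroup.subset_closure (Or.inl rfl))
  obtain ⟨c, hc⟩ := Group.IsNilpotent.nilpotent (G := P)
  exact fun x hx hxp => key c x hx (hc ▸ Subgroup.mem_top x) hxp

/-- One step down a central flag. -/
theorem exists_step (hP : IsPGroup p P) (N : Subgroup P) [N.Normal] :
    ∃ M : Subgroup P, M.Normal ∧ M ≤ N ∧ ⁅N, (⊤ : Subgroup P)⁆ ≤ M ∧
      (N ≠ ⊥ → Nat.card M * p = Nat.card N) := by
  rcases eq_or_ne N ⊥ with rfl | hN
  · exact ⟨⊥, inferInstance, le_rfl, by rw [Subgroup.commutator_bot_left], fun h => absurd rfl h⟩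
  have hlt : ⁅N, (⊤ : Subgroup P)⁆ < N := Coprime.commutator_lt_of_isPGroup (hP.to_subgroup N)
    (hP.to_subgroup ⊤) (by rw [Subgroup.normalizer_eq_top (H := N)]) hN
  set R := ⁅N, (⊤ : Subgroup P)⁆ with hR
  obtain ⟨t, ht⟩ := IsPGroup.iff_card.mp (hP.to_subgroup N)
  obtain ⟨s, hs⟩ := IsPGroup.iff_card.mp (hP.to_subgroup R)
  have hst : s < t := by
    have h1 : Nat.card R < Nat.card N := by
      rcases (Subgroup.card_le_of_le hlt.le).lt_or_eq with h | h
      · exact h
      · exact absurd (Subgroup.eq_of_le_of_card_ge hlt.le h.ge) hlt.ne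
    rw [hs, ht] at h1
    exact (Nat.pow_lt_pow_iff_right (Fact.out : p.Prime).one_lt).mp h1
  obtain ⟨M₀, hM₀, hRM⟩ := Sylow.exists_subgroup_card_pow_prime_le p (G := N) (n := s) (m := t - 1)
    (by rw [ht]; exact pow_dvd_pow p (Nat.sub_le t 1)) (R.subgroupOf N)
    (by rw [Nat.card_congr (Subgroup.subgroupOfEquivOfLe hlt.le).toEquiv, hs]) (by omega)
  have hRM' : R ≤ M₀.map N.subtype := by
    rw [← Subgroup.map_subgroupOf_eq_of_le hlt.le]
    exact Subgroup.map_mono hRM
  refine ⟨M₀.map N.subtype, ⟨fun m hm g => ?_⟩, Subgroup.map_subtype_le _, hRM', fun _ => ?_⟩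
  · have h1 : ⁅m, g⁆ ∈ M₀.map N.subtype :=
      hRM' (Subgroup.commutator_mem_commutator (Subgroup.map_subtype_le _ hm) (Subgroup.mem_top g))
    have h3 := mul_mem (inv_mem h1) hm
    rwa [commutatorElement_inv, commutatorElement_def, inv_mul_cancel_right] at h3
  · rw [Subgroup.card_map_of_injective N.subtype_injective, hM₀, ← pow_succ, ht,
      show t - 1 + 1 = t by omega]

theorem exists_flag (hP : IsPGroup p P) (A : Subgroup P) [A.Normal] {j : ℕ} (hA : Nat.card A = p ^ j) :
    ∃ Fl : ℕ → Subgroup P, Fl 0 = A ∧ (∀ i, (Fl i).Normal) ∧ Antitone Fl ∧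
      (∀ i, ⁅Fl i, (⊤ : Subgroup P)⁆ ≤ Fl (i + 1)) ∧ ∀ i, Nat.card (Fl i) = p ^ (j - i) := by
  choose M hMn hMle hMc hMcard using fun N : {N : Subgroup P // N.Normal} =>
    haveI := N.2; exists_step hP N.1
  let F : ℕ → {N : Subgroup P // N.Normal} := fun i =>
    Nat.rec (motive := fun _ => {N : Subgroup P // N.Normal}) ⟨A, inferInstance⟩ (fun _ N => ⟨M N, hMn N⟩) i
  refine ⟨fun i => (F i).1, rfl, fun i => (F i).2, antitone_nat_of_succ_le fun i => hMle (F i),
    fun i => hMc (F i), fun i => ?_⟩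
  induction i with
  | zero => exact hA
  | succ i ih =>
    change Nat.card (F i).1 = _ at ih
    show Nat.card (M (F i)) = _
    by_cases hb : (F i).1 = ⊥
    · rw [show M (F i) = ⊥ from le_bot_iff.mp ((hMle (F i)).trans hb.le), Subgroup.card_bot]
      rw [hb, Subgroup.card_bot] at ih
      have hp := (Fact.out : p.Prime).two_le
      rcases Nat.eq_zero_or_pos (j - i) with h | h
      · rw [show j - (i + 1) = 0 by omega, pow_zero]
      · exact absurd ih (Nat.one_lt_pow (by omega) hp).ne
    · have h1 := hMcard (F i) hb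
      have hpos : 0 < j - i := by
        by_contra h
        rw [show j - i = 0 by omega, pow_zero] at ih
        exact hb (Subgroup.eq_bot_of_card_eq _ ih)
      rw [ih, show j - i = j - (i + 1) + 1 by omega, pow_succ] at h1
      exact Nat.eq_of_mul_eq_mul_right (Fact.out : p.Prime).pos h1

/-- The elements raising the flag by `d`, and by `d + 1` on the first `r` layers. -/
def layer (Fl : ℕ → Subgroup P) [hn : ∀ i, (Fl i).Normal] (d r : ℕ) : Subgroup P where
  carrier := {h | ∀ i, ∀ x ∈ Fl i, ⁅h, x⁆ ∈ Fl (i + d) ∧ (i < r → ⁅h, x⁆ ∈ Fl (i + d + 1))}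
  one_mem' := fun i x _ => by simp [commutatorElement_one_left, one_mem]
  mul_mem' := fun {g h} hg hh i x hx => by
    rw [commutatorElement_mul_left_eq_conj_mul]
    exact ⟨mul_mem ((hn _).conj_mem _ (hh i x hx).1 g) (hg i x hx).1,
      fun hi => mul_mem ((hn _).conj_mem _ ((hh i x hx).2 hi) g) ((hg i x hx).2 hi)⟩
  inv_mem' := fun {g} hg i x hx => by
    have : ⁅g⁻¹, x⁆ = g⁻¹ * ⁅g, x⁆⁻¹ * g⁻¹⁻¹ := by simp only [commutatorElement_def]; group
    rw [this]
    exact ⟨(hn _).conj_mem _ (inv_mem (hg i x hx).1) _,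
      fun hi => (hn _).conj_mem _ (inv_mem ((hg i x hx).2 hi)) _⟩

/-- Every subgroup is generated by few elements. -/
theorem bound (hP : IsPGroup p P) (h2 : p ≠ 2) (k : ℕ)
    (hab : ∀ A : Subgroup P, A.Normal → IsMulCommutative A →
      ∃ S : Finset P, S.card ≤ k ∧ Subgroup.closure (S : Set P) = A) (H : Subgroup P) :
    ∃ S : Finset P, S.card ≤ k * (k + 4) / 4 ∧ Subgroup.closure (S : Set P) = H := by
  classical
  have hp := (Fact.out : p.Prime)
  obtain ⟨A, hAn, hAc, hAe, hΩ⟩ := exists_big_abelian hP h2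
  haveI := hAn
  obtain ⟨j, hj⟩ := IsPGroup.iff_card.mp (hP.to_subgroup A)
  have hcomm : ∀ a ∈ A, ∀ b ∈ A, a * b = b * a := fun a ha b hb =>
    congrArg Subtype.val (mul_comm' (⟨a, ha⟩ : A) ⟨b, hb⟩)
  have hjk : j ≤ k := by
    obtain ⟨S, hSk, hS⟩ := hab A hAn hAc
    have key : ∀ T : Finset P, T ⊆ S → Nat.card (Subgroup.closure (T : Set P)) ≤ p ^ T.card := by
      intro T
      induction T using Finset.induction_on with
      | empty => intro _; simp
      | @insert x T hx ih =>
        intro hT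
        rw [Finset.insert_subset_iff] at hT
        set K := Subgroup.closure (T : Set P)
        have hKA : K ≤ A := hS ▸ Subgroup.closure_mono (Finset.coe_subset.mpr hT.2)
        have hxA : x ∈ A := hS ▸ Subgroup.subset_closure hT.1
        have hxK : Subgroup.zpowers x ≤ Subgroup.normalizer (K : Set P) := by
          rw [Subgroup.zpowers_le, Subgroup.mem_normalizer_iff]
          have key : ∀ y ∈ A, x * y * x⁻¹ = y := fun y hy => by rw [hcomm x hxA y hy, mul_inv_cancel_right]
          intro y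
          constructor <;> intro hy
          · rwa [key y (hKA hy)]
          · have h1 := hKA hy
            have h4 : y ∈ A := by
              have := mul_mem (mul_mem (inv_mem hxA) h1) hxA
              rwa [show x⁻¹ * (x * y * x⁻¹) * x = y by group] at this
            rwa [key y h4] at hy
        have hox : Nat.card (Subgroup.zpowers x) ≤ p := by
          rw [Nat.card_zpowers]
          exact Nat.le_of_dvd hp.pos (orderOf_dvd_of_pow_eq_one (hAe x hxA))
        rw [Finset.coe_insert, Set.insert_eq, Subgroup.closure_union, ← Subgroup.zpowers_eq_closure,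
          Finset.card_insert_of_notMem hx, pow_succ]
        refine le_trans ?_ (le_of_le_of_eq (Nat.mul_le_mul hox (ih hT.2)) (mul_comm _ _))
        rw [← Nat.card_prod]
        refine Nat.card_le_card_of_surjective
          (fun u : Subgroup.zpowers x × K => (⟨(u.1 : P) * u.2, mul_mem
            (Subgroup.mem_sup_left u.1.2) (Subgroup.mem_sup_right u.2.2)⟩ : ↥(Subgroup.zpowers x ⊔ K))) ?_
        rintro ⟨z, hz⟩
        have hz' : z ∈ ((Subgroup.zpowers x ⊔ K : Subgroup P) : Set P) := hz
        rw [Subgroup.coe_mul_of_left_le_normalizer_right _ _ hxK] at hz'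
        obtain ⟨a, ha, b, hb, rfl⟩ := hz'
        exact ⟨(⟨a, ha⟩, ⟨b, hb⟩), rfl⟩
    have h1 := (key S subset_rfl).trans (Nat.pow_le_pow_right hp.pos hSk)
    rw [hS, hj] at h1
    exact (Nat.pow_le_pow_iff_right hp.one_lt).mp h1
  obtain ⟨Fl, hFl0, hFln, hmono, hFlc, hFlcard⟩ := exists_flag hP A hj
  haveI := hFln
  have hFlA : ∀ i, Fl i ≤ A := fun i => hFl0 ▸ hmono (Nat.zero_le i)
  have hcent : ∀ i (g : P), ∀ y ∈ Fl i, ⁅g, y⁆ ∈ Fl (i + 1) := fun i g y hy => by
    rw [← commutatorElement_inv]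
    exact inv_mem (hFlc i (Subgroup.commutator_mem_commutator hy (Subgroup.mem_top g)))
  have hbot : ∀ i, j ≤ i → Fl i = ⊥ := fun i hi =>
    Subgroup.eq_bot_of_card_eq _ (by rw [hFlcard, show j - i = 0 by omega, pow_zero])
  have hgen : ∀ i, ∀ y ∈ Fl i, y ∉ Fl (i + 1) → ∀ z ∈ Fl i, ∃ c : ℕ, ∃ w ∈ Fl (i + 1), z = y ^ c * w := by
    intro i y hy hy' z hz
    have hij : i < j := by
      by_contra h
      rw [hbot i (by omega), Subgroup.mem_bot] at hy
      exact hy' (hy ▸ one_mem _)
    set T := Subgroup.zpowers y ⊔ Fl (i + 1)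
    have hTle : T ≤ Fl i := sup_le (Subgroup.zpowers_le.mpr hy) (hmono (Nat.le_succ i))
    have hlt : Fl (i + 1) < T := lt_of_le_of_ne le_sup_right
      fun h => hy' (h.symm ▸ Subgroup.mem_sup_left (Subgroup.mem_zpowers y))
    have hT : T = Fl i := by
      refine Subgroup.eq_of_le_of_card_ge hTle ?_
      refine le_trans (le_of_eq ?_) (GenBound.mul_le_of_lt hP hlt)
      rw [hFlcard, hFlcard, ← pow_succ, show j - (i + 1) + 1 = j - i by omega]
    rw [← hT] at hz
    obtain ⟨u, hu, w, hw, rfl⟩ := Subgroup.mem_sup_of_normal_right.mp hz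
    obtain ⟨c, rfl⟩ := (isOfFinOrder_of_finite y).mem_powers_iff_mem_zpowers.mpr hu
    exact ⟨c, w, hw, rfl⟩
  have hadd : ∀ g : P, ∀ y ∈ A, ∀ y' ∈ A, ⁅g, y * y'⁆ = ⁅g, y⁆ * ⁅g, y'⁆ := by
    intro g y hy y' hy'
    have h1 : ⁅g, y'⁆ ∈ A := by
      rw [commutatorElement_def]; exact mul_mem (hAn.conj_mem y' hy' g) (inv_mem hy')
    rw [commutatorElement_mul_right_eq_mul_conj, mul_assoc, mul_assoc, ← mul_assoc y,
      hcomm y hy _ h1, mul_assoc, mul_inv_cancel, mul_one]
  have hpowA : ∀ g : P, ∀ y ∈ A, ∀ c : ℕ, ⁅g, y ^ c⁆ = ⁅g, y⁆ ^ c := by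
    intro g y hy c
    induction c with
    | zero => simp
    | succ c ih => rw [pow_succ, pow_succ, hadd g _ (pow_mem hy c) _ hy, ih]
  have hlead : ∀ g d r, g ∈ layer Fl d r → g ∉ layer Fl d (r + 1) →
      ∃ x ∈ Fl r, x ∉ Fl (r + 1) ∧ ⁅g, x⁆ ∉ Fl (r + d + 1) := by
    intro g d r hg hg'
    by_contra hc
    push Not at hc
    refine hg' fun i x hx => ⟨(hg i x hx).1, fun hi => ?_⟩
    rcases Nat.lt_succ_iff_lt_or_eq.mp hi with h | rfl
    · exact (hg i x hx).2 h
    · by_cases hx' : x ∈ Fl (i + 1)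
      · have h1 := (hg _ x hx').1
        rwa [show i + 1 + d = i + d + 1 by omega] at h1
      · exact hc x hx hx'
  -- composition of leading positions
  have hcomp : ∀ g h d e r, 1 ≤ d → g ∈ layer Fl d r → g ∉ layer Fl d (r + 1) →
      h ∈ layer Fl e (r + d) → h ∉ layer Fl e (r + d + 1) →
      ⁅g, h⁆ ∈ layer Fl (d + e) r ∧ ⁅g, h⁆ ∉ layer Fl (d + e) (r + 1) := by
    intro g h d e r hd hg hg' hh hh'
    have hD : ∀ x ∈ A, ⁅⁅g, h⁆, h * g * x * (h * g)⁻¹⁆ = ⁅g, ⁅h, x⁆⁆ * ⁅h, ⁅g, x⁆⁆⁻¹ := by
      intro x hx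
      have hin : ∀ u : P, ∀ y ∈ A, ⁅u, y⁆ ∈ A := fun u y hy => by
        rw [commutatorElement_def]; exact mul_mem (hAn.conj_mem y hy u) (inv_mem hy)
      have h1 : ⁅⁅g, h⁆, h * g * x * (h * g)⁻¹⁆ =
          ⁅g, ⁅h, x⁆⁆ * (⁅h, x⁆ * ⁅g, x⁆ * ⁅h, x⁆⁻¹ * ⁅g, x⁆⁻¹) * ⁅h, ⁅g, x⁆⁆⁻¹ := by
        simp only [commutatorElement_def]; group
      rw [h1, hcomm _ (hin h x hx) _ (hin g x hx)]
      group
    refine ⟨fun i x hx => ?_, fun hbad => ?_⟩
    · set x' := (h * g)⁻¹ * x * (h * g) with hx'
      have hx'm : x' ∈ Fl i := by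
        have := (hFln i).conj_mem x hx (h * g)⁻¹
        rwa [inv_inv] at this
      have hxe : x = h * g * x' * (h * g)⁻¹ := by rw [hx']; group
      rw [hxe, hD _ (hFlA i hx'm)]
      refine ⟨mul_mem ?_ (inv_mem ?_), fun hi => mul_mem ?_ (inv_mem ?_)⟩
      · rw [show i + (d + e) = i + e + d by omega]; exact (hg _ _ (hh i x' hx'm).1).1
      · rw [show i + (d + e) = i + d + e by omega]; exact (hh _ _ (hg i x' hx'm).1).1
      · rw [show i + (d + e) + 1 = i + e + 1 + d by omega]
        exact (hg _ _ ((hh i x' hx'm).2 (by omega))).1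
      · rw [show i + (d + e) + 1 = i + d + 1 + e by omega]
        exact (hh _ _ ((hg i x' hx'm).2 hi)).1
    · obtain ⟨x, hx, -, hgx⟩ := hlead g d r hg hg'
      have h1 := (hbad r _ ((hFln r).conj_mem x hx (h * g))).2 (Nat.lt_succ_self r)
      rw [hD _ (hFlA r hx)] at h1
      have h3 : ⁅g, ⁅h, x⁆⁆ ∈ Fl (r + (d + e) + 1) := by
        rw [show r + (d + e) + 1 = r + e + 1 + d by omega]
        exact (hg _ _ ((hh r x hx).2 (by omega))).1
      have h4 : ⁅h, ⁅g, x⁆⁆ ∈ Fl (r + (d + e) + 1) := by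
        have := mul_mem (inv_mem h1) h3
        rwa [mul_inv_rev, inv_inv, inv_mul_cancel_right] at this
      rw [show r + (d + e) + 1 = r + d + e + 1 by omega] at h4
      refine hh' fun i z hz => ⟨(hh i z hz).1, fun hi => ?_⟩
      rcases Nat.lt_succ_iff_lt_or_eq.mp hi with h' | rfl
      · exact (hh i z hz).2 h'
      obtain ⟨c, w, hw, rfl⟩ := hgen _ _ (hg r x hx).1 hgx z hz
      have hyA := hFlA _ (hg r x hx).1
      rw [hadd h _ (pow_mem hyA c) _ (hFlA _ hw), hpowA h _ hyA]
      refine mul_mem (pow_mem h4 c) ?_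
      have := (hh _ w hw).1
      rwa [show r + d + 1 + e = r + d + e + 1 by omega] at this
  -- removing a leading position
  have hstep : ∀ s h d r, s ∈ layer Fl d r → s ∉ layer Fl d (r + 1) → h ∈ layer Fl d r →
      ∃ c : ℕ, h * (s ^ c)⁻¹ ∈ layer Fl d (r + 1) := by
    intro s h d r hs hs' hh
    obtain ⟨x, hx, hxn, hsx⟩ := hlead s d r hs hs'
    obtain ⟨c, w, hw, hcw⟩ := hgen _ _ (hs r x hx).1 hsx _ (hh r x hx).1
    refine ⟨c, ?_⟩
    set u := h * (s ^ c)⁻¹ with hu
    have huK : u ∈ layer Fl d r := mul_mem hh (inv_mem (pow_mem hs c))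
    set π := QuotientGroup.mk' (Fl (r + d + 1)) with hπ
    have hπmul : ∀ a b : P, ⁅b, x⁆ ∈ Fl (r + d) → π ⁅a * b, x⁆ = π ⁅b, x⁆ * π ⁅a, x⁆ := by
      intro a b hb
      rw [commutatorElement_mul_left_eq_conj_mul, show a * ⁅b, x⁆ * a⁻¹ = ⁅a, ⁅b, x⁆⁆ * ⁅b, x⁆ by
        simp only [commutatorElement_def]; group, map_mul, map_mul,
        (QuotientGroup.eq_one_iff _).mpr (hcent _ a _ hb) |> fun e => (show π ⁅a, ⁅b, x⁆⁆ = 1 from e),
        one_mul]
    have hπpow : ∀ m : ℕ, π ⁅s ^ m, x⁆ = π ⁅s, x⁆ ^ m := by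
      intro m
      induction m with
      | zero => simp
      | succ m ih => rw [pow_succ, hπmul _ _ (hs r x hx).1, ih, pow_succ']
    have hux : ⁅u, x⁆ ∈ Fl (r + d + 1) := by
      have h1 := hπmul u (s ^ c) ((pow_mem hs c) r x hx).1
      rw [hu, inv_mul_cancel_right, ← hu, hπpow, hcw, map_mul, map_pow,
        (show π w = 1 from (QuotientGroup.eq_one_iff _).mpr hw), mul_one] at h1
      exact (QuotientGroup.eq_one_iff _).mp (mul_eq_left.mp h1.symm)
    refine fun i z hz => ⟨(huK i z hz).1, fun hi => ?_⟩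
    rcases Nat.lt_succ_iff_lt_or_eq.mp hi with h' | rfl
    · exact (huK i z hz).2 h'
    obtain ⟨e, v, hv, rfl⟩ := hgen _ x hx hxn z hz
    rw [hadd u _ (pow_mem (hFlA _ hx) e) _ (hFlA _ hv), hpowA u _ (hFlA _ hx)]
    refine mul_mem (pow_mem hux e) ?_
    have := (huK _ v hv).1
    rwa [show i + 1 + d = i + d + 1 by omega] at this
  -- the positions
  let Pos : ℕ → ℕ → Prop := fun d r => 1 ≤ d ∧ r + d < j ∧
    ∃ h ∈ H, h ∈ layer Fl d r ∧ h ∉ layer Fl d (r + 1)
  let Prim : ℕ → ℕ → Prop := fun d r => Pos d r ∧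
    ¬ ∃ d₁ d₂, d₁ + d₂ = d ∧ Pos d₁ r ∧ Pos d₂ (r + d₁)
  let E : Finset (ℕ × ℕ) := (Finset.range j ×ˢ Finset.range j).filter
    fun e => e.1 < e.2 ∧ Prim (e.2 - e.1) e.1
  have hE4 : 4 * E.card ≤ j * j := by
    refine mantel j (Finset.range j) E (Finset.card_range j) ?_ ?_
    · intro e he
      rw [Finset.mem_filter, Finset.mem_product] at he
      exact ⟨he.1.1, he.1.2, he.2.1⟩
    · intro x y z hxy hyz hxz
      rw [Finset.mem_filter] at hxy hyz hxz
      obtain ⟨-, h1, h3⟩ := hxy
      obtain ⟨-, h4, h5⟩ := hyz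
      obtain ⟨-, -, -, h6⟩ := hxz
      refine h6 ⟨y - x, z - y, by omega, h3.1, ?_⟩
      have : x + (y - x) = y := by omega
      rw [this]
      exact h5.1
  let g : ℕ × ℕ → P := fun e =>
    if hp' : Pos (e.2 - e.1) e.1 then hp'.2.2.choose else 1
  -- generators of the part centralizing `A`
  set D := H ⊓ Subgroup.centralizer (A : Set P) with hD
  obtain ⟨T₀, hT₀, hT₀c⟩ := GenBound.exists_gen_of_central h2 _ D rfl (hP.to_subgroup D) (fun x hx => by
    rw [Subgroup.mem_center_iff]
    intro y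
    refine Subtype.ext ?_
    have hxA : (x : P) ∈ A := hΩ _ x.2.2 (by exact congrArg Subtype.val hx)
    exact (Subgroup.mem_centralizer_iff.mp y.2.2 _ hxA).symm)
  have hTk : T₀.card ≤ k := by
    refine le_trans ((Nat.pow_le_pow_iff_right hp.one_lt).mp (hT₀c.trans ?_)) hjk
    rw [← hj]
    refine Nat.card_le_card_of_injective
      (fun x => (⟨(x.1 : P), hΩ _ x.1.2.2 (by exact congrArg Subtype.val x.2)⟩ : A)) fun x y hxy => ?_
    exact Subtype.ext (Subtype.ext (congrArg (fun z : A => (z : P)) hxy))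
  set S : Finset P := T₀.image Subtype.val ∪ E.image g with hS
  refine ⟨S, ?_, ?_⟩
  · have h1 : S.card ≤ T₀.card + E.card :=
      (Finset.card_union_le _ _).trans (Nat.add_le_add Finset.card_image_le Finset.card_image_le)
    have h3 : k * (k + 4) / 4 = k * k / 4 + k := by
      rw [show k * (k + 4) = k * k + 4 * k by ring, Nat.add_mul_div_left _ _ (by norm_num)]
    have h4 : E.card ≤ k * k / 4 := (Nat.le_div_iff_mul_le (by norm_num)).mpr
      (by have := Nat.mul_le_mul hjk hjk; omega)
    omega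
  set X := Subgroup.closure (S : Set P) with hX
  have hXH : X ≤ H := by
    rw [hX, Subgroup.closure_le]
    intro y hy
    rw [hS, Finset.coe_union, Finset.coe_image, Finset.coe_image] at hy
    rcases hy with ⟨z, -, rfl⟩ | ⟨e, -, rfl⟩
    · exact z.2.1
    · simp only [g]
      split_ifs with hp'
      · exact hp'.2.2.choose_spec.1
      · exact H.one_mem
  have hDX : D ≤ X := by
    intro y hy
    have : (⟨y, hy⟩ : D) ∈ Subgroup.closure (T₀ : Set D) := hT₀ ▸ Subgroup.mem_top _
    have h1 := Subgroup.mem_map_of_mem D.subtype this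
    rw [MonoidHom.map_closure] at h1
    refine Subgroup.closure_mono ?_ h1
    rw [hS, Finset.coe_union, Finset.coe_image]
    exact Set.subset_union_left
  have hposX : ∀ d r, Pos d r → ∃ s ∈ X, s ∈ layer Fl d r ∧ s ∉ layer Fl d (r + 1) := by
    intro d
    induction d using Nat.strong_induction_on with
    | _ d ih =>
      intro r hpos
      by_cases hprim : Prim d r
      · refine ⟨g (r, r + d), ?_, ?_⟩
        · refine Subgroup.subset_closure ?_
          rw [hS, Finset.coe_union, Finset.coe_image, Finset.coe_image]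
          refine Or.inr ⟨(r, r + d), ?_, rfl⟩
          rw [Finset.mem_coe, Finset.mem_filter, Finset.mem_product, Finset.mem_range, Finset.mem_range]
          have h1 := hpos.2.1
          have h3 := hpos.1
          refine ⟨⟨by omega, h1⟩, by omega, ?_⟩
          simpa using hprim
        · have hpos' : Pos ((r, r + d).2 - (r, r + d).1) (r, r + d).1 := by simpa using hpos
          simp only [g, dif_pos hpos']
          simpa using hpos'.2.2.choose_spec.2
      · obtain ⟨d₁, d₂, hdd, hp1, hp2⟩ := not_not.mp fun hn => hprim ⟨hpos, hn⟩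
        obtain ⟨s₁, hs₁, hs₁m, hs₁n⟩ := ih d₁ (by have := hp2.1; omega) r hp1
        obtain ⟨s₂, hs₂, hs₂m, hs₂n⟩ := ih d₂ (by have := hp1.1; omega) (r + d₁) hp2
        obtain ⟨h1, h3⟩ := hcomp _ _ _ _ _ hp1.1 hs₁m hs₁n hs₂m hs₂n
        refine ⟨⁅s₁, s₂⁆, ?_, hdd ▸ h1, hdd ▸ h3⟩
        rw [commutatorElement_def]
        exact mul_mem (mul_mem (mul_mem hs₁ hs₂) (inv_mem hs₁)) (inv_mem hs₂)
  have hall : ∀ n d r, 1 ≤ d → (j - d) * (j + 1) + (j - r) = n → ∀ h ∈ H, h ∈ layer Fl d r → h ∈ X := by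
    intro n
    induction n using Nat.strong_induction_on with
    | _ n ih =>
      intro d r hd hn h hhH hh
      by_cases hdj : j ≤ d
      · refine hDX ⟨hhH, Subgroup.mem_centralizer_iff.mpr fun a ha => ?_⟩
        have h1 := (hh 0 a (hFl0 ▸ ha)).1
        rw [hbot _ (by omega), Subgroup.mem_bot, commutatorElement_eq_one_iff_mul_comm] at h1
        exact h1.symm
      by_cases hr : j ≤ r + d
      · -- the remaining layers vanish
        refine ih _ ?_ (d + 1) 0 (by omega) rfl h hhH fun i x hx => ⟨?_, fun hi => absurd hi (Nat.not_lt_zero i)⟩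
        · have e : j - d = j - (d + 1) + 1 := by omega
          rw [← hn, e, Nat.add_one_mul]
          omega
        · rw [show i + (d + 1) = i + d + 1 by omega]
          by_cases hi : i < r
          · exact (hh i x hx).2 hi
          · have h1 := (hh i x hx).1
            rw [hbot (i + d) (by omega), Subgroup.mem_bot] at h1
            rw [h1]; exact one_mem _
      have hlt : (j - d) * (j + 1) + (j - (r + 1)) < n := by omega
      by_cases hh' : h ∈ layer Fl d (r + 1)
      · exact ih _ hlt d (r + 1) hd rfl h hhH hh'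
      obtain ⟨s, hsX, hsm, hsn⟩ := hposX d r ⟨hd, by omega, h, hhH, hh, hh'⟩
      obtain ⟨c, hc⟩ := hstep s h d r hsm hsn hh
      have h1 := ih _ hlt d (r + 1) hd rfl _ (mul_mem hhH (inv_mem (pow_mem (hXH hsX) c))) hc
      have h3 := mul_mem h1 (pow_mem hsX c)
      rwa [inv_mul_cancel_right] at h3
  refine le_antisymm hXH fun h hh => hall _ 1 0 le_rfl rfl h hh
    fun i x hx => ⟨hcent i h x hx, fun hi => absurd hi (Nat.not_lt_zero i)⟩

end Cfsg.Agent.FGS2.RankBound
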