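import Cfsg.Agent.Chars.Linear
import Cfsg.Agent.Chars.Eigen
import Cfsg.Agent.FGS3.PGroupFrattini
import Mathlib.Tactic

/-! Real classes and real characters. -/

set_option autoImplicit false

namespace Cfsg.Agent.FGS2

open Cfsg.Agent Subgroup
open scoped ComplexConjugate

universe u

variable {G : Type u} [Group G] [Finite G]

/-- The number of classes equal to their inverses is the number of real irreducible characters. -/
theorem card_real_classes :
    Nat.card {c : ConjClasses G // ∃ y : G, ConjClasses.mk y = c ∧ IsConj y y⁻¹} =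
      Nat.card {χ : IrrCharacter G // ∀ g, conj ((χ : G → ℂ) g) = (χ : G → ℂ) g} := by
  classical
  have := Fintype.ofFinite G
  have : Fintype (ConjClasses G) := Fintype.ofFinite _
  have h1 : ∀ χ : IrrCharacter G, ∑ g : G, (χ : G → ℂ) g * (χ : G → ℂ) g =
      if ∀ g, conj ((χ : G → ℂ) g) = (χ : G → ℂ) g then (Nat.card G : ℂ) else 0 := by
    intro χ
    have h := Chars.classInner_irr χ.2 (Chars.isIrrCharacter_star χ.2)
    rw [Chars.classInner_def] at h
    simp only [Complex.conj_conj] at h
    have hiff : ((χ : G → ℂ) = fun g => conj ((χ : G → ℂ) g)) ↔ ∀ g, conj ((χ : G → ℂ) g) = (χ : G → ℂ) g :=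
      ⟨fun e g => (congrFun e g).symm, fun e => funext fun g => (e g).symm⟩
    rw [if_congr hiff rfl rfl] at h
    split_ifs at h ⊢ with hr
    · rw [inv_mul_eq_one₀ Chars.card_ne_zero] at h
      exact h.symm
    · exact (mul_eq_zero.1 h).resolve_left (inv_ne_zero Chars.card_ne_zero)
  have h2 : ∀ g : G, ∑ χ : IrrCharacter G, (χ : G → ℂ) g * (χ : G → ℂ) g =
      if IsConj g g⁻¹ then (Nat.card (centralizer ({g} : Set G)) : ℂ) else 0 := by
    intro g
    refine Eq.trans ?_ ((Chars.column_orth g g⁻¹).trans (by by_cases hh : IsConj g g⁻¹ <;> simp [hh]))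
    refine Finset.sum_congr rfl fun χ _ => ?_
    rw [Chars.char_inv_eq_conj (Chars.irr_isCharacter χ), Complex.conj_conj]
  have h3 := Finset.sum_comm (s := (Finset.univ : Finset G)) (t := (Finset.univ : Finset (IrrCharacter G)))
    (f := fun g χ => (χ : G → ℂ) g * (χ : G → ℂ) g)
  rw [Finset.sum_congr rfl fun g _ => h2 g, Finset.sum_congr rfl fun χ _ => h1 χ] at h3
  rw [← Finset.sum_fiberwise Finset.univ (fun g : G => ConjClasses.mk g)] at h3
  have hclass : ∀ c : ConjClasses G,
      (∑ g ∈ Finset.univ.filter (fun g => ConjClasses.mk g = c),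
        if IsConj g g⁻¹ then (Nat.card (centralizer ({g} : Set G)) : ℂ) else 0) =
      if ∃ y : G, ConjClasses.mk y = c ∧ IsConj y y⁻¹ then (Nat.card G : ℂ) else 0 := by
    intro c
    split_ifs with hc
    · obtain ⟨y, rfl, hy⟩ := hc
      have hconst : ∀ g ∈ Finset.univ.filter (fun g => ConjClasses.mk g = ConjClasses.mk y),
          (if IsConj g g⁻¹ then (Nat.card (centralizer ({g} : Set G)) : ℂ) else 0) =
            (Nat.card (centralizer ({y} : Set G)) : ℂ) := by
        intro g hg
        obtain ⟨u, rfl⟩ := isConj_iff.1 (ConjClasses.mk_eq_mk_iff_isConj.1 (Finset.mem_filter.1 hg).2).symm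
        have hreal : IsConj (u * y * u⁻¹) (u * y * u⁻¹)⁻¹ := by
          have h1 : IsConj (u * y * u⁻¹) y := (isConj_iff.2 ⟨u, rfl⟩ : IsConj y (u * y * u⁻¹)).symm
          have h2 : IsConj y⁻¹ (u * y * u⁻¹)⁻¹ := isConj_iff.2 ⟨u, by group⟩
          exact (h1.trans hy).trans h2
        rw [if_pos hreal]
        congr 1
        refine Nat.card_congr ((MulAut.conj u).toEquiv.subtypeEquiv fun v => ?_).symm
        simp only [mem_centralizer_singleton_iff, MulEquiv.toEquiv_eq_coe, EquivLike.coe_coe, MulAut.conj_apply]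
        constructor
        · intro h
          calc u * v * u⁻¹ * (u * y * u⁻¹) = u * (v * y) * u⁻¹ := by group
            _ = u * (y * v) * u⁻¹ := by rw [h]
            _ = _ := by group
        · intro h
          calc v * y = u⁻¹ * (u * v * u⁻¹ * (u * y * u⁻¹)) * u := by group
            _ = u⁻¹ * (u * y * u⁻¹ * (u * v * u⁻¹)) * u := by rw [h]
            _ = _ := by group
      rw [Finset.sum_congr rfl hconst, Finset.sum_const, nsmul_eq_mul]
      have hcard : (Finset.univ.filter (fun g => ConjClasses.mk g = ConjClasses.mk y)).card =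
          (centralizer ({y} : Set G)).index := by
        rw [← Chars.card_filter_isConj]
        congr 1
        ext g
        simp only [Finset.mem_filter, Finset.mem_univ, true_and, ConjClasses.mk_eq_mk_iff_isConj]
        exact ⟨IsConj.symm, IsConj.symm⟩
      rw [hcard, ← Nat.cast_mul, Subgroup.index_mul_card]
    · refine Finset.sum_eq_zero fun g hg => if_neg fun hr => hc ⟨g, (Finset.mem_filter.1 hg).2, hr⟩
  rw [Finset.sum_congr rfl fun c _ => hclass c, ← Finset.sum_filter, ← Finset.sum_filter,
    Finset.sum_const, Finset.sum_const, nsmul_eq_mul, nsmul_eq_mul] at h3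
  have h4 := mul_right_cancel₀ Chars.card_ne_zero h3
  rw [Nat.card_eq_fintype_card, Nat.card_eq_fintype_card, Fintype.card_subtype, Fintype.card_subtype]
  exact_mod_cast h4

theorem card_frattini_le_real (hG : IsPGroup 2 G) :
    Nat.card (G ⧸ frattini G) ≤ Nat.card {χ : IrrCharacter G // ∀ g, conj ((χ : G → ℂ) g) = (χ : G → ℂ) g} := by
  have : Fact (Nat.Prime 2) := ⟨Nat.prime_two⟩
  classical
  let _ : CommGroup (G ⧸ frattini G) := { mul_comm := FGS3.quotient_frattini_comm hG }
  rw [← CommGroup.card_monoidHom_of_hasEnoughRootsOfUnity (G ⧸ frattini G) ℂ]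
  let f : ((G ⧸ frattini G) →* ℂˣ) → {χ : IrrCharacter G // ∀ g, conj ((χ : G → ℂ) g) = (χ : G → ℂ) g} :=
    fun φ => ⟨⟨fun g => ((φ.comp (QuotientGroup.mk' (frattini G))) g : ℂ), Chars.isIrrCharacter_hom _⟩, fun g => by
      have h2 : ((φ (g : G ⧸ frattini G) : ℂˣ) : ℂ) ^ 2 = 1 := by
        rw [← Units.val_pow_eq_pow_val, ← map_pow, FGS3.quotient_frattini_pow hG, map_one, Units.val_one]
      rcases sq_eq_one_iff.1 h2 with h | h <;> simp [h]⟩
  refine Nat.card_le_card_of_injective f fun φ ψ h => ?_
  refine MonoidHom.ext fun q => ?_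
  obtain ⟨g, rfl⟩ := QuotientGroup.mk_surjective q
  exact Units.ext (congrFun (congrArg Subtype.val (congrArg Subtype.val h)) g)

theorem frattini_involution_classes (hG : IsPGroup 2 G)
    (hirr : ∀ y : G, normalizer ((zpowers y : Subgroup G) : Set G) ≤ centralizer {y}) :
    Nat.card (G ⧸ frattini G) ≤ Nat.card {c : ConjClasses G // ∃ y : G, ConjClasses.mk y = c ∧ orderOf y = 2} + 1 ∧
    Nat.card (G ⧸ frattini G) ≤ Nat.card (closure {y : G | orderOf y = 2}) := by
  classical
  have : Fact (Nat.Prime 2) := ⟨Nat.prime_two⟩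
  have hreal : ∀ y : G, IsConj y y⁻¹ → y = 1 ∨ orderOf y = 2 := by
    intro y hy
    obtain ⟨g, hg⟩ := isConj_iff.1 hy
    have hgN : g ∈ normalizer ((zpowers y : Subgroup G) : Set G) := by
      have key : ∀ i : ℤ, g * y ^ i * g⁻¹ = y ^ (-i) := fun i => by rw [← conj_zpow, hg, inv_zpow, zpow_neg]
      rw [mem_normalizer_iff]
      intro z
      constructor
      · intro hz
        obtain ⟨i, rfl⟩ := mem_zpowers_iff.1 hz
        rw [key]; exact zpow_mem_zpowers y _
      · intro hz
        obtain ⟨i, hi⟩ := mem_zpowers_iff.1 hz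
        have hz' : z = y ^ (-i) := by
          have h := key (-i)
          rw [neg_neg, hi] at h
          exact (mul_left_cancel (mul_right_cancel h)).symm
        rw [hz']; exact zpow_mem_zpowers y _
    rw [mem_centralizer_singleton_iff.1 (hirr y hgN), mul_inv_cancel_right] at hg
    rcases eq_or_ne y 1 with h | h
    · exact Or.inl h
    · exact Or.inr (orderOf_eq_prime (by rw [pow_two]; exact mul_eq_one_iff_eq_inv.2 hg) h)
  let s := {c : ConjClasses G // ∃ y : G, ConjClasses.mk y = c ∧ orderOf y = 2}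
  have h1 : Nat.card {c : ConjClasses G // ∃ y : G, ConjClasses.mk y = c ∧ IsConj y y⁻¹} ≤ Nat.card s + 1 := by
    refine le_trans (Nat.card_le_card_of_injective
      (fun c => if h : ∃ y : G, ConjClasses.mk y = c.1 ∧ orderOf y = 2 then some (⟨c.1, h⟩ : s) else none) ?_)
      (le_of_eq Finite.card_option)
    rintro ⟨c, hc⟩ ⟨d, hd⟩ hcd
    have hnone : ∀ c : ConjClasses G, (∃ y : G, ConjClasses.mk y = c ∧ IsConj y y⁻¹) →
        (¬ ∃ y : G, ConjClasses.mk y = c ∧ orderOf y = 2) → c = ConjClasses.mk 1 := by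
      rintro c ⟨y, rfl, hy⟩ hn
      rcases hreal y hy with rfl | h
      · rfl
      · exact absurd ⟨y, rfl, h⟩ hn
    simp only at hcd
    split_ifs at hcd with hc2 hd2 hd2
    · exact Subtype.ext (congrArg (fun t : s => t.1) (Option.some.inj hcd))
    · exact Subtype.ext ((hnone c hc hc2).trans (hnone d hd hd2).symm)
  have hmain := (card_frattini_le_real hG).trans (card_real_classes (G := G) ▸ h1)
  refine ⟨hmain, hmain.trans ?_⟩
  refine le_trans (le_of_eq (Finite.card_option (α := s)).symm) ?_
  refine Nat.card_le_card_of_injective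
    (fun o => o.elim (1 : closure {y : G | orderOf y = 2})
      fun c => ⟨c.2.choose, subset_closure c.2.choose_spec.2⟩) ?_
  rintro (_ | c) (_ | d) h
  · rfl
  · have h' := congrArg Subtype.val h
    have h2 := d.2.choose_spec.2
    simp only [Option.elim] at h'
    rw [← h'] at h2
    simp at h2
  · have h' := congrArg Subtype.val h
    have h2 := c.2.choose_spec.2
    simp only [Option.elim] at h'
    rw [h'] at h2
    simp at h2
  · have h' := congrArg Subtype.val h
    simp only [Option.elim] at h'
    exact congrArg some (Subtype.ext (c.2.choose_spec.1.symm.trans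
      ((congrArg ConjClasses.mk h').trans d.2.choose_spec.1)))

end Cfsg.Agent.FGS2
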