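import Cfsg.Agent.FGS2.Basic
import Cfsg.Agent.Coprime.Conjugacy
import Mathlib.GroupTheory.Sylow

/-! Solvable groups in which `p`-subgroups of the same order are conjugate. -/

set_option autoImplicit false
set_option linter.style.haveILetI false
set_option linter.unusedSectionVars false

namespace Cfsg.Agent.FGS2.SameOrderConj

open Subgroup

universe u

/-- Two subgroups are conjugate. -/
def Conj {G : Type*} [Group G] (H K : Subgroup G) : Prop :=
  ∃ g : G, K = H.map (MulAut.conj g).toMonoidHom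

variable {G : Type u} [Group G] [Finite G]

theorem map_conj_comp (H : Subgroup G) (g h : G) :
    (H.map (MulAut.conj g).toMonoidHom).map (MulAut.conj h).toMonoidHom =
      H.map (MulAut.conj (h * g)).toMonoidHom := by
  rw [map_map]
  congr 1
  ext x
  simp [mul_assoc]

theorem map_conj_card (H : Subgroup G) (g : G) :
    Nat.card (H.map (MulAut.conj g).toMonoidHom : Subgroup G) = Nat.card H :=
  card_map_of_injective (MulAut.conj g).injective

theorem map_conj_normal (V : Subgroup G) [hV : V.Normal] (g : G) :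
    V.map (MulAut.conj g).toMonoidHom = V := by
  refine eq_of_le_of_card_ge ?_ (map_conj_card V g).ge
  rintro _ ⟨v, hv, rfl⟩
  exact hV.conj_mem v hv g

theorem exists_minimal_normal [Group.IsSolvable G] [Nontrivial G] :
    ∃ (p : ℕ) (V : Subgroup G), p.Prime ∧ V.Normal ∧ V ≠ ⊥ ∧ IsPGroup p V ∧
      ∀ W : Subgroup G, W.Normal → W ≤ V → W ≠ ⊥ → W = V := by
  obtain ⟨V, hV, hVmin⟩ := (Set.toFinite {V : Subgroup G | V.Normal ∧ V ≠ ⊥}).exists_minimal
    ⟨⊤, inferInstance, top_ne_bot⟩
  obtain ⟨hVn, hVb⟩ := hV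
  haveI := hVn
  have hmin : ∀ W : Subgroup G, W.Normal → W ≤ V → W ≠ ⊥ → W = V := fun W hW hWV hWb =>
    le_antisymm hWV (hVmin ⟨hW, hWb⟩ hWV)
  obtain ⟨q, hq, hqd⟩ := Nat.exists_prime_and_dvd ((one_lt_card_iff_ne_bot V).2 hVb).ne'
  haveI : Fact q.Prime := ⟨hq⟩
  have hVab : IsMulCommutative V := by
    have h1 : ⁅V, V⁆ = ⊥ := by
      by_contra hb
      exact (Group.IsSolvable.commutator_lt_of_ne_bot hVb).ne (hmin _ inferInstance (commutator_le_self V) hb)
    exact ⟨⟨fun a b => Subtype.ext ((mem_centralizer_iff.1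
      (commutator_eq_bot_iff_le_centralizer.1 h1 a.2) b b.2).symm)⟩⟩
  let Q : Sylow q V := default
  haveI : (Q : Subgroup V).Normal := normal_of_comm _
  haveI : (Q : Subgroup V).Characteristic := Q.characteristic_of_normal inferInstance
  have hQb : (Q : Subgroup V).map V.subtype ≠ ⊥ := by
    rw [Ne, map_eq_bot_iff_of_injective _ V.subtype_injective]
    exact Q.ne_bot_of_dvd_card hqd
  have hQV := hmin _ ConjAct.normal_of_characteristic_of_normal (map_subtype_le _) hQb
  exact ⟨q, V, hq, hVn, hVb, hQV ▸ Q.isPGroup'.map _, hmin⟩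

/-- A `p`-subgroup of a quotient is the image of a `p`-subgroup. -/
theorem exists_lift (V : Subgroup G) [V.Normal] {p : ℕ} [Fact p.Prime] {A : Subgroup (G ⧸ V)}
    (hA : IsPGroup p A) : ∃ T : Subgroup G, IsPGroup p T ∧ T.map (QuotientGroup.mk' V) = A ∧
      Nat.card T = p ^ (Nat.card (A.comap (QuotientGroup.mk' V))).factorization p := by
  set π := QuotientGroup.mk' V
  set A' := A.comap π
  let π' : A' →* A :=
    { toFun := fun x => ⟨π x, x.2⟩
      map_one' := Subtype.ext (map_one π)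
      map_mul' := fun x y => Subtype.ext (map_mul π _ _) }
  have hπ' : Function.Surjective π' := by
    rintro ⟨a, ha⟩
    obtain ⟨g, rfl⟩ := QuotientGroup.mk'_surjective V a
    exact ⟨⟨g, ha⟩, rfl⟩
  let T : Sylow p A' := default
  have hT : (T.mapSurjective hπ' : Subgroup A) = ⊤ :=
    ((T.mapSurjective hπ').is_maximal' (hA.to_subgroup ⊤ |>.of_equiv (MulEquiv.refl _)) le_top).symm
  rw [Sylow.coe_mapSurjective] at hT
  refine ⟨(T : Subgroup A').map A'.subtype, T.isPGroup'.map _, le_antisymm ?_ ?_, ?_⟩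
  · rintro _ ⟨_, ⟨x, -, rfl⟩, rfl⟩
    exact x.2
  · intro a ha
    obtain ⟨x, hx, hxa⟩ := hT.ge (mem_top ⟨a, ha⟩)
    exact ⟨_, ⟨x, hx, rfl⟩, congrArg Subtype.val hxa⟩
  · rw [card_map_of_injective A'.subtype_injective, T.card_eq_multiplicity]

theorem conj_of_quotient (V : Subgroup G) [V.Normal] {H K : Subgroup G} (hH : V ≤ H) (hK : V ≤ K)
    (h : Conj (H.map (QuotientGroup.mk' V)) (K.map (QuotientGroup.mk' V))) : Conj H K := by
  obtain ⟨gq, hg⟩ := h
  obtain ⟨g, rfl⟩ := QuotientGroup.mk'_surjective V gq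
  refine ⟨g, ?_⟩
  have hker : ∀ L : Subgroup G, V ≤ L → (L.map (QuotientGroup.mk' V)).comap (QuotientGroup.mk' V) = L :=
    fun L hL => comap_map_eq_self (by rwa [QuotientGroup.ker_mk'])
  have h1 : K.map (QuotientGroup.mk' V) =
      (H.map (MulAut.conj g).toMonoidHom).map (QuotientGroup.mk' V) := by
    rw [hg, map_map, map_map]
    congr 1
  have hV : V ≤ H.map (MulAut.conj g).toMonoidHom := by
    intro v hv
    refine ⟨g⁻¹ * v * g, hH (by simpa using (inferInstance : V.Normal).conj_mem v hv g⁻¹), ?_⟩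
    show g * (g⁻¹ * v * g) * g⁻¹ = v
    group
  rw [← hker K hK, h1, hker _ hV]

/-- Subgroups of order prime to the order of a normal `V` whose images are conjugate are conjugate. -/
theorem conj_of_coprime [Group.IsSolvable G] (V : Subgroup G) [hV : V.Normal] {H K : Subgroup G}
    (hcard : Nat.card H = Nat.card K) (hcop : (Nat.card H).Coprime (Nat.card V))
    (h : Conj (H.map (QuotientGroup.mk' V)) (K.map (QuotientGroup.mk' V))) : Conj H K := by
  obtain ⟨gq, hg⟩ := h
  obtain ⟨g, rfl⟩ := QuotientGroup.mk'_surjective V gq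
  set H₁ := H.map (MulAut.conj g).toMonoidHom
  have hle : K ≤ V ⊔ H₁ := by
    intro k hk
    have h1 : QuotientGroup.mk' V k ∈ K.map (QuotientGroup.mk' V) := mem_map_of_mem _ hk
    rw [hg] at h1
    obtain ⟨_, ⟨x, hx, rfl⟩, hxk⟩ := h1
    have h2 : QuotientGroup.mk' V (g * x * g⁻¹) = QuotientGroup.mk' V k := by
      rw [← hxk, map_mul, map_mul, map_inv]
      rfl
    have h3 : (g * x * g⁻¹)⁻¹ * k ∈ V := QuotientGroup.eq.1 h2
    rw [show k = g * x * g⁻¹ * ((g * x * g⁻¹)⁻¹ * k) by group]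
    exact mul_mem (mem_sup_right ⟨x, hx, rfl⟩) (mem_sup_left h3)
  have hc : Nat.card H₁ = Nat.card H := map_conj_card H g
  obtain ⟨x, -, hx⟩ := Coprime.exists_conj_complement V _ H₁ K rfl inferInstance
    (normalizer_eq_top_iff.2 hV ▸ le_top) hle (by rw [hc, hcard]) (by rw [hc]; exact hcop)
  exact ⟨x * g, by rw [hx, map_conj_comp]⟩

theorem subgroup_eq_of_cyclic {p : ℕ} (hcyc : ∀ Q : Subgroup G, IsPGroup p Q → IsCyclic Q)
    {A B : Subgroup G} [A.Normal] (hA : IsPGroup p A) (hB : IsPGroup p B)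
    (hcard : Nat.card A = Nat.card B) : A = B := by
  haveI := hcyc _ (hA.to_sup_of_normal_left hB)
  have h := FGS2.subgroup_eq_of_card_eq (G := ↥(A ⊔ B)) (H := A.subgroupOf (A ⊔ B))
    (K := B.subgroupOf (A ⊔ B)) (by
      rw [Nat.card_congr (subgroupOfEquivOfLe le_sup_left).toEquiv,
        Nat.card_congr (subgroupOfEquivOfLe le_sup_right).toEquiv, hcard])
  rw [subgroupOf_inj, inf_eq_left.2 le_sup_left, inf_eq_left.2 le_sup_right] at h
  exact h

theorem card_eq_prime {p : ℕ} [Fact p.Prime] (hcyc : ∀ Q : Subgroup G, IsPGroup p Q → IsCyclic Q)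
    {V : Subgroup G} [V.Normal] (hV : IsPGroup p V) (hVb : V ≠ ⊥)
    (hmin : ∀ W : Subgroup G, W.Normal → W ≤ V → W ≠ ⊥ → W = V) : Nat.card V = p := by
  haveI : Nontrivial V := (nontrivial_iff_ne_bot V).2 hVb
  obtain ⟨k, hk, hkc⟩ := hV.nontrivial_iff_card.1 inferInstance
  obtain ⟨W, hW⟩ := Sylow.exists_subgroup_card_pow_prime p (G := V) (n := 1)
    (by rw [hkc]; exact pow_dvd_pow p hk)
  haveI := hcyc V hV
  have hWc : W.Characteristic := by
    refine characteristic_iff_map_eq.2 fun φ => FGS2.subgroup_eq_of_card_eq ?_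
    exact card_map_of_injective φ.injective
  have hWb : W.map V.subtype ≠ ⊥ := by
    rw [Ne, map_eq_bot_iff_of_injective _ V.subtype_injective]
    intro e
    rw [e, card_bot, pow_one] at hW
    exact (Fact.out : p.Prime).ne_one hW.symm
  have := hmin _ ConjAct.normal_of_characteristic_of_normal (map_subtype_le _) hWb
  rw [← this, card_map_of_injective V.subtype_injective, hW, pow_one]

theorem cyclic_quotient (V : Subgroup G) [V.Normal] {p : ℕ} [Fact p.Prime]
    (hcyc : ∀ Q : Subgroup G, IsPGroup p Q → IsCyclic Q) (A : Subgroup (G ⧸ V)) (hA : IsPGroup p A) :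
    IsCyclic A := by
  obtain ⟨T, hT, hTA, -⟩ := exists_lift V hA
  haveI := hcyc T hT
  subst hTA
  exact isCyclic_of_surjective ((QuotientGroup.mk' V).subgroupMap T)
    ((QuotientGroup.mk' V).subgroupMap_surjective T)

theorem card_map_mk' (V : Subgroup G) [V.Normal] (H : Subgroup G) :
    Nat.card (H.map (QuotientGroup.mk' V)) * Nat.card (H ⊓ V : Subgroup G) = Nat.card H := by
  let f := (QuotientGroup.mk' V).subgroupMap H
  have h1 := f.ker.index_mul_card
  rw [Subgroup.index_ker, MonoidHom.range_eq_top.2 ((QuotientGroup.mk' V).subgroupMap_surjective H),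
    Subgroup.card_top] at h1
  have h2 : f.ker.map H.subtype = H ⊓ V := by
    ext x
    constructor
    · rintro ⟨y, hy, rfl⟩
      exact mem_inf.2 ⟨y.2, (QuotientGroup.eq_one_iff (y : G)).1 (congrArg Subtype.val hy)⟩
    · intro hx
      exact ⟨⟨x, (mem_inf.1 hx).1⟩, Subtype.ext ((QuotientGroup.eq_one_iff x).2 (mem_inf.1 hx).2), rfl⟩
  rw [← h2, card_map_of_injective H.subtype_injective]
  exact h1

theorem conj_of_cyclic : ∀ (n : ℕ) {G : Type u} [Group G] [Finite G] [Group.IsSolvable G],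
    Nat.card G = n → ∀ H K : Subgroup G, Nat.card H = Nat.card K →
      (∀ q : ℕ, q.Prime → q ∣ Nat.card H → ∀ Q : Subgroup G, IsPGroup q Q → IsCyclic Q) → Conj H K := by
  intro n
  induction n using Nat.strong_induction_on with
  | _ n ih =>
  intro G _ _ _ hn H K hcard hcyc
  rcases subsingleton_or_nontrivial G with hG | hG
  · exact ⟨1, Subsingleton.elim _ _⟩
  obtain ⟨p, V, hp, hVn, hVb, hVp, hmin⟩ := exists_minimal_normal (G := G)
  haveI := hVn
  haveI : Fact p.Prime := ⟨hp⟩
  have hlt : Nat.card (G ⧸ V) < n := by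
    rw [← hn, ← V.card_mul_index, ← index_eq_card]
    exact lt_mul_of_one_lt_left (Nat.pos_of_ne_zero index_ne_zero_of_finite) ((one_lt_card_iff_ne_bot V).2 hVb)
  have hstep : Nat.card (H ⊓ V : Subgroup G) = Nat.card (K ⊓ V : Subgroup G) →
      Conj (H.map (QuotientGroup.mk' V)) (K.map (QuotientGroup.mk' V)) := by
    intro he
    refine ih _ hlt rfl _ _ ?_ fun q hq hd => ?_
    · have h1 := card_map_mk' V H
      rw [he, hcard, ← card_map_mk' V K] at h1
      exact Nat.eq_of_mul_eq_mul_right Nat.card_pos h1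
    · haveI := Fact.mk hq
      exact cyclic_quotient V (hcyc q hq (hd.trans (card_map_dvd _ _)))
  by_cases hpd : p ∣ Nat.card H
  · have hV := card_eq_prime (hcyc p hp hpd) hVp hVb hmin
    have hle : ∀ L : Subgroup G, p ∣ Nat.card L → V ≤ L := by
      intro L hL
      obtain ⟨x, hx⟩ := exists_prime_orderOf_dvd_card' p hL
      have h1 : V = zpowers (x : G) := subgroup_eq_of_cyclic (hcyc p hp hpd) hVp
        (IsPGroup.of_card (n := 1) (by rw [Nat.card_zpowers, orderOf_coe, hx, pow_one]))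
        (by rw [Nat.card_zpowers, orderOf_coe, hx, hV])
      rw [h1]
      exact zpowers_le.2 x.2
    have hVH := hle H hpd
    have hVK := hle K (hcard ▸ hpd)
    exact conj_of_quotient V hVH hVK (hstep (by rw [inf_eq_right.2 hVH, inf_eq_right.2 hVK]))
  · obtain ⟨k, hk⟩ := IsPGroup.iff_card.1 hVp
    have hcop : (Nat.card H).Coprime (Nat.card V) := by
      rw [hk]; exact Nat.Coprime.pow_right k ((hp.coprime_iff_not_dvd.2 hpd).symm)
    refine conj_of_coprime V hcard hcop (hstep ?_)
    rw [inf_eq_bot_of_coprime hcop, inf_eq_bot_of_coprime (hcard ▸ hcop)]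

theorem conj_main : ∀ (n : ℕ) {G : Type u} [Group G] [Finite G] [Group.IsSolvable G],
    Nat.card G = n →
      (∀ p : ℕ, p.Prime → ∀ H K : Subgroup G, IsPGroup p H → IsPGroup p K → Nat.card H = Nat.card K → Conj H K) →
      ∀ r : ℕ, (∀ q : ℕ, q.Prime → q ≠ r → ∀ Q : Subgroup G, IsPGroup q Q → IsCyclic Q) →
      ∀ H K : Subgroup G, Nat.card H = Nat.card K → Conj H K := by
  intro n
  induction n using Nat.strong_induction_on with
  | _ n ih =>
  intro G _ _ _ hn hD r hcyc H K hcard
  rcases subsingleton_or_nontrivial G with hG | hG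
  · exact ⟨1, Subsingleton.elim _ _⟩
  obtain ⟨p, V, hp, hVn, hVb, hVp, hmin⟩ := exists_minimal_normal (G := G)
  haveI := hVn
  haveI : Fact p.Prime := ⟨hp⟩
  obtain ⟨kV, hkV⟩ := IsPGroup.iff_card.1 hVp
  have hlt : Nat.card (G ⧸ V) < n := by
    rw [← hn, ← V.card_mul_index, ← index_eq_card]
    exact lt_mul_of_one_lt_left (Nat.pos_of_ne_zero index_ne_zero_of_finite) ((one_lt_card_iff_ne_bot V).2 hVb)
  have hstep : ∀ H K : Subgroup G, Nat.card H = Nat.card K →
      Nat.card (H ⊓ V : Subgroup G) = Nat.card (K ⊓ V : Subgroup G) →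
      Conj (H.map (QuotientGroup.mk' V)) (K.map (QuotientGroup.mk' V)) := by
    intro H K hcard he
    refine ih _ hlt rfl ?_ r ?_ _ _ ?_
    · intro q hq A B hA hB hAB
      haveI := Fact.mk hq
      obtain ⟨S, hS, rfl, hSc⟩ := exists_lift V hA
      obtain ⟨T, hT, rfl, hTc⟩ := exists_lift V hB
      have hidx : ∀ L : Subgroup (G ⧸ V),
          Nat.card (L.comap (QuotientGroup.mk' V)) = Nat.card L * Nat.card V := by
        intro L
        have h1 := card_map_mk' V (L.comap (QuotientGroup.mk' V))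
        rw [map_comap_eq_self_of_surjective (QuotientGroup.mk'_surjective V), inf_eq_right.2
          ((QuotientGroup.ker_mk' V).symm.le.trans (MonoidHom.ker_le_comap _ _))] at h1
        exact h1.symm
      obtain ⟨g, hg⟩ := hD q hq S T hS hT (by rw [hSc, hTc, hidx, hidx, hAB])
      refine ⟨QuotientGroup.mk' V g, ?_⟩
      rw [hg, map_map, map_map]
      congr 1
    · intro q hq hqr A hA
      haveI := Fact.mk hq
      exact cyclic_quotient V (hcyc q hq hqr) A hA
    · have h1 := card_map_mk' V H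
      rw [he, hcard, ← card_map_mk' V K] at h1
      exact Nat.eq_of_mul_eq_mul_right Nat.card_pos h1
  -- `p`-subgroups are comparable with `V`
  have hcomp : ∀ Q : Subgroup G, IsPGroup p Q → Q ≤ V ∨ V ≤ Q := by
    intro Q hQ
    obtain ⟨kQ, hkQ⟩ := IsPGroup.iff_card.1 hQ
    have huniq : ∀ W : Subgroup G, Nat.card W = p ^ kV → W = V := fun W hW => by
      obtain ⟨g, hg⟩ := hD p hp V W hVp (IsPGroup.of_card hW) (by rw [hW, hkV])
      rw [hg, map_conj_normal]
    rcases le_total kV kQ with h | h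
    · obtain ⟨W, hWc⟩ := Sylow.exists_subgroup_card_pow_prime p (G := Q) (n := kV)
        (by rw [hkQ]; exact pow_dvd_pow p h)
      right
      rw [← huniq (W.map Q.subtype) (by rw [card_map_of_injective Q.subtype_injective, hWc])]
      exact map_subtype_le _
    · obtain ⟨W, hWc, hWQ⟩ := Sylow.exists_subgroup_card_pow_prime_le p (G := G) (n := kQ) (m := kV)
        (by rw [← hkV]; exact card_subgroup_dvd_card V) Q hkQ h
      left
      exact hWQ.trans (huniq W hWc).le
  -- a Sylow subgroup of a subgroup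
  have hsyl : ∀ L : Subgroup G, ∃ Q : Subgroup G, IsPGroup p Q ∧ Q ≤ L ∧ L ⊓ V ≤ Q ∧
      Nat.card Q = p ^ (Nat.card L).factorization p := by
    intro L
    let S : Sylow p L := default
    refine ⟨(S : Subgroup L).map L.subtype, S.isPGroup'.map _, map_subtype_le _, ?_, ?_⟩
    · intro x hx
      haveI : (V.subgroupOf L).Normal := inferInstance
      obtain ⟨T, hT⟩ := (hVp.comap_subtype (K := L)).exists_le_sylow
      obtain ⟨g, hg⟩ := MulAction.exists_smul_eq L T S
      refine ⟨⟨x, (mem_inf.1 hx).1⟩, ?_, rfl⟩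
      rw [← hg]
      show (⟨x, (mem_inf.1 hx).1⟩ : L) ∈ ((g • T : Sylow p L) : Subgroup L)
      rw [Sylow.coe_subgroup_smul, mem_pointwise_smul_iff_inv_smul_mem, ← map_inv]
      refine hT ((inferInstance : (V.subgroupOf L).Normal).conj_mem ⟨x, (mem_inf.1 hx).1⟩ ?_ g⁻¹)
      exact mem_subgroupOf.2 (mem_inf.1 hx).2
    · rw [card_map_of_injective L.subtype_injective, S.card_eq_multiplicity]
  obtain ⟨QH, hQH, hQHle, hQHV, hQHc⟩ := hsyl H
  obtain ⟨QK, hQK, hQKle, hQKV, hQKc⟩ := hsyl K
  have hcQ : Nat.card QH = Nat.card QK := by rw [hQHc, hQKc, hcard]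
  by_cases hVH : V ≤ QH
  · have hVK : V ≤ QK := by
      rcases hcomp QK hQK with h | h
      · exact (eq_of_le_of_card_ge h (hcQ ▸ card_le_of_le hVH)).ge
      · exact h
    exact conj_of_quotient V (hVH.trans hQHle) (hVK.trans hQKle) (hstep H K hcard (by
      rw [inf_eq_right.2 (hVH.trans hQHle), inf_eq_right.2 (hVK.trans hQKle)]))
  have hQHV' : QH ≤ V := (hcomp QH hQH).resolve_right hVH
  have hHV : H ⊓ V = QH := le_antisymm hQHV (le_inf hQHle hQHV')
  have hQKV' : QK ≤ V := by
    rcases hcomp QK hQK with h | h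
    · exact h
    · exact absurd ((eq_of_le_of_card_ge hQHV' (hcQ ▸ card_le_of_le h)).ge) hVH
  have hKV : K ⊓ V = QK := le_antisymm hQKV (le_inf hQKle hQKV')
  by_cases hpd : p ∣ Nat.card H
  swap
  · have hcop : (Nat.card H).Coprime (Nat.card V) := by
      rw [hkV]; exact Nat.Coprime.pow_right kV ((hp.coprime_iff_not_dvd.2 hpd).symm)
    exact conj_of_coprime V hcard hcop (hstep H K hcard (by rw [hHV, hKV, hcQ]))
  -- now `1 < QH < V`
  have hQb : QH ≠ ⊥ := by
    intro e
    rw [e, card_bot] at hQHc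
    have h1 := (hp.factorization_pos_of_dvd Nat.card_pos.ne' hpd)
    have h2 := Nat.one_lt_pow h1.ne' hp.one_lt
    omega
  have hpr : p = r := by
    by_contra hne
    have hV := card_eq_prime (hcyc p hp hne) hVp hVb hmin
    refine hVH (eq_of_le_of_card_ge hQHV' ?_).ge
    rw [hV, hQHc]
    exact Nat.le_self_pow (hp.factorization_pos_of_dvd Nat.card_pos.ne' hpd).ne' p
  subst hpr
  obtain ⟨g, hg⟩ := hD p hp QK QH hQK hQH hcQ.symm
  set K' := K.map (MulAut.conj g).toMonoidHom
  have hnormQ : ∀ (L Q : Subgroup G), L ⊓ V = Q → L ≤ normalizer (Q : Set G) := by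
    intro L Q hLQ x hx
    rw [mem_normalizer_iff]
    intro v
    rw [← hLQ]
    constructor
    · exact fun hv => ⟨mul_mem (mul_mem hx (mem_inf.1 hv).1) (L.inv_mem hx), hVn.conj_mem v (mem_inf.1 hv).2 x⟩
    · intro hv
      refine ⟨?_, by simpa [mul_assoc] using hVn.conj_mem _ (mem_inf.1 hv).2 x⁻¹⟩
      have := mul_mem (mul_mem (L.inv_mem hx) (mem_inf.1 hv).1) hx
      simpa [mul_assoc] using this
  set M := normalizer (QH : Set G)
  have hHM : H ≤ M := hnormQ H QH hHV
  have hK'M : K' ≤ M := by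
    refine hnormQ K' QH ?_
    rw [hg, ← hKV, map_inf _ _ _ (MulAut.conj g).injective]
    congr 1
    exact (map_conj_normal V g).symm
  set π := QuotientGroup.mk' (QH.subgroupOf M)
  have hcardimg : ∀ L : Subgroup G, L ≤ M → QH ≤ L →
      Nat.card ((L.subgroupOf M).map π) * Nat.card QH = Nat.card L := by
    intro L hL hQL
    have h1 := card_map_mk' (QH.subgroupOf M) (L.subgroupOf M)
    rw [inf_eq_right.2 (show QH.subgroupOf M ≤ L.subgroupOf M from fun x hx => hQL hx),
      Nat.card_congr (subgroupOfEquivOfLe (show QH ≤ M from le_normalizer)).toEquiv,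
      Nat.card_congr (subgroupOfEquivOfLe hL).toEquiv] at h1
    exact h1
  have hQK' : QH ≤ K' := by rw [hg]; exact map_mono hQKle
  have hHc := hcardimg H hHM hQHle
  have hKc := hcardimg K' hK'M hQK'
  rw [map_conj_card] at hKc
  obtain ⟨m, hm⟩ := conj_of_cyclic _ rfl ((H.subgroupOf M).map π) ((K'.subgroupOf M).map π)
    (Nat.eq_of_mul_eq_mul_right Nat.card_pos (hHc.trans (hcard.trans hKc.symm))) (by
      intro q hq hd A hA
      haveI := Fact.mk hq
      refine cyclic_quotient _ (fun Q hQ => ?_) A hA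
      have hqp : q ≠ p := by
        rintro rfl
        obtain ⟨c, hc⟩ := hd
        have h3 : q ^ ((Nat.card H).factorization q + 1) ∣ Nat.card H :=
          ⟨c, by conv_lhs => rw [← hHc, hQHc, hc]
                 ring⟩
        exact Nat.pow_succ_factorization_not_dvd Nat.card_pos.ne' hq h3
      haveI := hcyc q hq hqp (Q.map M.subtype) (hQ.map _)
      exact isCyclic_of_injective (M.subtype.subgroupMap Q) (fun a b h => by
        have h' := congrArg Subtype.val h
        exact Subtype.ext (M.subtype_injective h')))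
  have hmain := conj_of_quotient (QH.subgroupOf M) (H := H.subgroupOf M) (K := K'.subgroupOf M)
    (fun x hx => hQHle hx) (fun x hx => hQK' hx) ⟨m, hm⟩
  obtain ⟨w, hw⟩ := hmain
  refine ⟨g⁻¹ * (w : G), ?_⟩
  have h1 := congrArg (Subgroup.map M.subtype) hw
  rw [map_subgroupOf_eq_of_le hK'M, map_map] at h1
  have h2 : (H.subgroupOf M).map (M.subtype.comp (MulAut.conj w).toMonoidHom) =
      H.map (MulAut.conj (w : G)).toMonoidHom := by
    conv_rhs => rw [← map_subgroupOf_eq_of_le hHM, map_map]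
    congr 1
  rw [← map_conj_comp H (w : G) g⁻¹, ← h2, ← h1, map_conj_comp, inv_mul_cancel]
  ext x
  simp

theorem main [Group.IsSolvable G]
    (hD : ∀ p : ℕ, p.Prime → ∀ H K : Subgroup G, IsPGroup p H → IsPGroup p K → Nat.card H = Nat.card K →
      ∃ g : G, K = H.map (MulAut.conj g).toMonoidHom)
    (r : ℕ) (hcyc : ∀ p : ℕ, p.Prime → p ≠ r → ∀ P : Sylow p G, IsCyclic P) :
    ∀ H K : Subgroup G, Nat.card H = Nat.card K → ∃ g : G, K = H.map (MulAut.conj g).toMonoidHom := by
  refine conj_main _ rfl hD r fun q hq hqr Q hQ => ?_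
  haveI := Fact.mk hq
  obtain ⟨P, hP⟩ := hQ.exists_le_sylow
  haveI := hcyc q hq hqr P
  exact isCyclic_of_injective (Subgroup.inclusion hP) (Subgroup.inclusion_injective hP)

end Cfsg.Agent.FGS2.SameOrderConj
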