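import Cfsg.Agent.TwoGroups.RadicalAlperin
import Cfsg.Agent.LocalEven.SylowGraph
import Cfsg.Agent.Core.Residual
import Cfsg.Agent.Core.PPrimeP
import Cfsg.Agent.S3058

/-!
The strong Alperin–Goldschmidt theorem: chains through subgroups whose automizer has a disconnected Sylow graph,
with each step taken in `O^p` of the smallest relevant normal subgroup, and one element of `N(P)` at the end.
-/

set_option autoImplicit false
set_option linter.style.haveILetI false

namespace Cfsg.Agent.FGS2.StrongAlperin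

open Subgroup

variable {G : Type*} [Group G] {p : ℕ}

/-- The subgroups through which the chains pass. -/
def Ess (p : ℕ) (P B : Subgroup G) : Prop :=
  B ≤ P ∧
  ¬ p ∣ (P ⊓ normalizer (B : Set G)).relIndex (normalizer (B : Set G)) ∧
  P ⊓ centralizer (B : Set G) ≤ B ∧
  (Cfsg.pPrimePCore p ↥(normalizer (B : Set G))).map (normalizer (B : Set G)).subtype =
    B ⊔ centralizer (B : Set G) ∧
  ¬ Cfsg.IsSylowChainConnected p
      (↥(normalizer (B : Set G)) ⧸ B.subgroupOf (normalizer (B : Set G)))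

/-- A normal subgroup of `N(B)` over `B` of relative order divisible by `p`. -/
def Cand (p : ℕ) (B Y : Subgroup G) : Prop :=
  B ≤ Y ∧ Y ≤ normalizer (B : Set G) ∧ (Y.subgroupOf (normalizer (B : Set G))).Normal ∧ p ∣ B.relIndex Y

/-- The least candidate. -/
def IsX (p : ℕ) (B X : Subgroup G) : Prop :=
  Cand p B X ∧ ∀ Y : Subgroup G, Cand p B Y → X ≤ Y

/-- One step inside the least candidate. -/
def Step (p : ℕ) (P B : Subgroup G) (x : G) : Prop :=
  Ess p P B ∧ ∃ X : Subgroup G, IsX p B X ∧ x ∈ (Cfsg.pResidual p ↥X).map X.subtype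

/-- A step, or an element normalizing `P`. -/
def GStep (p : ℕ) (P B : Subgroup G) (x : G) : Prop :=
  Step p P B x ∨ B = P ∧ x ∈ normalizer (P : Set G)

theorem GStep.inv {P B : Subgroup G} {x : G} (h : GStep p P B x) : GStep p P B x⁻¹ := by
  rcases h with ⟨h1, X, hX, hx⟩ | ⟨h1, h2⟩
  · exact Or.inl ⟨h1, X, hX, inv_mem hx⟩
  · exact Or.inr ⟨h1, inv_mem h2⟩

theorem GStep.mem_normalizer {P B : Subgroup G} {x : G} (h : GStep p P B x) :
    x ∈ normalizer (B : Set G) := by
  rcases h with ⟨-, X, hX, hx⟩ | ⟨rfl, h2⟩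
  · exact hX.1.2.1 (map_subtype_le _ hx)
  · exact h2

/-! ### Chains -/

/-- A chain for the set `A`, conjugation on the right. -/
def Chain (St : Subgroup G → G → Prop) : Set G → List (Subgroup G × G) → Prop
  | _, [] => True
  | A, (D, x) :: l => St D x ∧ A ⊆ D ∧ Chain St ((fun a => x⁻¹ * a * x) '' A) l

variable {St : Subgroup G → G → Prop}

theorem conj_image_comp (A : Set G) (x y : G) :
    (fun a => y⁻¹ * a * y) '' ((fun a => x⁻¹ * a * x) '' A) = (fun a => (x * y)⁻¹ * a * (x * y)) '' A := by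
  rw [Set.image_image]
  exact Set.image_congr' fun a => by group

theorem chain_mono : ∀ {A B : Set G} {l : List (Subgroup G × G)}, A ⊆ B → Chain St B l → Chain St A l
  | _, _, [], _, _ => trivial
  | _, _, (D, x) :: _, hAB, ⟨h1, h2, h3⟩ => ⟨h1, hAB.trans h2, chain_mono (Set.image_mono hAB) h3⟩

theorem chain_append : ∀ {A : Set G} {l₁ l₂ : List (Subgroup G × G)}, Chain St A l₁ →
    Chain St ((fun a => ((l₁.map Prod.snd).prod)⁻¹ * a * (l₁.map Prod.snd).prod) '' A) l₂ →
    Chain St A (l₁ ++ l₂)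
  | A, [], l₂, _, h => by simpa using h
  | A, (D, x) :: l, l₂, ⟨h1, h2, h3⟩, h => by
    refine ⟨h1, h2, chain_append h3 ?_⟩
    rw [conj_image_comp]
    simpa using h

theorem chain_inv (hinv : ∀ D x, St D x → St D x⁻¹ ∧ x ∈ normalizer (D : Set G)) :
    ∀ {A : Set G} {l : List (Subgroup G × G)}, Chain St A l →
    ∃ l', Chain St ((fun a => ((l.map Prod.snd).prod)⁻¹ * a * (l.map Prod.snd).prod) '' A) l' ∧
      (l'.map Prod.snd).prod = ((l.map Prod.snd).prod)⁻¹
  | A, [], _ => ⟨[], trivial, by simp⟩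
  | A, (D, x) :: l, ⟨h1, h2, h3⟩ => by
    obtain ⟨l', hl', hp'⟩ := chain_inv hinv h3
    refine ⟨l' ++ [(D, x⁻¹)], chain_append (by
      rw [conj_image_comp] at hl'
      simpa using hl') ?_, by simp [hp']⟩
    refine ⟨(hinv D x h1).1, ?_, trivial⟩
    rintro _ ⟨_, ⟨a, ha, rfl⟩, rfl⟩
    have h := (Subgroup.mem_normalizer_iff.1 (inv_mem (hinv D x h1).2) a).1 (h2 ha)
    show _ ∈ D
    simpa [hp', mul_assoc] using h

theorem chain_take : ∀ {A : Set G} {l : List (Subgroup G × G)}, Chain St A l →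
    ∀ (j : ℕ) (h : j < l.length), St l[j].1 l[j].2 ∧
      (fun a => (((l.map Prod.snd).take j).prod)⁻¹ * a * ((l.map Prod.snd).take j).prod) '' A ⊆ (l[j].1 : Set G)
  | A, [], _, j, h => by simp at h
  | A, (D, x) :: l, ⟨h1, h2, h3⟩, j, h => by
    cases j with
    | zero => exact ⟨h1, by simpa using h2⟩
    | succ j =>
      obtain ⟨h4, h5⟩ := chain_take h3 j (by simpa using h)
      rw [conj_image_comp] at h5
      exact ⟨by simpa using h4, by simpa using h5⟩

/-! ### The relation -/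

/-- `k` agrees with a chain on `A`. -/
def Rel (p : ℕ) (P A : Subgroup G) (k : G) : Prop :=
  ∃ l, Chain (GStep p P) (A : Set G) l ∧
    ∃ c ∈ centralizer (A : Set G), k⁻¹ = c * (l.map Prod.snd).prod

variable {P : Subgroup G}

theorem rel_mono {A B : Subgroup G} {k : G} (h : A ≤ B) (hR : Rel p P B k) : Rel p P A k := by
  obtain ⟨l, hl, c, hc, e⟩ := hR
  exact ⟨l, chain_mono h hl, c, centralizer_le h hc, e⟩

theorem rel_one (A : Subgroup G) : Rel p P A 1 :=
  ⟨[], trivial, 1, one_mem _, by simp⟩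

theorem rel_single {A D : Subgroup G} {x : G} (h : GStep p P D x) (hAD : A ≤ D) : Rel p P A x⁻¹ :=
  ⟨[(D, x)], ⟨h, hAD, trivial⟩, 1, one_mem _, by simp⟩

theorem image_eq {B : Subgroup G} {k c π : G} (hc : c ∈ centralizer (B : Set G)) (e : k⁻¹ = c * π) :
    ((B.map (MulAut.conj k).toMonoidHom : Subgroup G) : Set G) = (fun a => π⁻¹ * a * π) '' (B : Set G) := by
  rw [coe_map]
  refine Set.image_congr fun a ha => ?_
  show k * a * k⁻¹ = _
  calc k * a * k⁻¹ = (k⁻¹)⁻¹ * a * k⁻¹ := by rw [inv_inv]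
    _ = π⁻¹ * (c⁻¹ * (a * c)) * π := by rw [e]; group
    _ = π⁻¹ * a * π := by rw [mem_centralizer_iff.1 hc a ha, inv_mul_cancel_left]

theorem rel_comp {A : Subgroup G} {g h : G} (h1 : Rel p P A g)
    (h2 : Rel p P (A.map (MulAut.conj g).toMonoidHom) h) : Rel p P A (h * g) := by
  obtain ⟨l, hl, c, hc, e⟩ := h1
  obtain ⟨l', hl', c', hc', e'⟩ := h2
  set π := (l.map Prod.snd).prod with hπ
  rw [image_eq hc e] at hl' hc'
  have hconj : π * c' * π⁻¹ ∈ centralizer (A : Set G) := by
    rw [mem_centralizer_iff]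
    intro a ha
    have h := mem_centralizer_iff.1 hc' _ ⟨a, ha, rfl⟩
    calc a * (π * c' * π⁻¹) = π * (π⁻¹ * a * π * c') * π⁻¹ := by group
      _ = π * (c' * (π⁻¹ * a * π)) * π⁻¹ := by rw [h]
      _ = π * c' * π⁻¹ * a := by group
  refine ⟨l ++ l', chain_append hl hl', c * (π * c' * π⁻¹), mul_mem hc hconj, ?_⟩
  rw [List.map_append, List.prod_append, mul_inv_rev, e, e', ← hπ]
  group

theorem rel_inv {A : Subgroup G} {g : G} (h1 : Rel p P A g) :
    Rel p P (A.map (MulAut.conj g).toMonoidHom) g⁻¹ := by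
  obtain ⟨l, hl, c, hc, e⟩ := h1
  obtain ⟨l', hl', hp'⟩ := chain_inv (fun D x h => ⟨h.inv, h.mem_normalizer⟩) hl
  set π := (l.map Prod.snd).prod with hπ
  refine ⟨l', ?_, π⁻¹ * c⁻¹ * π, ?_, ?_⟩
  · rw [image_eq hc e]; exact hl'
  · rw [image_eq hc e, mem_centralizer_iff]
    rintro _ ⟨a, ha, rfl⟩
    have h := mem_centralizer_iff.1 (inv_mem hc) a ha
    calc π⁻¹ * a * π * (π⁻¹ * c⁻¹ * π) = π⁻¹ * (a * c⁻¹) * π := by group
      _ = π⁻¹ * (c⁻¹ * a) * π := by rw [h]
      _ = π⁻¹ * c⁻¹ * π * (π⁻¹ * a * π) := by group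
  · rw [hp', inv_inv, ← inv_inv g, e]
    group

theorem rel_agree {A : Subgroup G} {g h : G} (hag : ∀ a ∈ A, g * a * g⁻¹ = h * a * h⁻¹)
    (hR : Rel p P A g) : Rel p P A h := by
  obtain ⟨l, hl, c, hc, e⟩ := hR
  refine ⟨l, hl, h⁻¹ * g * c, mul_mem ?_ hc, by rw [mul_assoc, ← e]; group⟩
  rw [mem_centralizer_iff]
  intro a ha
  calc a * (h⁻¹ * g) = h⁻¹ * (h * a * h⁻¹) * g := by group
    _ = h⁻¹ * (g * a * g⁻¹) * g := by rw [hag a ha]
    _ = h⁻¹ * g * a := by group

/-- The elements of `N(B)` agreeing with chains on `B`. -/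
def relStab (p : ℕ) (P B : Subgroup G) : Subgroup G where
  carrier := {k | k ∈ normalizer (B : Set G) ∧ Rel p P B k}
  one_mem' := ⟨one_mem _, rel_one B⟩
  mul_mem' := by
    rintro a b ⟨ha, hRa⟩ ⟨hb, hRb⟩
    refine ⟨mul_mem ha hb, rel_comp hRb ?_⟩
    rwa [Transfer.mem_normalizer_iff_map_conj.mp hb]
  inv_mem' := by
    rintro a ⟨ha, hRa⟩
    refine ⟨inv_mem ha, ?_⟩
    have := rel_inv hRa
    rwa [Transfer.mem_normalizer_iff_map_conj.mp ha] at this

/-! ### The least candidate -/

variable [Finite G] [hp : Fact p.Prime]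

theorem dvd_card_of_not_connected {Q : Type*} [Group Q] [Finite Q]
    (h : ¬ Cfsg.IsSylowChainConnected p Q) : p ∣ Nat.card Q := by
  obtain ⟨H, hH⟩ := LocalEven.exists_spe_of_not_connected h
  exact hH.1

theorem exists_isX {B : Subgroup G}
    (hnc : ¬ Cfsg.IsSylowChainConnected p
      (↥(normalizer (B : Set G)) ⧸ B.subgroupOf (normalizer (B : Set G)))) :
    ∃ X, IsX p B X := by
  classical
  set N := normalizer (B : Set G) with hN
  set π := QuotientGroup.mk' (B.subgroupOf N) with hπ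
  have hker : π.ker = B.subgroupOf N := QuotientGroup.ker_mk' _
  have hcard : ∀ Y : Subgroup G, Y ≤ N → Nat.card ((Y.subgroupOf N).map π) = B.relIndex Y := by
    intro Y hY
    rw [← Subgroup.relIndex_ker, hker, Subgroup.relIndex_subgroupOf hY]
  have hN0 : Cand p B N := by
    refine ⟨le_normalizer, le_rfl, by rw [subgroupOf_self]; infer_instance, ?_⟩
    rw [← hcard N le_rfl, subgroupOf_self, map_top_of_surjective _ (QuotientGroup.mk'_surjective _), card_top]
    exact dvd_card_of_not_connected hnc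
  haveI : Nonempty {Y : Subgroup G // Cand p B Y} := ⟨⟨N, hN0⟩⟩
  obtain ⟨⟨X, hX⟩, hmin⟩ := Finite.exists_min fun Y : {Y : Subgroup G // Cand p B Y} => Nat.card Y.1
  refine ⟨X, hX, fun Y hY => ?_⟩
  suffices h : Cand p B (X ⊓ Y) by
    exact (inf_eq_left.mp (Subgroup.eq_of_le_of_card_ge inf_le_left (hmin ⟨_, h⟩)))
  haveI := hX.2.2.1
  haveI := hY.2.2.1
  refine ⟨le_inf hX.1 hY.1, inf_le_left.trans hX.2.1, ?_, ?_⟩
  · show ((X ⊓ Y).comap N.subtype).Normal
    rw [Subgroup.comap_inf]
    show (X.subgroupOf N ⊓ Y.subgroupOf N).Normal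
    infer_instance
  · rw [← hcard _ (inf_le_left.trans hX.2.1)]
    haveI : ((X.subgroupOf N).map π).Normal := Subgroup.Normal.map inferInstance _ (QuotientGroup.mk'_surjective _)
    haveI : ((Y.subgroupOf N).map π).Normal := Subgroup.Normal.map inferInstance _ (QuotientGroup.mk'_surjective _)
    have h := S3058.result p hnc ((X.subgroupOf N).map π) ((Y.subgroupOf N).map π)
      (by rw [hcard X hX.2.1]; exact hX.2.2.2) (by rw [hcard Y hY.2.1]; exact hY.2.2.2)
    have heq : (X.subgroupOf N).map π ⊓ (Y.subgroupOf N).map π ≤ ((X ⊓ Y).subgroupOf N).map π := by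
      rintro q ⟨⟨a, ha, rfl⟩, ⟨b, hb, e⟩⟩
      refine ⟨a, mem_subgroupOf.2 (mem_inf.2 ⟨ha, ?_⟩), rfl⟩
      have hm : b⁻¹ * a ∈ B.subgroupOf N := QuotientGroup.eq.mp e
      have := Y.mul_mem hb (hY.1 hm)
      simpa using this
    exact h.trans (Subgroup.card_dvd_of_le heq)

/-! ### The base of the induction -/

theorem ess_of_member (S : Sylow p G) {B : Subgroup G} (hm : TwoGroups.AGMember p (S : Subgroup G) B)
    (hc : TwoGroups.CentricIn (S : Subgroup G) B)
    (hnc : ¬ Cfsg.IsSylowChainConnected p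
      (↥(normalizer (B : Set G)) ⧸ B.subgroupOf (normalizer (B : Set G)))) :
    Ess p (S : Subgroup G) B := by
  obtain ⟨hBS, hCE, ⟨h1, h2, h3, -, h5⟩, hidx⟩ := hm
  refine ⟨hBS, hidx, fun s hs => hc.2 s (mem_inf.1 hs).1 (mem_inf.1 hs).2, ?_, hnc⟩
  refine le_antisymm ?_ (sup_le h2 hCE)
  rw [← h5]
  refine sup_le (le_sup_of_le_right fun a ha => ?_) le_sup_left
  exact mem_centralizer_iff.2 fun b hb => (h3 a ha b hb).symm

theorem base (S : Sylow p G) {B : Subgroup G} (hB : Transfer.TameIn S B)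
    (hcent : TwoGroups.CentricIn (S : Subgroup G) B)
    (ih : ∀ (D : Subgroup G) (k : G), D ≤ (S : Subgroup G) →
      D.map (MulAut.conj k).toMonoidHom ≤ (S : Subgroup G) → Nat.card B < Nat.card D →
      Rel p (S : Subgroup G) D k)
    {m : G} (hm : m ∈ normalizer (B : Set G)) : Rel p (S : Subgroup G) B m := by
  classical
  have hfn := Transfer.FullyNormalizedIn.of_tame hB
  have hBS : B ≤ (S : Subgroup G) := hfn.1
  by_cases hBeq : B = (S : Subgroup G)
  · have h := rel_single (p := p) (P := (S : Subgroup G)) (A := B) (D := B) (x := m⁻¹)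
      (Or.inr ⟨hBeq, hBeq ▸ inv_mem hm⟩) le_rfl
    rwa [inv_inv] at h
  rcases TwoGroups.member_or_bigger S hfn hcent with hmem | ⟨D, hBD, hDS, hD⟩
  swap
  · obtain ⟨k, hk, hag⟩ := hD m hm
    refine rel_agree hag (rel_mono hBD.le (ih D k hDS ?_ ?_))
    · rw [Transfer.mem_normalizer_iff_map_conj.mp hk]; exact hDS
    · exact lt_of_le_of_ne (card_le_of_le hBD.le) fun e => hBD.ne (Subgroup.eq_of_le_of_card_ge hBD.le e.ge)
  set N := normalizer (B : Set G) with hN
  set W := relStab p (S : Subgroup G) B with hW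
  suffices hWN : N ≤ W from (hWN hm).2
  have hBN : B ≤ N := le_normalizer
  haveI : (B.subgroupOf N).Normal := normal_in_normalizer
  set π := QuotientGroup.mk' (B.subgroupOf N) with hπ
  let U : Sylow p N :=
    IsPGroup.toSylow (P := ((S : Subgroup G) ⊓ N).subgroupOf N) S.2.to_inf_left.comap_subtype hfn.2
  have hUmem : ∀ u : N, u ∈ (U : Subgroup N) ↔ (u : G) ∈ (S : Subgroup G) :=
    fun u => ⟨fun h => (mem_inf.1 (mem_subgroupOf.1 h)).1, fun h => mem_subgroupOf.2 (mem_inf.2 ⟨h, u.2⟩)⟩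
  obtain ⟨u₀, hu₀S, hu₀N, hu₀B⟩ : ∃ u, u ∈ (S : Subgroup G) ∧ u ∈ N ∧ u ∉ B := by
    by_contra hcon
    push Not at hcon
    exact hBeq (LocalEven.eq_of_normalizer_le S.isPGroup' hBS fun u hu => hcon u (mem_inf.1 hu).1 (mem_inf.1 hu).2)
  -- elements moving something outside `B` within `S`
  have key : ∀ g : N, ∀ u : N, u ∉ B.subgroupOf N → u ∈ (U : Subgroup N) → g⁻¹ * u * g ∈ (U : Subgroup N) →
      (g : G) ∈ W := by
    intro g u huB hu hgu
    set D := (S : Subgroup G) ⊓ (S : Subgroup G).map (MulAut.conj (g : G)).toMonoidHom with hD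
    have hDg : D.map (MulAut.conj (g : G)⁻¹).toMonoidHom ≤ (S : Subgroup G) := by
      refine (map_mono inf_le_right).trans ?_
      rw [Transfer.map_conj_mul, inv_mul_cancel, Transfer.map_conj_one]
    have hBD : B ≤ D := by
      refine le_inf hBS ?_
      calc B = B.map (MulAut.conj (g : G)).toMonoidHom := (Transfer.mem_normalizer_iff_map_conj.mp g.2).symm
        _ ≤ _ := map_mono hBS
    have huD : (u : G) ∈ D := by
      refine mem_inf.2 ⟨(hUmem u).1 hu, Transfer.mem_map_conj.2 ?_⟩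
      simpa using (hUmem _).1 hgu
    have hlt : Nat.card B < Nat.card D := by
      refine lt_of_le_of_ne (card_le_of_le hBD) fun e => huB (mem_subgroupOf.2 ?_)
      rw [Subgroup.eq_of_le_of_card_ge hBD e.ge]; exact huD
    have h1 : (g : G)⁻¹ ∈ W := ⟨inv_mem g.2, rel_mono hBD (ih D _ inf_le_left hDg hlt)⟩
    exact inv_mem_iff.1 h1
  have hSW : (S : Subgroup G) ⊓ N ≤ W := fun s hs => by
    obtain ⟨hsS, hsN⟩ := mem_inf.1 hs
    refine key ⟨s, hsN⟩ ⟨u₀, hu₀N⟩ (fun h => hu₀B h) ((hUmem _).2 hu₀S) ((hUmem _).2 ?_)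
    simpa using mul_mem (mul_mem (inv_mem hsS) hu₀S) hsS
  by_cases hconn : Cfsg.IsSylowChainConnected p (↥N ⧸ B.subgroupOf N)
  · -- walk in the Sylow graph of the automizer
    let Ub : Sylow p (↥N ⧸ B.subgroupOf N) := U.mapSurjective (QuotientGroup.mk'_surjective _)
    have hUb : ∀ u : N, π u ∈ (Ub : Subgroup _) → u ∈ (U : Subgroup N) := by
      intro u hu
      rw [Sylow.coe_mapSurjective] at hu
      obtain ⟨v, hv, e⟩ := hu
      have hm : v⁻¹ * u ∈ B.subgroupOf N := QuotientGroup.eq.mp e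
      have := mul_mem hv ((hUmem _).2 (hBS (mem_subgroupOf.1 hm)))
      rwa [mul_inv_cancel_left] at this
    have hmemsmul : ∀ (q x : ↥N ⧸ B.subgroupOf N), x ∈ ((q • Ub : Sylow p _) : Subgroup _) ↔
        q⁻¹ * x * q ∈ (Ub : Subgroup _) := by
      intro q x
      rw [Sylow.coe_subgroup_smul]
      exact Transfer.mem_map_conj
    have key2 : ∀ (g : N) (x : ↥N ⧸ B.subgroupOf N), x ≠ 1 → x ∈ (Ub : Subgroup _) →
        x ∈ ((π g • Ub : Sylow p _) : Subgroup _) → (g : G) ∈ W := by
      intro g x hx1 hx hgx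
      rw [hmemsmul] at hgx
      obtain ⟨u, hu, rfl⟩ : x ∈ (U : Subgroup N).map π := by rwa [Sylow.coe_mapSurjective] at hx
      refine key g u (fun h => hx1 ((QuotientGroup.eq_one_iff u).2 h)) hu (hUb _ ?_)
      rwa [map_mul, map_mul, map_inv]
    have walk : ∀ T, LocalEven.SylReach Ub T → ∀ g : N, π g • Ub = T → (g : G) ∈ W := by
      intro T hT
      induction hT with
      | refl =>
        intro g hg
        refine key2 g (π ⟨u₀, hu₀N⟩) (fun h => hu₀B ((QuotientGroup.eq_one_iff (⟨u₀, hu₀N⟩ : N)).1 h)) ?_ ?_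
        · rw [Sylow.coe_mapSurjective]; exact ⟨_, (hUmem _).2 hu₀S, rfl⟩
        · rw [hg, Sylow.coe_mapSurjective]; exact ⟨_, (hUmem _).2 hu₀S, rfl⟩
      | @tail T T' _ hadj ih2 =>
        intro g hg
        obtain ⟨q, hq⟩ := MulAction.exists_smul_eq (↥N ⧸ B.subgroupOf N) Ub T
        obtain ⟨h, rfl⟩ := QuotientGroup.mk'_surjective _ q
        have hhW := ih2 h hq
        obtain ⟨x, hx, hx1⟩ := (Subgroup.bot_or_exists_ne_one _).resolve_left hadj.2
        obtain ⟨hxT, hxT'⟩ := mem_inf.1 hx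
        rw [← hq, hmemsmul] at hxT
        rw [← hg, hmemsmul] at hxT'
        have hgW : ((h⁻¹ * g : N) : G) ∈ W := by
          refine key2 (h⁻¹ * g) ((π h)⁻¹ * x * π h) ?_ hxT ?_
          · intro e
            apply hx1
            calc x = π h * ((π h)⁻¹ * x * π h) * (π h)⁻¹ := by group
              _ = 1 := by rw [e]; group
          · rw [hmemsmul]
            convert hxT' using 1
            rw [map_mul, map_inv]
            group
        have := mul_mem hhW hgW
        simpa using this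
    intro g hg
    exact walk _ (LocalEven.isSylowChainConnected_iff.1 hconn Ub _) ⟨g, hg⟩ rfl
  · -- generation by `N(T)` and `O^p(X)`
    have hess := ess_of_member S hmem hcent hconn
    obtain ⟨X, hX⟩ := exists_isX hconn
    obtain ⟨⟨hBX, hXN, hXn, hXd⟩, -⟩ := id hX
    haveI : (X.subgroupOf N).Normal := hXn
    set XN := X.subgroupOf N with hXN'
    let TS := Transfer.sylowOfNormal U XN
    set T := (TS : Subgroup XN).map XN.subtype with hT
    set T' := T.map N.subtype with hT'
    have hTmem : ∀ t : N, t ∈ T ↔ (t : G) ∈ (S : Subgroup G) ∧ (t : G) ∈ X := by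
      intro t
      rw [hT, Transfer.coe_sylowOfNormal, subgroupOf_map_subtype, mem_inf, hUmem]
      rfl
    have hT'S : T' ≤ (S : Subgroup G) := by
      rintro _ ⟨t, ht, rfl⟩; exact ((hTmem t).1 ht).1
    have hBT : B ≤ T' := fun b hb => ⟨⟨b, hBN hb⟩, (hTmem _).2 ⟨hBS hb, hBX hb⟩, rfl⟩
    have hlt : Nat.card B < Nat.card T' := by
      refine lt_of_le_of_ne (card_le_of_le hBT) fun e => ?_
      have hTB : T' = B := (Subgroup.eq_of_le_of_card_ge hBT e.ge).symm
      have hTS : (TS : Subgroup XN) ≤ (B.subgroupOf N).subgroupOf XN := fun t ht => by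
        refine mem_subgroupOf.2 (mem_subgroupOf.2 ?_)
        rw [← hTB]
        exact ⟨_, ⟨t, ht, rfl⟩, rfl⟩
      refine TS.not_dvd_index (dvd_trans ?_ (Subgroup.index_dvd_of_le hTS))
      show p ∣ (B.subgroupOf N).relIndex XN
      rw [hXN', Subgroup.relIndex_subgroupOf hXN]
      exact hXd
    have hres : ∀ x ∈ (Cfsg.pResidual p ↥X).map X.subtype, x ∈ W := by
      intro x hx
      have h := rel_single (p := p) (P := (S : Subgroup G)) (A := B) (D := B) (x := x⁻¹)
        (Or.inl ⟨hess, X, hX, inv_mem hx⟩) le_rfl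
      rw [inv_inv] at h
      exact ⟨hXN (map_subtype_le _ hx), h⟩
    have hnorm : normalizer (T : Set N) ≤ W.subgroupOf N := by
      intro k hk
      refine mem_subgroupOf.2 ⟨k.2, ?_⟩
      refine rel_mono hBT (ih T' k hT'S ?_ hlt)
      have hk' : (k : G) ∈ normalizer (T' : Set G) := le_normalizer_map N.subtype ⟨k, hk, rfl⟩
      rw [Transfer.mem_normalizer_iff_map_conj.mp hk']
      exact hT'S
    have hXW : XN ≤ W.subgroupOf N := by
      intro x hx
      have hmem : (⟨x, hx⟩ : XN) ∈ (TS : Subgroup XN) ⊔ Cfsg.pResidual p XN := by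
        rw [Transfer.sylow_sup_pResidual]; exact mem_top _
      refine (sup_le (c := (W.subgroupOf N).comap XN.subtype) ?_ ?_) hmem
      · intro t ht
        refine mem_subgroupOf.2 (hSW (mem_inf.2 ⟨?_, (t : N).2⟩))
        exact ((hTmem _).1 ⟨t, ht, rfl⟩).1
      · intro r hr
        let f : XN →* X := (Subgroup.subgroupOfEquivOfLe hXN).toMonoidHom
        exact mem_subgroupOf.2 (hres _ ⟨f r, Core.map_pResidual_le f ⟨r, hr, rfl⟩, rfl⟩)
    have htop := Sylow.normalizer_sup_eq_top TS
    intro g hg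
    have hle : normalizer (T : Set N) ⊔ XN ≤ W.subgroupOf N := sup_le hnorm hXW
    exact hle (htop.ge (mem_top (⟨g, hg⟩ : N)))

/-- Every fusion inside `S` agrees with a chain. -/
theorem rel_of_fusion (S : Sylow p G) {A : Subgroup G} (hA : A ≤ (S : Subgroup G)) {g : G}
    (hAg : A.map (MulAut.conj g).toMonoidHom ≤ (S : Subgroup G)) : Rel p (S : Subgroup G) A g := by
  induction hd : Nat.card (S : Subgroup G) - Nat.card A using Nat.strong_induction_on generalizing A g with
  | h d ih =>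
    subst hd
    refine TwoGroups.centric_induction S (fun A' g' => Nat.card A ≤ Nat.card A' → Rel p (S : Subgroup G) A' g')
      ?_ ?_ ?_ ?_ ?_ hA hAg le_rfl
    · exact fun A' B' g' hle hR hc => rel_mono hle (hR (hc.trans (card_le_of_le hle)))
    · exact fun A' g' h' hR hR' hc => rel_comp (hR hc) (hR' (hc.trans_eq (Transfer.card_map_conj _ _).symm))
    · exact fun A' g' hR hc => rel_inv (hR (hc.trans_eq (Transfer.card_map_conj _ _)))
    · exact fun A' g' h' hag hR hc => rel_agree hag (hR hc)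
    · intro B hB hcent m hm hc
      refine base S hB hcent (fun D k hD hDk hlt => ih _ ?_ hD hDk rfl) hm
      have : Nat.card D ≤ Nat.card (S : Subgroup G) := card_le_of_le hD
      omega

/-! ### Transport -/

theorem connected_congr {Q Q' : Type*} [Group Q] [Finite Q] [Group Q'] [Finite Q'] (e : Q ≃* Q')
    (h : Cfsg.IsSylowChainConnected p Q') : Cfsg.IsSylowChainConnected p Q := by
  rw [LocalEven.isSylowChainConnected_iff] at h ⊢
  intro S T
  have hinj : Function.Injective e.symm.toMonoidHom := e.symm.injective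
  have hsur : Function.Surjective e.symm.toMonoidHom := e.symm.surjective
  have hsur0 : Function.Surjective e.toMonoidHom := e.surjective
  have hback : ∀ R : Sylow p Q,
      ((R.mapSurjective hsur0).mapSurjective hsur) = R := by
    intro R
    refine Sylow.ext ?_
    rw [Sylow.coe_mapSurjective, Sylow.coe_mapSurjective, map_map]
    have : e.symm.toMonoidHom.comp e.toMonoidHom = MonoidHom.id Q := by ext x; simp
    rw [this, map_id]
  have : LocalEven.SylReach ((S.mapSurjective hsur0).mapSurjective hsur) ((T.mapSurjective hsur0).mapSurjective hsur) :=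
    (h (S.mapSurjective hsur0) (T.mapSurjective hsur0)).lift
    (fun R : Sylow p Q' => R.mapSurjective hsur) (fun U V huv => by
      refine ⟨fun e' => huv.1 (Sylow.ext (map_injective hinj ?_)), ?_⟩
      · simpa [Sylow.coe_mapSurjective] using congrArg Sylow.toSubgroup e'
      · rw [Sylow.coe_mapSurjective, Sylow.coe_mapSurjective, ← map_inf _ _ _ hinj, Ne,
          map_eq_bot_iff_of_injective _ hinj]
        exact huv.2)
  exact (hback S) ▸ (hback T) ▸ this

omit [Finite G] hp in
theorem normalizer_map (e : G ≃* G) (H : Subgroup G) :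
    normalizer (H.map e.toMonoidHom : Set G) = (normalizer (H : Set G)).map e.toMonoidHom :=
  (Subgroup.map_equiv_normalizer_eq H e).symm

omit [Finite G] hp in
theorem centralizer_map (e : G ≃* G) (H : Subgroup G) :
    centralizer (H.map e.toMonoidHom : Set G) = (centralizer (H : Set G)).map e.toMonoidHom := by
  ext x
  rw [mem_map_equiv, mem_centralizer_iff, mem_centralizer_iff]
  constructor
  · intro h a ha
    apply e.injective
    simpa using h (e a) ⟨a, ha, rfl⟩
  · rintro h _ ⟨a, ha, rfl⟩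
    simpa using congrArg e (h a ha)

theorem ess_map (e : G ≃* G) {P H : Subgroup G} (h : Ess p P H) :
    Ess p (P.map e.toMonoidHom) (H.map e.toMonoidHom) := by
  obtain ⟨h1, h2, h3, h4, h5⟩ := h
  have hN := normalizer_map e H
  set N := normalizer (H : Set G)
  set N' := normalizer (H.map e.toMonoidHom : Set G)
  have hinj : Function.Injective e.toMonoidHom := e.injective
  let e' : N ≃* N' := (e.subgroupMap N).trans (MulEquiv.subgroupCongr hN.symm)
  have hcomp : N'.subtype.comp e'.toMonoidHom = e.toMonoidHom.comp N.subtype := by ext x; rfl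
  refine ⟨map_mono h1, ?_, ?_, ?_, fun hc => h5 ?_⟩
  · show ¬ p ∣ (_ ⊓ N').relIndex N'
    rw [hN, ← map_inf _ _ _ hinj, relIndex_map_map_of_injective _ _ hinj]; exact h2
  · rw [centralizer_map, ← map_inf _ _ _ hinj]; exact map_mono h3
  · rw [centralizer_map, ← Subgroup.map_sup, ← h4, map_map, ← hcomp, ← map_map,
      Core.pPrimePCore_map_equiv e']
  · refine connected_congr (QuotientGroup.congr (H.subgroupOf N) ((H.map e.toMonoidHom).subgroupOf N') e' ?_) hc
    ext x
    constructor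
    · rintro ⟨a, ha, rfl⟩
      exact mem_subgroupOf.2 ⟨(a : G), ha, rfl⟩
    · intro hx
      obtain ⟨a, ha, hax⟩ := mem_subgroupOf.1 hx
      exact ⟨⟨a, le_normalizer ha⟩, ha, Subtype.ext hax⟩

omit [Finite G] hp in
theorem cand_map (e : G ≃* G) {H Y : Subgroup G} (h : Cand p H Y) :
    Cand p (H.map e.toMonoidHom) (Y.map e.toMonoidHom) := by
  obtain ⟨h1, h2, h3, h4⟩ := h
  refine ⟨map_mono h1, (map_mono h2).trans (normalizer_map e H).ge, ⟨?_⟩, ?_⟩
  · intro a ha b
    obtain ⟨a', ha', hae⟩ := mem_subgroupOf.1 ha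
    obtain ⟨b', hb', hbe⟩ := (normalizer_map e H).le b.2
    refine mem_subgroupOf.2 ⟨b' * a' * b'⁻¹, ?_, ?_⟩
    · exact h3.conj_mem ⟨a', h2 ha'⟩ ha' ⟨b', hb'⟩
    · simp only [Subgroup.coe_mul, InvMemClass.coe_inv, ← hae, ← hbe, map_mul, map_inv]
  · rw [relIndex_map_map_of_injective _ _ e.injective]; exact h4

theorem step_map (e : G ≃* G) {P H : Subgroup G} {z : G} (h : Step p P H z) :
    Step p (P.map e.toMonoidHom) (H.map e.toMonoidHom) (e z) := by
  obtain ⟨h1, X, ⟨hX, hmin⟩, hz⟩ := h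
  have hback : ∀ K : Subgroup G, (K.map e.toMonoidHom).map e.symm.toMonoidHom = K := by
    intro K
    rw [map_map]
    have : e.symm.toMonoidHom.comp e.toMonoidHom = MonoidHom.id G := by ext x; simp
    rw [this, map_id]
  refine ⟨ess_map e h1, X.map e.toMonoidHom, ⟨cand_map e hX, fun Y hY => ?_⟩, ?_⟩
  · have h2 := cand_map e.symm hY
    rw [hback] at h2
    intro x hx
    obtain ⟨a, ha, rfl⟩ := hx
    obtain ⟨b, hb, hba⟩ := hmin _ h2 ha
    have : b = e a := by rw [← hba]; simp
    show e a ∈ Y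
    rwa [← this]
  · obtain ⟨a, ha, rfl⟩ := hz
    let f : X →* X.map e.toMonoidHom := (e.subgroupMap X).toMonoidHom
    exact ⟨f a, Core.map_pResidual_le f ⟨a, ha, rfl⟩, rfl⟩

omit [Finite G] hp in
theorem chain_conj {St : Subgroup G → G → Prop} (x : G)
    (hSt : ∀ H z, St H z → St (H.map (MulAut.conj x).toMonoidHom) (x * z * x⁻¹)) :
    ∀ {A : Set G} {l : List (Subgroup G × G)}, Chain St A l →
      Chain St ((fun a => x * a * x⁻¹) '' A)
        (l.map fun q => (q.1.map (MulAut.conj x).toMonoidHom, x * q.2 * x⁻¹))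
  | _, [], _ => trivial
  | A, (H, z) :: l, ⟨h1, h2, h3⟩ => by
    refine ⟨hSt H z h1, ?_, ?_⟩
    · rintro _ ⟨a, ha, rfl⟩
      exact ⟨a, h2 ha, rfl⟩
    · have h4 := chain_conj x hSt h3
      rw [Set.image_image] at h4 ⊢
      convert h4 using 2
      group

/-- The elements normalizing `P` can be moved to the end. -/
theorem push {P : Subgroup G} : ∀ {A : Set G} {l : List (Subgroup G × G)}, Chain (GStep p P) A l →
    ∃ l', Chain (Step p P) A l' ∧ ∃ y ∈ normalizer (P : Set G),
      (l.map Prod.snd).prod = (l'.map Prod.snd).prod * y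
  | A, [], _ => ⟨[], trivial, 1, one_mem _, by simp⟩
  | A, (D, x) :: l, ⟨h1, h2, h3⟩ => by
    obtain ⟨l', hl', y, hy, e⟩ := push h3
    rcases h1 with h1 | ⟨-, hx⟩
    · exact ⟨(D, x) :: l', ⟨h1, h2, hl'⟩, y, hy, by simp [e, mul_assoc]⟩
    · refine ⟨l'.map fun q => (q.1.map (MulAut.conj x).toMonoidHom, x * q.2 * x⁻¹), ?_, x * y,
        mul_mem hx hy, ?_⟩
      · have h4 := chain_conj x (fun H z hz => by
          have h5 := step_map (MulAut.conj x) hz
          rw [Transfer.mem_normalizer_iff_map_conj.mp hx] at h5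
          exact h5) hl'
        rw [Set.image_image] at h4
        refine chain_mono ?_ h4
        intro a ha
        exact ⟨a, ha, by group⟩
      · have hprod : ∀ L : List (Subgroup G × G),
            ((L.map fun q => (q.1.map (MulAut.conj x).toMonoidHom, x * q.2 * x⁻¹)).map Prod.snd).prod =
              x * (L.map Prod.snd).prod * x⁻¹ := by
          intro L
          induction L with
          | nil => simp
          | cons q L ihL => simp only [List.map_cons, List.prod_cons, ihL]; group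
        simp only [List.map_cons, List.prod_cons, hprod, e]
        group

end Cfsg.Agent.FGS2.StrongAlperin
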